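import Mathlib
import Cfsg.Agent.H04.SimpAmb

/-! Many groups critical with respect to one spectrum. -/

set_option autoImplicit false
open Subgroup H26 H09

namespace H04.CritSp

/-- the `p`-elements are closed under multiplication -/
def Cl (p : ℕ) (G : Type*) [Group G] : Prop := ∀ x y : G, PEl p x → PEl p y → PEl p (x * y)

theorem exists_aff {p q : ℕ} (hp : p.Prime) (hq : q.Prime) (hpq : p ≠ q) :
    ∃ (A : Type) (_ : Group A) (_ : Finite A), (∀ x : A, orderOf x = 1 ∨ orderOf x = p ∨ orderOf x = q) ∧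
      (∃ x : A, orderOf x = p) ∧ (∃ x : A, orderOf x = q) ∧ Cl p A := by
  haveI := Fact.mk hp
  haveI := Fact.mk hq
  let F := GaloisField p (q - 1)
  haveI : Fintype F := Fintype.ofFinite F
  have hc : Nat.card F = p ^ (q - 1) := GaloisField.card p (q - 1) (by have := hq.two_le; omega)
  have hd : q ∣ Nat.card Fˣ := by
    rw [Nat.card_units, hc]
    have := Nat.ModEq.pow_totient ((Nat.coprime_primes hp hq).2 hpq)
    rw [Nat.totient_prime hq] at this
    exact (Nat.modEq_iff_dvd' (Nat.one_le_pow _ _ hp.pos)).1 this.symm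
  obtain ⟨ζ, hζ⟩ := exists_prime_orderOf_dvd_card' q hd
  let A : Subgroup (Equiv.Perm F) :=
    { carrier := {g | ∃ a b : F, a ^ q = 1 ∧ ∀ x, g x = a * x + b}
      one_mem' := ⟨1, 0, one_pow _, fun x => by simp⟩
      mul_mem' := by
        rintro g h ⟨a, b, h1, h2⟩ ⟨c, d, h3, h4⟩
        exact ⟨a * c, a * d + b, by rw [mul_pow, h1, h3, one_mul], fun x => by
          rw [Equiv.Perm.mul_apply, h4, h2]; ring⟩
      inv_mem' := by
        rintro g ⟨a, b, h1, h2⟩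
        have ha : a ≠ 0 := by rintro rfl; rw [zero_pow hq.ne_zero] at h1; exact zero_ne_one h1
        exact ⟨a⁻¹, -(a⁻¹ * b), by rw [inv_pow, h1, inv_one], fun x => by
          rw [Equiv.Perm.inv_eq_iff_eq, h2, mul_add, mul_neg, mul_inv_cancel_left₀ ha, mul_inv_cancel_left₀ ha]; ring⟩ }
  have pw : ∀ (g : Equiv.Perm F) (a b : F), (∀ x, g x = a * x + b) → ∀ n : ℕ, ∀ x,
      (g ^ n) x = a ^ n * x + (∑ i ∈ Finset.range n, a ^ i) * b := by
    intro g a b h n
    induction n with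
    | zero => simp
    | succ n ih => intro x; rw [pow_succ, Equiv.Perm.mul_apply, ih, h, Finset.sum_range_succ]; ring
  have h1 : ∀ g : A, ∀ b, (∀ x, g.1 x = 1 * x + b) → g ^ p = 1 := fun g b h => Subtype.ext (Equiv.ext fun x => by
    show (g.1 ^ p) x = x
    rw [pw _ _ _ h]; simp)
  have h2 : ∀ g : A, ∀ a b, a ≠ 1 → a ^ q = 1 → (∀ x, g.1 x = a * x + b) → g ^ q = 1 :=
    fun g a b ha hq h => Subtype.ext (Equiv.ext fun x => by
      show (g.1 ^ q) x = x
      have := geom_sum_mul a q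
      rw [hq, sub_self, mul_eq_zero] at this
      rw [pw _ _ _ h, hq, this.resolve_right (sub_ne_zero.2 ha)]; simp)
  have h3 : ∀ g : A, PEl p g → ∃ b, ∀ x, g.1 x = 1 * x + b := by
    rintro g ⟨k, hk⟩
    obtain ⟨a, b, ha, h⟩ := g.2
    by_cases e : a = 1
    · exact ⟨b, e ▸ h⟩
    · have : g = 1 := by
        have := pow_gcd_eq_one.2 ⟨hk, h2 g a b e ha h⟩
        rwa [Nat.Coprime.pow_left k ((Nat.coprime_primes hp hq).2 hpq), pow_one] at this
      exact ⟨0, fun x => by simp [this]⟩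
  refine ⟨A, inferInstance, inferInstance, fun g => ?_, ?_, ?_, fun g h hg hh => ?_⟩
  · obtain ⟨a, b, ha, h⟩ := g.2
    by_cases e : a = 1
    · subst e
      exact ((Nat.dvd_prime hp).1 (orderOf_dvd_of_pow_eq_one (h1 g b h))).imp_right Or.inl
    · exact ((Nat.dvd_prime hq).1 (orderOf_dvd_of_pow_eq_one (h2 g a b e ha h))).imp_right Or.inr
  · refine ⟨⟨Equiv.addRight 1, 1, 1, one_pow _, fun x => by simp⟩, orderOf_eq_prime (h1 _ 1 fun x => by simp) fun h => ?_⟩
    simpa using DFunLike.congr_fun (congrArg Subtype.val h) 0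
  · have hz : (ζ : F) ^ q = 1 := by
      have := pow_orderOf_eq_one ζ
      rw [hζ] at this
      rw [← Units.val_pow_eq_pow_val, this, Units.val_one]
    have hz1 : (ζ : F) ≠ 1 := fun h => by
      rw [Units.val_eq_one.1 h, orderOf_one] at hζ; exact hq.one_lt.ne hζ
    refine ⟨⟨Equiv.mulLeft₀ (ζ : F) ζ.ne_zero, ζ, 0, hz, fun x => by simp⟩,
      orderOf_eq_prime (h2 _ ζ 0 hz1 hz fun x => by simp) fun h => hz1 ?_⟩
    simpa using DFunLike.congr_fun (congrArg Subtype.val h) 1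
  · obtain ⟨b, hb⟩ := h3 g hg
    obtain ⟨c, hc⟩ := h3 h hh
    exact ⟨1, by
      rw [pow_one]
      exact h1 _ (c + b) fun x => by rw [coe_mul, Equiv.Perm.mul_apply, hc, hb]; ring⟩

theorem Cl.section {p : ℕ} (hp : p.Prime) {G : Type*} [Group G] [Finite G] (h : Cl p G) (H : Subgroup G)
    (N : Subgroup H) [N.Normal] : Cl p (H ⧸ N) := by
  haveI := Fact.mk hp
  intro x y hx hy
  obtain ⟨a, ⟨k, ha⟩, rfl⟩ := exists_pEl_lift _ (QuotientGroup.mk'_surjective N) hx
  obtain ⟨b, ⟨l, hb⟩, rfl⟩ := exists_pEl_lift _ (QuotientGroup.mk'_surjective N) hy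
  obtain ⟨m, hm⟩ := h a b ⟨k, congrArg Subtype.val ha⟩ ⟨l, congrArg Subtype.val hb⟩
  exact ⟨m, by rw [← map_mul, ← map_pow, show (a * b) ^ p ^ m = 1 from Subtype.ext hm, map_one]⟩

theorem Cl.equiv {p : ℕ} {G H : Type*} [Group G] [Group H] (h : Cl p G) (e : G ≃* H) : Cl p H := by
  rintro x y ⟨k, hx⟩ ⟨l, hy⟩
  obtain ⟨m, hm⟩ := h (e.symm x) (e.symm y) ⟨k, by rw [← map_pow, hx, map_one]⟩ ⟨l, by rw [← map_pow, hy, map_one]⟩
  exact ⟨m, e.symm.injective (by rw [map_pow, map_mul, hm, map_one])⟩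

theorem Cl.exists_mul {p q : ℕ} (hp : p.Prime) (hq : q.Prime) (hpq : p ≠ q) {G : Type*} [Group G] (h : Cl p G)
    (h' : Cl q G) {x y : G} (hx : orderOf x = p) (hy : orderOf y = q) : orderOf (x * y) = p * q := by
  have cj : ∀ {r : ℕ} {a : G} (b : G), orderOf a = r → PEl r a ∧ PEl r (b * a⁻¹ * b⁻¹) := fun {r a} b h =>
    ⟨⟨1, by rw [pow_one, ← h, pow_orderOf_eq_one]⟩,
      ⟨1, by rw [pow_one, conj_pow, inv_pow, ← h, pow_orderOf_eq_one]; simp⟩⟩
  obtain ⟨k, hk⟩ := h _ _ (cj y hx).1 (cj y hx).2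
  obtain ⟨l, hl⟩ := h' _ _ (cj x hy).1 (cj x hy).2
  have e : y * (x * y⁻¹ * x⁻¹) = (x * (y * x⁻¹ * y⁻¹))⁻¹ := by group
  rw [e, inv_pow, inv_eq_one] at hl
  have := pow_gcd_eq_one.2 ⟨hk, hl⟩
  rw [Nat.Coprime.pow k l ((Nat.coprime_primes hp hq).2 hpq), pow_one] at this
  have hc : Commute x y := by
    rw [← commutatorElement_eq_one_iff_commute, commutatorElement_def, ← this]; group
  rw [hc.orderOf_mul_eq_mul_orderOf_of_coprime (by rw [hx, hy]; exact (Nat.coprime_primes hp hq).2 hpq), hx, hy]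

theorem exists_crit {ι : Type} (Ω : Set ℕ) (r : ι → ℕ) (hr : ∀ j, (r j).Prime) {X : Type} [Group X] [Finite X]
    (h1 : Set.range (orderOf : X → ℕ) = Ω) (h2 : ∀ j, Cl (r j) X) :
    ∃ (G : Type) (_ : Group G) (_ : Finite G), Set.range (orderOf : G → ℕ) = Ω ∧ (∀ j, Cl (r j) G) ∧
      ∀ (H : Subgroup G) (N : Subgroup H) [N.Normal], (H ≠ ⊤ ∨ N ≠ ⊥) → Set.range (orderOf : (H ⧸ N) → ℕ) ≠ Ω := by
  induction hn : Nat.card X using Nat.strong_induction_on generalizing X with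
  | _ n ih =>
  by_cases h : ∀ (H : Subgroup X) (N : Subgroup H) [N.Normal], (H ≠ ⊤ ∨ N ≠ ⊥) → Set.range (orderOf : (H ⧸ N) → ℕ) ≠ Ω
  · exact ⟨X, inferInstance, inferInstance, h1, h2, h⟩
  · push Not at h
    obtain ⟨H, N, _, h3, h4⟩ := h
    refine ih _ ?_ h4 (fun j => (h2 j).section (hr j) H N) rfl
    have e1 := H.card_mul_index
    have e2 := N.card_mul_index
    have p1 : 0 < Nat.card H := Nat.card_pos
    have p2 : 0 < Nat.card N := Nat.card_pos
    have p3 : 0 < H.index := Nat.pos_of_ne_zero H.index_ne_zero_of_finite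
    have p4 : 0 < N.index := Nat.pos_of_ne_zero N.index_ne_zero_of_finite
    change N.index < n
    rw [← hn, ← e1, ← e2]
    rcases h3 with h3 | h3
    · have : 1 < H.index := one_lt_index_of_ne_top h3
      nlinarith [Nat.mul_le_mul_right N.index p2]
    · have : 1 < Nat.card N := (one_lt_card_iff_ne_bot N).2 h3
      nlinarith [Nat.mul_le_mul_left (Nat.card N * N.index) p3]

theorem main (s : ℕ) (p : Fin s → Fin 2 → ℕ)
    (hp : ∀ j i, (p j i).Prime) (hinj : ∀ j i j' i', p j i = p j' i' → j = j' ∧ i = i') :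
    ∃ (G : Fin (2 ^ s) → Type) (_ : ∀ a, Group (G a)) (_ : ∀ a, Fintype (G a)),
      (∀ a b, a ≠ b → ¬ Nonempty (G a ≃* G b)) ∧
      ∀ a, Set.range (orderOf : (G a) → ℕ) = {m : ℕ | ∃ c : Fin s → ℕ, (∀ j, c j = 1 ∨ c j = p j 0 ∨ c j = p j 1) ∧ m = ∏ j, c j} ∧
      ∀ (H : Subgroup (G a)) (N : Subgroup ↥H) [N.Normal], (H ≠ ⊤ ∨ N ≠ ⊥) → Set.range (orderOf : (↥H ⧸ N) → ℕ) ≠ {m : ℕ | ∃ c : Fin s → ℕ, (∀ j, c j = 1 ∨ c j = p j 0 ∨ c j = p j 1) ∧ m = ∏ j, c j} := by
  classical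
  set Ω := {m : ℕ | ∃ c : Fin s → ℕ, (∀ j, c j = 1 ∨ c j = p j 0 ∨ c j = p j 1) ∧ m = ∏ j, c j} with hΩ
  have rv : ∀ i : Fin 2, i ≠ i.rev := by decide
  have dv : ∀ {j i k} {c : ℕ}, (c = 1 ∨ c = p k 0 ∨ c = p k 1) → p j i ∣ c → k = j ∧ c = p j i := by
    rintro j i k c (rfl | rfl | rfl) h
    · exact absurd (Nat.dvd_one.1 h) (hp j i).one_lt.ne'
    all_goals
      have := (Nat.prime_dvd_prime_iff_eq (hp _ _) (hp _ _)).1 h
      exact ⟨(hinj _ _ _ _ this).1.symm, this.symm⟩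
  have key : ∀ a : Fin s → Fin 2, ∃ (G : Type) (_ : Group G) (_ : Finite G), Set.range (orderOf : G → ℕ) = Ω ∧
      (∀ j, Cl (p j (a j)) G) ∧
      ∀ (H : Subgroup G) (N : Subgroup H) [N.Normal], (H ≠ ⊤ ∨ N ≠ ⊥) → Set.range (orderOf : (H ⧸ N) → ℕ) ≠ Ω := by
    intro a
    choose A iA fA h1 h2 h3 h4 using fun j => exists_aff (hp j (a j)) (hp j (a j).rev)
      (fun h => rv _ (hinj _ _ _ _ h).2)
    have h1' : ∀ j (x : A j), orderOf x = 1 ∨ orderOf x = p j 0 ∨ orderOf x = p j 1 := fun j x => by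
      have := h1 j x
      generalize a j = i at this
      fin_cases i
      · exact this
      · exact this.imp_right Or.symm
    have h2' : ∀ j c, (c = 1 ∨ c = p j 0 ∨ c = p j 1) → ∃ x : A j, orderOf x = c := fun j c hc => by
      have a2 := h2 j
      have a3 := h3 j
      generalize a j = i at a2 a3
      rcases hc with rfl | rfl | rfl
      · exact ⟨1, orderOf_one⟩
      · fin_cases i
        · exact a2
        · exact a3
      · fin_cases i
        · exact a3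
        · exact a2
    have ho : ∀ x : ∀ j, A j, orderOf x = ∏ j, orderOf (x j) := fun x => by
      rw [Pi.orderOf]
      refine Finset.lcm_eq_prod fun j _ k _ hjk => ?_
      refine Nat.coprime_of_dvd fun r hr a1 a2 => hjk ?_
      simp only at a1 a2
      rcases h1' j (x j) with e | e | e <;> rw [e] at a1
      · exact absurd (Nat.dvd_one.1 a1) hr.one_lt.ne'
      all_goals
        rw [(Nat.prime_dvd_prime_iff_eq hr (hp _ _)).1 a1] at a2
        exact (dv (h1' k (x k)) a2).1.symm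
    refine exists_crit Ω (fun j => p j (a j)) (fun j => hp _ _) (X := ∀ j, A j) ?_ fun j => ?_
    · ext m
      constructor
      · rintro ⟨x, rfl⟩
        exact ⟨fun j => orderOf (x j), fun j => h1' j _, ho x⟩
      · rintro ⟨c, hc, rfl⟩
        choose x hx using fun j => h2' j (c j) (hc j)
        exact ⟨x, by rw [ho]; exact Finset.prod_congr rfl fun j _ => hx j⟩
    · have triv : ∀ x : ∀ j, A j, PEl (p j (a j)) x → ∀ k, k ≠ j → x k = 1 := by
        rintro x ⟨m, hm⟩ k hk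
        by_contra hne
        haveI := fA k
        have h5 : orderOf (x k) ∣ p j (a j) ^ m := orderOf_dvd_of_pow_eq_one (congrFun hm k)
        obtain ⟨t, -, ht⟩ := (Nat.dvd_prime_pow (hp _ _)).1 h5
        have : t ≠ 0 := by rintro rfl; exact hne (orderOf_eq_one_iff.1 ht)
        exact hk (dv (h1' k (x k)) (ht ▸ dvd_pow_self _ this)).1
      intro x y hx hy
      obtain ⟨m, hm⟩ := h4 j (x j) (y j) (hx.imp fun _ h => congrFun h j) (hy.imp fun _ h => congrFun h j)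
      refine ⟨m, funext fun k => ?_⟩
      by_cases hk : k = j
      · subst hk; exact hm
      · simp [triv x hx k hk, triv y hy k hk]
  choose G iG fG h1 h2 h3 using key
  let e : Fin (2 ^ s) ≃ (Fin s → Fin 2) := finFunctionFinEquiv.symm
  refine ⟨fun a => G (e a), fun a => iG _, fun a => @Fintype.ofFinite _ (fG _), fun a b hab ⟨f⟩ => ?_,
    fun a => ⟨h1 _, h3 _⟩⟩
  obtain ⟨j, hj⟩ := Function.ne_iff.1 (e.injective.ne hab)
  have mem : ∀ i, p j i ∈ Ω := fun i => ⟨Pi.mulSingle j (p j i), fun k => by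
    by_cases hk : k = j
    · subst hk; fin_cases i <;> simp
    · simp [hk], by simp⟩
  obtain ⟨x, hx⟩ := (h1 (e b)).symm ▸ mem (e a j)
  obtain ⟨y, hy⟩ := (h1 (e b)).symm ▸ mem (e b j)
  have hne : p j (e a j) ≠ p j (e b j) := fun h => hj (hinj _ _ _ _ h).2
  have := Cl.exists_mul (hp _ _) (hp _ _) hne ((h2 (e a) j).equiv f) (h2 (e b) j) hx hy
  obtain ⟨c, hc, e'⟩ : p j (e a j) * p j (e b j) ∈ Ω := h1 (e b) ▸ ⟨_, this⟩
  obtain ⟨k, -, hk⟩ := ((hp j (e a j)).prime.dvd_finsetProd_iff c).1 (e' ▸ dvd_mul_right _ _)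
  obtain ⟨l, -, hl⟩ := ((hp j (e b j)).prime.dvd_finsetProd_iff c).1 (e' ▸ dvd_mul_left _ _)
  obtain ⟨rfl, a1⟩ := dv (hc k) hk
  obtain ⟨rfl, a2⟩ := dv (hc l) hl
  exact hne (a1.symm.trans a2)

end H04.CritSp
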