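import Cfsg.Agent.H04.Symplectic

/-! A concrete model of `D₈ ≀ C₂` with the finite checks used for S4402. -/

set_option autoImplicit false
open Subgroup DihedralGroup
open scoped commutatorElement

namespace H04.DW

structure M where
  x : DihedralGroup 4
  y : DihedralGroup 4
  s : Bool
  deriving DecidableEq, Fintype

instance : Mul M := ⟨fun u v => match u.s with
  | true => ⟨u.x * v.y, u.y * v.x, !v.s⟩
  | false => ⟨u.x * v.x, u.y * v.y, v.s⟩⟩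
instance : One M := ⟨⟨1, 1, false⟩⟩
instance : Inv M := ⟨fun u => match u.s with
  | true => ⟨u.y⁻¹, u.x⁻¹, true⟩
  | false => ⟨u.x⁻¹, u.y⁻¹, false⟩⟩

instance : Group M := Group.ofLeftAxioms
  (by rintro ⟨a, b, _ | _⟩ ⟨c, d, _ | _⟩ ⟨e, f, _ | _⟩ <;> exact congr(M.mk $(mul_assoc _ _ _) $(mul_assoc _ _ _) _))
  (by rintro ⟨a, b, s⟩; exact congr(M.mk $(one_mul _) $(one_mul _) _))
  (by rintro ⟨a, b, _ | _⟩ <;> exact congr(M.mk $(inv_mul_cancel _) $(inv_mul_cancel _) _))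

def z1 : M := ⟨r 2, 1, false⟩
def z2 : M := ⟨1, r 2, false⟩
def z : M := ⟨r 2, r 2, false⟩
def t : M := ⟨1, 1, true⟩
def c1 (i : Bool) : M := ⟨sr (cond i 1 0), 1, false⟩
def c2 (i : Bool) : M := ⟨1, sr (cond i 1 0), false⟩
def V (i : Bool) : Subgroup M := centralizer {c1 i} ⊓ centralizer {c2 i}
def B : Subgroup M := centralizer {z1}

instance (a : M) : DecidablePred (· ∈ centralizer ({a} : Set M)) := fun x => decidable_of_iff _ mem_centralizer_singleton_iff.symm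
instance (i : Bool) : DecidablePred (· ∈ V i) := fun x => decidable_of_iff _ (mem_inf (p := centralizer {c1 i})).symm
instance : DecidablePred (· ∈ B) := fun x => inferInstanceAs (Decidable (x ∈ centralizer {z1}))

theorem f0 : Nat.card M = 128 := by rw [Nat.card_eq_fintype_card]; rfl
theorem f1 : ∀ x : M, x * t = t * x → x * c1 true = c1 true * x → x * c1 false = c1 false * x → x = 1 ∨ x = z := by decide +kernel
theorem f2 : ∀ x : M, x * z = z * x := by decide +kernel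
theorem f3 : ∀ x : M, (⁅x, t⁆ = 1 ∨ ⁅x, t⁆ = z) → (⁅x, c1 true⁆ = 1 ∨ ⁅x, c1 true⁆ = z) → (⁅x, c1 false⁆ = 1 ∨ ⁅x, c1 false⁆ = z) →
    x = 1 ∨ x = z ∨ x = z1 ∨ x = z2 := by decide +kernel
theorem f4 : ∀ x : M, ⁅z1, x⁆ = 1 ∨ ⁅z1, x⁆ = z := by decide +kernel
theorem f5 : ∀ i, ∀ x ∈ B, ((∃ h ∈ V i, ⁅x, h⁆ = z1) ↔ ⁅x, c1 i⁆ ≠ 1) ∧ ((∃ h ∈ V i, ⁅x, h⁆ = z2) ↔ ⁅x, c2 i⁆ ≠ 1) := by decide +kernel
theorem f6 : ∀ i, ∀ x ∈ B, ∀ y ∈ B, (⁅x, c1 i⁆ ≠ 1 ↔ ⁅y, c1 i⁆ ≠ 1) → (⁅x, c2 i⁆ ≠ 1 ↔ ⁅y, c2 i⁆ ≠ 1) → x⁻¹ * y ∈ V i := by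
  decide +kernel
theorem f7 : ∀ x ∈ V false, x ∈ V true → x * x = 1 ∧ (x = 1 ∨ x = z ∨ x = z1 ∨ x = z2) := by decide +kernel
theorem f8 : ∀ i, ∀ x ∈ V i, ∀ g, g * x * g⁻¹ ∈ V i := by decide +kernel
theorem f9 : ∀ x : M, x * x = 1 → (∀ g, x * (g * x * g⁻¹) = g * x * g⁻¹ * x) → x ∈ V false ∨ x ∈ V true := by decide +kernel
theorem f10 : ∀ x ∈ V false, x ∉ V true → ∀ y ∈ V true, y ∉ V false → x * y = y * x → x * (t * y * t⁻¹) ≠ t * y * t⁻¹ * x := by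
  decide +kernel
theorem f11 : ∀ i, Nat.card (V i) = 16 := by simp only [Nat.card_eq_fintype_card]; decide +kernel
theorem f12 : Nat.card B = 64 := by simp only [Nat.card_eq_fintype_card]; decide +kernel
theorem f13 : ∀ x : M, x * x = 1 → x ∉ B → ∃ g, g * t * g⁻¹ = x := by decide +kernel
theorem f14 : ∀ x : M, (∀ g, x * (g * t * g⁻¹) = g * t * g⁻¹ * x) → x = 1 ∨ x = z := by decide +kernel
theorem f15 : Nat.card (centralizer ({t} : Set M)) = 16 := by simp only [Nat.card_eq_fintype_card]; decide +kernel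
theorem f16 : ∀ x ∈ B, ∀ i, x * x ∈ V i := by decide +kernel
theorem f17 : ∀ i, c1 i ∈ B ∧ c2 i ∈ B ∧ z ∈ V i ∧ z1 ∈ V i ∧ z2 ∈ V i ∧ ∀ x ∈ V i, x ∈ B := by decide +kernel
theorem f18 : z ≠ 1 ∧ z1 * z = z2 ∧ t * z2 * t⁻¹ = z1 ∧ t * t = 1 ∧ t ∉ B ∧ t * z2 ≠ z2 * t ∧ c1 false ∈ V false ∧ c1 false ∉ V true ∧
    z1 ≠ 1 ∧ z1 ≠ z := by decide +kernel

def H : Subgroup M where
  carrier := {u | u.s = false ∧ (u.x = 1 ∨ u.x = sr 0)}
  mul_mem' := by decide +kernel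
  one_mem' := by decide +kernel
  inv_mem' := by decide +kernel

theorem sylow {G : Type*} [Group G] [Finite G] (H : Subgroup G) (h : H.index = 8) (K : Subgroup G) [K.Normal] (hK : H.normalCore = K)
    (hc : K.index = 128) : ∃ T : Sylow 2 (Equiv.Perm (Fin 8)), Nonempty (G ⧸ K ≃* T) := by
  let f := (Finite.equivFinOfCardEq h).permCongrHom.toMonoidHom.comp (MulAction.toPermHom G (G ⧸ H))
  have e : f.ker = K := by rw [← hK, normalCore_eq_ker, ← MonoidHom.comap_ker, (MonoidHom.ker_eq_bot_iff _).2 (MulEquiv.injective _)]; rfl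
  have c : Nat.card f.range = 2 ^ 7 := by rw [← index_ker, e, hc]; rfl
  have d := f.range.card_mul_index
  rw [c, Nat.card_perm, Nat.card_fin, show Nat.factorial 8 = 40320 from rfl] at d
  exact ⟨(IsPGroup.of_card c).toSylow (by omega), ⟨(QuotientGroup.quotientMulEquivOfEq e.symm).trans (QuotientGroup.quotientKerEquivRange f)⟩⟩

theorem model (T : Sylow 2 (Equiv.Perm (Fin 8))) : Nonempty (M ≃* T) := by
  have : DecidablePred (· ∈ H) := fun u => inferInstanceAs (Decidable (u.s = false ∧ (u.x = 1 ∨ u.x = sr 0)))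
  obtain ⟨T', ⟨e⟩⟩ := sylow H (by
    have := H.card_mul_index
    rw [f0, show Nat.card H = 16 from (Nat.card_eq_fintype_card (α := {u : M // u.s = false ∧ (u.x = 1 ∨ u.x = sr 0)})).trans
      (by decide +kernel)] at this
    omega) ⊥ (eq_bot_iff.2 fun x hx => (by decide +kernel : ∀ x : M, (∀ g : M, (g * x * g⁻¹).s = false ∧
      ((g * x * g⁻¹).x = 1 ∨ (g * x * g⁻¹).x = sr 0)) → x = 1) x hx) (by rw [index_bot, f0])
  exact ⟨(QuotientGroup.quotientBot.symm.trans e).trans (T'.equiv T)⟩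

end H04.DW
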