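import Cfsg.Agent.H04.DW1
import Cfsg.Agent.H02.HigCo

/-! `D₈ ≀ C₂` properly contained in a 2-group of sectional rank at most 4. -/

set_option autoImplicit false
open Cfsg BG Subgroup Function
open scoped commutatorElement

local notation "#" => Nat.card

namespace H04.DW

theorem f19 : (∀ i, ∀ x ∈ V i, x ^ 2 = 1 ∧ ∀ y ∈ V i, x * y = y * x) ∧ # (V false ⊓ V true : Subgroup M) = 4 := by
  have : DecidablePred (· ∈ V false ⊓ V true) := fun x => decidable_of_iff _ (mem_inf (p := V false)).symm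
  refine ⟨by simp only [pow_two]; decide +kernel, ?_⟩
  rw [show # (V false ⊓ V true : Subgroup M) = # {x : M // x ∈ V false ∧ x ∈ V true} from rfl, Nat.card_eq_fintype_card]
  decide +kernel

theorem sz (σ : MulAut M) : σ z = z ∧ (σ z1 = z1 ∨ σ z1 = z2) := by
  have c : ∀ g, σ z * g = g * σ z := fun g => by
    obtain ⟨g, rfl⟩ := σ.surjective g
    rw [← map_mul, ← f2, map_mul]
  have a := (f1 _ (c _) (c _) (c _)).resolve_left (by simpa using f18.1)
  have d : ∀ g, ⁅σ z1, g⁆ = 1 ∨ ⁅σ z1, g⁆ = z := fun g => by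
    obtain ⟨g, rfl⟩ := σ.surjective g
    rw [← map_commutatorElement]
    exact (f4 g).imp (fun h => by rw [h, map_one]) fun h => by rw [h, a]
  refine ⟨a, ((f3 _ (d _) (d _) (d _)).resolve_left (by simpa using f18.2.2.2.2.2.2.2.2.1)).resolve_left fun h => ?_⟩
  exact f18.2.2.2.2.2.2.2.2.2 (σ.injective (h.trans a.symm))

theorem cls {U : Subgroup M} (h2 : U.Normal) (h3 : IsElementaryAbelian 2 U) (h4 : # U = 16) : ∃ i, U = V i := by
  have a : ∀ x ∈ U, x ∈ V false ∨ x ∈ V true := fun x hx =>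
    f9 x (pow_two x ▸ h3.2 x hx) fun g => mul_comm_of_abelian h3.1 hx (h2.conj_mem x hx g)
  suffices h : ∃ i, U ≤ V i from h.imp fun i h => eq_of_le_of_card_le h (by rw [h4, f11])
  by_cases c : U ≤ V true
  · exact ⟨_, c⟩
  obtain ⟨x, x1, x2⟩ := SetLike.not_le_iff_exists.1 c
  refine ⟨false, fun y hy => by_contra fun d => ?_⟩
  exact f10 x ((a x x1).resolve_right x2) x2 y ((a y hy).resolve_left d) d (mul_comm_of_abelian h3.1 x1 hy)
    (mul_comm_of_abelian h3.1 x1 (h2.conj_mem y hy t))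

theorem perm (σ : MulAut M) : (∀ i m, σ m ∈ V i ↔ m ∈ V i) ∨ ∀ i m, σ m ∈ V i ↔ m ∈ V !i := by
  have a : ∀ i, ∃ j, ∀ m, σ m ∈ V i ↔ m ∈ V j := fun i => (cls (U := (V i).comap σ.toMonoidHom) (Normal.comap ⟨f8 i⟩ _)
    ⟨isMulCommutative_iff'.2 fun x hx y hy => σ.injective (by rw [map_mul, map_mul]; exact (f19.1 i _ hx).2 _ hy),
      fun x hx => σ.injective (by rw [map_pow, map_one]; exact (f19.1 i _ hx).1)⟩
    ((Nat.card_congr (σ.toEquiv.subtypeEquiv fun _ => Iff.rfl)).trans (f11 i))).imp fun j h m => SetLike.ext_iff.1 h m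
  obtain ⟨j, hj⟩ := a false
  obtain ⟨k, hk⟩ := a true
  have : j ≠ k := by
    rintro rfl
    have := (hj (σ.symm (c1 false))).trans (hk _).symm
    rw [MulEquiv.apply_symm_apply] at this
    exact f18.2.2.2.2.2.2.2.1 (this.1 f18.2.2.2.2.2.2.1)
  cases j <;> cases k <;> simp_all

variable {S : Type*} [Group S] {φ : M →* S} (hφ : Injective φ)
include hφ

theorem aut {y : S} (hy : y ∈ N_(φ.range)) : ∃ σ : MulAut M, ∀ m, φ (σ m) = y * φ m * y⁻¹ :=
  ⟨(MonoidHom.ofInjective hφ).trans ((φ.range.normalizerMonoidHom ⟨y, hy⟩).trans (MonoidHom.ofInjective hφ).symm),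
    fun _ => MonoidHom.apply_ofInjective_symm hφ _⟩

theorem nrm {y : S} {σ : MulAut M} (hσ : ∀ m, φ (σ m) = y * φ m * y⁻¹) (i : Bool) :
    y ∈ N_((V i).map φ) ↔ ∀ m, σ m ∈ V i ↔ m ∈ V i := by
  refine ⟨fun h m => by rw [← mem_map_iff_mem hφ, hσ, ← mem_normalizer_iff.1 h, mem_map_iff_mem hφ], fun h => ?_⟩
  have : Finite ((V i).map φ : Set S) := ((Set.toFinite (V i : Set M)).image φ).to_subtype
  refine mem_normalizer_fintype ?_
  rintro _ ⟨m, hm, rfl⟩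
  exact ⟨σ m, (h m).2 hm, hσ m⟩

variable [Finite S] (hr : SectionalPRankLE 2 4 S)
include hr

theorem K0 {y : S} (h1 : y ∉ φ.range) (h2 : y * y ∈ φ.range) {σ : MulAut M} (hσ : ∀ m, φ (σ m) = y * φ m * y⁻¹) (hz : σ z1 = z1)
    (hV : ∀ i m, σ m ∈ V i ↔ m ∈ V i) : False := by
  have s2 : σ z2 = z2 := by rw [← f18.2.1, map_mul, hz, (sz σ).1]
  have sB : ∀ m ∈ B, σ m ∈ B := fun m hm => mem_centralizer_singleton_iff.2 (by
    rw [← hz, ← map_mul, ← map_mul, mem_centralizer_singleton_iff.1 hm])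
  have q : ∀ i w, σ w = w → ∀ x, (∃ h ∈ V i, ⁅x, h⁆ = w) ↔ ∃ h ∈ V i, ⁅σ x, h⁆ = w := fun i w hw x =>
    ⟨fun ⟨h, a, b⟩ => ⟨σ h, (hV i h).2 a, by rw [← map_commutatorElement, b, hw]⟩, fun ⟨h, a, b⟩ => by
      obtain ⟨h, rfl⟩ := σ.surjective h
      exact ⟨h, (hV i h).1 a, σ.injective (by rw [map_commutatorElement, b, hw])⟩⟩
  have d : ∀ x ∈ B, ∀ i, x⁻¹ * σ x ∈ V i := fun x hx i => f6 i x hx _ (sB x hx)
    (by rw [← (f5 i x hx).1, ← (f5 i _ (sB x hx)).1, q i _ hz]) (by rw [← (f5 i x hx).2, ← (f5 i _ (sB x hx)).2, q i _ s2])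
  have ss : ∀ x ∈ B, σ (σ x) = x := fun x hx => by
    obtain ⟨a, b⟩ := f7 _ (d x hx _) (d x hx _)
    have c : σ (x⁻¹ * σ x) = x⁻¹ * σ x := by rcases b with b | b | b | b <;> rw [b] <;> simp only [map_one, hz, s2, (sz σ).1]
    calc _ = σ x * σ (x⁻¹ * σ x) := by rw [map_mul, map_inv, mul_inv_cancel_left]
      _ = x * (x⁻¹ * σ x * (x⁻¹ * σ x)) := by rw [c]; group
      _ = x := by rw [a, mul_one]
  obtain ⟨u, hu⟩ := h2
  have u1 : ∀ x ∈ B, u * x = x * u := fun x hx => mul_inv_eq_iff_eq_mul.1 (hφ (by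
    have := hσ (σ x)
    rw [ss x hx, hσ] at this
    rw [map_mul, map_mul, map_inv, hu]; exact Eq.trans (by group) this.symm))
  have u2 : ∀ i, u ∈ V i := fun i => ⟨mem_centralizer_singleton_iff.2 (u1 _ (f17 i).1), mem_centralizer_singleton_iff.2 (u1 _ (f17 i).2.1)⟩
  have le : V false ⊓ V true ≤ B := fun x hx => (f17 _).2.2.2.2.2 x hx.1
  have i2 := relIndex_sup_zpowers (p := 2) (B.map φ) (x := y) (mem_normalizer_fintype (by
    rintro _ ⟨m, hm, rfl⟩; exact ⟨σ m, sB m hm, hσ m⟩)) (fun a => h1 (map_le_range _ _ a)) ⟨u, le ⟨u2 _, u2 _⟩, hu.trans (pow_two y).symm⟩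
  have sq : ∀ h ∈ B.map φ ⊔ zpowers y, h * h ∈ (V false ⊓ V true).map φ := fun h hh => by
    by_cases c : h ∈ B.map φ
    · obtain ⟨m, hm, rfl⟩ := c
      exact ⟨m * m, ⟨f16 m hm _, f16 m hm _⟩, map_mul _ _ _⟩
    · obtain ⟨m, hm, e⟩ : h * y⁻¹ ∈ B.map φ := (mul_mem_iff_of_index_two i2 (a := ⟨h, hh⟩)
        (b := ⟨y, mem_sup_right (mem_zpowers y)⟩⁻¹)).2 (iff_of_false c fun a => h1 (map_le_range _ _ (inv_mem_iff.1 a)))
      refine ⟨m * m * (m⁻¹ * σ m) * u, mul_mem (mul_mem ⟨f16 m hm _, f16 m hm _⟩ ⟨d m hm _, d m hm _⟩) ⟨u2 _, u2 _⟩, ?_⟩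
      simp only [map_mul, map_inv, hσ, hu, e]; group
  have := sectional_iff.1 hr _ _ ((map_mono le).trans le_sup_left) (commutator_le.2 fun _ a _ b => H02.Hig.comm_mem_of_sq sq a b)
    fun x hx => pow_two x ▸ sq x hx
  have j := H01.card_mul_relIndex le
  rw [← relIndex_mul_relIndex _ _ _ (map_mono le) le_sup_left, i2, relIndex_map_map_of_injective _ _ hφ] at this
  rw [f19.2, f12] at j
  omega

theorem NP (hS : IsPGroup 2 S) (i : Bool) : N_((V i).map φ) = φ.range := by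
  have le : φ.range ≤ N_((V i).map φ) := le_norm_iff.2 (by
    rintro _ ⟨g, rfl⟩ _ ⟨m, hm, rfl⟩; exact ⟨_, f8 i m hm g, by simp⟩)
  by_contra c
  have := (hS.to_subgroup N_((V i).map φ)).isNilpotent
  obtain ⟨x, x1, x2⟩ := SetLike.exists_of_lt (lt_inf_normalizer (lt_of_le_of_ne le (Ne.symm c)))
  obtain ⟨k, y1, y2⟩ := exists_pow_notMem_pow_mem hS _ x2
  have y3 := pow_mem x1 (2 ^ k)
  generalize x ^ 2 ^ k = y at *
  rw [pow_two] at y2
  obtain ⟨σ, hσ⟩ := aut hφ y3.2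
  rcases perm σ with h | h
  · rcases (sz σ).2 with e | e
    · exact K0 hφ hr y1 y2 hσ e h
    · refine K0 hφ hr (y := φ t * y) (σ := MulAut.conj t * σ) (by rwa [mul_mem_cancel_left (φ.mem_range.2 ⟨t, rfl⟩)]) ?_ (fun m => ?_) ?_ fun i m => ?_
      · rw [show φ t * y * (φ t * y) = φ (t * σ t) * (y * y) by rw [map_mul, hσ]; group]
        exact mul_mem ⟨_, rfl⟩ y2
      · simp only [MulAut.mul_apply, MulAut.conj_apply, map_mul, map_inv, hσ]; group
      · rw [MulAut.mul_apply, e]; exact f18.2.2.1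
      · rw [← h i m]; exact (Normal.mem_comm_iff ⟨f8 i⟩).trans (by simp)
  · have a := fun m => ((nrm hφ hσ i).1 y3.1 m).symm.trans (h i m)
    cases i
    exacts [f18.2.2.2.2.2.2.2.1 ((a _).1 f18.2.2.2.2.2.2.1), f18.2.2.2.2.2.2.2.1 ((a _).2 f18.2.2.2.2.2.2.1)]

theorem idx2 (hS : IsPGroup 2 S) (hP : φ.range ≠ ⊤) : φ.range.relIndex N_(φ.range) = 2 := by
  have := hS.isNilpotent
  obtain ⟨a, a1, a2⟩ := SetLike.exists_of_lt (lt_normalizer_of_ne_top hP)
  refine index_eq_two_iff_exists_notMem_and.2 ⟨⟨a, a1⟩, a2, fun b => or_iff_not_imp_right.2 fun b2 => ?_⟩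
  obtain ⟨σ, hσ⟩ := aut hφ a1
  obtain ⟨τ, hτ⟩ := aut hφ b.2
  have h1 := (perm σ).resolve_left fun h => a2 ((NP hφ hr hS false).le ((nrm hφ hσ _).2 (h _)))
  have h2 := (perm τ).resolve_left fun h => b2 ((NP hφ hr hS false).le ((nrm hφ hτ _).2 (h _)))
  refine mem_subgroupOf.2 ((NP hφ hr hS false).le ((nrm hφ (σ := τ * σ) (fun m => ?_) _).2 fun m => (h2 _ _).trans (h1 _ _)))
  simp only [MulAut.mul_apply, hτ, hσ, coe_mul]; group

theorem cen (hS : IsPGroup 2 S) : (∀ x, x ∈ center S ↔ x = 1 ∨ x = φ z) ∧ # (center S) = 2 := by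
  have a : ∀ x ∈ center S, x = 1 ∨ x = φ z := fun x hx => by
    obtain ⟨m, rfl⟩ := (NP hφ hr hS false).le (center_le_normalizer _ hx)
    have c : ∀ g, m * g = g * m := fun g => hφ (by rw [map_mul, map_mul, mem_center_iff.1 hx])
    exact (f1 m (c _) (c _) (c _)).imp (fun h => by rw [h, map_one]) (congrArg φ)
  have n : φ z ≠ 1 := (map_ne_one_iff _ hφ).2 f18.1
  have : Nontrivial S := ⟨_, _, n⟩
  obtain ⟨⟨x, x1⟩, x2⟩ := @exists_ne _ hS.center_nontrivial 1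
  obtain rfl := (a x x1).resolve_left fun h => x2 (Subtype.ext h)
  exact ⟨fun y => ⟨a y, by rintro (rfl | rfl); exacts [one_mem _, x1]⟩,
    (Nat.card_eq_two_iff' 1).2 ⟨_, x2, fun y hy => Subtype.ext ((a _ y.2).resolve_left fun h => hy (Subtype.ext h))⟩⟩

theorem quo (hS : IsPGroup 2 S) (hP : φ.range ≠ ⊤) : ∃ T : Sylow 2 (Equiv.Perm (Fin 8)),
    Nonempty (N_(φ.range) ⧸ (center S).subgroupOf N_(φ.range) ≃* T) := by
  have i2 := idx2 hφ hr hS hP
  obtain ⟨c1, c2⟩ := cen hφ hr hS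
  have p1 : # φ.range = 128 := (Nat.card_congr (MonoidHom.ofInjective hφ).toEquiv).symm.trans f0
  have n1 := H01.card_mul_relIndex (le_norm φ.range)
  rw [p1, i2] at n1
  refine sylow (C_[φ t].subgroupOf _) ?_ _ (le_antisymm (fun x hx => ?_) (normal_le_normalCore.2 fun x hx =>
    mem_centralizer_singleton_iff.2 (mem_center_iff.1 hx _).symm)) ?_
  · obtain ⟨a, a2, -⟩ := index_eq_two_iff_exists_notMem_and.1 i2
    obtain ⟨σ, hσ⟩ := aut hφ a⁻¹.2
    obtain ⟨g, hg⟩ := f13 (σ t) (by rw [← map_mul, f18.2.2.2.1, map_one]) fun h => by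
      have h := mem_centralizer_singleton_iff.1 h
      rcases (sz σ.symm).2 with e | e
      · exact f18.2.2.2.2.1 (mem_centralizer_singleton_iff.2 (by simpa [e] using congrArg σ.symm h))
      · exact f18.2.2.2.2.2.1 (by simpa [e] using congrArg σ.symm h)
    have y1 : (a : S) * φ g ∈ C_[φ t] ⊓ N_(φ.range) := ⟨mem_centralizer_singleton_iff.2 (mul_inv_eq_iff_eq_mul.1 (by
      have := congrArg φ hg
      rw [hσ, map_mul, map_mul, map_inv, coe_inv] at this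
      rw [mul_inv_rev, mul_assoc, mul_assoc, ← mul_assoc (φ t), ← mul_assoc (φ g), ← mul_assoc (φ g), this]; group)),
      mul_mem a.2 (le_norm _ ⟨g, rfl⟩)⟩
    have j1 : φ.range.relIndex (C_[φ t] ⊓ N_(φ.range)) = 2 := by
      have := relIndex_le_of_le_right (H := φ.range) (inf_le_right : C_[φ t] ⊓ N_(φ.range) ≤ _) (by omega)
      have h0 : φ.range.relIndex (C_[φ t] ⊓ N_(φ.range)) ≠ 0 := FiniteIndex.index_ne_zero
      have h1 : φ.range.relIndex (C_[φ t] ⊓ N_(φ.range)) ≠ 1 := fun h =>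
        a2 ((mul_mem_cancel_right (φ.mem_range.2 ⟨g, rfl⟩)).1 (relIndex_eq_one.1 h y1 : (a : S) * φ g ∈ φ.range))
      omega
    have j2 := card_inf_mul_relIndex φ.range (C_[φ t] ⊓ N_(φ.range))
    have j3 := card_inf_mul_relIndex C_[φ t] N_(φ.range)
    rw [j1, show φ.range ⊓ (C_[φ t] ⊓ N_(φ.range)) = C_[t].map φ from le_antisymm (by
      rintro _ ⟨⟨m, rfl⟩, h, -⟩
      exact ⟨m, mem_centralizer_singleton_iff.2 (hφ (by simpa using mem_centralizer_singleton_iff.1 h)), rfl⟩) (by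
      rintro _ ⟨m, hm, rfl⟩
      exact ⟨⟨m, rfl⟩, mem_centralizer_singleton_iff.2 (by rw [← map_mul, ← map_mul, mem_centralizer_singleton_iff.1 hm]),
        le_norm _ ⟨m, rfl⟩⟩), card_map_of_injective hφ, f15] at j2
    rw [← j2, ← n1] at j3
    exact (by omega : C_[φ t].relIndex N_(φ.range) = 8)
  · have k : ∀ x ∈ (C_[φ t].subgroupOf N_(φ.range)).normalCore, (x : S) ∈ φ.range → (x : S) = 1 ∨ x = φ z := fun x hx ⟨m, hm⟩ => by
      refine (f14 m fun g => hφ ?_).imp (fun h => by rw [← hm, h, map_one]) fun h => by rw [← hm, h]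
      have := mem_centralizer_singleton_iff.1 (mem_subgroupOf.1 (hx ⟨φ g, le_norm _ ⟨g, rfl⟩⟩⁻¹))
      simp only [map_mul, map_inv, hm, coe_mul, coe_inv, inv_inv] at this ⊢
      calc _ = φ g * ((φ g)⁻¹ * x * φ g * φ t) * (φ g)⁻¹ := by group
        _ = _ := by rw [this]; group
    refine mem_subgroupOf.2 ((c1 _).2 (k x hx ((NP hφ hr hS false).le (mem_normalizer_fintype fun v hv => ?_))))
    have v1 := map_le_range _ _ hv
    have e : x * (v * (x : S)⁻¹ * v⁻¹) = x * v * (x : S)⁻¹ * v⁻¹ := by group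
    have : x * (v * (x : S)⁻¹ * v⁻¹) = 1 ∨ x * (v * (x : S)⁻¹ * v⁻¹) = φ z := k _ (mul_mem hx (Normal.conj_mem inferInstance _
      (inv_mem hx) ⟨v, le_norm _ v1⟩)) (e.symm ▸ mul_mem (conj_mem_of_norm x.2 v1) (inv_mem v1) : x * (v * (x : S)⁻¹ * v⁻¹) ∈ φ.range)
    refine (mul_mem_cancel_right (inv_mem hv)).1 ?_
    rcases this with h | h <;> rw [← e, h]
    exacts [one_mem _, ⟨z, (f17 _).2.2.1, rfl⟩]
  · have := H01.card_mul_relIndex (center_le_normalizer (φ.range : Set S))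
    rw [c2, ← n1] at this
    exact (by omega : (center S).relIndex N_(φ.range) = 128)

end H04.DW
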