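import Cfsg.Agent.H19.Dm0

/-! The 3-local characterization of `S₈`: the missing Coxeter relation (part A2 for `H19.Dm`). -/

set_option autoImplicit false
set_option maxRecDepth 100000
set_option synthInstance.maxSize 4000

namespace H04.Dm
open Equiv Subgroup H19.Dm

def ap (X k : ℕ) : ℕ := X >>> (3 * k) % 8
def mk6 (a b c d e f : ℕ) : ℕ := a + 8 * b + 64 * c + 512 * d + 4096 * e + 32768 * f
def ml (X Y : ℕ) : ℕ :=
  mk6 (ap X (ap Y 0)) (ap X (ap Y 1)) (ap X (ap Y 2)) (ap X (ap Y 3)) (ap X (ap Y 4)) (ap X (ap Y 5))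
def cd (a : Perm (Fin 6)) : ℕ := mk6 (a 0) (a 1) (a 2) (a 3) (a 4) (a 5)
def LI : List ℕ := [5349, 5797, 8989, 9997, 14421, 14477, 17053, 17613, 18005, 18061, 34028, 34476, 41259, 42792, 47146, 47272, 49323, 50408, 50730, 50856, 66396, 67404, 69987, 71520, 80193, 80200, 82251, 82776, 83777, 83784, 100948, 101004, 104994, 105120, 109313, 109320, 117258, 117328, 117377, 117384, 151635, 151691, 152090, 152216, 152769, 152776, 153098, 153168, 153217, 153224, 164508, 165068, 165460, 165516, 168099, 169184, 169506, 169632, 172299, 172824, 173825, 173832, 178186, 178256, 178305, 178312, 180307, 180363, 180762, 180888, 181441, 181448, 181770, 181840, 181889]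
def cm (X Y : ℕ) : Bool := ml X Y == ml Y X
def o3 (X Y : ℕ) : Bool := ml X (ml Y X) == ml Y (ml X Y)
def chk : Bool := LI.all fun x1 => (fun I => LI.all fun x2 => x1 == x2 || !o3 x1 x2 ||
  (fun C X => C.all fun x4 => C.all fun r => r == x4 || !o3 r x4 || X.all fun x3 => !o3 x3 x4 || cm r x3 ||
    cm r (ml x4 (ml x3 x4))) (I.filter (cm x2)) (I.filter (o3 x2))) (LI.filter (cm x1))

theorem chk_ok : chk = true := by decide +kernel

theorem li : ∀ a < 6, ∀ b < 6, ∀ c < 6, ∀ d < 6, ∀ e < 6, ∀ f < 6, ap (mk6 a b c d e f) a = 0 →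
    ml (mk6 a b c d e f) (mk6 a b c d e f) = 181896 → mk6 a b c d e f = 181896 ∨ mk6 a b c d e f ∈ LI := by
  decide +kernel

theorem ap_cd (a : Perm (Fin 6)) (i : Fin 6) : ap (cd a) i = a i := by
  have := (a 0).2; have := (a 1).2; have := (a 2).2; have := (a 3).2; have := (a 4).2; have := (a 5).2
  fin_cases i <;> simp [ap, cd, mk6, Nat.shiftRight_eq_div_pow] <;> omega

theorem cd_mul (a b : Perm (Fin 6)) : cd (a * b) = ml (cd a) (cd b) := by
  have h0 : ap (cd b) 0 = b 0 := ap_cd b 0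
  have h1 : ap (cd b) 1 = b 1 := ap_cd b 1
  have h2 : ap (cd b) 2 = b 2 := ap_cd b 2
  have h3 : ap (cd b) 3 = b 3 := ap_cd b 3
  have h4 : ap (cd b) 4 = b 4 := ap_cd b 4
  have h5 : ap (cd b) 5 = b 5 := ap_cd b 5
  simp only [ml, h0, h1, h2, h3, h4, h5, ap_cd]; rfl

theorem cd_inj {a b : Perm (Fin 6)} (h : cd a = cd b) : a = b := by
  ext i; rw [← ap_cd, h, ap_cd]

theorem cd_li {a : Perm (Fin 6)} (h : a * a = 1) (n : a ≠ 1) : cd a ∈ LI :=
  (li _ (a 0).2 _ (a 1).2 _ (a 2).2 _ (a 3).2 _ (a 4).2 _ (a 5).2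
    ((ap_cd a (a 0)).trans (congrArg (fun x : Perm (Fin 6) => (x 0).val) h))
    ((cd_mul a a).symm.trans (h ▸ rfl))).resolve_left fun e => n (cd_inj e)

theorem cm_iff (a b : Perm (Fin 6)) : cm (cd a) (cd b) = true ↔ a * b = b * a := by
  rw [cm, beq_iff_eq, ← cd_mul, ← cd_mul]; exact ⟨cd_inj, congrArg _⟩
theorem o3_iff (a b : Perm (Fin 6)) : o3 (cd a) (cd b) = true ↔ a * (b * a) = b * (a * b) := by
  rw [o3, beq_iff_eq, ← cd_mul, ← cd_mul, ← cd_mul, ← cd_mul]; exact ⟨cd_inj, congrArg _⟩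

theorem s6 {x1 x2 x3 x4 r : Perm (Fin 6)} (s1 : x1 * x1 = 1) (s2 : x2 * x2 = 1) (s3 : x3 * x3 = 1) (s4 : x4 * x4 = 1)
    (sr : r * r = 1) (n1 : x1 ≠ 1) (n2 : x2 ≠ 1) (n3 : x3 ≠ 1) (n4 : x4 ≠ 1) (nr : r ≠ 1) (n12 : x1 ≠ x2) (nr4 : r ≠ x4)
    (b12 : x1 * (x2 * x1) = x2 * (x1 * x2)) (b23 : x2 * (x3 * x2) = x3 * (x2 * x3)) (b34 : x3 * (x4 * x3) = x4 * (x3 * x4))
    (br : r * (x4 * r) = x4 * (r * x4)) (c13 : x1 * x3 = x3 * x1) (c14 : x1 * x4 = x4 * x1) (c24 : x2 * x4 = x4 * x2)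
    (c1 : x1 * r = r * x1) (c2 : x2 * r = r * x2) : r * x3 = x3 * r ∨ r * (x4 * (x3 * x4)) = x4 * (x3 * x4) * r := by
  have := chk_ok
  simp only [chk, List.all_eq_true, List.mem_filter, Bool.or_eq_true, beq_iff_eq, Bool.not_eq_true', and_imp] at this
  rcases this _ (cd_li s1 n1) _ (cd_li s2 n2) with (a | a) | a
  · exact absurd (cd_inj a) n12
  · rw [(o3_iff _ _).2 b12] at a; cases a
  rcases a _ (cd_li s4 n4) ((cm_iff _ _).2 c14) ((cm_iff _ _).2 c24) _ (cd_li sr nr) ((cm_iff _ _).2 c1)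
    ((cm_iff _ _).2 c2) with (a | a) | a
  · exact absurd (cd_inj a) nr4
  · rw [(o3_iff _ _).2 br] at a; cases a
  rcases a _ (cd_li s3 n3) ((cm_iff _ _).2 c13) ((o3_iff _ _).2 b23) with (a | a) | a
  · rw [(o3_iff _ _).2 b34] at a; cases a
  · exact .inl ((cm_iff _ _).1 a)
  · rw [← cd_mul, ← cd_mul] at a; exact .inr ((cm_iff _ _).1 a)

def q1 : P35 := (1, swap 0 1)
def q2 : P35 := (1, swap 1 2)
def c5 : P35 := (1, swap 0 1 * swap 1 2 * swap 2 3 * swap 3 4)

theorem j1 : u * t = q1 ∧ w * t * t = w ∧ v * t * v⁻¹ = q1 ∧ c5 * w = w * c5 ∧ c5 ^ 5 = 1 ∧ c5 ≠ 1 ∧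
    (∀ x : P35, x * z = z * x → x * z' = z' * x → x ^ 5 = 1 → x = 1) ∧ (∀ a : DihedralGroup 4, a ^ 5 = 1 → a = 1) ∧
    q2 = z' * q1 * z'⁻¹ ∧ p * z = z * p ∧ p * w = w * p ∧ p * q1 = q1 * p ∧ p * p = 1 ∧ p * (t * p) = t * (p * t) ∧
    p ≠ 1 ∧ p ≠ q1 ∧ p ≠ t ∧ p * t * (p * t) ≠ 1 ∧ w * w = 1 := by
  refine ⟨?_, ?_, ?_, ?_, ?_, ?_, ?_, ?_, ?_⟩ <;> decide +kernel

theorem j2 : (∀ x ∈ [q1, q2, p, t, t * (p * t)], x * w = w * x ∧ x * x = 1 ∧ x ≠ 1 ∧ x ≠ w) ∧ q1 * q2 ≠ 1 ∧ q1 * q2 ≠ w ∧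
    q1 * (q2 * q1) = q2 * (q1 * q2) ∧ q2 * (p * q2) = p * (q2 * p) ∧ q1 * t = t * q1 ∧ q2 * t = t * q2 ∧
    ∀ x ∈ [p, t * (p * t)], ∃ g ∈ [(1, swap 2 4), (1, swap 2 3)], g * t * g⁻¹ = x ∧ g * (w * t) * g⁻¹ = w * x := by
  decide +kernel

variable {G : Type*} [Group G] {F : P35 →* G} {s : G}

theorem a2 (h : Hy F s) (ca : CA F s) (ct : CT F s) (pc : PI F ∨ CN F) : PI F ∧ (RA F s ∨ RA F (s * F t)) := by
  obtain ⟨e1, e2, e3, e4, e5, e6, e7, e8, e9, e10, e11, e12, e13, e14, e15, e16, e17, e18, e19⟩ := j1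
  obtain ⟨f1, f2, f3, f4, f5, f6, f7, f8⟩ := j2
  have sw : s * F q1 * s = F w := by rw [← e1, map_mul, h.sm, ca, h.st', ← map_mul, e2]
  have sw' : s * F w * s = F q1 := by rw [← sw, h.ss]
  obtain ⟨k, hk⟩ : ∃ k, k * F t * k⁻¹ = F w := ⟨s * F v, by
    rw [← sw, ← e3, map_mul, map_mul, map_inv, mul_inv_rev, h.si']; group⟩
  have tr : ∀ g, g * F w = F w * g → k⁻¹ * g * k ∈ centralizer ({F t} : Set G) := fun g c => by
    rw [mem_centralizer_singleton_iff, ← mul_left_inj k⁻¹, ← mul_right_inj k]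
    calc _ = g * (k * F t * k⁻¹) := by group
      _ = k * F t * k⁻¹ * g := by rw [hk, c]
      _ = _ := by group
  have pi : PI F := pc.resolve_right fun cn => by
    obtain ⟨φ, -, hφ⟩ := h.dih
    have g5 : (k⁻¹ * F c5 * k) ^ 5 = 1 := by
      rw [show k⁻¹ * F c5 * k = k⁻¹ * F c5 * k⁻¹⁻¹ by simp, conj_pow, ← map_pow, e5]; simp
    have m := cn (tr (F c5) (by rw [← map_mul, e4, map_mul]))
    have c := (hφ ⟨_, m⟩).1 (e8 _ (by rw [← map_pow, ← map_one φ]; exact congrArg _ (Subtype.ext g5)))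
    obtain ⟨x, hx, cx⟩ := h.cz (g := k⁻¹ * F c5 * k) (c _ (subset_closure (by simp))).symm
    have := e7 x cx (h.inj (by rw [map_mul, map_mul, hx]; exact (c _ (subset_closure (by simp))).symm))
      (h.inj (by rw [map_pow, hx, g5, map_one]))
    rw [this, map_one, eq_comm, mul_assoc, inv_mul_eq_one, eq_comm, mul_eq_right] at hx
    exact e6 (h.inj (hx.trans (map_one F).symm))
  refine ⟨pi, ?_⟩
  obtain ⟨π, -, hπ⟩ := pi
  let θ : centralizer ({F w} : Set G) →* Perm (Fin 6) := π.comp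
    { toFun := fun g => ⟨k⁻¹ * g * k, tr g (mem_centralizer_singleton_iff.1 g.2)⟩
      map_one' := Subtype.ext (by simp)
      map_mul' := fun a b => Subtype.ext (by simp [mul_assoc]) }
  have ker : ∀ g, θ g = 1 → g.1 = 1 ∨ g.1 = F w := fun g a => by
    rcases (hπ _).1 a with b | b
    · left; change k⁻¹ * g * k = 1 at b; rwa [mul_assoc, inv_mul_eq_one, eq_comm, mul_eq_right] at b
    · right; change k⁻¹ * g * k = F t at b; refine Eq.trans ?_ hk; rw [← b]; group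
  have m : ∀ x, x * w = w * x → F x ∈ centralizer ({F w} : Set G) := fun x c =>
    mem_centralizer_singleton_iff.2 (by rw [← map_mul, c, map_mul])
  have mr : s * F p * s ∈ centralizer ({F w} : Set G) :=
    mem_centralizer_singleton_iff.2 (by rw [← sw, ← h.sm, ← h.sm, ← map_mul, e12, map_mul])
  have r2 : s * F p * s * (s * F p * s) = 1 := by rw [← h.sm, ← map_mul, e13, map_one, mul_one, h.s2]
  have sq : ∀ g : centralizer ({F w} : Set G), g.1 * g.1 = 1 → θ g * θ g = 1 := fun g a => by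
    rw [← map_mul, ← map_one θ]; exact congrArg _ (Subtype.ext a)
  have sx := fun x (hx : x ∈ [q1, q2, p, t, t * (p * t)]) => sq ⟨_, m x (f1 x hx).1⟩ (by
    change F x * F x = 1; rw [← map_mul, (f1 x hx).2.1, map_one])
  have nx : ∀ x (hx : x ∈ [q1, q2, p, t, t * (p * t)]), θ ⟨_, m x (f1 x hx).1⟩ ≠ 1 := fun x hx a => by
    rcases ker _ a with b | b
    exacts [(f1 x hx).2.2.1 (h.inj (b.trans (map_one F).symm)), (f1 x hx).2.2.2 (h.inj b)]
  have sinj : ∀ x y, s * F x * s = s * F y * s → x = y := fun x y a => h.inj (by simpa using a)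
  have w2 : F w * F w = 1 := by rw [← map_mul, e19, map_one]
  have lift : ∀ x (hx : x ∈ [p, t * (p * t)]) (c : x * w = w * x), x * x = 1 →
      θ ⟨_, mr⟩ * θ ⟨_, m x c⟩ = θ ⟨_, m x c⟩ * θ ⟨_, mr⟩ → s * F p * s * F x = F x * (s * F p * s) := by
    intro x hx c x2 a
    generalize s * F p * s = r at *
    have x2' : F x * F x = 1 := by rw [← map_mul, x2, map_one]
    have := ker (⟨_, mr⟩ * ⟨_, m x c⟩ * (⟨_, m x c⟩ * ⟨_, mr⟩)⁻¹) (by rw [map_mul, map_inv, map_mul, map_mul, a]; simp)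
    change r * F x * (F x * r)⁻¹ = 1 ∨ r * F x * (F x * r)⁻¹ = F w at this
    refine mul_inv_eq_one.1 (this.resolve_right fun b => ct.2.1 ?_)
    obtain ⟨g, -, g1, g2⟩ := f8 x hx
    have i1 : IsConj (F t) (F x) := isConj_iff.2 ⟨F g, by rw [← g1]; simp⟩
    have i2 : IsConj (F x) (F (w * x)) := isConj_iff.2 ⟨r, by rw [map_mul, ← b]; group⟩
    have i3 : IsConj (F (w * t)) (F (w * x)) := isConj_iff.2 ⟨F g, by rw [← g2]; simp⟩
    have i4 : IsConj (F u) (F (w * t)) := isConj_iff.2 ⟨s, by rw [h.si']; exact ca⟩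
    exact ((i1.trans i2).trans i3.symm).trans i4.symm
  have E : ∀ {a b : centralizer ({F w} : Set G)}, a.1 = b.1 → θ a = θ b := fun e => congrArg _ (Subtype.ext e)
  have c1 : F q1 * (s * F p * s) = s * F p * s * F q1 := by rw [← sw', ← h.sm, ← h.sm, ← map_mul, ← e11, map_mul]
  have cz : F z' * (s * F p * s) = s * F p * s * F z' := by rw [← h.sz, ← h.sm, ← h.sm, ← map_mul, ← e10, map_mul]
  have c2 : F q2 * (s * F p * s) = s * F p * s * F q2 := by
    rw [e9, map_mul, map_mul, map_inv]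
    exact (((show Commute _ _ from cz).mul_left c1).mul_left (show Commute _ _ from cz).inv_left).eq
  have tp : ∀ x, s * F x * s * F t = s * F (x * t) * s := fun x => by rw [map_mul, h.sm, h.st']
  have pt : ∀ x, F t * (s * F x * s) = s * F (t * x) * s := fun x => by rw [map_mul, h.sm, h.st']
  rcases s6 (sx q1 (by simp)) (sx q2 (by simp)) (sx p (by simp)) (sx t (by simp)) (sq ⟨_, mr⟩ r2) (nx q1 (by simp))
    (nx q2 (by simp)) (nx p (by simp)) (nx t (by simp)) (fun a => by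
      rcases ker _ a with b | b
      · exact e15 (sinj _ _ (b.trans (by simp [h.s2])))
      · exact e16 (sinj _ _ (b.trans sw.symm)))
    (fun a => by
      have := ker (⟨_, m q1 (f1 _ (by simp)).1⟩ * ⟨_, m q2 (f1 _ (by simp)).1⟩) (by rw [map_mul, a]; exact sx q2 (by simp))
      change F q1 * F q2 = 1 ∨ F q1 * F q2 = F w at this
      rw [← map_mul, ← map_one F] at this
      exact this.elim (fun b => f2 (h.inj b)) fun b => f3 (h.inj b))
    (fun a => by
      have := ker (⟨_, mr⟩ * ⟨_, m t (f1 _ (by simp)).1⟩) (by rw [map_mul, a]; exact sx t (by simp))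
      change s * F p * s * F t = 1 ∨ s * F p * s * F t = F w at this
      refine e18 (sinj _ _ ?_)
      rw [map_mul, h.sm, ← tp]
      rcases this with b | b <;> rw [b] <;> simp [h.s2, w2])
    (by simp only [← map_mul]; exact E (by simp only [coe_mul, ← map_mul, f4]))
    (by simp only [← map_mul]; exact E (by simp only [coe_mul, ← map_mul, f5]))
    (by simp only [← map_mul]; exact E (by simp only [coe_mul, ← map_mul, e14]))
    (by simp only [← map_mul]; exact E (by simp only [coe_mul, tp, pt, ← h.sm, ← map_mul, e14]))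
    (by simp only [← map_mul]; exact E (by simp only [coe_mul, ← map_mul, e12]))
    (by simp only [← map_mul]; exact E (by simp only [coe_mul, ← map_mul, f6]))
    (by simp only [← map_mul]; exact E (by simp only [coe_mul, ← map_mul, f7]))
    (by simp only [← map_mul]; exact E c1) (by simp only [← map_mul]; exact E c2) with a | a
  · right
    have := lift p (by simp) e11 e13 a
    have t2 : F t * F t = 1 := by rw [← map_mul, k0.1, map_one]
    rw [RA, h.tc, ← tp, ← pt, map_mul, map_mul]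
    generalize s * F p * s = r at *
    calc _ = F t * r * (F t * F t) * F p * F t := by group
      _ = F t * (r * F p) * F t := by rw [t2]; group
      _ = F t * F p * (F t * F t) * r * F t := by rw [this, t2]; group
      _ = _ := by group
  · left
    rw [RA, mul_assoc t]
    refine lift _ (by simp) (f1 _ (by simp)).1 (f1 _ (by simp)).2.1 ?_
    have : θ ⟨_, m (t * (p * t)) (f1 _ (by simp)).1⟩ = θ ⟨_, m t (f1 _ (by simp)).1⟩ *
        (θ ⟨_, m p (f1 _ (by simp)).1⟩ * θ ⟨_, m t (f1 _ (by simp)).1⟩) := by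
      simp only [← map_mul]; exact E (by simp only [coe_mul, ← map_mul])
    rw [this]; exact a

end H04.Dm
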