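import Mathlib
import Cfsg.Agent.H04.Soft
import Cfsg.Agent.H16.FrobDiv
import Cfsg.Agent.H03.PResidual

/-!
# Equally partitioned groups and Itô's theorem on groups with two class sizes

* `lt_of_equal_partition`, `eq_of_equal_partition` : a proper partition into abelian subgroups of
  one order `m` forces `m` to be a prime power.
* `exists_pElement_notMem`, `cent1_mul_of_coprime`.
* `isPGroup_quotient_center_of_two_sizes` : Itô's theorem.
-/

namespace H04

open Subgroup Cfsg BG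
open scoped commutatorElement

variable {G : Type*} [Group G] [Finite G] {p : ℕ}

theorem ncard_of_partition {S : Set (Subgroup G)} (h : ∀ y : G, y ≠ 1 → ∃! C, C ∈ S ∧ y ∈ C)
    (T : Set G) (h1 : 1 ∈ T) {a : ℕ} (ha : ∀ C ∈ S, (T ∩ C).ncard = a) :
    T.ncard = 1 + S.ncard * (a - 1) := by
  have h2 := sum_ncard_rel (Set.toFinite (T \ {1})) (Set.toFinite S) fun y C => y ∈ C
  rw [Finset.sum_const_nat (m := 1) fun y hy => by
      obtain ⟨C, h2, h3⟩ := h y ((Set.Finite.mem_toFinset _).mp hy).2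
      exact Set.ncard_eq_one.mpr ⟨C, Set.eq_singleton_iff_unique_mem.mpr ⟨h2, h3⟩⟩,
    Finset.sum_const_nat (m := a - 1) fun C hC => by
      rw [← ha C ((Set.Finite.mem_toFinset _).mp hC), ← Set.ncard_sdiff_singleton_of_mem
        (show 1 ∈ T ∩ C from ⟨h1, one_mem C⟩)]
      exact congrArg _ (Set.ext fun y => ⟨fun h => ⟨⟨h.1.1, h.2⟩, h.1.2⟩, fun h => ⟨⟨h.1.1, h.2⟩, h.1.2⟩⟩),
    ← Set.ncard_eq_toFinset_card, ← Set.ncard_eq_toFinset_card, mul_one] at h2
  rw [← h2, add_comm, Set.ncard_sdiff_singleton_add_one h1]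

theorem lt_of_equal_partition {S : Set (Subgroup G)} (h : ∀ y : G, y ≠ 1 → ∃! C, C ∈ S ∧ y ∈ C)
    {m : ℕ} (hm : ∀ C ∈ S, IsMulCommutative C ∧ Nat.card C = m) (hS : S.Nonempty) (hp : p.Prime)
    (hpm : p ∣ m) : S.ncard < ordProj[p] (Nat.card G) := by
  have h0 := Nat.ordProj_mul_ordCompl_eq_self (Nat.card G) p
  have h1 := Nat.coprime_ordCompl hp (Nat.card_pos (α := G)).ne'
  generalize ordCompl[p] (Nat.card G) = M at h0 h1
  have h2 := ncard_of_partition h Set.univ trivial (a := m) fun C hC => by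
    rw [Set.univ_inter]; exact (hm C hC).2
  have h3 := ncard_of_partition h {y | y ^ M = 1} (one_pow M) (a := M.gcd m) fun C hC => by
    obtain ⟨hc, rfl⟩ := hm C hC
    let K : Subgroup C := ⟨⟨⟨{y | y ^ M = 1}, fun {a b} ha hb => by
      rw [Set.mem_ofPred_eq, Commute.mul_pow (hc.1.1 a b), ha, hb, one_mul]⟩, one_pow M⟩,
      fun ha => by simpa using ha⟩
    have h3 : Nat.card ↥({y : G | y ^ M = 1} ∩ C) = Nat.card K := Nat.card_congr
      ⟨fun y => ⟨⟨y.1, y.2.2⟩, Subtype.ext y.2.1⟩, fun y => ⟨y.1.1, congrArg Subtype.val y.2, y.1.2⟩,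
        fun _ => rfl, fun _ => rfl⟩
    refine h3.trans (Nat.dvd_antisymm (Nat.dvd_gcd (Nat.Coprime.dvd_of_dvd_mul_left
      (Nat.Coprime.pow_right _ (hp.coprime_iff_not_dvd.mpr fun h4 => ?_).symm)
      (h0.symm ▸ (card_subgroup_dvd_card K).trans (card_subgroup_dvd_card C)))
      (card_subgroup_dvd_card K)) (H16.frobenius_gcd_dvd M))
    obtain ⟨x, h5, h6⟩ := exists_orderOf_eq_prime hp h4
    exact hp.coprime_iff_not_dvd.mp h1 (h6.symm.dvd.trans (orderOf_dvd_of_pow_eq_one h5))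
  obtain ⟨k, hk⟩ := H16.frobenius_dvd (G := G) (Dvd.intro_left _ h0)
  rw [Set.ncard_univ] at h2
  replace hk := h3.symm.trans hk
  obtain ⟨C, hC⟩ := hS
  have h4 : 0 < m := (hm C hC).2 ▸ Nat.card_pos
  have h5 : M.gcd m < m := lt_of_le_of_ne (Nat.gcd_le_right _ h4) fun h5 =>
    hp.coprime_iff_not_dvd.mp h1 (hpm.trans (h5 ▸ Nat.gcd_dvd_left M m))
  have h6 : 0 < M.gcd m := Nat.gcd_pos_of_pos_right _ h4
  have h7 : 0 < S.ncard := (Set.ncard_pos (Set.toFinite S)).mpr ⟨C, hC⟩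
  generalize M.gcd m = a, S.ncard = t, ordProj[p] (Nat.card G) = P at *
  obtain ⟨a, rfl⟩ := Nat.exists_eq_succ_of_ne_zero h6.ne'
  obtain ⟨d, rfl⟩ := Nat.exists_eq_add_of_lt h5
  rw [← h0, show a.succ + d + 1 - 1 = a + (d + 1) by omega, mul_add, ← add_assoc] at h2
  rw [Nat.succ_sub_one] at hk
  rw [hk, mul_comm P] at h2
  have h8 : t ∣ M * (P - k) := ⟨d + 1, by rw [Nat.mul_sub, h2, Nat.add_sub_cancel_left]⟩
  have h9 : t.Coprime M := Nat.Coprime.coprime_dvd_right ⟨k, rfl⟩ (hk ▸ by simp)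
  have h10 : k < P := by by_contra; nlinarith [Nat.mul_le_mul_left M (show P ≤ k by omega)]
  have h11 : k ≠ 0 := by rintro rfl; omega
  have := Nat.le_of_dvd (by omega) (h9.dvd_of_dvd_mul_left h8)
  omega

theorem eq_of_equal_partition {S : Set (Subgroup G)} (h : ∀ y : G, y ≠ 1 → ∃! C, C ∈ S ∧ y ∈ C)
    {m : ℕ} (hm : ∀ C ∈ S, IsMulCommutative C ∧ Nat.card C = m) {C : Subgroup G} (hC : C ∈ S)
    (hC' : C ≠ ⊤) {p q : ℕ} (hp : p.Prime) (hq : q.Prime) (hpm : p ∣ m) (hqm : q ∣ m) : p = q := by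
  by_contra hpq
  have h1 := Nat.mul_lt_mul'' (lt_of_equal_partition h hm ⟨C, hC⟩ hp hpm)
    (lt_of_equal_partition h hm ⟨C, hC⟩ hq hqm)
  have h2 := Nat.le_of_dvd Nat.card_pos (Nat.Coprime.mul_dvd_of_dvd_of_dvd
    (Nat.coprime_pow_primes _ _ hp hq hpq) (Nat.ordProj_dvd (Nat.card G) p)
    (Nat.ordProj_dvd (Nat.card G) q))
  have h3 := ncard_of_partition h Set.univ trivial (a := m) fun C hC => by
    rw [Set.univ_inter]; exact (hm C hC).2
  obtain ⟨y, -, hy⟩ := SetLike.exists_of_lt hC'.lt_top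
  obtain ⟨D, ⟨hD, h4⟩, -⟩ := h y fun h => hy (h ▸ one_mem C)
  have h5 := card_mul_card_le C D
  rw [(eq_bot_iff (a := C ⊓ D)).mpr fun x hx => by_contra fun h5 =>
    hy ((h x h5).unique ⟨hD, hx.2⟩ ⟨hC, hx.1⟩ ▸ h4), card_bot, (hm C hC).2, (hm D hD).2] at h5
  rw [Set.ncard_univ] at h3
  have h6 := hp.two_le.trans (Nat.le_of_dvd ((hm C hC).2 ▸ Nat.card_pos) hpm)
  obtain ⟨m, rfl⟩ := Nat.exists_eq_add_of_le h6
  rw [show 2 + m - 1 = m + 1 by omega] at h3
  have h7 : m + 2 ≤ S.ncard := by by_contra; nlinarith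
  nlinarith

theorem exists_pElement_notMem (hp : p.Prime) {H K : Subgroup G} (h : p ∣ K.relIndex H) :
    ∃ w ∈ H, w ∉ K ∧ ∃ k, orderOf w = p ^ k := by
  haveI := Fact.mk hp
  obtain ⟨P⟩ : Nonempty (Sylow p H) := inferInstance
  by_contra! h1
  refine P.not_dvd_index (h.trans (index_dvd_of_le fun x hx => by_contra fun h2 => ?_))
  obtain ⟨k, hk⟩ := IsPGroup.iff_orderOf.mp P.2 ⟨x, hx⟩
  exact h1 x x.2 h2 k (by simpa using hk)

theorem cent1_mul_of_coprime {x y : G} (h : Commute x y) (hc : (orderOf x).Coprime (orderOf y)) :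
    C_[x * y] = C_[x] ⊓ C_[y] := by
  have h1 : ∀ {a b : G}, Commute a b → (orderOf a).Coprime (orderOf b) → C_[a * b] ≤ C_[a] :=
    fun {a b} h hc => cent1_le_of_mem_zpowers (mem_of_pow_mem_of_coprime hc.symm (by
      simpa [h.mul_pow] using pow_mem (mem_zpowers (a * b)) (orderOf b)))
  exact le_antisymm (le_inf (h1 h hc) (h.eq ▸ h1 h.symm hc.symm)) fun g hg => mem_cent1.mpr
    (Commute.mul_right (mem_cent1.mp hg.1) (mem_cent1.mp hg.2))

/-- Itô's theorem. -/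
theorem isPGroup_quotient_center_of_two_sizes {n : ℕ}
    (h : ∀ x : G, (C_[x]).index = 1 ∨ (C_[x]).index = n) (hp : p.Prime) (h0 : p ∣ (center G).index) :
    IsPGroup p (G ⧸ center G) := by
  haveI := Fact.mk hp
  refine IsPGroup.iff_card.mpr ⟨_, Nat.eq_prime_pow_of_unique_prime_dvd Nat.card_pos.ne'
    fun {q} hq h1 => by_contra fun hqp => ?_⟩
  have hZ : ∀ x : G, center G ≤ C_[x] := fun x => center_le_centralizer _
  have h2 : ∀ x y : G, x ∉ center G → y ∉ center G → Nat.card C_[x] = Nat.card C_[y] :=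
    fun x y hx hy => by
    have h2 := (C_[x]).card_mul_index.trans (C_[y]).card_mul_index.symm
    rw [(h x).resolve_left (index_cent1_eq_one.not.mpr hx),
      ← (h y).resolve_left (index_cent1_eq_one.not.mpr hy)] at h2
    exact Nat.eq_of_mul_eq_mul_right (Nat.pos_of_ne_zero index_ne_zero_of_finite) h2
  have h3 : ∀ x y : G, x ∉ center G → Commute x y → (orderOf x).Coprime (orderOf y) → C_[x] ≤ C_[y] :=
    fun x y hx h3 h4 => (BG.eq_of_le_of_card_eq ((cent1_mul_of_coprime h3 h4).trans_le inf_le_left)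
      (h2 _ x (fun h5 => hx (index_cent1_eq_one.mp (index_eq_one.mpr (eq_top_iff.mpr
        ((index_eq_one.mp (index_cent1_eq_one.mpr h5)).ge.trans ((cent1_mul_of_coprime h3 h4).trans_le
          inf_le_left)))))) hx)).ge.trans ((cent1_mul_of_coprime h3 h4).trans_le inf_le_right)
  have h4 : ∀ s, s.Prime → s ∣ (center G).index → ∀ x ∉ center G, s ∣ (center G).relIndex C_[x] :=
    fun s hs h4 x hx => by
    obtain ⟨w, -, h5, k, h6⟩ := exists_pElement_notMem hs (relIndex_top_right (center G) ▸ h4)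
    have h7 := H04.card_mul_relIndex (hZ x)
    rw [h2 x w hx h5, ← H04.card_mul_relIndex (hZ w)] at h7
    rw [Nat.eq_of_mul_eq_mul_left Nat.card_pos h7]
    by_contra h8
    refine h5 (mem_of_pow_mem_of_coprime (h6 ▸ (hs.coprime_iff_not_dvd.mpr h8).symm.pow_right k) ?_)
    exact ((center G).subgroupOf C_[w]).pow_index_mem ⟨w, mem_cent1_self w⟩
  have h5 : ∀ x ∉ center G, IsMulCommutative C_[x] := fun x hx => by
    obtain ⟨s, hs, h5⟩ := Nat.exists_prime_and_dvd (relIndex_eq_one.not.mpr (zpowers_le.not.mpr hx))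
    obtain ⟨w, h6, h7, k, h8⟩ := exists_pElement_notMem hs h5
    rw [BG.eq_of_le_of_card_eq (cent1_le_of_mem_zpowers h6) (h2 x w hx h7)]
    obtain ⟨r, hr, h9, h10⟩ : ∃ r, r.Prime ∧ r ≠ s ∧ r ∣ (center G).index :=
      (eq_or_ne p s).elim (fun e => ⟨q, hq, e ▸ hqp, h1⟩) fun e => ⟨p, hp, e, h0⟩
    obtain ⟨y, h11, h12, l, h13⟩ := exists_pElement_notMem hr (h4 r hr h10 w h7)
    have h14 := h3 w y h7 (mem_cent1.mp h11).symm (h8 ▸ h13 ▸ Nat.coprime_pow_primes _ _ hs hr h9.symm)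
    haveI := Fact.mk hs
    refine abelian_iff.mpr (cent_symm fun u hu => le_cent1_iff.mp ?_)
    obtain ⟨a, b, ha, hb, ⟨j, hj⟩, h15, e⟩ := H03.exists_pPart_mul (p := s) u
    have h16 := (BG.eq_of_le_of_card_eq h14 (h2 w y h7 h12)).le.trans (h3 y a h12 (mem_cent1.mp
      (h14 (zpowers_le.mpr hu ha))).symm (h13 ▸ hj ▸ Nat.coprime_pow_primes _ _ hr hs h9))
    have h17 := h3 w b h7 (mem_cent1.mp (zpowers_le.mpr hu hb)).symm (h8 ▸ h15.symm.pow_left k)
    exact fun g hg => mem_cent1.mpr (e ▸ Commute.mul_right (mem_cent1.mp (h16 hg)) (mem_cent1.mp (h17 hg)))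
  obtain ⟨x, -, hx, -⟩ := exists_pElement_notMem hp (relIndex_top_right (center G) ▸ h0)
  let π := QuotientGroup.mk' (center G)
  have h6 : ∀ x, (C_[x].map π).comap π = C_[x] := fun x => by
    rw [comap_map_eq, QuotientGroup.ker_mk', sup_eq_left.mpr (hZ x)]
  refine hqp (eq_of_equal_partition (S := (fun x => C_[x].map π) '' (center G : Set G)ᶜ)
    (m := (center G).relIndex C_[x]) (fun y hy => ?_) ?_ ⟨x, hx, rfl⟩ (fun h7 => hx
      (index_cent1_eq_one.mp (index_eq_one.mpr ((h6 x).symm.trans ((congrArg _ h7).trans (comap_top π)))))) hq hp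
    (h4 q hq h1 x hx) (h4 p hp h0 x hx))
  · obtain ⟨y, rfl⟩ := QuotientGroup.mk'_surjective _ y
    have h7 : y ∉ center G := fun h => hy ((QuotientGroup.eq_one_iff y).mpr h)
    refine ⟨_, ⟨⟨y, h7, rfl⟩, y, mem_cent1_self y, rfl⟩, ?_⟩
    rintro _ ⟨⟨w, hw, rfl⟩, h8⟩
    exact congrArg _ (BG.eq_of_le_of_card_eq (le_cent1_iff.mpr (abelian_iff.mp (h5 w hw)
      ((h6 w).le h8))) (h2 w y hw h7))
  · rintro _ ⟨w, hw, rfl⟩
    haveI := h5 w hw
    refine ⟨inferInstance, Nat.eq_of_mul_eq_mul_left (Nat.card_pos (α := center G)) ?_⟩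
    rw [H04.card_mul_relIndex (hZ x), h2 x w hx hw, ← card_map_mk'_mul (center G) C_[w],
      inf_eq_left.mpr (hZ w)]

end H04
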