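import Cfsg.Agent.H04.Frattini

/-! Quadratic elements of unipotent groups: `1 + s(bs)^n ∈ ⟨1+s, 1+b⟩` for `s² = b² = 0` in odd characteristic. -/

set_option autoImplicit false
open Subgroup
open scoped commutatorElement

namespace H04.Ly

variable {R : Type*} [Ring R] {p : ℕ} {K : Subgroup Rˣ}

/-- `1 + r ∈ K`. -/
def In (K : Subgroup Rˣ) (r : R) : Prop := ∃ k ∈ K, (k : R) = 1 + r

theorem In.mul {r r' r'' : R} (h : In K r) (h' : In K r') (e : (1 + r) * (1 + r') = 1 + r'') : In K r'' := by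
  obtain ⟨k, a, b⟩ := h
  obtain ⟨k', a', b'⟩ := h'
  exact ⟨k * k', mul_mem a a', by rw [Units.val_mul, b, b', e]⟩

theorem In.inv {r r' : R} (h : In K r) (e : (1 + r) * (1 + r') = 1) : In K r' := by
  obtain ⟨k, a, b⟩ := h
  exact ⟨k⁻¹, inv_mem a, Units.inv_eq_of_mul_eq_one_right (b ▸ e)⟩

theorem In.mono {K' : Subgroup Rˣ} {r : R} (h : In K r) (e : K ≤ K') : In K' r := h.imp fun _ a => ⟨e a.1, a.2⟩

/-- the elements `r = s c` with `r s = 0` and `1 + r ∈ K`. -/
def Z (K : Subgroup Rˣ) (s : R) : AddSubgroup R where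
  carrier := {r | In K r ∧ (∃ c, r = s * c) ∧ r * s = 0}
  zero_mem' := ⟨⟨1, one_mem _, by simp⟩, ⟨0, by simp⟩, by simp⟩
  add_mem' := by
    rintro r _ ⟨a, ⟨c, b⟩, d⟩ ⟨a', ⟨c', rfl⟩, d'⟩
    refine ⟨a.mul a' ?_, ⟨c + c', by rw [b, mul_add]⟩, by rw [add_mul, d, d', add_zero]⟩
    rw [add_mul, mul_add, mul_add, ← mul_assoc r, d]; noncomm_ring
  neg_mem' := by
    rintro r ⟨a, ⟨c, b⟩, d⟩
    refine ⟨a.inv ?_, ⟨-c, by rw [b, mul_neg]⟩, by rw [neg_mul, d, neg_zero]⟩
    have : r * r = 0 := by nth_rw 2 [b]; rw [← mul_assoc, d, zero_mul]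
    rw [add_mul, mul_add, mul_add, mul_neg r, this]; noncomm_ring

theorem sts {s b : R} (hs : s * s = 0) (n : ℕ) : s * (b * s) ^ n * s = 0 := by
  rcases n with _ | n
  · simpa using hs
  · rw [pow_succ, mul_assoc, mul_assoc, mul_assoc, hs]; simp

theorem mem_Z {s b : R} (hs : s * s = 0) {n : ℕ} (h : In K (s * (b * s) ^ n)) : s * (b * s) ^ n ∈ Z K s :=
  ⟨h, ⟨_, rfl⟩, sts hs n⟩

theorem geo {s b : R} (hs : s * s = 0) (h : ∀ n, In K (s * (b * s) ^ n)) (N : ℕ) :
    s * ∑ k ∈ Finset.range N, (-(b * s)) ^ k ∈ Z K s := by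
  rw [Finset.mul_sum]
  refine sum_mem fun k _ => ?_
  rw [neg_pow]
  rcases neg_one_pow_eq_or R k with e | e <;> rw [e]
  · simpa using mem_Z hs (h k)
  · simpa using mem_Z hs (h k)

theorem comm (hp : Odd p) (h0 : (p : R) = 0) {s b : R} (hs : s * s = 0) (hb : b * b = 0) {N : ℕ} (hN : (b * s) ^ N = 0)
    (h1 : ∀ n, In K (s * (b * s) ^ n)) (h2 : ∀ n, In K (b * (s * b) ^ n)) (n : ℕ) : In ⁅K, K⁆ (s * (b * s) ^ (n + 1)) := by
  have g1 := geo hs h1 N
  have g2 := geo hb h2 N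
  have e1 := mul_neg_geom_sum (-(b * s)) N
  have e2 := geom_sum_mul_neg (-(b * s)) N
  have e3 : b * ∑ k ∈ Finset.range N, (-(s * b)) ^ k = (∑ k ∈ Finset.range N, (-(b * s)) ^ k) * b := by
    rw [Finset.mul_sum, Finset.sum_mul]
    exact Finset.sum_congr rfl fun k _ => by rw [← neg_mul, ← mul_neg, mul_pow_mul]
  rw [e3] at g2
  rw [neg_pow, hN, mul_zero, sub_zero, sub_neg_eq_add] at e1 e2
  generalize ∑ k ∈ Finset.range N, (-(b * s)) ^ k = w at *
  obtain ⟨k1, a1, b1⟩ := (neg_mem g2).1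
  obtain ⟨k2, a2, b2⟩ := h1 0
  obtain ⟨k3, a3, b3⟩ := h2 0
  obtain ⟨k4, a4, b4⟩ := (neg_mem g1).1
  simp only [pow_zero, mul_one] at b2 b3
  have key : ∀ n, 2 • (s * (b * s) ^ (n + 1)) + s * (b * s) ^ (n + 2) ∈ Z ⁅K, K⁆ s := fun n => by
    refine ⟨?_, ⟨2 • (b * s) ^ (n + 1) + (b * s) ^ (n + 2), by rw [mul_add, mul_smul_comm]⟩, by
      rw [add_mul, smul_mul_assoc, sts hs, sts hs]; simp⟩
    obtain ⟨x, a5, b5⟩ := h1 n
    refine ⟨⁅k1 * k2 * k3 * k4, x⁆, commutator_mem_commutator (mul_mem (mul_mem (mul_mem a1 a2) a3) a4) a5, ?_⟩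
    rw [← (x * (k1 * k2 * k3 * k4)).mul_left_inj, ← Units.val_mul, show ⁅k1 * k2 * k3 * k4, x⁆ * (x * (k1 * k2 * k3 * k4)) =
      k1 * k2 * k3 * k4 * x by rw [commutatorElement_def]; group]
    have s0 := sts (b := b) hs n
    have s1 := sts (b := b) hs (n + 1)
    have s2 := sts (b := b) hs (n + 2)
    have c := ((Commute.refl (b * s)).pow_right n).eq
    rw [pow_succ'] at s1
    rw [pow_succ', pow_succ'] at s2
    rw [pow_succ', pow_succ', pow_succ']
    generalize (b * s) ^ n = c' at *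
    have f1 : ((k1 * k2 * k3 * k4 : Rˣ) : R) * (s * c') = s * c' + s * (b * s * c') := by
      have t1 : (k4 : R) * (s * c') = s * c' := by
        rw [b4, add_mul, one_mul, neg_mul, ← mul_assoc, g1.2.2]; simp
      have t2 : (k2 : R) * (k3 * (s * c')) = s * c' + s * (b * s * c') + b * s * c' := by
        rw [b2, b3]
        calc _ = s * c' + s * (b * s * c') + b * s * c' + s * s * c' := by noncomm_ring
          _ = _ := by rw [hs]; simp
      simp only [Units.val_mul, mul_assoc]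
      rw [t1, t2, b1]
      calc _ = s * c' + s * (b * s * c') + b * s * c' - w * (1 + b * s) * (b * s * c') - w * (b * b) * s * c' := by noncomm_ring
        _ = _ := by rw [e2, hb]; noncomm_ring
    have f2 : (s * c' + (2 • (s * (b * s * c')) + s * (b * s * (b * s * c')))) * ((k1 * k2 * k3 * k4 : Rˣ) : R) =
        s * c' + s * (b * s * c') := by
      obtain ⟨e, he⟩ : ∃ e, e = s * c' + s * (b * s * c') := ⟨_, rfl⟩
      have t0 : e * s = 0 := by rw [he, add_mul, s0, s1, add_zero]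
      have t1 : s * c' + (2 • (s * (b * s * c')) + s * (b * s * (b * s * c'))) = e * (1 + b * s) := by
        rw [he]
        calc _ = s * c' + s * (b * s * c') + s * (b * s * c') + s * (b * s * (b * s * c')) := by noncomm_ring
          _ = s * c' + s * (b * s * c') + s * (c' * (b * s)) + s * (b * s * (c' * (b * s))) := by rw [← c]
          _ = _ := by noncomm_ring
      rw [← he, t1]
      simp only [Units.val_mul, ← mul_assoc]
      rw [b1, b2, b3, b4]
      calc _ = (e * (1 + b * s) - e * ((1 + b * s) * w) * b) * (1 + s) * (1 + b) * (1 + -(s * w)) := by noncomm_ring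
        _ = (e + e * s + e * b * (s * s) - e * (b * b) + e * b * (s * s) * b + e * s * b) * (1 + -(s * w)) := by
          rw [e1]; noncomm_ring
        _ = e * (1 + -(s * w)) := by rw [t0, hs, hb]; simp
        _ = e := by rw [mul_add, mul_neg, ← mul_assoc, t0]; simp
    have f3 : (2 • (s * (b * s * c')) + s * (b * s * (b * s * c'))) * (s * c') = 0 := by
      rw [← mul_assoc, add_mul, smul_mul_assoc, s1, s2]; simp
    rw [Units.val_mul _ x, Units.val_mul x, b5, mul_add, f1, ← f2]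
    generalize 2 • (s * (b * s * c')) + s * (b * s * (b * s * c')) = z at *
    generalize ((k1 * k2 * k3 * k4 : Rˣ) : R) = h
    calc _ = (1 + z) * ((1 + s * c') * h) - z * (s * c') * h := by noncomm_ring
      _ = _ := by rw [f3]; simp
  suffices h : ∀ k n, N ≤ n + k → s * (b * s) ^ (n + 1) ∈ Z ⁅K, K⁆ s from (h N n (by omega)).1
  intro k
  induction k with
  | zero => intro n hn; rw [pow_eq_zero_of_le (by omega) hN, mul_zero]; exact zero_mem _
  | succ k ih =>
    intro n hn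
    obtain ⟨m, rfl⟩ := hp
    have := neg_mem (nsmul_mem (sub_mem (key n) (ih (n + 1) (by omega))) m)
    rw [add_sub_cancel_right, ← mul_nsmul, neg_eq_of_add_eq_zero_right (b := s * (b * s) ^ (n + 1))] at this
    · exact this
    · rw [← succ_nsmul, nsmul_eq_mul, h0, zero_mul]

theorem two [Finite R] [hp : Fact p.Prime] (ho : Odd p) (h0 : (p : R) = 0) {I : AddSubgroup R}
    (hI : ∀ x ∈ I, ∀ y ∈ I, x * y ∈ I) {N : ℕ} (hN : ∀ x ∈ I, x ^ N = 0) {s b : R} (hs : s * s = 0) (hb : b * b = 0)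
    (sI : s ∈ I) (bI : b ∈ I) (h1 : In K s) (h2 : In K b) (n : ℕ) : In K (s * (b * s) ^ n) := by
  have m : ∀ s b, s ∈ I → b ∈ I → ∀ n, s * (b * s) ^ n ∈ I := fun s b hs hb n => by
    induction n with
    | zero => simpa
    | succ n ih => rw [pow_succ, ← mul_assoc]; exact hI _ ih _ (hI _ hb _ hs)
  have q : ∀ s b : R, s * s = 0 → ∀ n, (1 + s * (b * s) ^ n) * (1 + -(s * (b * s) ^ n)) = 1 ∧
      (1 + -(s * (b * s) ^ n)) * (1 + s * (b * s) ^ n) = 1 := fun s b hs n => by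
    have : s * (b * s) ^ n * (s * (b * s) ^ n) = 0 := by rw [← mul_assoc, sts hs, zero_mul]
    constructor <;> simp [add_mul, mul_add, this]
  let L : Subgroup Rˣ := closure {u | (∃ n, (u : R) = 1 + s * (b * s) ^ n) ∨ ∃ n, (u : R) = 1 + b * (s * b) ^ n}
  have l1 : ∀ n, In L (s * (b * s) ^ n) := fun n => ⟨⟨_, _, (q s b hs n).1, (q s b hs n).2⟩, subset_closure (.inl ⟨n, rfl⟩), rfl⟩
  have l2 : ∀ n, In L (b * (s * b) ^ n) := fun n => ⟨⟨_, _, (q b s hb n).1, (q b s hb n).2⟩, subset_closure (.inr ⟨n, rfl⟩), rfl⟩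
  have l3 : ∀ u ∈ L, (u : R) - 1 ∈ I := fun u hu => by
    induction hu using closure_induction'' with
    | mem u hu => rcases hu with ⟨n, e⟩ | ⟨n, e⟩ <;> rw [e, add_sub_cancel_left] <;> apply m <;> assumption
    | inv_mem u hu =>
      rcases hu with ⟨n, e⟩ | ⟨n, e⟩
      · rw [Units.inv_eq_of_mul_eq_one_right (e ▸ (q s b hs n).1), add_sub_cancel_left]; exact neg_mem (m _ _ sI bI n)
      · rw [Units.inv_eq_of_mul_eq_one_right (e ▸ (q b s hb n).1), add_sub_cancel_left]; exact neg_mem (m _ _ bI sI n)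
    | one => simp
    | mul u v _ _ a c =>
      rw [show ((u * v : Rˣ) : R) - 1 = (u - 1) + (v - 1) + (u - 1) * (v - 1) by rw [Units.val_mul]; noncomm_ring]
      exact add_mem (add_mem a c) (hI _ a _ c)
  have l4 : IsPGroup p L := fun u => ⟨N, Subtype.ext (Units.ext (by
    have := (Commute.one_left ((u : Rˣ) - 1 : R)).add_pow_prime_pow_eq hp.out N
    rw [h0, pow_eq_zero_of_le (Nat.lt_pow_self hp.out.one_lt).le (hN _ (l3 u u.2))] at this
    simpa using this))⟩
  have l5 : ∀ u : Rˣ, ∀ r, (u : R) = 1 + r → u ∈ L → (In K r ∨ In ⁅L, L⁆ r) → u ∈ K ⊓ L ⊔ (frattini L).map L.subtype :=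
    fun u r e hu h => by
      rcases h with ⟨k, a, c⟩ | ⟨k, a, c⟩ <;> rw [← e, Units.val_inj] at c <;> subst c
      · exact mem_sup_left ⟨a, hu⟩
      · exact mem_sup_right (commutator_le_map_frattini l4 a)
  refine (l1 n).mono ((eq_of_le_sup_frattini (K := K ⊓ L) inf_le_right ((closure_le _).2 fun u hu => ?_)).ge.trans inf_le_left)
  rcases id hu with ⟨_ | n, e⟩ | ⟨_ | n, e⟩ <;> refine l5 u _ e (subset_closure hu) ?_
  · exact .inl (by simpa)
  · exact .inr (comm ho h0 hs hb (hN _ (hI _ bI _ sI)) l1 l2 n)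
  · exact .inl (by simpa)
  · exact .inr (comm ho h0 hb hs (hN _ (hI _ sI _ bI)) l2 l1 n)

end H04.Ly
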