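import Cfsg.Agent.H04.Ly1

/-! Limits of quadratic offenders: a quadratic offender normalised by all quadratic elements. -/

set_option autoImplicit false
open Subgroup

namespace H04.Ly

theorem cnt {G G' G'' : Type*} [AddGroup G] [AddGroup G'] [Finite G] [Finite G'] [Finite G''] (D : AddSubgroup G) (φ : G →+ G')
    (E : AddSubgroup G') (S : Set G'') (ψ : G → G'') (h1 : ∀ x ∈ D, φ x ∈ E) (h2 : ∀ x ∈ D, φ x = 0 → ψ x ∈ S)
    (h3 : ∀ x y, φ x = 0 → φ y = 0 → ψ x = ψ y → x = y) : Nat.card D ≤ Nat.card E * Nat.card S := by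
  rw [← (φ.ker.addSubgroupOf D).card_mul_index, mul_comm]
  refine Nat.mul_le_mul ((AddSubgroup.relIndex_ker D φ).trans_le (AddSubgroup.card_le_of_le ?_))
    (Nat.card_le_card_of_injective (fun x => ⟨ψ x.1.1, h2 _ x.1.2 x.2⟩) fun x y e =>
      Subtype.ext (Subtype.ext (h3 _ _ x.2 y.2 (congrArg Subtype.val e))))
  rintro _ ⟨x, hx, rfl⟩
  exact h1 x hx

variable {R M : Type*} [Ring R] [AddCommGroup M] [Module R M] {p : ℕ} {H : Subgroup Rˣ}

def T (b : R) (A X Y : AddSubgroup R) : AddSubgroup (R × R) where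
  carrier := {q | q.1 ∈ X ∧ q.2 ∈ Y ∧ q.1 * b - b * q.1 - b * q.2 * b ∈ A}
  zero_mem' := ⟨zero_mem _, zero_mem _, by simp⟩
  add_mem' := fun {x y} h h' => ⟨add_mem h.1 h'.1, add_mem h.2.1 h'.2.1, by
    convert add_mem h.2.2 h'.2.2 using 1; simp only [Prod.fst_add, Prod.snd_add]; noncomm_ring⟩
  neg_mem' := fun {x} h => ⟨neg_mem h.1, neg_mem h.2.1, by
    convert neg_mem h.2.2 using 1; simp only [Prod.fst_neg, Prod.snd_neg]; noncomm_ring⟩

def ph (b : R) : (R × R) × R →+ R := AddMonoidHom.mk' (fun q => q.1.1 + (q.1.2 * b - b * q.1.2 - b * q.2 * b)) fun x y => by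
  simp only [Prod.fst_add, Prod.snd_add]; noncomm_ring

def St (b : R) (A : AddSubgroup R) : AddSubgroup R := ((T b A A A).prod A).map (ph b)

def Cm (M : Type*) [AddCommGroup M] [Module R M] (A : AddSubgroup R) : AddSubgroup M where
  carrier := {w | ∀ a ∈ A, a • w = 0}
  zero_mem' := fun a _ => smul_zero a
  add_mem' := fun h h' a ha => by rw [smul_add, h a ha, h' a ha, add_zero]
  neg_mem' := fun h a ha => by rw [smul_neg, h a ha, neg_zero]

theorem cnt_St [Finite R] (b : R) {A X₀ X₁ X₂ : AddSubgroup R} (J : AddSubgroup R) (h0 : X₀ ≤ A) (h1 : X₁ ≤ A) (h2 : X₂ ≤ A)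
    (hJ : ∀ x ∈ X₂, ∀ y ∈ X₁, ∀ z ∈ X₀, ph b ((x, y), z) ∈ J) :
    Nat.card (T b A X₂ X₁) * Nat.card X₀ ≤ Nat.card (St b A ⊓ J : AddSubgroup R) * Nat.card (T b A X₁ X₀) := by
  rw [← Nat.card_prod, ← Nat.card_congr (AddSubgroup.prodEquiv _ _).toEquiv]
  refine cnt ((T b A X₂ X₁).prod X₀) (ph b) (St b A ⊓ J) (T b A X₁ X₀) (fun q => (q.1.2, q.2)) (fun q hq =>
    AddSubgroup.mem_inf.2 ⟨AddSubgroup.mem_map_of_mem _ (show q ∈ (T b A A A).prod A from ⟨⟨h2 hq.1.1, h1 hq.1.2.1, hq.1.2.2⟩,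
      h0 hq.2⟩), hJ _ hq.1.1 _ hq.1.2.1 _ hq.2⟩) (fun q hq e => ?_) fun x y hx hy e => ?_
  · refine ⟨hq.1.2.1, hq.2, ?_⟩
    rw [eq_neg_of_add_eq_zero_right e]; exact neg_mem (h2 hq.1.1)
  · obtain ⟨e1, e2⟩ := Prod.ext_iff.1 e
    refine Prod.ext (Prod.ext ?_ e1) e2
    rw [eq_neg_of_add_eq_zero_left hx, eq_neg_of_add_eq_zero_left hy]
    simp only at e1 e2
    rw [e1, e2]

theorem cnt_Cm [Finite M] {b : R} (hb : b * b = 0) (A : AddSubgroup R) : Nat.card (Cm M A) ≤ Nat.card (Cm M (St b A)) := by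
  let f : M →+ M := DistribSMul.toAddMonoidHom M b
  have := cnt ((Cm M A ⊓ (Cm M A).comap f).prod (Cm M A)) (AddMonoidHom.coprod (.id M) f) (Cm M (St b A))
    (Cm M A ⊓ (Cm M A).comap f : AddSubgroup M) Prod.snd (fun w hw => ?_) (fun w hw e => ?_) fun x y hx hy e => ?_
  · rw [Nat.card_congr (AddSubgroup.prodEquiv _ _).toEquiv, Nat.card_prod, mul_comm] at this
    exact Nat.le_of_mul_le_mul_right this Nat.card_pos
  · rintro _ ⟨⟨⟨a, a'⟩, a''⟩, ⟨⟨h1, h2, h3⟩, h4⟩, rfl⟩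
    have w1 := hw.1.1
    have w2 : ∀ a ∈ A, (a * b) • w.1 = 0 := fun a ha => by rw [mul_smul]; exact hw.1.2 a ha
    have w3 := hw.2
    show (a + (a' * b - b * a' - b * a'' * b)) • (w.1 + b • w.2) = 0
    rw [smul_add, ← mul_smul, show (a + (a' * b - b * a' - b * a'' * b)) * b =
      (a * b - b * a - b * a' * b) + b * a + (a' - b * a'') * (b * b) by noncomm_ring, hb, mul_zero, add_zero, add_smul _ _ w.2,
      w3 _ h3, mul_smul, w3 _ h1, add_smul, sub_smul, sub_smul, w1 _ h1, w2 _ h2, mul_smul, w1 _ h2, mul_assoc, mul_smul, w2 _ h4]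
    simp
  · refine ⟨hw.2, show b • w.2 ∈ Cm M A from ?_⟩
    rw [(eq_neg_of_add_eq_zero_right e : b • w.2 = _)]; exact neg_mem (show w.1 ∈ Cm M A from hw.1.1)
  · refine Prod.ext ?_ e
    rw [(eq_neg_of_add_eq_zero_left hx : x.1 = -(b • x.2)), (eq_neg_of_add_eq_zero_left hy : y.1 = -(b • y.2)), e]

theorem T_rel {b : R} {A : AddSubgroup R} (hA : ∀ a ∈ A, ∀ a' ∈ A, a * a' = 0) {a a' s : R} (h : (a, a') ∈ T b A A A)
    (hs : s ∈ A) : s * b * a' * b = -(s * b * a) ∧ b * a' * b * s = a * b * s := by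
  have h1 := hA _ hs _ h.2.2
  have h2 := hA _ h.2.2 _ hs
  simp only at h1 h2
  constructor
  · calc _ = s * a * b - s * b * a - s * (a * b - b * a - b * a' * b) := by noncomm_ring
      _ = _ := by rw [h1, hA _ hs _ h.1]; simp
  · calc _ = a * b * s - b * (a * s) - (a * b - b * a - b * a' * b) * s := by noncomm_ring
      _ = _ := by rw [h2, hA _ h.1 _ hs]; simp

theorem St_mul {b : R} (hb : b * b = 0) {A : AddSubgroup R} (hA : ∀ a ∈ A, ∀ a' ∈ A, a * a' = 0) :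
    ∀ a ∈ St b A, ∀ a' ∈ St b A, a * a' = 0 := by
  rintro _ ⟨⟨⟨a, a'⟩, a''⟩, ⟨h1, h2⟩, rfl⟩ _ ⟨⟨⟨c, c'⟩, c''⟩, ⟨h3, h4⟩, rfl⟩
  have e1 := (T_rel hA h1 h3.2.1).2
  have e2 := (T_rel hA h1 h4).2
  have e3 := (T_rel hA h3 h1.2.1).1
  have e4 := (T_rel hA h3 h2).1
  show (a + (a' * b - b * a' - b * a'' * b)) * (c + (c' * b - b * c' - b * c'' * b)) = 0
  calc _ = a * c + a * c' * b - b * (a' * c) - b * (a' * c') * b + (b * a'' - a') * (b * b) * (c' + c'' * b) +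
      (b * a' * b * c' - a * b * c') + (b * a' * b * c'' - a * b * c'') * b + (a' * b * c' * b + a' * b * c) -
        b * (a'' * b * c' * b + a'' * b * c) := by noncomm_ring
    _ = 0 := by
      simp only at e1 e2 e3 e4
      rw [e1, e2, e3, e4, hb, hA _ h1.1 _ h3.1, hA _ h1.1 _ h3.2.1, hA _ h1.2.1 _ h3.1, hA _ h1.2.1 _ h3.2.1]; simp

theorem St_In [Finite R] [hp : Fact p.Prime] (ho : Odd p) (h0 : (p : R) = 0) {I : AddSubgroup R}
    (hI : ∀ x ∈ I, ∀ y ∈ I, x * y ∈ I) {N : ℕ} (hN : ∀ x ∈ I, x ^ N = 0) (hH : ∀ r, In H r → r ∈ I) {b : R} (hb : b * b = 0)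
    (hb' : In H b) {A : AddSubgroup R} (hA : ∀ a ∈ A, ∀ a' ∈ A, a * a' = 0) (hA' : ∀ a ∈ A, In H a) :
    ∀ a ∈ St b A, In H a := by
  have nb : In H (-b) := hb'.inv (by simp [add_mul, mul_add, hb])
  have k1 : ∀ s ∈ A, In H (-(b * s * b)) := fun s hs => by
    simpa [mul_assoc] using two ho h0 hI hN hb (hA _ (neg_mem hs) _ (neg_mem hs)) (hH _ hb') (hH _ (hA' _ (neg_mem hs))) hb'
      (hA' _ (neg_mem hs)) 1
  have k2 : ∀ a a', (a, a') ∈ T b A A A → In H (ph b ((a, a'), a')) := fun a a' h => by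
    obtain ⟨s, e⟩ : ∃ s, s = a - a' := ⟨_, rfl⟩
    have hs : s ∈ A := e ▸ sub_mem h.1 h.2.1
    have ss := hA _ hs _ hs
    have e1 := T_rel hA h hs
    have e2 := hA _ hs _ h.2.1
    have e3 := hA _ h.1 _ hs
    have e4 := hA _ h.2.1 _ hs
    have g := (hA' _ hs).mul ((nb.mul (hA' _ h.2.1) (r'' := a' - b - b * a') (by noncomm_ring)).mul hb'
      (r'' := a' + a' * b - b * a' - b * a' * b) (by
        calc _ = 1 + (a' + a' * b - b * a' - b * a' * b) - b * b := by noncomm_ring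
          _ = _ := by rw [hb, sub_zero])) (r'' := ph b ((a, a'), a') + s * b * s) (by
        show _ = 1 + (a + (a' * b - b * a' - b * a' * b) + s * b * s)
        calc _ = 1 + (s + a' + (a' * b - b * a' - b * a' * b)) + s * a' * (1 + b) - s * b * a' - s * b * a' * b := by noncomm_ring
          _ = _ := by simp only at e1 e2; rw [e1.1, e2, e]; noncomm_ring)
    have z : ∑ k ∈ Finset.range N, s * (b * s) ^ (k + 1) ∈ Z H s := sum_mem fun k _ =>
      mem_Z ss (two ho h0 hI hN ss hb (hH _ (hA' _ hs)) (hH _ hb') (hA' _ hs) hb' _)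
    have v : ph b ((a, a'), a') * s = -(s * b * s) := by
      show (a + (a' * b - b * a' - b * a' * b)) * s = _
      calc _ = a * s - b * (a' * s) + a' * b * s - b * a' * b * s := by noncomm_ring
        _ = _ := by simp only at e1 e3 e4; rw [e1.2, e3, e4, e]; noncomm_ring
    have t := mul_neg_geom_sum (b * s) N
    rw [hN _ (hI _ (hH _ hb') _ (hH _ (hA' _ hs))), sub_zero] at t
    have z2 := z.2.2
    simp only [pow_succ', ← Finset.mul_sum] at z z2
    generalize ∑ k ∈ Finset.range N, (b * s) ^ k = w at *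
    generalize ph b ((a, a'), a') = u at *
    refine g.mul (neg_mem z).1 ?_
    calc _ = 1 + u + s * b * s - s * (b * s * w) - u * s * (b * s * w) - s * b * (s * s) * (b * s * w) := by noncomm_ring
      _ = 1 + u + s * b * s - s * b * s * ((1 - b * s) * w) := by rw [v, ss]; noncomm_ring
      _ = _ := by rw [t]; simp
  rintro _ ⟨⟨⟨a, a'⟩, a''⟩, ⟨h1, h2⟩, rfl⟩
  have h3 : a'' - a' ∈ A := A.sub_mem h2 h1.2.1
  refine (k2 a a' h1).mul (k1 _ h3) ?_
  have := St_mul hb hA _ ⟨((a, a'), a'), ⟨h1, h1.2.1⟩, rfl⟩ _ ⟨(0, a'' - a'), ⟨zero_mem _, h3⟩, rfl⟩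
  rw [add_mul, mul_add, mul_add, show -(b * (a'' - a') * b) = ph b (0, a'' - a') by simp [ph], this]
  simp only [ph, AddMonoidHom.mk'_apply, Prod.fst_zero, Prod.snd_zero]
  noncomm_ring

def F (R : Type*) [Ring R] [Module R M] (V : ℕ → AddSubgroup M) (n : ℕ) : AddSubgroup R where
  carrier := {r | ∀ k, ∀ v ∈ V k, r • v ∈ V (k + n)}
  zero_mem' := fun k v _ => by simp
  add_mem' := fun h h' k v hv => by rw [add_smul]; exact add_mem (h k v hv) (h' k v hv)
  neg_mem' := fun h k v hv => by rw [neg_smul]; exact neg_mem (h k v hv)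

theorem F_mul {V : ℕ → AddSubgroup M} (hV : Antitone V) {m n k : ℕ} (h : k ≤ m + n) {x y : R} (hx : x ∈ F R V m)
    (hy : y ∈ F R V n) : x * y ∈ F R V k := fun j v hv => by
  rw [mul_smul]; exact hV (by omega) (hx _ _ (hy j v hv))

def Good (M : Type*) [AddCommGroup M] [Module R M] (H : Subgroup Rˣ) (A : AddSubgroup R) : Prop :=
  (∀ a ∈ A, ∀ a' ∈ A, a * a' = 0) ∧ (∀ a ∈ A, In H a) ∧ A ≠ ⊥ ∧ Nat.card M ≤ Nat.card A * Nat.card (Cm M A)

theorem ring_main [Finite R] [Finite M] [FaithfulSMul R M] [hp : Fact p.Prime] (ho : Odd p) (h0 : (p : R) = 0)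
    {V : ℕ → AddSubgroup M} (hV : Antitone V) (V0 : V 0 = ⊤) {N : ℕ} (VN : V N = ⊥) (hH : ∀ r, In H r → r ∈ F R V 1)
    (h : ∃ A, Good M H A) : ∃ A, Good M H A ∧ ∀ b, In H b → b * b = 0 → ∀ a ∈ A, a + (a * b - b * a - b * a * b) ∈ A := by
  have f0 : ∀ n, N ≤ n → F R V n = ⊥ := fun n hn => eq_bot_iff.2 fun r hr => eq_of_smul_eq_smul (α := M) fun v => by
    have := hV (by omega : N ≤ 0 + n) (hr 0 v (V0 ▸ trivial))
    rw [VN] at this
    simpa using this
  have f1 : ∀ x ∈ F R V 1, ∀ n, x ^ n ∈ F R V n := fun x hx n => by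
    induction n with
    | zero => intro k v hv; simpa
    | succ n ih => rw [pow_succ]; exact F_mul hV le_rfl ih hx
  let J : ℕ → AddSubgroup R := fun n => F R V (n - 2 + 1)
  obtain ⟨A, hA, mx⟩ := Set.exists_max_image {A | Good M H A}
    (fun A => ∏ n ∈ Finset.range N, Nat.card (A ⊓ J (n + 2) : AddSubgroup R)) (Set.toFinite _) h
  refine ⟨A, hA, fun b hb bb a ha => ?_⟩
  have c := cnt_St b ⊤ (le_refl A) le_rfl le_rfl fun _ _ _ _ _ _ => trivial
  rw [inf_top_eq, mul_comm] at c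
  replace c := Nat.le_of_mul_le_mul_right c Nat.card_pos
  have g : Good M H (St b A) := ⟨St_mul bb hA.1, St_In ho h0 (fun _ hx _ hy => F_mul hV (by omega) hx hy) (N := N)
    (fun x hx => by simpa [f0 N le_rfl] using f1 x hx N) hH bb hb hA.1 hA.2.1, fun e => hA.2.2.1 (by
      rwa [e, AddSubgroup.card_bot, AddSubgroup.card_le_one_iff_eq_bot] at c),
    hA.2.2.2.trans (Nat.mul_le_mul c (cnt_Cm bb A))⟩
  have t : ∀ k, (∏ n ∈ Finset.range k, Nat.card (A ⊓ J n : AddSubgroup R)) * Nat.card (T b A (A ⊓ J (k + 1)) (A ⊓ J k)) ≤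
      (∏ n ∈ Finset.range k, Nat.card (St b A ⊓ J (n + 2) : AddSubgroup R)) * Nat.card (T b A (A ⊓ J 1) (A ⊓ J 0)) := fun k => by
    induction k with
    | zero => simp
    | succ k ih =>
      have b1 := hH b hb
      have := cnt_St b (J (k + 2)) (inf_le_left : A ⊓ J k ≤ A) (inf_le_left : A ⊓ J (k + 1) ≤ A)
        (inf_le_left : A ⊓ J (k + 2) ≤ A) fun x hx y hy z hz => add_mem hx.2 (sub_mem (sub_mem
          (F_mul hV (by omega) hy.2 b1) (F_mul hV (by omega) b1 hy.2)) (F_mul hV (by omega) (F_mul hV le_rfl b1 hz.2) b1))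
      rw [Finset.prod_range_succ, Finset.prod_range_succ, mul_assoc, mul_comm (Nat.card (A ⊓ J k : AddSubgroup R)),
        mul_right_comm _ (Nat.card _)]
      refine (Nat.mul_le_mul_left _ this).trans ?_
      rw [mul_comm (Nat.card _), ← mul_assoc]
      exact Nat.mul_le_mul_right _ ih
  have j : A ⊓ J 0 = A := inf_eq_left.2 fun a ha => hH a (hA.2.1 a ha)
  have t2 := t (N + 2)
  rw [Finset.prod_range_succ', Finset.prod_range_succ', Finset.prod_range_succ, Finset.prod_range_succ, show J 1 = J 0 from rfl, j,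
    show J (N + 2) = ⊥ from f0 _ (by omega), show J (N + 1 + 2) = ⊥ from f0 _ (by omega)] at t2
  simp only [inf_bot_eq, AddSubgroup.card_bot, mul_one] at t2
  have t3 := (Nat.le_mul_of_pos_right _ Nat.card_pos).trans (t2.trans (Nat.mul_le_mul_right _ (mx _ g)))
  rw [mul_assoc] at t3
  have t4 : T b A A A = A.prod A := AddSubgroup.eq_of_le_of_card_ge (fun q hq => ⟨hq.1, hq.2.1⟩) (by
    rw [Nat.card_congr (AddSubgroup.prodEquiv _ _).toEquiv, Nat.card_prod]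
    exact Nat.le_of_mul_le_mul_left t3 (Finset.prod_pos fun _ _ => Nat.card_pos))
  exact add_mem ha (t4.ge (show (a, a) ∈ A.prod A from ⟨ha, ha⟩)).2.2

end H04.Ly
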