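import Cfsg.Agent.H04.Ly2
import Cfsg.Agent.S0599

/-! Lynd's theorem: an F-module for a `p`-group (`p` odd) has a 2-subnormal quadratic offender. -/

set_option autoImplicit false
open Subgroup Cfsg
open scoped commutatorElement IsMulCommutative

namespace H04.Ly

variable {Ω : Type*} [Group Ω] {p : ℕ} {V G : Subgroup Ω}

local notation "C_(" X ")" => Subgroup.centralizer ((X : Subgroup Ω) : Set Ω)

def rho [IsMulCommutative V] (h : G ≤ normalizer (V : Set Ω)) : G →* Module.End ℤ (Additive V) where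
  toFun g := (MonoidHom.toAdditive (V.normalizerMonoidHom (inclusion h g)).toMonoidHom).toIntLinearMap
  map_one' := by rw [map_one, map_one]; rfl
  map_mul' := by intros; rw [map_mul, map_mul]; rfl

theorem rho_sub [IsMulCommutative V] (h : G ≤ normalizer (V : Set Ω)) (g : G) (v : Additive V) :
    ((((rho h g - 1) • v).toMul : V) : Ω) = ⁅(g : Ω), (v.toMul : Ω)⁆ := by
  rw [sub_smul, one_smul, toMul_sub, div_eq_mul_inv]; rfl

theorem quad [Finite Ω] [Fact p.Prime] (hV : IsElementaryAbelian p V) (hGV : G ≤ normalizer (V : Set Ω))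
    (hf : G ⊓ C_(V) = ⊥) (hF : ∃ E : Subgroup Ω, E ≤ G ∧ E ≠ ⊥ ∧ IsElementaryAbelian p E ∧
      Nat.card V ≤ Nat.card E * Nat.card ↥(V ⊓ C_(E))) :
    ∃ A : Subgroup Ω, A ≤ G ∧ A ≠ ⊥ ∧ Nat.card V ≤ Nat.card A * Nat.card ↥(V ⊓ C_(A)) ∧ ⁅⁅V, A⁆, A⁆ = ⊥ := by
  obtain ⟨E, e1, e2, e3, e4⟩ := hF
  obtain ⟨B, ⟨b1, b2⟩, mx⟩ := Set.exists_max_image {B | B ≤ E ∧ B ≠ ⊥} (fun B => Nat.card B * Nat.card ↥(V ⊓ C_(B)))
    (Set.toFinite _) ⟨E, le_rfl, e2⟩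
  have b0 : Nat.card (⊥ : Subgroup Ω) * Nat.card ↥(V ⊓ C_(⊥)) = Nat.card V := by
    rw [card_bot, one_mul, inf_eq_left.2 fun x _ y hy => by simp [mem_bot.1 hy]]
  obtain ⟨c1, -, c3⟩ := Cfsg.Agent.S0599.result V B hV (b1.trans (e1.trans hGV)) ⟨fun C hC => by
    by_cases h : C = ⊥
    · rw [h, b0]; exact e4.trans (mx E ⟨le_rfl, e2⟩)
    · exact mx C ⟨hC.trans b1, h⟩, by
      have := e3.1
      rw [commutator_eq_bot_iff_le_centralizer.2 (b1.trans ((le_centralizer E).trans (centralizer_le b1)))]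
      exact bot_le, fun a ha => by rw [e3.2 a (b1 ha)]; exact one_mem _⟩ V le_rfl
  refine ⟨_, inf_le_left.trans (b1.trans e1), fun e => c3 (fun h => b2 (eq_bot_iff.2 (hf ▸ le_inf (b1.trans e1) ?_))) ?_,
    b0 ▸ c1.1 ⊥ bot_le, eq_bot_iff.2 ((commutator_mono (commutator_mono le_rfl inf_le_left) inf_le_right).trans ?_)⟩
  · rwa [commutator_comm, commutator_eq_bot_iff_le_centralizer] at h
  · rw [e, commutator_bot_right]
  · rw [commutator_comm, le_bot_iff, commutator_eq_bot_iff_le_centralizer]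

theorem lynd [Finite Ω] [hp : Fact p.Prime] (ho : Odd p) (hV : IsElementaryAbelian p V) (hG : IsPGroup p G)
    (hGV : G ≤ normalizer (V : Set Ω)) (hf : G ⊓ C_(V) = ⊥) (hF : ∃ E : Subgroup Ω, E ≤ G ∧ E ≠ ⊥ ∧
      IsElementaryAbelian p E ∧ Nat.card V ≤ Nat.card E * Nat.card ↥(V ⊓ C_(E))) :
    ∃ A : Subgroup Ω, A ≤ G ∧ A ≠ ⊥ ∧ IsElementaryAbelian p A ∧ Nat.card V ≤ Nat.card A * Nat.card ↥(V ⊓ C_(A)) ∧
      ⁅⁅V, A⁆, A⁆ = ⊥ ∧ ∀ g ∈ closure {x : Ω | ∃ h ∈ G, ∃ a ∈ A, x = h * a * h⁻¹}, ∀ a ∈ A, g * a * g⁻¹ ∈ A := by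
  have := hV.1
  let r := rho hGV
  have : Finite (Module.End ℤ (Additive V)) := Finite.of_injective _ DFunLike.coe_injective
  have p0 : (p : Module.End ℤ (Additive V)) = 0 := by
    ext v
    simpa using hV.2 _ v.toMul.2
  have r1 : ∀ (g : G) (v : Additive V), (r g - 1) • v = 0 ↔ (g : Ω) * v.toMul = v.toMul * g := fun g v => by
    rw [← commutatorElement_eq_one_iff_mul_comm, ← rho_sub hGV, OneMemClass.coe_eq_one, toMul_eq_one]
  have inj : Function.Injective r := (injective_iff_map_eq_one r).2 fun g e => Subtype.ext (mem_bot.1 (hf ▸ ⟨g.2,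
    fun v hv => ((r1 g (.ofMul ⟨v, hv⟩)).1 (by simp [e])).symm⟩))
  have hin : ∀ x, In r.toHomUnits.range x ↔ ∃ g, r g - 1 = x := fun x =>
    ⟨fun ⟨_, ⟨g, rfl⟩, e⟩ => ⟨g, sub_eq_of_eq_add' e⟩, fun ⟨g, e⟩ => ⟨_, ⟨g, rfl⟩, by simp [← e]⟩⟩
  have q : ∀ A : Subgroup Ω, (hA : A ≤ G) → (⁅⁅V, A⁆, A⁆ = ⊥ ↔ ∀ a : G, a.1 ∈ A → ∀ b : G, b.1 ∈ A → (r a - 1) * (r b - 1) = 0) :=
    fun A hA => by
      rw [commutator_eq_bot_iff_le_centralizer, commutator_comm, commutator_le]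
      refine ⟨fun h a ha b hb => eq_of_smul_eq_smul (α := Additive V) fun v => ?_, fun h b hb v hv a ha => ?_⟩
      · rw [mul_smul, zero_smul, r1, rho_sub]; exact h _ hb _ v.toMul.2 _ ha
      · have := (r1 ⟨a, hA ha⟩ ((r ⟨b, hA hb⟩ - 1) • .ofMul ⟨v, hv⟩)).1 (by rw [← mul_smul, h _ ha _ hb, zero_smul])
        rwa [rho_sub] at this
  have cc : ∀ (A : Subgroup Ω) (B : AddSubgroup (Module.End ℤ (Additive V))), A ≤ G → (∀ g : G, g.1 ∈ A ↔ r g - 1 ∈ B) →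
      (∀ x ∈ B, ∃ g, r g - 1 = x) → Nat.card A = Nat.card B ∧ Nat.card ↥(V ⊓ C_(A)) = Nat.card (Cm (Additive V) B) :=
    fun A B hA h h' => ⟨Nat.card_congr (Equiv.ofBijective (fun a => ⟨r ⟨a, hA a.2⟩ - 1, (h _).1 a.2⟩) ⟨fun a b e =>
      Subtype.ext (Subtype.ext_iff.1 (inj (sub_left_injective (congrArg Subtype.val e))) :), fun x => by
        obtain ⟨g, e⟩ := h' x x.2
        exact ⟨⟨g, (h g).2 (e ▸ x.2)⟩, Subtype.ext e⟩⟩), Nat.card_congr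
      ⟨fun v => ⟨.ofMul ⟨v, v.2.1⟩, fun x hx => by
        obtain ⟨g, rfl⟩ := h' x hx
        exact (r1 g _).2 (v.2.2 _ ((h g).2 hx))⟩, fun v => ⟨v.1.toMul, v.1.toMul.2, fun a ha =>
          (r1 ⟨a, hA ha⟩ _).1 (v.2 _ ((h _).1 ha))⟩, fun _ => rfl, fun _ => rfl⟩⟩
  have m : ∀ a b : G, r (a * b) - 1 = (r a - 1) + (r b - 1) + (r a - 1) * (r b - 1) := fun a b => by
    rw [map_mul]; noncomm_ring
  have mi : ∀ a : G, (r a - 1) * (r a - 1) = 0 → r a⁻¹ - 1 = -(r a - 1) := fun a h => by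
    calc _ = -(r a - 1) + r a⁻¹ * ((r a - 1) * (r a - 1)) - (r a⁻¹ * r a - 1) * (r a - 2) := by noncomm_ring
      _ = _ := by rw [h, ← map_mul]; simp
  have sP : IsPGroup p ↥(G ⊔ V) := hG.to_sup_of_normal_right' (fun v => ⟨1, Subtype.ext (by simpa using hV.2 _ v.2)⟩) hGV
  obtain ⟨N, hN⟩ := (isNilpotent_iff_lowerCentralSeries _).1 sP.isNilpotent
  obtain ⟨B, ⟨b1, b2, b3, b4⟩, b5⟩ := ring_main (M := Additive V) (H := r.toHomUnits.range) ho p0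
    (V := fun k => (((G ⊔ V).lowerCentralSeries k).subgroupOf V).toAddSubgroup) (N := N)
    (fun i j h v hv => Subgroup.lowerCentralSeries_antitone _ h hv) (eq_top_iff.2 fun v _ => mem_sup_right v.toMul.2)
    (by simp [hN]) (fun x hx k v hv => by
      obtain ⟨g, rfl⟩ := (hin x).1 hx
      show (((r g - 1) • v).toMul : Ω) ∈ (G ⊔ V).lowerCentralSeries (k + 1)
      rw [rho_sub, Subgroup.lowerCentralSeries_succ, commutator_comm]
      exact commutator_mem_commutator (mem_sup_left g.2) hv) (by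
    obtain ⟨A, a1, a2, a3, a4⟩ := quad hV hGV hf hF
    rw [q A a1] at a4
    let B : AddSubgroup (Module.End ℤ (Additive V)) :=
      { carrier := {x | ∃ g : G, g.1 ∈ A ∧ r g - 1 = x}
        zero_mem' := ⟨1, one_mem _, by simp⟩
        add_mem' := by
          rintro _ _ ⟨a, ha, rfl⟩ ⟨b, hb, rfl⟩
          exact ⟨a * b, mul_mem ha hb, by rw [m, a4 a ha b hb, add_zero]⟩
        neg_mem' := by
          rintro _ ⟨a, ha, rfl⟩
          exact ⟨a⁻¹, inv_mem ha, mi a (a4 a ha a ha)⟩ }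
    obtain ⟨c1, c2⟩ := cc A B a1 (fun g => ⟨fun h => ⟨g, h, rfl⟩, fun ⟨g', h, e⟩ => inj (sub_left_injective e) ▸ h⟩)
      fun x ⟨g, _, e⟩ => ⟨g, e⟩
    refine ⟨B, ?_, fun x ⟨g, _, e⟩ => (hin x).2 ⟨g, e⟩, fun e => a2 (card_eq_one.1 (by rw [c1, e, AddSubgroup.card_bot])),
      c1 ▸ c2 ▸ a3⟩
    rintro _ ⟨a, ha, rfl⟩ _ ⟨b, hb, rfl⟩
    exact a4 a ha b hb)
  let A₀ : Subgroup G :=
    { carrier := {g | r g - 1 ∈ B}
      one_mem' := by simp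
      mul_mem' := fun {a b} ha hb => by
        show _ ∈ B
        rw [m, b1 _ ha _ hb, add_zero]; exact add_mem ha hb
      inv_mem' := fun {a} ha => by
        show _ ∈ B
        rw [mi a (b1 _ ha _ ha)]; exact neg_mem ha }
  have a0 : ∀ g : G, g.1 ∈ A₀.map G.subtype ↔ r g - 1 ∈ B := fun g => mem_map_iff_mem G.subtype_injective
  obtain ⟨c1, c2⟩ := cc _ B (map_subtype_le A₀) a0 fun x hx => (hin x).1 (b2 x hx)
  refine ⟨_, map_subtype_le A₀, fun e => b3 (AddSubgroup.card_eq_one.1 (by rw [← c1, e, card_bot])), ⟨⟨⟨?_⟩⟩, ?_⟩,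
    c1 ▸ c2 ▸ b4, (q _ (map_subtype_le A₀)).2 fun a ha b hb => b1 _ ((a0 a).1 ha) _ ((a0 b).1 hb), fun g hg => ?_⟩
  · rintro ⟨_, a, ha, rfl⟩ ⟨_, b, hb, rfl⟩
    exact Subtype.ext (Subtype.ext_iff.1 (inj (sub_left_injective (show r (a * b) - 1 = r (b * a) - 1 by
      rw [m, m, b1 _ ha _ hb, b1 _ hb _ ha, add_comm (r a - 1)]))) :)
  · rintro _ ⟨a, ha, rfl⟩
    have : ∀ n : ℕ, r (a ^ n) - 1 = n * (r a - 1) := fun n => by
      induction n with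
      | zero => simp
      | succ n ih => rw [pow_succ, m, ih, mul_assoc, b1 _ ha _ ha]; push_cast; noncomm_ring
    exact congrArg Subtype.val (inj (sub_left_injective (show r (a ^ p) - 1 = r 1 - 1 by rw [this, p0]; simp)))
  refine fun a ha => (mem_normalizer_iff.1 ((closure_le (normalizer (A₀.map G.subtype : Set Ω))).2 ?_ hg) a).1 ha
  rintro _ ⟨h, hh, _, ⟨c, hc, rfl⟩, rfl⟩
  refine mem_normalizer_fintype ?_
  rintro _ ⟨a, ha, rfl⟩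
  obtain ⟨x, hx⟩ : ∃ x : G, x = ⟨h, hh⟩ * c * ⟨h, hh⟩⁻¹ := ⟨_, rfl⟩
  have x2 : (r x⁻¹ - 1) * (r x⁻¹ - 1) = 0 := by
    have e : ∀ h : G, r (h * c⁻¹ * h⁻¹) - 1 = r h * (r c⁻¹ - 1) * r h⁻¹ := fun h => by
      simp [mul_sub, sub_mul, ← map_mul]
    rw [show x⁻¹ = ⟨h, hh⟩ * c⁻¹ * ⟨h, hh⟩⁻¹ by rw [hx]; group, e]
    calc _ = r ⟨h, hh⟩ * ((r c⁻¹ - 1) * (r ⟨h, hh⟩⁻¹ * r ⟨h, hh⟩) * (r c⁻¹ - 1)) * r ⟨h, hh⟩⁻¹ := by noncomm_ring
      _ = 0 := by rw [← map_mul, inv_mul_cancel, map_one, mul_one, b1 _ (A₀.inv_mem hc) _ (A₀.inv_mem hc)]; simp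
  refine ⟨x * a * x⁻¹, ?_, by simp [hx]⟩
  have := b5 _ ((hin _).2 ⟨x⁻¹, rfl⟩) x2 _ ha
  have x3 := mi _ x2
  rw [inv_inv, sub_eq_iff_eq_add] at x3
  show r _ - 1 ∈ B
  convert this using 1
  rw [map_mul, map_mul, x3]
  calc _ = r a - 1 + ((r a - 1) * (r x⁻¹ - 1) - (r x⁻¹ - 1) * (r a - 1) - (r x⁻¹ - 1) * (r a - 1) * (r x⁻¹ - 1)) -
      (r x⁻¹ - 1) * (r x⁻¹ - 1) := by noncomm_ring
    _ = _ := by rw [x2, sub_zero]

end H04.Ly
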