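import Cfsg.Agent.H04.Breadth

/-! Mann's bound for the order of a `p`-group of given derived length. -/

set_option autoImplicit false
open Subgroup Cfsg
open scoped commutatorElement

namespace H04.Mann

variable {G : Type*} [Group G] {p : ℕ}

theorem cs (K : Subgroup G) [K.Normal] {A B C : Subgroup G} (h1 : ⁅A, C⁆ ≤ K) (h2 : ⁅B, C⁆ ≤ K) : ⁅A ⊔ B, C⁆ ≤ K := by
  rw [commutator_le_iff_map_quotient, commutator_eq_bot_iff_le_centralizer] at *
  rw [Subgroup.map_sup]; exact sup_le h1 h2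

theorem cz (K : Subgroup G) [K.Normal] {a b : G} (h : ⁅a, b⁆ ∈ K) : ⁅zpowers a, zpowers b⁆ ≤ K := by
  rw [commutator_le_iff_map_quotient, commutator_eq_bot_iff_le_centralizer, MonoidHom.map_zpowers, MonoidHom.map_zpowers,
    zpowers_le]
  rintro _ ⟨i, rfl⟩
  exact (commutatorElement_eq_one_iff_commute.1 ((QuotientGroup.eq_one_iff _).2 h)).symm.zpow_left i

local notation "γ" => Subgroup.lowerCentralSeries (⊤ : Subgroup G)

theorem step [Finite G] [hp : Fact p.Prime] (hG : IsPGroup p G) (M : Subgroup G) [M.Normal] {n : ℕ} (hM : M ≤ γ n)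
    (h0 : ⁅M, M⁆ ≠ ⊥) : p ^ (n + 2) * Nat.card ↥⁅M, M⁆ ≤ Nat.card M ∧
      (p ^ (n + 3) * Nat.card ↥⁅M, M⁆ ≤ Nat.card M ∨ ⁅⁅M, M⁆, ⁅M, M⁆⁆ ≤ γ (4 * n + 4)) := by
  haveI := hG.isNilpotent
  have lt : ⁅M, M⁆ < M := (commutator_mono le_rfl le_top).trans_lt
    (commutator_top_lt_of_normal M fun e => h0 (by simp [e]))
  obtain ⟨a, ha⟩ := card_eq_pow hG M
  obtain ⟨b, hb⟩ := card_eq_pow hG ⁅M, M⁆
  have ab : b < a := (Nat.pow_lt_pow_iff_right hp.out.one_lt).1 (ha ▸ hb ▸ card_lt_of_lt lt)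
  obtain ⟨N, _, -, n1, n2⟩ := exists_normal_between_card_eq hG ⁅M, M⁆ M lt.le (a - 1 - b) (by
    rw [ha, hb, ← pow_add]; exact Nat.pow_le_pow_right hp.out.pos (by omega))
  replace n2 : Nat.card M = p * Nat.card N := by rw [n2, ha, hb, ← pow_add, ← pow_succ']; congr 1; omega
  obtain ⟨x, hx, -, -, -, ex⟩ := exists_sup_zpowers_eq_of_card (hG.to_subgroup M) n1 n2
  have k1 : ∀ (N : Subgroup G) [N.Normal], ⁅N, M⁆ ≤ iterCommutator N ⊤ (n + 1) := fun N _ =>
    (commutator_mono le_rfl hM).trans (commutator_lcs_le_iterComm n N)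
  haveI := fun i => iterComm_normal N i
  have gen : ∀ (K : Subgroup G) [K.Normal], ⁅N, M⁆ ≤ K → ⁅M, M⁆ ≤ K := fun K _ h => by
    conv_lhs => enter [1]; rw [← ex]
    refine cs K h ?_
    rw [commutator_comm, ← ex]
    exact cs K ((commutator_mono le_rfl (zpowers_le.2 hx)).trans h) (cz K (by simp))
  have k2 := gen _ (k1 N)
  have an := iterComm_anti (N := N) (A := ⊤) le_normalizer_of_normal
  have k3 : ∀ i j, i + j ≤ n + 1 → p ^ j * Nat.card (iterCommutator N ⊤ (i + j)) ≤ Nat.card (iterCommutator N ⊤ i) :=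
    fun i j h => by
      induction j with
      | zero => simp
      | succ j ih =>
        rw [pow_succ, mul_assoc]
        exact (Nat.mul_le_mul_left _ (mul_card_iterComm_succ_le (hG.to_subgroup _) (hG.to_subgroup _)
          le_normalizer_of_normal fun e : iterCommutator N ⊤ (i + j) = ⊥ =>
            h0 (eq_bot_iff.2 (k2.trans ((an (show i + j ≤ n + 1 by omega)).trans e.le))))).trans (ih (by omega))
  have c2 := card_le_of_le k2
  have c3 := k3 0 (n + 1) (by omega)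
  rw [zero_add, iterComm_zero] at c3
  refine ⟨by rw [n2, pow_succ', mul_assoc]; gcongr; exact (Nat.mul_le_mul_left _ c2).trans c3, or_iff_not_imp_left.2 fun h => ?_⟩
  have pw : ∀ {X Y : Subgroup G}, X < Y → p * Nat.card X ≤ Nat.card Y := fun {X Y} h => by
    obtain ⟨a, ha⟩ := card_eq_pow hG X
    obtain ⟨b, hb⟩ := card_eq_pow hG Y
    have := card_lt_of_lt h
    rw [ha, hb, ← pow_succ'] at *
    exact Nat.pow_le_pow_right hp.out.pos ((Nat.pow_lt_pow_iff_right hp.out.one_lt).1 this)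
  have e1 : ⁅M, M⁆ = iterCommutator N ⊤ (n + 1) := k2.eq_of_not_lt fun l => h (by
    have := pw l
    rw [n2, pow_succ', mul_assoc, pow_succ, mul_assoc]; gcongr; exact (Nat.mul_le_mul_left _ this).trans c3)
  have e2 : Nat.card N = p * Nat.card (iterCommutator N ⊤ 1) := by
    obtain ⟨c, hc⟩ := card_eq_pow hG N
    obtain ⟨d, hd⟩ := card_eq_pow hG (iterCommutator N ⊤ 1)
    have c4 := k3 0 1 (by omega)
    have c5 := k3 1 n (by omega)
    rw [add_comm 1, ← e1] at c5
    rw [zero_add, iterComm_zero] at c4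
    rw [n2, hc, hb, ← pow_add, ← pow_succ', Nat.pow_le_pow_iff_right hp.out.one_lt] at h
    rw [hd, hc, ← pow_add, Nat.pow_le_pow_iff_right hp.out.one_lt] at c4
    rw [hd, hb, ← pow_add, Nat.pow_le_pow_iff_right hp.out.one_lt] at c5
    rw [hc, hd, ← pow_succ']
    congr 1; omega
  obtain ⟨y, hy, -, -, -, ey⟩ := exists_sup_zpowers_eq_of_card (hG.to_subgroup N) (an (Nat.zero_le 1)) e2
  have m := commutator_mem_commutator (n1 hy) hx
  haveI := normal_sup_zpowers (iterCommutator N ⊤ (n + 2)) (x := ⁅y, x⁆) fun g =>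
    commutator_mem_commutator (e1 ▸ m) (mem_top g)
  have k4 : ⁅iterCommutator N ⊤ 1, M⁆ ≤ iterCommutator N ⊤ (n + 2) ⊔ zpowers ⁅y, x⁆ :=
    le_sup_of_le_left (by rw [add_comm n, show 2 = 1 + 1 from rfl, add_assoc, iterComm_add, add_comm 1 n]; exact k1 _)
  have k5 := gen (iterCommutator N ⊤ (n + 2) ⊔ zpowers ⁅y, x⁆) (by
    refine (commutator_mono ey.ge le_rfl).trans (cs _ k4 ?_)
    rw [commutator_comm]
    refine (commutator_mono (ex.ge.trans (sup_le_sup_right ey.ge _)) le_rfl).trans ?_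
    exact cs _ (cs _ ((commutator_mono le_rfl (zpowers_le.2 (n1 hy))).trans k4) (cz _ (by simp)))
      ((commutator_comm _ _).le.trans (cz _ (mem_sup_right (mem_zpowers _)))))
  have g1 : ⁅M, M⁆ ≤ γ (n + n + 1) := (commutator_mono hM hM).trans (commutator_lcs_top_le n n)
  have g2 : ⁅iterCommutator N ⊤ (n + 2), ⁅M, M⁆⁆ ≤ γ (4 * n + 4) := by
    refine (commutator_mono ((iterComm_mono (n1.trans hM) le_rfl _).trans ?_) g1).trans
      ((commutator_lcs_top_le (n + (n + 2)) _).trans_eq (by congr 1; ring))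
    exact le_of_eq (by rw [← iterComm_eq_lcs ⊤ n, ← iterComm_add, iterComm_eq_lcs])
  refine (commutator_mono k5 le_rfl).trans (cs _ g2 ?_)
  rw [commutator_comm]
  exact (commutator_mono k5 le_rfl).trans (cs _ ((commutator_mono le_rfl (zpowers_le.2 m)).trans g2) (cz _ (by simp)))

theorem main [Finite G] [hp : Fact p.Prime] {n k : ℕ} (hc : Nat.card G = p ^ n) (hk : derivedSeries G k ≠ ⊥) :
    2 ^ k + 2 * k ≤ n + 2 := by
  have hG := IsPGroup.of_card hc
  have key : ∀ i ≤ k, derivedSeries G i ≤ γ (2 ^ i - 1) ∧ ∃ e, p ^ e * Nat.card (derivedSeries G i) ≤ p ^ n ∧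
      (2 ^ i + 2 * i ≤ e + 1 ∨ (2 ^ i + 2 * i ≤ e + 2 ∧ derivedSeries G (i + 1) ≤ γ (2 ^ (i + 1))) ∨
        (2 ^ i + 2 * i ≤ e + 3 ∧ derivedSeries G i ≤ γ (2 ^ i))) := fun i hi => by
    induction i with
    | zero => exact ⟨le_rfl, 0, by simp [hc], by simp⟩
    | succ i ih =>
      obtain ⟨h1, e, h2, h3⟩ := ih (by omega)
      have h0 : ⁅derivedSeries G i, derivedSeries G i⁆ ≠ ⊥ := fun e => hk (eq_bot_iff.2 (e ▸ derivedSeries_antitone G hi))
      have := Nat.two_pow_pos i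
      have tr : ∀ {j}, p ^ j * Nat.card (derivedSeries G (i + 1)) ≤ Nat.card (derivedSeries G i) →
          p ^ (e + j) * Nat.card (derivedSeries G (i + 1)) ≤ p ^ n := fun h => by
        rw [pow_add, mul_assoc]; exact (Nat.mul_le_mul_left _ h).trans h2
      refine ⟨(commutator_mono h1 h1).trans ((commutator_lcs_top_le _ _).trans_eq (by congr 1; omega)), ?_⟩
      rcases h3 with h3 | h3 | h3
      · rcases step hG _ h1 h0 with ⟨h4, h5 | h5⟩
        · exact ⟨_, tr h5, .inl (by omega)⟩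
        · exact ⟨_, tr h4, .inr (.inl ⟨by omega, h5.trans_eq (by congr 1; omega)⟩)⟩
      · exact ⟨_, tr (step hG _ h1 h0).1, .inr (.inr ⟨by omega, h3.2⟩)⟩
      · exact ⟨_, tr (step hG _ h3.2 h0).1, .inr (.inr ⟨by omega, (commutator_mono h3.2 h3.2).trans
          ((commutator_lcs_top_le _ _).trans (Subgroup.lowerCentralSeries_antitone _ (by omega)))⟩)⟩
  obtain ⟨-, e, h2, h3⟩ := key k le_rfl
  obtain ⟨b, hb⟩ := card_eq_pow hG (derivedSeries G k)
  have : b ≠ 0 := fun e => hk (card_eq_one.1 (by simpa [e] using hb))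
  rw [hb, ← pow_add, Nat.pow_le_pow_iff_right hp.out.one_lt] at h2
  omega

end H04.Mann
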