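import Cfsg.Agent.H04.Rank2
import Cfsg.Agent.H02.HigCo

/-! 2-groups without normal `E₈` with `X = [X, A]` for an odd-order group `A` of automorphisms: tools. -/

set_option autoImplicit false
open Cfsg BG Subgroup H02.Hig
open scoped commutatorElement

local notation "#" => Nat.card

namespace H04.N8

variable {X : Type*} [Group X]

def Om (N : Subgroup X) [N.Normal] : Subgroup X where
  carrier := {x | (∀ g, ⁅x, g⁆ ∈ N) ∧ x * x ∈ N}
  mul_mem' := fun {x y} hx hy => ⟨fun g => by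
    rw [commutatorElement_mul_left_eq_conj_mul]; exact mul_mem (Normal.conj_mem ‹_› _ (hy.1 g) x) (hx.1 g), by
    rw [show x * y * (x * y) = x * x * ⁅y, x⁻¹⁆⁻¹ * (y * y) by rw [commutatorElement_def]; group]
    exact mul_mem (mul_mem hx.2 (inv_mem (hy.1 _))) hy.2⟩
  one_mem' := ⟨fun g => by simp, by simp⟩
  inv_mem' := fun {x} hx => ⟨fun g => by
    rw [show ⁅x⁻¹, g⁆ = x⁻¹ * ⁅x, g⁆⁻¹ * x by simp only [commutatorElement_def]; group]
    exact Normal.conj_mem' ‹_› _ (inv_mem (hx.1 g)) x, by rw [← mul_inv_rev]; exact inv_mem hx.2⟩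

instance (N : Subgroup X) [h : N.Characteristic] : (Om N).Characteristic := characteristic_iff_le_comap.2 fun φ x hx =>
  ⟨fun g => by
    obtain ⟨g, rfl⟩ := φ.surjective g
    exact (map_commutatorElement φ x g) ▸ characteristic_iff_le_comap.1 h φ (hx.1 g),
  (map_mul φ x x) ▸ characteristic_iff_le_comap.1 h φ hx.2⟩

theorem le_Om (N : Subgroup X) [h : N.Normal] : N ≤ Om N := fun x hx =>
  ⟨fun g => by rw [commutatorElement_def, mul_assoc, mul_assoc, ← mul_assoc g]; exact mul_mem hx (h.conj_mem _ (inv_mem hx) g), mul_mem hx hx⟩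

theorem ch (K : Subgroup X) [h : K.Characteristic] (φ : MulAut X) {x : X} : φ x ∈ K ↔ x ∈ K :=
  SetLike.ext_iff.1 (characteristic_iff_comap_eq.1 h φ) x

abbrev V (X : Type*) [Group X] : Subgroup X := Om ⊥

theorem vc {v : X} (h : v ∈ V X) (g : X) : v * g = g * v := commutatorElement_eq_one_iff_mul_comm.1 (h.1 g)
theorem vz : V X ≤ center X := fun _ h => mem_center_iff.2 fun g => (vc h g).symm
theorem vv {v : X} (h : v ∈ V X) : v * v = 1 := h.2
theorem mem_V {v : X} (h : v ∈ center X) (h2 : v * v = 1) : v ∈ V X :=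
  ⟨fun g => commutatorElement_eq_one_iff_mul_comm.2 (mem_center_iff.1 h g).symm, h2⟩
theorem ve : IsElementaryAbelian 2 (V X) := ⟨isMulCommutative_iff'.2 fun _ h y _ => vc h y, fun x h => (pow_two x).trans h.2⟩

theorem sqc {N : Subgroup X} [N.Normal] (h : N ≤ center X) (g : X) : g * g ∈ C_(Om N) := fun y hy => by
  have c := fun u => (mem_center_iff.1 (h (hy.1 g)) u).symm
  rw [← commutatorElement_eq_one_iff_mul_comm, ← pow_two, commutatorElement_pow_right (c g), ← commutatorElement_pow_left (c y), pow_two,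
    commutatorElement_eq_one_iff_mul_comm, mem_center_iff.1 (h hy.2)]

theorem cv (h : ∀ g : X, g * g ∈ center X) (x y : X) : ⁅x, y⁆ ∈ V X := by
  have c := comm_mem_of_sq (A := ⊤) (fun x _ => h x) (mem_top x) (mem_top y)
  refine mem_V c ?_
  rw [← pow_two, ← commutatorElement_pow_left (mem_center_iff.1 c x).symm, pow_two, commutatorElement_eq_one_iff_mul_comm,
    mem_center_iff.1 (h x)]

theorem fix1 {φ : MulAut X} (ho : Odd (orderOf φ)) {b : X} (h1 : φ (b⁻¹ * φ b) = b⁻¹ * φ b) (h2 : b⁻¹ * φ b * (b⁻¹ * φ b) = 1) :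
    φ b = b := by
  obtain ⟨c, hc⟩ : ∃ c, c = b⁻¹ * φ b := ⟨_, rfl⟩
  rw [← hc] at h1 h2
  have e : ∀ n : ℕ, (φ ^ n) b = b * c ^ n := fun n => by
    induction n with
    | zero => simp
    | succ n ih => rw [pow_succ', MulAut.mul_apply, ih, map_mul, map_pow, h1, pow_succ', ← mul_assoc, hc, mul_inv_cancel_left]
  obtain ⟨m, hm⟩ := ho
  have := e (orderOf φ)
  rw [pow_orderOf_eq_one, hm, pow_succ, pow_mul, pow_two, h2, one_pow, one_mul, hc] at this
  simpa using this.symm

theorem fixab (hX : IsPGroup 2 X) {φ : MulAut X} (ho : Odd (orderOf φ)) {B : Subgroup X} [B.Characteristic] (hB : IsMulCommutative B)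
    (h : ∀ b ∈ B, b * b = 1 → φ b = b) {b : X} (hb : b ∈ B) : φ b = b := by
  obtain ⟨n, hn⟩ := hX b
  induction n generalizing b with
  | zero => rw [pow_zero, pow_one] at hn; rw [hn, map_one]
  | succ n ih =>
    have e := ih (mul_mem hb hb) (by rw [← pow_two, ← pow_mul, ← pow_succ', hn])
    have m := (ch B φ).2 hb
    have c : b⁻¹ * φ b * (b⁻¹ * φ b) = 1 := by
      rw [mul_assoc, ← mul_assoc (φ b), mul_comm_of_abelian hB m (inv_mem hb), mul_assoc, ← map_mul, e]; group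
    exact fix1 ho (h _ (mul_mem (inv_mem hb) m) c) c

variable [Finite X]

theorem two {K Y : Subgroup X} (h : K.relIndex Y ≤ 2) {y y' : X} (hy : y ∈ Y) (hy' : y' ∈ Y) (e : y' ∈ K ↔ y ∈ K) : y⁻¹ * y' ∈ K := by
  have h0 : K.relIndex Y ≠ 0 := FiniteIndex.index_ne_zero
  rcases (by omega : K.relIndex Y = 1 ∨ K.relIndex Y = 2) with c | c
  · exact relIndex_eq_one.1 c (mul_mem (inv_mem hy) hy')
  · exact (mul_mem_iff_of_index_two c (a := ⟨y, hy⟩⁻¹) (b := ⟨_, hy'⟩)).2 (by simp [mem_subgroupOf, e])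

theorem fixV (h4 : # (V X) ≤ 4) {φ : MulAut X} (ho : Odd (orderOf φ)) {u : X} (hu : u ∈ V X) (h1 : u ≠ 1) (h : φ u = u) {v : X}
    (hv : v ∈ V X) : φ v = v := by
  have c := H01.card_mul_relIndex (zpowers_le.2 hu)
  rw [Nat.card_zpowers, orderOf_eq_prime ((pow_two u).trans hu.2) h1] at c
  have f : ∀ x ∈ zpowers u, φ x = x := by rintro _ ⟨i, rfl⟩; simp only [map_zpow, h]
  have := two (K := zpowers u) (by omega) hv ((ch _ φ).2 hv) ⟨fun a => φ.injective (f _ a) ▸ a, fun a => (f _ a).symm ▸ a⟩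
  exact fix1 ho (f _ this) (vv (zpowers_le.2 hu this))

structure St (A : Subgroup (MulAut X)) : Prop where
  pg : IsPGroup 2 X
  na : ¬ IsMulCommutative X
  e4 : ∀ E : Subgroup X, E.Normal → IsElementaryAbelian 2 E → # E ≤ 4
  oddc : Odd (# A)
  top : ∀ K : Subgroup X, (∀ φ ∈ A, ∀ x, x⁻¹ * φ x ∈ K) → K = ⊤

namespace St
variable {A : Subgroup (MulAut X)} (h : St A)
include h

theorem odd {φ : MulAut X} (hφ : φ ∈ A) : Odd (orderOf φ) := h.oddc.of_dvd_nat (orderOf_dvd_natCard A hφ)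

theorem v4 : # (V X) ≤ 4 := h.e4 _ inferInstance ve

theorem cen {B : Subgroup X} [hB : B.Normal] (hf : ∀ φ ∈ A, ∀ b ∈ B, φ b = b) : B ≤ center X := fun y hy =>
  mem_center_iff.2 fun g => mem_centralizer_singleton_iff.1 ((h.top C_[y] fun φ hφ x => mem_centralizer_singleton_iff.2 (by
    have := hf φ hφ _ (hB.conj_mem y hy x)
    rw [map_mul, map_mul, map_inv, hf φ hφ y hy] at this
    calc _ = x⁻¹ * (φ x * y * (φ x)⁻¹) * φ x := by group
      _ = _ := by rw [this]; group)).ge (mem_top g))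

theorem inV {B : Subgroup X} [B.Characteristic] (hB : IsMulCommutative B) {b : X} (hb : b ∈ B) (h2 : b * b = 1) : b ∈ V X := by
  have := omegaOne_characteristic (p := 2) B
  obtain ⟨n, hn⟩ := card_eq_pow h.pg (omegaOne 2 B)
  have c := h.e4 _ inferInstance (isElementaryAbelian_omegaOne_of_comm hB)
  have i := index_centralizer_le h.pg n _ hn
  have : n ≤ 2 := by rwa [hn, show 4 = 2 ^ 2 from rfl, Nat.pow_le_pow_iff_right Nat.one_lt_two] at c
  have t := h.top C_(omegaOne 2 B) fun φ _ x => two (Y := ⊤) (by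
    rw [relIndex_top_right]; interval_cases n <;> simp at i <;> omega) (mem_top _) (mem_top _) (ch _ φ)
  exact mem_V (mem_center_iff.2 fun g => (t.ge (mem_top g) b (mem_omegaOne hb ((pow_two b).trans h2))).symm) h2

theorem nofix (N : Subgroup X) [N.Normal] (hN : commutator X ≤ N) {y : X} (hy : ∀ φ ∈ A, y⁻¹ * φ y ∈ N) : y ∈ N := by
  classical
  have := Fintype.ofFinite A
  let _ : CommGroup (X ⧸ N) := { mul_comm := (Normal.quotient_commutative_iff_commutator_le.2 hN).is_comm.comm }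
  let T : X →* X ⧸ N := MonoidHom.mk' (fun x => ∏ φ : A, ((φ.1 x : X) : X ⧸ N)) fun a b => by simp [Finset.prod_mul_distrib]
  have t := (h.top T.ker fun ψ hψ x => by
    rw [MonoidHom.mem_ker, map_mul, map_inv, inv_mul_eq_one]
    exact (Fintype.prod_equiv (Equiv.mulRight (⟨ψ, hψ⟩ : A)) _ _ fun φ => rfl).symm).ge (mem_top y)
  have e : T y = (y : X ⧸ N) ^ # A := by
    rw [Nat.card_eq_fintype_card, ← Finset.card_univ, ← Finset.prod_const]
    exact Finset.prod_congr rfl fun φ _ => (QuotientGroup.eq.2 (hy φ φ.2)).symm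
  obtain ⟨n, hn⟩ := (h.pg.to_quotient N) (y : X ⧸ N)
  exact (QuotientGroup.eq_one_iff y).1 (orderOf_eq_one_iff.1 (Nat.eq_one_of_dvd_coprimes (h.oddc.coprime_two_right.pow_right n)
    (orderOf_dvd_of_pow_eq_one (e ▸ t)) (orderOf_dvd_of_pow_eq_one hn)))

theorem allsq {N : Subgroup X} [N.Characteristic] (hN : N ≤ center X) (hc : Om N ⊓ C_(Om N) ≤ N) : C_(Om N) ≤ N := by
  by_contra c
  obtain ⟨x, a, b, c, d⟩ := exists_central_step h.pg N _ c
  exact b (hc ⟨⟨d, pow_two x ▸ c⟩, a⟩)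

theorem e8 (h4 : # (V X) = 4) {t : X} (h1 : t * t = 1) (h2 : ∀ g, ⁅t, g⁆ ∈ V X) : t ∈ V X := by
  by_contra c
  have ab := isMulCommutative_sup_zpowers ve.1 (x := t) fun v hv => vc hv t
  have := h.e4 _ (normal_sup_zpowers _ h2) ⟨ab, fun x hx => ((mem_omegaOne_iff_of_comm ab).1 ((sup_le (fun v hv =>
    mem_omegaOne (mem_sup_left hv) (ve.2 v hv)) (zpowers_le.2 (mem_omegaOne (mem_sup_right (mem_zpowers t))
      ((pow_two t).trans h1))) : _ ≤ omegaOne 2 _) hx)).2⟩
  rw [card_sup_zpowers (p := 2) _ (H01.le_normalizer_of_normal ⊤ _ trivial) c (by rw [pow_two, h1]; exact one_mem _)] at this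
  omega

theorem sp1 (hA : ∀ φ ∈ A, ∀ v ∈ V X, φ v = v) : center X = V X ∧ commutator X = V X ∧ ∀ g : X, g * g ∈ V X := by
  have a : ∀ (B : Subgroup X) [B.Characteristic], IsMulCommutative B → ∀ φ ∈ A, ∀ b ∈ B, φ b = b := fun B _ hB φ hφ b hb =>
    fixab h.pg (h.odd hφ) hB (fun b hb h2 => hA φ hφ b (h.inV hB hb h2)) hb
  have := inf_characteristic (Om (center X)) C_(Om (center X))
  have s := fun g => h.allsq le_rfl (h.cen (a _ (isMulCommutative_iff'.2 fun x hx y hy => hy.2 x hx.1))) (sqc le_rfl g)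
  have c : commutator X ≤ V X := commutator_le.2 fun x _ y _ => cv s x y
  have z : center X ≤ commutator X := fun y hy => h.nofix _ le_rfl fun φ hφ => by
    rw [a _ inferInstance φ hφ y hy, inv_mul_cancel]; exact one_mem _
  exact ⟨le_antisymm (z.trans c) vz, le_antisymm c (vz.trans z), fun g => c (z (s g))⟩

end St
end H04.N8
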