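import Cfsg.Agent.H04.N8a

/-! 2-groups without normal `E₈` with `X = [X, A]`: the case where `A` moves a central involution. -/

set_option autoImplicit false
open Cfsg BG Subgroup H02.Hig
open scoped commutatorElement

local notation "#" => Nat.card

namespace H04.N8

variable {X : Type*} [Group X] [Finite X]

theorem cas {K : Subgroup X} {x y : X} (hn : x ∈ N_(K)) (h2 : x * x ∈ K) (hy : y ∈ K ⊔ zpowers x) : y ∈ K ∨ y * x ∈ K := by
  by_cases hx : x ∈ K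
  · exact .inl (sup_le le_rfl (zpowers_le.2 hx) hy)
  exact or_iff_not_imp_left.2 fun c => (mul_mem_iff_of_index_two (relIndex_sup_zpowers (p := 2) K hn hx (pow_two x ▸ h2))
    (a := ⟨y, hy⟩) (b := ⟨x, mem_sup_right (mem_zpowers x)⟩)).2 (iff_of_false c hx)

abbrev W (X : Type*) [Group X] : Subgroup X := Om (V X)

structure S2 (A : Subgroup (MulAut X)) (k : MulAut X) : Prop extends St A where
  mem : k ∈ A
  v4' : # (V X) = 4
  kf : ∀ v ∈ V X, k v = v → v = 1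

theorem St.s2 {A : Subgroup (MulAut X)} (h : St A) {k : MulAut X} (hk : k ∈ A) {v : X} (hv : v ∈ V X) (h1 : k v ≠ v) : S2 A k := by
  refine ⟨h, hk, ?_, fun u hu e => by_contra fun c => h1 (fixV h.v4 (h.odd hk) hu c e hv)⟩
  have v1 : v ≠ 1 := by rintro rfl; exact h1 (map_one k)
  have c := H01.card_mul_relIndex (zpowers_le.2 hv)
  rw [Nat.card_zpowers, orderOf_eq_prime ((pow_two v).trans hv.2) v1] at c
  have h0 : (zpowers v).relIndex (V X) ≠ 0 := FiniteIndex.index_ne_zero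
  have h2 : (zpowers v).relIndex (V X) ≠ 1 := fun a => by
    exact (cas (K := ⊥) (le_norm_bot (mem_top v)) hv.2 (mem_sup_right (relIndex_eq_one.1 a ((ch _ k).2 hv)))).elim (by simpa using v1)
      fun e => h1 (mul_right_cancel ((mem_bot.1 e).trans (vv hv).symm))
  have := h.v4
  omega

namespace S2
variable {A : Subgroup (MulAut X)} {k : MulAut X} (h : S2 A k)
include h

theorem four {v u : X} (hv : v ∈ V X) (h1 : v ≠ 1) (hu : u ∈ V X) : u = 1 ∨ u = v ∨ u = k v ∨ u = v * k v :=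
  mem_four ve h.v4' hv ((ch _ k).2 hv) h1 (by simpa) (fun e => h1 (h.kf v hv e.symm)) hu

theorem kk {v : X} (hv : v ∈ V X) : k (k v) = v * k v := by
  by_cases h1 : v = 1
  · simp [h1]
  have m := (ch _ k).2 hv
  rcases h.four hv h1 ((ch _ k).2 m) with e | e | e | e
  · exact absurd (by simpa using e) h1
  · have := h.kf _ (mul_mem hv m) (by rw [map_mul, e, vc hv])
    exact absurd (h.kf v hv (mul_left_cancel (this.trans (vv hv).symm))) h1
  · exact absurd (h.kf v hv (k.injective e)) h1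
  · exact e

theorem k3 {B : Subgroup X} [B.Characteristic] (hB : IsMulCommutative B) {b : X} (hb : b ∈ B) : k (k (k b)) = b :=
  fixab h.pg (φ := k * k * k) (h.odd (mul_mem (mul_mem h.mem h.mem) h.mem)) hB (fun v hv h2 => by
    have := h.inV hB hv h2
    simp only [MulAut.mul_apply]
    rw [h.kk this, map_mul, h.kk this, vc this, ← mul_assoc, vv ((ch _ k).2 this), one_mul]) hb

theorem tr {B : Subgroup X} [B.Characteristic] (hB : IsMulCommutative B) {b : X} (hb : b ∈ B) : b * k b * k (k b) = 1 := by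
  by_contra c
  have m : b * k b * k (k b) ∈ B := mul_mem (mul_mem hb ((ch _ k).2 hb)) ((ch _ k).2 ((ch _ k).2 hb))
  have e : k (b * k b * k (k b)) = b * k b * k (k b) := by
    rw [map_mul, map_mul, h.k3 hB hb, mul_comm_of_abelian hB (mul_mem ((ch _ k).2 hb) ((ch _ k).2 ((ch _ k).2 hb))) hb, mul_assoc]
  obtain ⟨n, a, d⟩ := exists_pow_notMem_pow_mem h.pg ⊥ (mt mem_bot.1 c)
  exact a (h.kf _ (h.inV hB (pow_mem m _) (pow_two (M := X) _ ▸ d)) (by rw [map_pow, e]))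

theorem wv {t : X} (ht : t ∈ W X) (h1 : t * t = 1) : t ∈ V X := h.e8 h.v4' h1 ht.1

theorem cov {S : Subgroup X} [S.Characteristic] (hS : IsMulCommutative S) (h1 : S ≤ W X) (h2 : ¬ S ≤ V X) {v : X} (hv : v ∈ V X) :
    ∃ w ∈ S, w * w = v := by
  obtain ⟨u, u1, u2⟩ := SetLike.not_le_iff_exists.1 h2
  have m := (ch _ k).2 u1
  rcases h.four (h1 u1).2 (mt (h.wv (h1 u1)) u2) hv with rfl | rfl | rfl | rfl
  exacts [⟨1, one_mem _, one_mul _⟩, ⟨u, u1, rfl⟩, ⟨_, m, (map_mul _ _ _).symm⟩, ⟨_, mul_mem u1 m, by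
    rw [map_mul, mul_assoc, ← mul_assoc (k u), mul_comm_of_abelian hS m u1]; group⟩]

theorem ab (hc : ¬ W X ⊓ C_(W X) ≤ V X) : IsMulCommutative (W X) := by
  have := inf_characteristic (W X) C_(W X)
  refine isMulCommutative_iff'.2 fun y hy x hx => ?_
  obtain ⟨w, w1, w2⟩ := h.cov (S := W X ⊓ C_(W X)) (isMulCommutative_iff'.2 fun x hx y hy => hy.2 x hx.1) inf_le_left hc hx.2
  have := h.wv (mul_mem hx (inv_mem w1.1)) (by rw [mul_assoc, ← mul_assoc w⁻¹, ← (inv_mem w1).2 x hx, mul_assoc, ← mul_assoc, ← w2]; group)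
  rw [← inv_mul_cancel_right x w, ← mul_assoc, ← vc this, mul_assoc _ y, w1.2 y hy, ← mul_assoc]

theorem nv : ¬ W X ≤ V X := fun c => by
  obtain ⟨x, -, a, b, d⟩ := exists_central_step h.pg (V X) ⊤ fun e => h.na (isMulCommutative_iff.2 fun x y => vc (e (mem_top x)) y)
  exact a (c ⟨d, pow_two x ▸ b⟩)

variable (hW : IsMulCommutative (W X))
include hW

theorem act {ψ : MulAut X} (hψ : ψ ∈ A) (hv : ∀ v ∈ V X, ψ v = v) (x : X) : x⁻¹ * ψ x ∈ C_(W X) := fun w hw => by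
  have e : ∀ w ∈ W X, ψ w = w := fun w hw => fixab h.pg (h.odd hψ) hW (fun b hb h2 => hv b (h.wv hb h2)) hw
  have := e _ (Normal.conj_mem inferInstance w hw x)
  rw [map_mul, map_mul, map_inv, e w hw] at this
  calc _ = x⁻¹ * (x * w * x⁻¹) * ψ x := by group
    _ = _ := by rw [← this]; group

theorem nm (x : X) : x * k x * k (k x) ∈ C_(W X) := by
  let _ : CommGroup (X ⧸ C_(W X)) := { mul_comm := (Normal.quotient_commutative_iff_commutator_le.2 (commutator_le.2 fun a _ b _ =>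
    comm_mem_of_sq (A := ⊤) (fun g _ => sqc vz g) trivial trivial)).is_comm.comm }
  let T : X →* X ⧸ C_(W X) := MonoidHom.mk' (fun x => (x : X ⧸ C_(W X)) * k x * k (k x)) fun a b => by
    simp only [map_mul, QuotientGroup.mk_mul]; ac_rfl
  have t1 : ∀ x, T (k x) = T x := fun x => by
    have : ((k (k (k x)) : X) : X ⧸ C_(W X)) = x := (QuotientGroup.eq.2 (h.act hW (ψ := k * k * k) (mul_mem (mul_mem h.mem h.mem) h.mem)
      (fun v hv => h.k3 ve.1 hv) x)).symm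
    simp only [T, MonoidHom.mk'_apply, this]; ac_rfl
  have t2 : ∀ ψ ∈ A, ∀ v ∈ V X, v ≠ 1 → ψ v = v → ∀ x, T (ψ x) = T x := fun ψ hψ v hv v1 e x => by
    have a := h.act hW hψ (fun u hu => fixV h.v4 (h.odd hψ) hv v1 e hu) x
    rw [← mul_inv_cancel_left x (ψ x), map_mul T x, mul_eq_left]
    simp only [T, MonoidHom.mk'_apply, (QuotientGroup.eq_one_iff _).2 a, (QuotientGroup.eq_one_iff _).2 ((ch _ k).2 a),
      (QuotientGroup.eq_one_iff _).2 ((ch _ k).2 ((ch _ k).2 a)), mul_one]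
  obtain ⟨u, u1, u2⟩ := SetLike.not_le_iff_exists.1 h.nv
  have v1 := mt (h.wv u1) u2
  refine (QuotientGroup.eq_one_iff _).1 ((h.top T.ker fun φ hφ x => ?_).ge (mem_top x))
  rw [MonoidHom.mem_ker, map_mul, map_inv, inv_mul_eq_one, eq_comm]
  rcases h.four u1.2 v1 ((ch _ φ).2 u1.2) with e | e | e | e
  · exact absurd ((map_eq_one_iff _ φ.injective).1 e) v1
  · exact t2 φ hφ _ u1.2 v1 e x
  · rw [← t1, ← t1]; exact t2 (k * k * φ) (mul_mem (mul_mem h.mem h.mem) hφ) _ u1.2 v1 (by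
      simp only [MulAut.mul_apply]; rw [e, h.k3 ve.1 u1.2]) x
  · rw [← t1]; exact t2 (k * φ) (mul_mem h.mem hφ) _ u1.2 v1 (by
      simp only [MulAut.mul_apply]; rw [e, ← h.kk u1.2, h.k3 ve.1 u1.2]) x

theorem wfour {u w : X} (hu : u ∈ W X) (h1 : u ∉ V X) (hw : w ∈ W X) :
    w ∈ V X ∨ w * u ∈ V X ∨ w * k u ∈ V X ∨ w * (u * k u) ∈ V X := by
  have m := (ch _ k).2 hu
  have a : ∀ y ∈ W X, w * w = y * y → w * y ∈ V X := fun y hy e => h.wv (mul_mem hw hy) (by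
    rw [mul_assoc, ← mul_assoc y, mul_comm_of_abelian hW hy hw, mul_assoc, ← mul_assoc, e, vv hy.2])
  refine (h.four hu.2 (mt (h.wv hu) h1) hw.2).imp (h.wv hw) (.imp (a u hu) (.imp (fun e => a _ m (e.trans (map_mul _ _ _)))
    fun e => a _ (mul_mem hu m) ?_))
  rw [e, map_mul, mul_assoc, mul_assoc, ← mul_assoc (k u) u, mul_comm_of_abelian hW m hu, mul_assoc]

theorem w2 {u x : X} (hu : u ∈ W X) (h1 : u ∉ V X) (hx : u * x = x * u) : x ∈ C_(W X) := by
  have m := (ch _ k).2 hu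
  have c : ∀ a b : X, ⁅k u, a * b⁆ = ⁅k u, a⁆ * ⁅k u, b⁆ := fun a b => commutatorElement_mul_right_of_commute (vc (m.1 b) a).symm
  have e := commutatorElement_eq_one_iff_mul_comm.2 (h.nm hW x _ m)
  have b := m.1 x
  have e1 : ⁅k (k u), x⁆ = ⁅k u, x⁆ := by
    rw [eq_inv_of_mul_eq_one_right (h.tr hW hu), mul_inv_rev]
    calc _ = (k u)⁻¹ * (u⁻¹ * x * u) * k u * x⁻¹ := by rw [commutatorElement_def]; group
      _ = (k u)⁻¹ * ⁅k u, x⁆⁻¹ * k u := by rw [mul_assoc u⁻¹, ← hx, commutatorElement_def]; group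
      _ = _ := by rw [mul_assoc, vc (inv_mem b), inv_mul_cancel_left, inv_eq_of_mul_eq_one_right (vv b)]
  have e2 : ⁅k u, k (k x)⁆ = k (k ⁅k u, x⁆) := by rw [← e1, map_commutatorElement, map_commutatorElement, h.k3 hW hu]
  rw [c, c, ← map_commutatorElement, commutatorElement_eq_one_iff_mul_comm.2 hx, map_one, mul_one, e2, h.kk b, ← mul_assoc, vv b,
    one_mul, map_eq_one_iff _ k.injective, commutatorElement_eq_one_iff_mul_comm] at e
  have a : ∀ y, y * x = x * y → ∀ w, w * y ∈ V X → w * x = x * w := fun y hy w hw =>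
    mul_right_cancel (b := y) (by rw [mul_assoc, ← hy, ← mul_assoc, vc hw, mul_assoc])
  intro w hw
  rcases h.wfour hW hu h1 hw with d | d | d | d
  exacts [vc d x, a u hx w d, a _ e w d, a _ (by rw [mul_assoc, e, ← mul_assoc, hx, mul_assoc]) w d]

theorem w1 {x : X} (hx : ∀ w ∈ W X, x * w * x⁻¹ = w⁻¹) : False := by
  have a : ∀ x, (∀ w ∈ W X, x * w * x⁻¹ = w⁻¹) → ∀ w ∈ W X, k x * w * (k x)⁻¹ = w⁻¹ := fun x hx w hw => by
    obtain ⟨w, rfl⟩ := k.surjective w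
    rw [← map_inv, ← map_mul, ← map_mul, hx w ((ch _ k).1 hw), map_inv]
  refine h.nv fun w hw => h.wv hw (mul_eq_one_iff_eq_inv.2 ?_)
  calc w = x * k x * k (k x) * w * (x * k x * k (k x))⁻¹ := by rw [← h.nm hW x w hw, mul_inv_cancel_right]
    _ = x * (k x * (k (k x) * w * (k (k x))⁻¹) * (k x)⁻¹) * x⁻¹ := by group
    _ = _ := by rw [a _ (a _ hx) w hw, a _ hx _ (inv_mem hw), inv_inv, hx w hw]

variable {B : Subgroup X} [B.Characteristic] (hB : IsMulCommutative B) (hWB : W X ≤ B)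
include hB hWB

theorem o4 {c : X} (hc : c ∈ B) (h1 : c * c ∈ V X) : c ∈ W X := by
  obtain ⟨w, w1, w2⟩ := h.cov hW le_rfl h.nv h1
  have := h.inV hB (mul_mem hc (inv_mem (hWB w1))) (by
    rw [mul_assoc, ← mul_assoc w⁻¹, mul_comm_of_abelian hB (inv_mem (hWB w1)) hc, mul_assoc, ← mul_assoc, ← w2]; group)
  exact (mul_mem_cancel_right (inv_mem w1)).1 (le_Om _ this)

theorem l0 {x : X} (hx : x ∈ C_(W X)) {c : X} (hc : c ∈ B) (h1 : x * c * x⁻¹ = c⁻¹) : c ∈ V X := by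
  obtain ⟨n, hn⟩ := h.pg c
  induction n generalizing c with
  | zero => rw [pow_zero, pow_one] at hn; exact hn ▸ one_mem _
  | succ n ih =>
    have := h.o4 hW hB hWB hc (ih (mul_mem hc hc) (by rw [mul_inv_rev, ← h1]; group) (by rw [← pow_two, ← pow_mul, ← pow_succ', hn]))
    rw [← hx c this, mul_inv_cancel_right] at h1
    exact h.wv this (mul_eq_one_iff_eq_inv.2 h1)

omit h hW hWB [Finite X] in
theorem cinv {x b : X} (hx : x * x ∈ B) (hb : b ∈ B) : ⁅x, b⁆ ∈ B ∧ x * ⁅x, b⁆ * x⁻¹ = ⁅x, b⁆⁻¹ :=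
  ⟨commutatorElement_inv b x ▸ inv_mem ((le_Om B hb).1 x), by
    calc _ = x * x * b * (x * x)⁻¹ * (x * b⁻¹ * x⁻¹) := by rw [commutatorElement_def]; group
      _ = _ := by rw [mul_comm_of_abelian hB hx hb, commutatorElement_def]; group⟩

theorem l1 {x b : X} (hx : x ∈ C_(W X) ⊓ Om B) (hb : b ∈ B) : ⁅x, b⁆ ∈ V X :=
  h.l0 hW hB hWB hx.1 (cinv hB hx.2.2 hb).1 (cinv hB hx.2.2 hb).2

theorem l2 {x b : X} (hx : x ∈ C_(W X) ⊓ Om B) (hb : b ∈ B) (e : b * b = x * x) : x ∈ B := by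
  have lb : B ≤ C_(W X) ⊓ Om B := le_inf (le_cent_of_abelian hB le_rfl hWB) (le_Om B)
  have y1 := mul_mem hx (lb (inv_mem hb))
  obtain ⟨w, w1, w2⟩ := h.cov hW le_rfl h.nv (h.l1 hW hB hWB hx (inv_mem hb))
  have t1 := mul_mem y1 (lb (hWB (inv_mem w1)))
  have t2 : x * b⁻¹ * w⁻¹ * (x * b⁻¹ * w⁻¹) = 1 := by
    rw [mul_assoc, ← mul_assoc w⁻¹, y1.1 _ (inv_mem w1), mul_assoc _ w⁻¹, ← mul_inv_rev, w2]
    calc _ = x * b⁻¹ * x⁻¹ * (x * x) * b⁻¹ * ⁅x, b⁻¹⁆⁻¹ := by group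
      _ = 1 := by rw [← e, commutatorElement_def]; group
  have := h.e8 h.v4' t2 fun g => h.l0 hW hB hWB t1.1 (t1.2.1 g) (by
    generalize x * b⁻¹ * w⁻¹ = t at *
    rw [commutatorElement_inv, commutatorElement_def, commutatorElement_def, ← mul_assoc, ← mul_assoc, ← mul_assoc, t2,
      inv_eq_of_mul_eq_one_right t2, one_mul])
  exact (mul_mem_cancel_right (inv_mem hb)).1 ((mul_mem_cancel_right (hWB (inv_mem w1))).1 (hWB (le_Om _ this)))

theorem l3 {x y : X} (hx : x ∈ C_(W X) ⊓ Om B) (hy : y ∈ C_(W X) ⊓ Om B) : ⁅x, y⁆ ∈ W X ∧ ⁅x * x, y⁆ = ⁅x, y⁆ * ⁅x, y⁆ := by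
  have c := hx.2.1 y
  have a : ⁅x * x, y⁆ = ⁅x, ⁅x, y⁆⁆ * (⁅x, y⁆ * ⁅x, y⁆) := by simp only [commutatorElement_def]; group
  have b := h.o4 hW hB hWB c ((mul_mem_cancel_left (h.l1 hW hB hWB hx c)).1 (a ▸ commutatorElement_inv y (x * x) ▸
    inv_mem (h.l1 hW hB hWB hy hx.2.2)))
  exact ⟨b, by rw [a, commutatorElement_eq_one_iff_mul_comm.2 (hx.1 _ b).symm, one_mul]⟩

theorem ws (hn : ¬ B ≤ W X) {w : X} (hw : w ∈ W X) : ∃ b ∈ B, b * b = w := by
  obtain ⟨b, b1, b2⟩ := SetLike.not_le_iff_exists.1 hn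
  obtain ⟨n, c1, c2⟩ := exists_pow_notMem_pow_mem h.pg _ b2
  have c3 := pow_mem b1 (2 ^ n)
  generalize b ^ 2 ^ n = c at *
  rw [pow_two] at c2
  have a : ∀ y ∈ B, w * (y * y) ∈ V X → ∃ b ∈ B, b * b = w := fun y hy e => by
    obtain ⟨u, u1, u2⟩ := h.cov hW le_rfl h.nv e
    exact ⟨u * y⁻¹, mul_mem (hWB u1) (inv_mem hy), by
      rw [mul_assoc, ← mul_assoc y⁻¹, mul_comm_of_abelian hB (inv_mem hy) (hWB u1), mul_assoc, ← mul_assoc, u2]; group⟩
  have m := (ch B k).2 c3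
  rcases h.wfour hW c2 (fun e => c1 (h.o4 hW hB hWB c3 e)) hw with e | e | e | e
  exacts [a 1 (one_mem _) (by simpa), a c c3 e, a _ m (map_mul k c c ▸ e), a _ (mul_mem c3 m) (by
    rwa [mul_assoc c, ← mul_assoc (k c), mul_comm_of_abelian hB m c3, mul_assoc c, ← mul_assoc c, ← map_mul])]

theorem lab : IsMulCommutative ↥(C_(W X) ⊓ Om B) := by
  have := inf_characteristic C_(W X) (Om B)
  let f : B →* X := MonoidHom.mk' (fun b => b * b) fun a b => by
    simp only [coe_mul]; rw [mul_assoc, ← mul_assoc (b : X), mul_comm_of_abelian hB b.2 a.2]; group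
  have fB : f.range ≤ B := by rintro _ ⟨b, rfl⟩; exact mul_mem b.2 b.2
  have s0 : ∀ x ∈ C_(W X) ⊓ Om B, x * x ∈ f.range → x ∈ B := fun x hx ⟨b, e⟩ => h.l2 hW hB hWB hx b.2 e
  have s1 : ∀ x ∈ C_(W X) ⊓ Om B, ∀ y ∈ C_(W X) ⊓ Om B, ∀ u ∈ B, x * x * (y * y) * u ∈ f.range → x * y * (x * y) * u ∈ f.range :=
      fun x hx y hy u hu e => by
    obtain ⟨a, b⟩ := h.l3 hW hB hWB (inv_mem hx) hy
    rw [show x * y * (x * y) * u = x * x * (⁅x⁻¹, y⁆ * (y * y * u)) by rw [commutatorElement_def]; group,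
      mul_comm_of_abelian hB (hWB a) (mul_mem hy.2.2 hu), ← mul_assoc, ← mul_assoc]
    refine mul_mem e ?_
    by_cases c : B ≤ W X
    · rw [commutatorElement_eq_one_iff_mul_comm.2 (hy.1 _ (c (inv_mem hx).2.2))] at b
      obtain ⟨w, w1, w2⟩ := h.cov hW le_rfl h.nv (h.wv a b.symm)
      exact ⟨⟨w, hWB w1⟩, w2⟩
    · obtain ⟨w, w1, w2⟩ := h.ws hW hB hWB c a
      exact ⟨⟨w, w1⟩, w2⟩
  have s2 : ∀ x ∈ C_(W X) ⊓ Om B, ∀ y ∈ C_(W X) ⊓ Om B, x * x * (y * y) ∈ f.range → x * y ∈ B := fun x hx y hy e =>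
    s0 _ (mul_mem hx hy) (mul_one (x * y * (x * y)) ▸ s1 x hx y hy 1 (one_mem _) (by rwa [mul_one]))
  have s3 : ∀ x ∈ C_(W X) ⊓ Om B, ∃ v ∈ V X, (k x ∈ C_(B) → v = 1) ∧ k ⁅x, k x⁆ = v * ⁅x, k x⁆ := fun x hx => by
    have m := (ch _ k).2 hx
    have b := s2 _ (mul_mem hx m) _ ((ch _ k).2 m) (s1 x hx _ m _ ((ch _ k).2 m).2.2 (by
      rw [← map_mul, ← map_mul, ← map_mul, h.tr hB hx.2.2]; exact one_mem _))
    have v := inv_mem (h.l1 hW hB hWB (inv_mem m) b)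
    refine ⟨_, v, fun c => by rw [commutatorElement_eq_one_iff_mul_comm.2 (inv_mem c _ b).symm, inv_one], ?_⟩
    calc _ = x⁻¹ * ⁅(k x)⁻¹, x * k x * k (k x)⁆⁻¹ * x * ((k x * x)⁻¹ * (⁅x, k x⁆ * (k x * x))) := by
          rw [map_commutatorElement]; simp only [commutatorElement_def]; group
      _ = _ := by rw [← vc v, (mul_mem m hx).1 _ (h.l3 hW hB hWB hx m).1]; group
  have c4 : # B = 4 * # f.range := by
    rw [← f.ker.card_mul_index, index_ker, show f.ker = (V X).subgroupOf B from Subgroup.ext fun b => ⟨h.inV hB b.2, vv⟩,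
      card_subgroupOf ((le_Om _).trans hWB), h.v4']
  have s4 : ∀ x ∈ C_(W X) ⊓ Om B, x ∉ B → B ≤ f.range ⊔ zpowers (x * x) ⊔ zpowers (k (x * x)) := fun x hx hx' => by
    have m := (ch B k).2 hx.2.2
    have l1 : f.range ⊔ zpowers (x * x) ≤ B := sup_le fB (zpowers_le.2 hx.2.2)
    refine (eq_of_le_of_card_le (sup_le l1 (zpowers_le.2 m)) (le_of_eq ?_)).ge
    rw [card_sup_zpowers (p := 2) _ (le_norm_of_abelian hB l1 m) (fun c => ?_) (mem_sup_left ⟨⟨_, m⟩, (pow_two _).symm⟩),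
      card_sup_zpowers (p := 2) _ (le_norm_of_abelian hB fB hx.2.2) (mt (s0 x hx) hx') ⟨⟨_, hx.2.2⟩, (pow_two _).symm⟩, c4]
    · omega
    have fk : ∀ u ∈ f.range, k u ∈ f.range := by rintro _ ⟨b, rfl⟩; exact ⟨⟨k b, (ch B k).2 b.2⟩, (map_mul k _ _).symm⟩
    refine hx' ((ch B k).1 (s0 _ ((ch _ k).2 hx) (map_mul k x x ▸ (cas (le_norm_of_abelian hB fB hx.2.2) ⟨⟨_, hx.2.2⟩, rfl⟩ c).elim id
      fun e => ?_)))
    have := fk _ (fk _ e)
    rw [map_mul, map_mul, h.k3 hB hx.2.2, mul_comm_of_abelian hB hx.2.2 ((ch B k).2 m),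
      eq_inv_of_mul_eq_one_right (h.tr hB hx.2.2)] at this
    exact inv_mem_iff.1 (by simpa [mul_assoc] using this)
  have s5 : ∀ x ∈ C_(W X) ⊓ Om B, x ∉ B → x ∈ C_(B) := fun x hx hx' => by
    have m := (ch _ k).2 hx
    obtain ⟨v, v1, -, v2⟩ := s3 x hx
    obtain ⟨c1, -⟩ := h.l3 hW hB hWB hx m
    have c2 := h.kf _ c1.2 (by rw [map_mul, v2, mul_assoc, ← mul_assoc _ v, ← vc v1, mul_assoc, ← mul_assoc, vv v1, one_mul])
    refine fun b hb => mem_centralizer_singleton_iff.1 ((s4 x hx hx').trans (sup_le (sup_le ?_ (zpowers_le.2 ?_)) (zpowers_le.2 ?_)) hb)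
    · rintro _ ⟨b, rfl⟩
      have := h.l1 hW hB hWB hx b.2
      refine mem_centralizer_singleton_iff.2 (commutatorElement_eq_one_iff_mul_comm.1 ?_).symm
      rw [MonoidHom.mk'_apply, commutatorElement_mul_right_of_commute (vc this b).symm, vv this]
    · exact mem_centralizer_singleton_iff.2 (mul_assoc x x x)
    · refine mem_centralizer_singleton_iff.2 (commutatorElement_eq_one_iff_mul_comm.1 ?_)
      rw [map_mul, (h.l3 hW hB hWB m hx).2, ← commutatorElement_inv, ← mul_inv_rev, c2, inv_one]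
  have s6 : ∀ x ∈ C_(W X) ⊓ Om B, x ∉ B → ∀ y ∈ C_(W X) ⊓ Om B, y * x = x * y := fun x hx hx' y hy => by
    have m := (ch _ k).2 hx
    obtain ⟨v, -, v1, v2⟩ := s3 x hx
    rw [v1 (s5 _ m (mt (ch B k).1 hx')), one_mul] at v2
    obtain ⟨c1, c2⟩ := h.l3 hW hB hWB hx m
    have e := commutatorElement_eq_one_iff_mul_comm.1 (h.kf _ (h.wv c1 (h.kf _ c1.2 (by rw [map_mul, v2]))) v2)
    have a : ∀ u, u * x = x * u → y * u ∈ B → y * x = x * y := fun u hu hw =>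
      mul_right_cancel (b := u) (by rw [mul_assoc, ← hu, ← mul_assoc, s5 x hx hx' _ hw, mul_assoc])
    have l1 : f.range ⊔ zpowers (x * x) ≤ B := sup_le fB (zpowers_le.2 hx.2.2)
    have n1 := le_norm_of_abelian hB fB hx.2.2
    rcases cas (le_norm_of_abelian hB l1 ((ch B k).2 hx.2.2)) (mem_sup_left ⟨⟨_, (ch B k).2 hx.2.2⟩, rfl⟩) (s4 x hx hx' hy.2.2) with d | d <;>
      rcases cas n1 ⟨⟨_, hx.2.2⟩, rfl⟩ d with d | d
    · exact s5 x hx hx' y (s0 y hy d)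
    · exact a x rfl (s2 y hy x hx d)
    · exact a _ e.symm (s2 y hy _ m (map_mul k x x ▸ d))
    · exact a (k x * x) (by rw [← mul_assoc, e]) (mul_assoc y _ _ ▸ s2 _ (mul_mem hy m) x hx (s1 y hy _ m _ hx.2.2 (map_mul k x x ▸ d)))
  refine isMulCommutative_iff'.2 fun x hx y hy => ?_
  by_cases c : y ∈ B
  · by_cases d : x ∈ B
    exacts [mul_comm_of_abelian hB d c, (s6 x hx d y hy).symm]
  · exact s6 y hy c x hx

omit hB hWB in
theorem no : False := by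
  obtain ⟨B, b1, b2⟩ := (Set.toFinite {B : Subgroup X | B.Characteristic ∧ IsMulCommutative B}).exists_le_maximal (a := W X) ⟨inferInstance, hW⟩
  obtain ⟨_, hB⟩ := b2.1
  have bd : B ≤ C_(W X) := le_cent_of_abelian hB le_rfl b1
  have db : C_(W X) ≤ B := by
    by_contra c
    obtain ⟨x, a, b, c, d⟩ := exists_central_step h.pg B _ c
    exact b (b2.2 ⟨inf_characteristic _ _, h.lab hW hB b1⟩ (le_inf bd (le_Om B)) ⟨a, d, pow_two x ▸ c⟩)
  by_cases c : B ≤ W X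
  · have s : ∀ g : X, g * g ∈ V X := fun g => by_contra fun d => d
      (c (db (h.w2 hW (c (db (sqc vz g))) d (mul_assoc g g g)))).2
    exact h.na (isMulCommutative_iff.2 fun x y => mul_comm_of_abelian hW ⟨cv (fun g => vz (s g)) x, s x⟩ ⟨cv (fun g => vz (s g)) y, s y⟩)
  obtain ⟨x, hx⟩ : ∃ x, x ∉ C_(W X) := by
    by_contra! d
    exact h.na (isMulCommutative_iff.2 fun x y => mul_comm_of_abelian hB (db (d x)) (db (d y)))
  refine h.w1 hW (x := x) fun w hw => ?_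
  by_cases d : w ∈ V X
  · rw [← vc d, mul_inv_cancel_right, inv_eq_of_mul_eq_one_right (vv d)]
  obtain ⟨b, hb, rfl⟩ := h.ws hW hB b1 c hw
  obtain ⟨c1, c2⟩ := cinv hB (db (sqc vz x)) hb
  have e : ⁅x, b * b⁆ = ⁅x, b⁆ * ⁅x, b⁆ := commutatorElement_mul_right_of_commute (mul_comm_of_abelian hB hb c1)
  have v : ⁅x, b⁆ * ⁅x, b⁆ ∈ V X := e ▸ commutatorElement_inv (b * b) x ▸ inv_mem (hw.1 x)
  have c3 := h.o4 hW hB b1 c1 v
  generalize ⁅x, b⁆ = u at *
  generalize b * b = w at *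
  have e' : x * w * x⁻¹ = u * u * w := by rw [← e, commutatorElement_def, inv_mul_cancel_right]
  have : u * w ∈ V X := by_contra fun a => hx (h.w2 hW (mul_mem c3 hw) a (mul_inv_eq_iff_eq_mul.1 (by
    rw [show x * (u * w) * x⁻¹ = x * u * x⁻¹ * (x * w * x⁻¹) by group, c2, e']; group)).symm)
  have := vv this
  rw [mul_assoc, ← mul_assoc w, mul_comm_of_abelian hW hw c3, mul_assoc, ← mul_assoc, ← mul_assoc] at this
  rw [e', eq_inv_of_mul_eq_one_left this]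

omit hW hB hWB in
theorem sp2 : center X = V X ∧ commutator X = V X ∧ ∀ g : X, g * g ∈ V X := by
  have c := h.allsq vz (by_contra fun c => h.no (h.ab c))
  have s := fun g => c (sqc vz g)
  refine ⟨le_antisymm (fun x hx => c fun g _ => mem_center_iff.1 hx g) vz, le_antisymm (commutator_le.2 fun x _ y _ =>
    cv (fun g => vz (s g)) x y) fun v hv => ?_, s⟩
  obtain ⟨x, y, e⟩ : ∃ x y : X, ⁅x, y⁆ ≠ 1 := by
    by_contra! d
    exact h.na (isMulCommutative_iff.2 fun x y => commutatorElement_eq_one_iff_mul_comm.1 (d x y))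
  have m : ⁅x, y⁆ ∈ commutator X := commutator_mem_commutator trivial trivial
  rcases h.four (cv (fun g => vz (s g)) x y) e hv with rfl | rfl | rfl | rfl
  exacts [one_mem _, m, (ch _ k).2 m, mul_mem m ((ch _ k).2 m)]

end S2
end H04.N8
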