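import Cfsg.Agent.H04.N8b
import Cfsg.Agent.H04.Quat2

/-! 2-groups without normal `E₈` with `X = [X, A]`: the classification (S1904). -/

set_option autoImplicit false
open Cfsg BG Subgroup H02.Hig
open scoped commutatorElement

local notation "#" => Nat.card

namespace H04.N8

variable {X : Type*} [Group X] [Finite X]

theorem inv_cnt : # {x : X // x ^ 2 = 1} = # {x : X // orderOf x = 2} + 1 := by
  classical
  rw [← Finite.card_option]
  refine Nat.card_congr ((Equiv.optionSubtypeNe ⟨1, one_pow 2⟩).symm.trans (Equiv.optionCongr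
    ⟨fun x => ⟨x.1.1, orderOf_eq_prime x.1.2 fun e => x.2 (Subtype.ext e)⟩,
      fun x => ⟨⟨x.1, orderOf_dvd_iff_pow_eq_one.1 x.2.dvd⟩, fun e => by
        have := (congrArg orderOf (congrArg Subtype.val e)).symm.trans x.2; simp at this⟩,
      fun _ => rfl, fun _ => rfl⟩))

noncomputable def cn (v : X) : ℕ := {x : X | x * x = 1 ∨ x * x = v}.ncard

theorem cnt (hX : IsPGroup 2 X) (h4 : # (V X) = 4) (hc : commutator X = V X) (hs : ∀ g : X, g * g ∈ V X) {v : X} (hv : v ∈ V X) (h1 : v ≠ 1) :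
    16 ≤ # X ∧ (# X = 16 → cn v = 12 ∨ cn v = 4) ∧ (128 ≤ # X → 16 ∣ cn v) ∧
      (# X = 32 → ∃ R : Subgroup X, # R = 8 ∧ ∀ x, x ∈ R ↔ ∀ g, ⁅x, g⁆ ∈ zpowers v) := by
  have zv := zpowers_le.2 hv
  have : (zpowers v).Normal := normal_of_le_center (zv.trans vz)
  have c2 : # (zpowers v) = 2 := by rw [Nat.card_zpowers, orderOf_eq_prime ((pow_two v).trans hv.2) h1]
  obtain ⟨u, u1, u2⟩ := SetLike.not_le_iff_exists.1 fun a : V X ≤ zpowers v => by have := card_le_of_le a; omega
  have i : (zpowers v).relIndex (V X) = 2 := by have := H01.card_mul_relIndex zv; rw [c2, h4] at this; omega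
  have m : ∀ y ∈ V X, (y : X ⧸ zpowers v) ∈ zpowers (u : X ⧸ zpowers v) := fun y hy => by
    by_cases c : y ∈ zpowers v
    · rw [(QuotientGroup.eq_one_iff y).2 c]; exact one_mem _
    · rw [QuotientGroup.eq.2 (two i.le hy u1 (iff_of_false u2 c))]; exact mem_zpowers _
  have a : AES 2 ⊤ (u : X ⧸ zpowers v) := ⟨orderOf_eq_prime (by rw [← QuotientGroup.mk_pow, ve.2 u u1]; rfl)
    (mt (QuotientGroup.eq_one_iff u).1 u2), trivial, fun y _ => by
      obtain ⟨y, rfl⟩ := QuotientGroup.mk_surjective y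
      rw [← QuotientGroup.mk_mul, ← vc u1, QuotientGroup.mk_mul], fun x _ y _ => by
      obtain ⟨x, rfl⟩ := QuotientGroup.mk_surjective x
      obtain ⟨y, rfl⟩ := QuotientGroup.mk_surjective y
      exact m _ (hc.le (commutator_mem_commutator trivial trivial)), fun x _ => by
      obtain ⟨x, rfl⟩ := QuotientGroup.mk_surjective x
      exact m (x ^ 2) (pow_two x ▸ hs x)⟩
  obtain ⟨n, e1, e2⟩ := a.sqCount_cases
  have e3 : cn v = 2 * sqCount ⊤ (1 : X ⧸ zpowers v) := by
    rw [cn, sqCount, ← Nat.card_coe_set_eq, ← Nat.card_coe_set_eq]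
    refine Eq.trans ?_ ((QuotientGroup.card_preimage_mk (zpowers v) _).trans (by rw [c2]))
    congr 2; ext x
    simp only [Set.mem_ofPred_eq, Set.mem_preimage, mem_top, true_and, pow_two, ← QuotientGroup.mk_mul, QuotientGroup.eq_one_iff]
    refine ⟨by rintro (e | e) <;> rw [e]; exacts [one_mem _, mem_zpowers v], fun e => ?_⟩
    exact (cas (K := ⊥) (le_norm_bot (mem_top v)) hv.2 (mem_sup_right e)).imp id fun d => mul_right_cancel ((mem_bot.1 d).trans (vv hv).symm)
  have e4 := (zpowers v).card_mul_index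
  obtain ⟨s, hs'⟩ := card_eq_pow (hX.to_quotient (zpowers v)) (center _)
  rw [inf_cent_top, card_top, ← index_eq_card, hs'] at e1 e2
  have s1 : s ≠ 0 := by
    rintro rfl
    exact a.ne_one (Subgroup.card_eq_one.1 hs' ▸ inf_cent_top.le ⟨trivial, a.cent⟩ :)
  have n1 : n ≠ 0 := by
    rintro rfl
    have := eq_top_of_card_eq _ (hs'.trans (by rw [← index_eq_card, e1, mul_zero, pow_zero, one_mul]))
    refine u2 ((Normal.quotient_commutative_iff_commutator_le.1 (isMulCommutative_iff.2 fun x y => ?_)) (hc.ge u1))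
    exact mem_center_iff.1 (this.ge (mem_top y)) x
  have s2 : (∃ x ∈ center (X ⧸ zpowers v), x ^ 2 ≠ 1) → 2 ≤ s := fun ⟨x, x1, x2⟩ => by
    by_contra c
    obtain rfl : s = 1 := by omega
    exact x2 (congrArg Subtype.val (hs' ▸ pow_card_eq_one' (x := (⟨x, x1⟩ : center _))))
  rw [c2, e1] at e4
  rw [← e3, e1] at e2
  have b : ∀ N, # X = 2 ^ N → N = 1 + 2 * n + s := fun N hN => Nat.pow_right_injective le_rfl (by
    simp only [← hN, ← e4, pow_add, pow_one, mul_assoc])
  refine ⟨?_, fun c => ?_, fun c => ?_, fun c => ⟨(center _).comap (QuotientGroup.mk' (zpowers v)), ?_, fun x => ?_⟩⟩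
  · rw [← e4, ← pow_add, ← pow_succ']; exact Nat.pow_le_pow_right two_pos (by omega : 4 ≤ _)
  · obtain ⟨rfl, rfl⟩ : n = 1 ∧ s = 1 := by have := b 4 c; omega
    rcases e2 with e | e | e
    · exact absurd (s2 e.2) (by omega)
    all_goals omega
  · rw [← e4, ← pow_add, ← pow_succ', show 128 = 2 ^ 7 from rfl, Nat.pow_le_pow_iff_right Nat.one_lt_two] at c
    have d1 : 2 ^ 4 ∣ 2 ^ (2 * n) * 2 ^ s := pow_add 2 _ s ▸ pow_dvd_pow 2 (by omega)
    have d2 : 2 ^ 4 ∣ 2 ^ n * 2 ^ s := pow_add 2 _ s ▸ pow_dvd_pow 2 (by omega)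
    omega
  · obtain ⟨rfl, rfl⟩ : n = 1 ∧ s = 2 := by have := b 5 c; omega
    exact (QuotientGroup.card_preimage_mk _ (center (X ⧸ zpowers v) : Set _)).trans (congrArg₂ (· * ·) c2 hs')
  · rw [mem_comap, mem_center_iff, QuotientGroup.mk_surjective.forall]
    refine forall_congr' fun g => ?_
    rw [eq_comm, ← commutatorElement_eq_one_iff_mul_comm, ← QuotientGroup.eq_one_iff]; rfl

theorem cn_sum (h4 : # (V X) = 4) (hs : ∀ g : X, g * g ∈ V X) (hi : ∀ t : X, t * t = 1 → t ∈ V X) {a b : X} (ha : a ∈ V X) (hb : b ∈ V X)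
    (a1 : a ≠ 1) (b1 : b ≠ 1) (ab : a ≠ b) : cn a + cn b + cn (a * b) = # X + 8 := by
  classical
  have := Fintype.ofFinite X
  have c1 : a * b ≠ 1 := fun e => ab (mul_right_cancel (e.trans (vv hb).symm))
  have e : # (V X) = (Finset.univ.filter fun x : X => x * x = 1).card := by
    rw [← Fintype.card_subtype, ← Nat.card_eq_fintype_card]
    exact Nat.card_congr (Equiv.subtypeEquivRight fun x => ⟨vv, hi x⟩)
  simp only [cn, Set.ncard_eq_toFinset_card', Set.toFinset_ofPred]
  rw [show 8 = 2 * # (V X) by omega, e, Nat.card_eq_fintype_card, ← Finset.card_univ, Finset.card_eq_sum_ones Finset.univ]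
  simp only [Finset.card_filter, Finset.mul_sum, ← Finset.sum_add_distrib]
  refine Finset.sum_congr rfl fun x _ => ?_
  rcases mem_four ve h4 ha hb a1 b1 ab (hs x) with e | e | e | e <;> simp [e, a1, b1, c1, ab, ab.symm]

theorem St.main {A : Subgroup (MulAut X)} (h : St A) : Nonempty (X ≃* QuaternionGroup 2) ∨
    (IsSpecial 2 X ∧ # X = 64 ∧ # {x : X // orderOf x = 2} = 3 ∧ ∀ x : X, orderOf x = 2 → x ∈ center X) ∨
      (IsExtraspecial 2 X ∧ # X = 32 ∧ # {x : X // orderOf x = 2} = 11) := by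
  obtain ⟨s1, s2, s3⟩ : center X = V X ∧ commutator X = V X ∧ ∀ g : X, g * g ∈ V X := by
    by_cases c : ∀ φ ∈ A, ∀ v ∈ V X, φ v = v
    · exact h.sp1 c
    · push Not at c
      obtain ⟨k, k1, v, v1, v2⟩ := c
      exact (h.s2 k1 v1 v2).sp2
  have sp : IsSpecial 2 X := ⟨h.pg, s1 ▸ le_antisymm (frattini_le (p := 2) _ s2.le fun x => pow_two x ▸ s3 x)
    (s2 ▸ commutator_le_frattini h.pg), s2.trans s1.symm⟩
  obtain ⟨n, hn⟩ := card_eq_pow h.pg (V X)
  have n2 : n ≤ 2 := by have := h.v4; rwa [hn, show 4 = 2 ^ 2 from rfl, Nat.pow_le_pow_iff_right Nat.one_lt_two] at this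
  have n0 : n ≠ 0 := by
    rintro rfl
    exact h.na (isMulCommutative_iff.2 fun x y => commutatorElement_eq_one_iff_mul_comm.1 (mem_bot.1 (Subgroup.card_eq_one.1 hn ▸
      s2.le (commutator_mem_commutator trivial trivial))))
  have ic := inv_cnt (X := X)
  obtain rfl | rfl : n = 1 ∨ n = 2 := by omega
  · have es : IsExtraspecial 2 X := ⟨sp, s1 ▸ hn⟩
    obtain ⟨m, m1, m2⟩ := exists_card_of_isExtraspecial es
    have r : PRankLE 2 2 X := pRankLE_iff'.2 fun E hE => (card_le_of_le le_sup_left).trans (h.e4 _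
      (Normal.of_commutator_le X (s2.le.trans le_sup_right)) (IsElementaryAbelian.sup hE ve fun x _ v hv => vc hv x))
    obtain ⟨r1, r2⟩ := pRankLE_iff_of_isExtraspecial es m2 2
    by_cases c : m = 1
    · subst c
      obtain ⟨a, b, d⟩ := isDSQ_of_card_eight m2 h.na
      rcases d.rel with r | r | r
      · have f : ∀ φ : MulAut X, φ a ∈ zpowers a := fun φ => by
          rcases d.cases (φ a) with ⟨i, e⟩ | ⟨i, e⟩
          · exact ⟨i, e.symm⟩
          refine absurd (φ.injective ?_) (d.pow_ne_one (k := 1) le_rfl)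
          rw [map_pow, e, pow_one, mul_zpow_sq (k := -1) (r.2.trans (zpow_neg_one a).symm), r.1, map_one]; group
        have : (zpowers a).Characteristic := characteristic_iff_map_le.2 fun φ => by
          rw [MonoidHom.map_zpowers, zpowers_le]; exact f φ
        exact absurd ((h.top (zpowers a) fun φ _ x => two (Y := ⊤) (by rw [relIndex_top_right, d.index]) trivial trivial
          (ch _ φ)).ge (mem_top b)) d.notMem
      · exact .inl (d.iso_quaternion r.1 r.2)
      · omega
    rcases card_sq_eq_one_of_isExtraspecial es m2 with e | e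
    · have := (r1 e).1 r; omega
    · obtain rfl : m = 2 := by have := (r2 e).1 r; omega
      exact .inr (.inr ⟨es, m2, by omega⟩)
  have hi : ∀ t : X, t * t = 1 → t ∈ V X := fun t ht => h.e8 hn ht fun g => s2.le (commutator_mem_commutator trivial trivial)
  refine .inr (.inl ⟨sp, ?_, ?_, fun x hx => vz (hi x (pow_two x ▸ hx ▸ pow_orderOf_eq_one x))⟩)
  swap
  · rw [← Nat.card_congr (Equiv.subtypeEquivRight fun x => ⟨ve.2 x, fun e => hi x (pow_two x ▸ e)⟩ : V X ≃ _), hn] at ic
    omega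
  obtain ⟨a, a0, a1⟩ := SetLike.not_le_iff_exists.1 fun a : V X ≤ ⊥ => by have := card_le_of_le a; rw [Subgroup.card_bot] at this; omega
  obtain ⟨b, b0, b1⟩ := SetLike.not_le_iff_exists.1 fun e : V X ≤ zpowers a => by
    have := card_le_of_le e
    rw [Nat.card_zpowers, orderOf_eq_prime (ve.2 a a0) a1] at this
    omega
  have b2 : b ≠ 1 := by rintro rfl; exact b1 (one_mem _)
  have ab : a ≠ b := by rintro rfl; exact b1 (mem_zpowers _)
  have t := cn_sum hn s3 hi a0 b0 a1 b2 ab
  obtain ⟨p1, p2, p3, p4⟩ := cnt h.pg hn s2 s3 a0 a1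
  obtain ⟨-, q2, q3, -⟩ := cnt h.pg hn s2 s3 b0 b2
  obtain ⟨-, r2, r3, -⟩ := cnt h.pg hn s2 s3 (mul_mem a0 b0) fun e => ab (mul_right_cancel (e.trans (vv b0).symm))
  have c5 : # X ≠ 32 := fun c => by
    by_cases d : ∀ φ ∈ A, φ a = a
    · obtain ⟨R, R1, R2⟩ := p4 c
      have le : V X ≤ R := fun v hv => (R2 v).2 fun g => (mem_bot.1 (hv.1 g)).symm ▸ one_mem _
      have i := H01.card_mul_relIndex le
      rw [hn, R1] at i
      have : R ≤ V X := fun y hy => h.nofix _ s2.le fun φ hφ => two (by omega) hy ((R2 _).2 fun g => by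
        obtain ⟨g, rfl⟩ := φ.surjective g
        obtain ⟨j, e⟩ := (R2 y).1 hy g
        exact ⟨j, by rw [← map_commutatorElement, ← e]; simp only [map_zpow, d φ hφ]⟩) (ch _ φ)
      have := card_le_of_le this
      omega
    · push Not at d
      obtain ⟨k, k1, k2⟩ := d
      have f : ∀ v, cn (k v) = cn v := fun v => (Set.ncard_congr (fun x _ => k x) (fun x hx => by
        simpa only [Set.mem_ofPred_eq, ← map_mul, map_eq_one_iff _ k.injective, k.injective.eq_iff] using hx)
        (fun _ _ _ _ e => k.injective e) fun y hy => ⟨k.symm y, by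
          obtain ⟨y, rfl⟩ := k.surjective y
          simpa only [Set.mem_ofPred_eq, ← map_mul, map_eq_one_iff _ k.injective, k.injective.eq_iff, k.symm_apply_apply] using hy,
          k.apply_symm_apply y⟩).symm
      have := cn_sum hn s3 hi a0 ((ch _ k).2 a0) a1 (by simpa using a1) (Ne.symm k2)
      rw [← (h.s2 k1 a0 k2).kk a0, f, f, f] at this
      omega
  clear p4
  obtain ⟨N, hN⟩ := IsPGroup.iff_card.1 h.pg
  by_cases c : 7 ≤ N
  · have : 2 ^ 7 ∣ # X := hN ▸ pow_dvd_pow 2 c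
    omega
  · push Not at c
    interval_cases N <;> omega

end H04.N8
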