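import Cfsg.Agent.S4445
import Cfsg.Agent.H07.Deg
import Cfsg.Agent.H07.Extend
import Cfsg.Agent.H20.Constr
import Cfsg.Agent.H04.Basic

/-! Navarro–Wolf: if `q` divides no `p'`-degree of a `{p,q}`-solvable group, a Sylow `p`-normaliser normalises a
Sylow `q`-subgroup. -/

set_option autoImplicit false
open Subgroup Cfsg H05 H06 H07 H01
open scoped Pointwise commutatorElement

namespace H04.NW

variable {G : Type*} [Group G] [Finite G] {p q : ℕ} [hp : Fact p.Prime] [hq : Fact q.Prime]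

local notation "N_(" X ")" => Subgroup.normalizer ((X : Subgroup G) : Set G)
local notation "C_(" X ")" => Subgroup.centralizer ((X : Subgroup G) : Set G)

def Hy (p q : ℕ) (G : Type*) [Group G] : Prop :=
  ∀ χ : G → ℂ, IsIrrCharacter G χ → ¬ p ∣ charDegree χ → ¬ q ∣ charDegree χ

theorem ovr {X : Subgroup G} [Fintype X] (hX : ¬ p ∣ X.index) {η : X → ℂ} (hη : IsIrrCharacter X η)
    (hd : ¬ p ∣ charDegree η) :
    ∃ χ, IsIrrCharacter G χ ∧ ¬ p ∣ charDegree χ ∧ classInner (fun x : X => χ x) η ≠ 0 := by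
  have := Fintype.ofFinite G
  have h1 := isCharacter_indFun X hη.isCharacter
  have h2 : ¬ p ∣ charDegree (indFun X η) := by
    rw [charDegree_indFun X hη.isCharacter, hp.out.dvd_mul]; tauto
  obtain ⟨χ, h3⟩ := not_forall.1 (mt (fun h => degree_eq_sum_mult (MonoidHom.id G) h1 ▸ Finset.dvd_sum fun η _ => h η) h2)
  refine ⟨χ, χ.2, fun h => h3 (h.mul_left _), ?_⟩
  have h4 := (mult_ne_zero_iff _ h1 χ.2.isCharacter).1 fun e => h3 (by rw [e]; simp)
  rw [← frobenius_reciprocity_right X η _ χ.2.isCharacter.isClassFunction, ← classInner_conj_symm]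
  simpa using h4

theorem ind (h : Hy p q G) (N : Subgroup G) [N.Normal] {X : Subgroup G} (hN : N ≤ X) (hX : ¬ p ∣ X.index)
    {η : X → ℂ} (hη : IsIrrCharacter X η) (hd : ¬ p ∣ charDegree η) {θ : N → ℂ} (hθ : IsIrrCharacter N θ)
    (e : ∀ n : N, η (inclusion hN n) = θ n) : ¬ q ∣ (inertia N θ).index := by
  have := Fintype.ofFinite X
  have := Fintype.ofFinite N
  obtain ⟨χ, h1, h2, h3⟩ := ovr hX hη hd
  refine fun d => h χ h1 h2 ((d.mul_right _).trans (index_inertia_dvd N h1 hθ ?_))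
  refine classInner_comp_ne_zero_of_constituent (inclusion hN) (h1.isCharacter.comp X.subtype) hη h3 hθ.isCharacter ?_
  rw [funext e, hθ.classInner_self]; simp

theorem cop {X Y : Subgroup G} (h : p ≠ q) (hX : IsPGroup p X) (hY : IsPGroup q Y) : (Nat.card X).Coprime (Nat.card Y) := by
  obtain ⟨a, ha⟩ := IsPGroup.iff_card.1 hX
  obtain ⟨b, hb⟩ := IsPGroup.iff_card.1 hY
  rw [ha, hb]; exact Nat.coprime_pow_primes _ _ hp.out hq.out h

theorem cop' {X : Subgroup G} (hX : IsPGroup p X) {n : ℕ} (h : n.Coprime p) : (Nat.card X).Coprime n := by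
  obtain ⟨a, ha⟩ := IsPGroup.iff_card.1 hX
  rw [ha]; exact h.symm.pow_left _

theorem sol {X : Subgroup G} (hX : IsPGroup p X) : Group.IsSolvable X := by
  haveI := hX.isNilpotent; infer_instance

theorem uniq (h : p ≠ q) (hs : IsPSolvable p G) (P : Sylow p G) {Q T : Subgroup G} (hQ : IsPGroup q Q)
    (hi : ¬ q ∣ Q.index) (hn : N_(P) ≤ N_(Q)) (hT : ↑P ≤ T) (hT' : ¬ q ∣ T.index) : Q ≤ T := by
  have c := cop' P.isPGroup' (H02.pPrimeCore_coprime p G)
  have hO := H24.PS.le_pPrimeCore_of_normalized hs (by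
    obtain ⟨b, hb⟩ := IsPGroup.iff_card.1 hQ
    rw [hb]; exact ((Nat.coprime_primes hq.out hp.out).2 h.symm).pow_left _) P (le_normalizer.trans hn)
  obtain ⟨R, r1, r2, r3, r4⟩ := exists_invariant_sylow (A := P) (K := T ⊓ pPrimeCore p G)
    (le_normalizer_inf (hT.trans le_normalizer) (H01.le_normalizer_of_normal _ _)) (coprime_of_le_right c inf_le_right)
    (.inl (sol P.isPGroup')) q
  obtain ⟨c, c1, c2⟩ := invariant_sylow_conj (H01.le_normalizer_of_normal _ _) c (.inl (sol P.isPGroup')) hO hQ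
    (fun d => hi (d.trans (relIndex_dvd_index_of_le hO))) (r1.trans inf_le_right) r2 (by
      rw [← relIndex_mul_relIndex _ _ _ r1 inf_le_right, hq.out.dvd_mul, inf_relIndex_right]
      exact not_or.2 ⟨r3, fun d => hT' (d.trans (H01.relIndex_dvd_index_of_normal_right _ _))⟩) (le_normalizer.trans hn) r4
  rw [conj_smul_eq_iff_mem_normalizer.2 (hn (centralizer_le_normalizer _ c1.2))] at c2
  exact c2 ▸ r1.trans inf_le_left

/-- If every `P`-invariant character of `N` is `Q`-invariant, then `Q` centralises `C_N(P)`. -/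
theorem cent {N P S : Subgroup G} [N.Normal] (hPS : P ≤ S) (hs : Group.IsSolvable S)
    (hc : (Nat.card S).Coprime (Nat.card N)) (h : ∀ θ, IsIrrCharacter N θ → P ≤ inertia N θ → S ≤ inertia N θ) :
    N ⊓ C_(P) ≤ C_(S) := by
  have := Fintype.ofFinite G
  have := Fintype.ofFinite N
  have hs' : Group.IsSolvable P := isSolvable_of_le hPS
  have hc' := coprime_of_le_left hc hPS
  have n : ∀ S : Subgroup G, ∀ s ∈ S, ∀ g ∈ N, s * g * s⁻¹ ∈ N := fun S s _ g hg => Normal.conj_mem ‹_› g hg s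
  have e1 := Cfsg.Agent.S4445.result N P (n P) hc'.symm hs'
  have e2 := Cfsg.Agent.S4445.result N S (n S) hc.symm hs
  have i : ∀ (S : Subgroup G) (θ : N → ℂ), S ≤ inertia N θ ↔ ∀ s ∈ S, ∀ g g' : N, (g' : G) = s * g * s⁻¹ → θ g' = θ g :=
    fun S θ => forall₂_congr fun s _ => (mem_inertia' N).trans
      ⟨fun h g g' e => (h g) ▸ congrArg θ (Subtype.ext e), fun h g => h g _ rfl⟩
  rw [Nat.card_congr (Equiv.subtypeEquivRight fun χ => ⟨fun a => (i S _).1 (h _ χ.2 ((i P _).2 a)),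
    fun a s hs => a s (hPS hs)⟩), e2] at e1
  have e3 := (Set.eq_of_subset_of_ncard_le (s := {K : ConjClasses N | ∀ s ∈ S, ∀ g g' : N, (g' : G) = s * g * s⁻¹ →
    ConjClasses.mk g = K → ConjClasses.mk g' = K}) (t := {K : ConjClasses N | ∀ s ∈ P, ∀ g g' : N,
      (g' : G) = s * g * s⁻¹ → ConjClasses.mk g = K → ConjClasses.mk g' = K}) (fun K a s hs => a s (hPS hs)) e1.ge).ge
  rw [← subgroupOf_eq_top]
  refine H27.eq_top_of_forall_conj_mem fun x => ?_
  have e4 := @e3 (ConjClasses.mk ⟨x, x.2.1⟩) fun s hs g g' e a => by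
    obtain ⟨c, hc⟩ := isConj_iff.1 (ConjClasses.mk_eq_mk_iff_isConj.1 a.symm)
    refine (ConjClasses.mk_eq_mk_iff_isConj.2 (isConj_iff.2 ⟨⟨s * c * s⁻¹, n P s hs c c.2⟩, Subtype.ext ?_⟩)).symm
    have := x.2.2 s hs
    simp only [coe_mul, coe_inv, e, ← hc]
    calc _ = s * c * (s⁻¹ * (x * s)) * (c : G)⁻¹ * s⁻¹ := by group
      _ = _ := by rw [← this]; group
  obtain ⟨k, hk, h1⟩ := glauberman_fixed (X := CJ G) (H01.le_normalizer_of_normal S N) hc (.inl hs) (x : G) fun a ha => by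
    obtain ⟨c, hc⟩ := isConj_iff.1 (ConjClasses.mk_eq_mk_iff_isConj.1
      (e4 a ha ⟨x, x.2.1⟩ ⟨_, n S a ha x x.2.1⟩ rfl rfl).symm)
    exact ⟨c, c.2, (congrArg Subtype.val hc).symm⟩
  obtain ⟨c, hc1, h2⟩ := glauberman_trans (X := CJ G) (H01.le_normalizer_of_normal P N) hc' (.inl hs') (x := (x : G)) hk
    (fun a ha => show a * (x : G) * a⁻¹ = x from mul_inv_eq_iff_eq_mul.2 (x.2.2 a ha)) fun a ha => h1 a (hPS ha)
  rw [← h2] at h1
  exact ⟨⟨c, hc1⟩, fun a ha => mul_inv_eq_iff_eq_mul.1 (show a * (c * x * c⁻¹) * a⁻¹ = c * x * c⁻¹ from h1 a ha)⟩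

theorem main (h : p ≠ q) (n : ℕ) : ∀ (G : Type*) [Group G] [Finite G], Nat.card G = n → IsPSolvable p G →
    IsPSolvable q G → Hy p q G → ∀ P : Sylow p G, ∃ Q : Subgroup G, IsPGroup q Q ∧ ¬ q ∣ Q.index ∧
      normalizer ((P : Subgroup G) : Set G) ≤ normalizer (Q : Set G) := by
  induction n using Nat.strong_induction_on with
  | _ n ih =>
  intro G _ _ hn hs hs' hy P
  rcases subsingleton_or_nontrivial G with h0 | h0
  · exact ⟨⊤, fun g => ⟨0, Subsingleton.elim _ _⟩, by simp [hq.out.ne_one], le_of_eq (Subsingleton.elim _ _)⟩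
  obtain ⟨N, hN, n0, nm⟩ := H02.exists_minimal_normal (G := G)
  have sf := QuotientGroup.mk'_surjective N
  obtain ⟨Q', q1, q2, q3⟩ := ih _ (hn ▸ H01.card_quotient_lt N n0) (G ⧸ N) rfl (H24.PS.quotient hs N)
    (H24.PS.quotient hs' N) (fun χ a b => by
      have := hy _ (a.inflate N); rw [show charDegree (fun x : G => χ x) = _ from charDegree_comp χ (QuotientGroup.mk' N)] at this
      exact this b) (P.mapSurjective sf)
  obtain ⟨K, hK⟩ : ∃ K, K = Q'.comap (QuotientGroup.mk' N) := ⟨_, rfl⟩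
  have k1 : N ≤ K := fun x hx => by simp [hK, (QuotientGroup.eq_one_iff x).2 hx]
  have k2 : ¬ q ∣ K.index := by rwa [hK, index_comap_of_surjective _ sf]
  have k3 : normalizer ((P : Subgroup G) : Set G) ≤ normalizer (K : Set G) := fun x hx =>
    hK ▸ le_normalizer_comap _ (q3 (le_normalizer_map _ ⟨x, hx, rfl⟩))
  have k4 : ∀ T, N ≤ T → ↑P ≤ T → ¬ q ∣ T.index → K ≤ T := fun T a b c => by
    have := uniq h (H24.PS.quotient hs N) _ q1 q2 q3 (map_mono b) (T := T.map (QuotientGroup.mk' N))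
      (by rwa [index_map_eq _ sf (by simpa)])
    simpa [hK, comap_map_eq, a] using comap_mono (f := QuotientGroup.mk' N) this
  obtain ⟨b, hb⟩ := IsPGroup.iff_card.1 q1
  have k5 : N.relIndex K = q ^ b := by rw [H24.relIndex_eq_card_map, hK, map_comap_eq_self_of_surjective sf, hb]
  have k6 : ∀ Q ≤ K, IsPGroup q Q → ¬ q ∣ Q.relIndex K → ¬ q ∣ Q.index ∧ ∀ x ∈ normalizer (K : Set G), ∃ m ∈ N,
      MulAut.conj m • MulAut.conj x • Q = Q := fun Q a b c => by
    refine ⟨by rw [← relIndex_mul_index a, hq.out.dvd_mul]; exact not_or.2 ⟨c, k2⟩, fun x hx => ?_⟩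
    have e : K ≤ Q ⊔ N := relIndex_eq_one.1 (Nat.eq_one_of_dvd_coprimes
      ((hq.out.coprime_iff_not_dvd.2 c).pow_left ‹ℕ›) ((relIndex_dvd_of_le_left K le_sup_right).trans k5.dvd)
      (relIndex_dvd_of_le_left K le_sup_left))
    obtain ⟨k, hk, e'⟩ := sylow_conj_of_card a (conj_smul_le_of_mem_normalizer a hx) b c
      (Nat.card_congr (equivSMul _ _).toEquiv).symm
    obtain ⟨y, hy, m, hm, rfl⟩ := (mul_normal Q N).le (e hk)
    refine ⟨m, hm, ?_⟩
    rw [map_mul, mul_smul, smul_eq_iff_eq_inv_smul, ← map_inv] at e'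
    rw [e', conj_smul_eq_of_mem (inv_mem hy)]
  rcases H24.PS.minimal_normal (H24.PS.subgroup hs N) nm with n1 | n1
  · obtain ⟨Q, r1, r2, r3, -⟩ := exists_invariant_sylow (A := ⊥) (K := K) bot_le (by simp) (.inl inferInstance) q
    obtain ⟨r4, r5⟩ := k6 Q r1 r2 r3
    have hNP : N ≤ P := n1.le_sylow_of_normal P
    replace r5 : ∀ x ∈ normalizer (K : Set G), ∃ m ∈ N, m * x ∈ normalizer (Q : Set G) := fun x hx => by
      obtain ⟨m, a, b⟩ := r5 x hx
      exact ⟨m, a, conj_smul_eq_iff_mem_normalizer.1 (by rw [map_mul, mul_smul, b])⟩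
    suffices e : ↑P ≤ normalizer (Q : Set G) from ⟨Q, r2, r4, fun x hx => by
      obtain ⟨m, a, b⟩ := r5 x (k3 hx)
      exact (mul_mem_cancel_left (e (hNP a))).1 b⟩
    rw [← subgroupOf_eq_top]
    by_contra e
    obtain ⟨M, m1, _, m2⟩ := exists_index_eq_of_ne_top P.isPGroup' e
    obtain ⟨x, hx⟩ : ∃ x, x ∉ M := by
      by_contra! a
      exact hp.out.ne_one (m2 ▸ index_eq_one.2 ((eq_top_iff' _).2 a))
    haveI := isCyclic_of_prime_card (show Nat.card (_ ⧸ M) = p from m2)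
    obtain ⟨φ, hφ⟩ := exists_hom_apply_ne_one (G := _ ⧸ M) (x := (x : _ ⧸ M)) (by
      rw [(_root_.commutator_eq_bot_iff _).2 inferInstance]; simpa using hx)
    let μ := φ.comp (QuotientGroup.mk' M)
    have μ1 : ∀ y : P, (y : G) ∈ normalizer (Q : Set G) → μ y = 1 := fun y hy => by
      simp [μ, (QuotientGroup.eq_one_iff y).2 (m1 hy)]
    let l := μ.comp (inclusion hNP)
    have t := k4 (inertia N fun m => (l m : ℂ)) (le_inertia N (isCharacter_monoidHom l).isClassFunction)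
      (fun g hg => (mem_inertia' N).2 fun m => by
        have : l ⟨g * m * g⁻¹, hN.conj_mem m m.2 g⟩ = μ (⟨g, hg⟩ * inclusion hNP m * ⟨g, hg⟩⁻¹) := rfl
        rw [this, map_mul, map_mul, map_inv, mul_inv_cancel_comm]; rfl)
      (ind hy N hNP P.not_dvd_index (isIrrCharacter_monoidHom μ) (by simp [charDegree, hp.out.ne_one])
        (isIrrCharacter_monoidHom l) fun _ => rfl)
    have t2 : N ≤ l.ker.map N.subtype := by
      refine (commutator_sup_centralizer (H01.le_normalizer_of_normal Q N) (cop h n1 r2).symm (.inl (sol r2))).ge.trans ?_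
      refine sup_le (commutator_le.2 fun m hm y hy => ?_) fun c hc => ⟨⟨c, hc.1⟩, μ1 _ (centralizer_le_normalizer _ hc.2), rfl⟩
      have := Units.ext ((mem_inertia' N).1 (t (r1 hy)) ⟨m, hm⟩)
      refine ⟨⟨m, hm⟩ * (⟨_, hN.conj_mem m hm y⟩ : N)⁻¹, ?_, by simp [commutatorElement_def, mul_assoc]⟩
      rw [SetLike.mem_coe, MonoidHom.mem_ker, map_mul, map_inv, this, mul_inv_cancel]
    obtain ⟨m, a, b⟩ := r5 x (k3 (le_normalizer x.2))
    obtain ⟨m, a', rfl⟩ := t2 a
    have := μ1 (inclusion hNP m * x) b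
    rw [map_mul, show μ (inclusion hNP m) = 1 from a', one_mul] at this
    exact hφ this
  rcases H24.PS.minimal_normal (H24.PS.subgroup hs' N) nm with n2 | n2
  · exact ⟨K, hK ▸ q1.comap_of_ker_isPGroup _ (by rwa [QuotientGroup.ker_mk']), k2, k3⟩
  have sP := sol P.isPGroup'
  obtain ⟨Q, r1, r2, r3, r6⟩ := exists_invariant_sylow (A := P) (K := K) (le_normalizer.trans k3) (cop' P.isPGroup' (by
    rw [← card_mul_relIndex k1, k5]
    exact n1.mul_left (((Nat.coprime_primes hq.out hp.out).2 h.symm).pow_left _))) (.inl sP) q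
  obtain ⟨r4, r5⟩ := k6 Q r1 r2 r3
  have c := cent (N := N) (P := P) (S := ↑P ⊔ Q) le_sup_left (haveI := sol r2; H02.isSolvable_sup_of_le_normalizer r6) (Nat.Coprime.coprime_dvd_left
    (Dvd.intro _ (card_sup_mul_card_inf' r6)) ((cop' P.isPGroup' n1).mul_left (cop' r2 n2))) fun θ hθ a => by
      have a' : N ⊔ P ≤ inertia N θ := sup_le (le_inertia N hθ.isClassFunction) a
      refine sup_le a (r1.trans (k4 _ (le_sup_left.trans a') a ?_))
      obtain ⟨η, e1, e2, -⟩ := exists_ext_of_coprime_card (N.subgroupOf (N ⊔ P))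
        (hθ.comp_mulEquiv (subgroupOfEquivOfLe le_sup_left)) (fun g => funext fun m => (mem_inertia' N).1 (a' g.2) ⟨_, m.2⟩) (by
          rw [card_subgroupOf_of_le le_sup_left]
          exact Nat.Coprime.coprime_dvd_left ((relIndex_sup_left _ _).dvd.trans (relIndex_dvd_card _ _)) (cop' P.isPGroup' n1))
      refine ind hy N le_sup_left (fun d => P.not_dvd_index (d.trans (index_dvd_of_le le_sup_right))) e1 ?_ hθ
        fun m => e2 ⟨inclusion le_sup_left m, m.2⟩
      rw [charDegree_eq_of_res _ e2]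
      erw [charDegree_comp θ (subgroupOfEquivOfLe le_sup_left).toMonoidHom]
      exact fun d => hp.out.coprime_iff_not_dvd.1 n1.symm (d.trans hθ.charDegree_dvd_card)
  refine ⟨Q, r2, r4, fun x hx => conj_smul_eq_iff_mem_normalizer.1 ?_⟩
  obtain ⟨m, a, b⟩ := r5 x (k3 hx)
  obtain ⟨c', c1, c2⟩ := glauberman_subgroup_trans (H01.le_normalizer_of_normal _ N) (cop' P.isPGroup' n1) (.inl sP) a b
    (fun y hy => conj_smul_eq_iff_mem_normalizer.1 (by
      rw [← mul_smul, ← map_mul, show y * x = x * (x⁻¹ * y * x) by group, map_mul, mul_smul,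
        conj_smul_eq_iff_mem_normalizer.2 (r6 ((mem_normalizer_iff''.1 hx y).1 hy))])) r6
  rw [smul_eq_iff_eq_inv_smul, ← map_inv] at c2
  rw [c2, conj_smul_eq_iff_mem_normalizer]
  exact inv_mem (centralizer_le_normalizer _ (centralizer_le (SetLike.coe_subset_coe.2 le_sup_right) (c c1)))

theorem half (h : p ≠ q) {M : Ideal AlgInt} (hM : IsPModular p M) (hs : IsPSolvable p G) (hs' : IsPSolvable q G)
    (hy : ∀ χ : IrrCharacter G, χ ∈ principalBlock M G → ¬ p ∣ charDegree (χ : G → ℂ) → ¬ q ∣ charDegree (χ : G → ℂ)) :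
    ¬ q ∣ (pPrimeCore p G).index := by
  have sf := QuotientGroup.mk'_surjective (pPrimeCore p G)
  rw [H20.principal_eq_kerSet hM (H24.PS.constrained hs)] at hy
  obtain ⟨Q, q1, q2, q3⟩ := main h _ (G ⧸ pPrimeCore p G) rfl (H24.PS.quotient hs _) (H24.PS.quotient hs' _)
    (fun χ a b => by
      have := hy (H21.infl sf ⟨χ, a⟩) (by simpa using H21.infl_mem_kerSet sf ⟨χ, a⟩)
      rw [H21.charDegree_infl] at this
      exact this b) default
  have := H24.PS.le_pPrimeCore_of_normalized (H24.PS.quotient hs _) (cop' q1 (n := p)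
    ((Nat.coprime_primes hp.out hq.out).2 h)) default (le_normalizer.trans q3)
  rw [H02.pPrimeCore_quotient_pPrimeCore, le_bot_iff] at this
  rwa [this, index_bot] at q2

theorem le_of_idx {N X : Subgroup G} [N.Normal] (hX : IsPGroup p X) (h : ¬ p ∣ N.index) : X ≤ N :=
  relIndex_eq_one.1 (Nat.eq_one_of_dvd_coprimes (cop' hX (hp.out.coprime_iff_not_dvd.2 h).symm) (relIndex_dvd_card _ _)
    (relIndex_dvd_index_of_normal _ _))

theorem back (h : p ≠ q) {M : Ideal AlgInt} (hM : IsPModular p M) (hs : IsPSolvable p G) (P : Sylow p G) (Q : Sylow q G)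
    (hc : ∀ x ∈ (P : Subgroup G), ∀ y ∈ (Q : Subgroup G), x * y = y * x) (χ : IrrCharacter G)
    (hχ : χ ∈ principalBlock M G) : ¬ q ∣ charDegree (χ : G → ℂ) := by
  have sf := QuotientGroup.mk'_surjective (pPrimeCore p G)
  rw [H20.principal_eq_kerSet hM (H24.PS.constrained hs), ← QuotientGroup.ker_mk' (pPrimeCore p G)] at hχ
  obtain ⟨ψ, rfl⟩ := H21.exists_infl sf hχ
  have := H24.PS.le_pPrimeCore_of_normalized hs (cop' Q.isPGroup' (n := p) ((Nat.coprime_primes hp.out hq.out).2 h)) P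
    fun x hx => centralizer_le_normalizer _ fun y hy => (hc x hx y hy).symm
  rw [H21.charDegree_infl]
  exact fun d => Q.not_dvd_index ((d.trans ψ.2.charDegree_dvd_card).trans (index_dvd_of_le this))

theorem comm (h : p ≠ q) (h1 : ¬ q ∣ (pPrimeCore p G).index) (h2 : ¬ p ∣ (pPrimeCore q G).index) :
    ∃ (P : Sylow p G) (Q : Sylow q G), ∀ x ∈ (P : Subgroup G), ∀ y ∈ (Q : Subgroup G), x * y = y * x := by
  obtain ⟨P⟩ : Nonempty (Sylow p G) := inferInstance
  obtain ⟨Q, r1, r2, r3, r4⟩ := exists_invariant_sylow (A := P) (K := pPrimeCore p G) (H01.le_normalizer_of_normal _ _)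
    (cop' P.isPGroup' (H02.pPrimeCore_coprime p G)) (.inl (sol P.isPGroup')) q
  refine ⟨P, r2.toSylow (by rw [← relIndex_mul_index r1, hq.out.dvd_mul]; exact not_or.2 ⟨r3, h1⟩), fun x hx y hy => ?_⟩
  have e : x * y * x⁻¹ * y⁻¹ ∈ Q ⊓ pPrimeCore q G := mem_inf.2 ⟨mul_mem ((mem_normalizer_iff.1 (r4 hx) y).1 hy) (inv_mem hy), by
    have := le_of_idx P.isPGroup' h2 hx
    rw [mul_assoc, mul_assoc, ← mul_assoc y]
    exact mul_mem this (Normal.conj_mem inferInstance _ (inv_mem this) y)⟩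
  rw [(disjoint_of_coprime_natCard (cop' r2 (H02.pPrimeCore_coprime q G))).eq_bot, mem_bot] at e
  exact commutatorElement_eq_one_iff_mul_comm.1 e

theorem eq_of (hd : p ∣ Nat.card G) {M M' : Ideal AlgInt} (hM : IsPModular p M) (hM' : IsPModular q M')
    (hs : IsPSolvable p G) (hs' : IsPSolvable q G) (h : ∀ χ : IrrCharacter G,
      (χ ∈ principalBlock M G ∧ ¬ p ∣ charDegree (χ : G → ℂ)) ↔ (χ ∈ principalBlock M' G ∧ ¬ q ∣ charDegree (χ : G → ℂ))) :
    p = q := by
  by_contra hne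
  have sf := QuotientGroup.mk'_surjective (pPrimeCore p G)
  obtain ⟨P⟩ : Nonempty (Sylow p G) := inferInstance
  have h1 := le_of_idx P.isPGroup' (half (Ne.symm hne) hM' hs' hs fun χ a b => ((h χ).2 ⟨a, b⟩).2)
  rw [H20.principal_eq_kerSet hM (H24.PS.constrained hs), H20.principal_eq_kerSet hM' (H24.PS.constrained hs')] at h
  let R := P.mapSurjective sf
  have := Fintype.ofFinite R
  have : Nontrivial R := (nontrivial_iff_ne_bot _).2 (R.ne_bot_of_dvd_card ((Nat.Coprime.dvd_mul_right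
    (H02.pPrimeCore_coprime p G).symm).1 (by rwa [← card_eq_card_quotient_mul_card_subgroup])))
  haveI := sol R.isPGroup'
  obtain ⟨x, -, hx⟩ := SetLike.exists_of_lt (Group.IsSolvable.commutator_lt_top_of_nontrivial R)
  obtain ⟨φ, hφ⟩ := exists_hom_apply_ne_one hx
  obtain ⟨χ, c1, c2, c3⟩ := ovr R.not_dvd_index (isIrrCharacter_monoidHom φ) (by simp [charDegree, hp.out.ne_one])
  have c4 := ((h (H21.infl sf ⟨χ, c1⟩)).1 ⟨by simpa using H21.infl_mem_kerSet sf ⟨χ, c1⟩, by rwa [H21.charDegree_infl]⟩).1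
  refine c3 ?_
  rw [show (fun x : (R : Subgroup (G ⧸ pPrimeCore p G)) => χ x) = χ 1 • fun x => (((1 : R →* ℂˣ) x : ℂˣ) : ℂ) from funext fun ⟨_, y, hy, rfl⟩ => by
    simpa using c4 y (h1 hy), H05.classInner_smul_left, (isIrrCharacter_monoidHom 1).classInner_of_ne
    (isIrrCharacter_monoidHom φ) fun e => hφ (Units.ext (congrFun e x).symm), mul_zero]

end H04.NW
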