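import Mathlib
import Cfsg.Agent.L.PSL2Max4
import Cfsg.Agent.H26.Syl
import Cfsg.Agent.L.SL2Loc

/-! In `PSL₂(13)` and `SL₂(13)` every non-normal subgroup has a maximal normaliser. -/

set_option autoImplicit false
open Matrix MulAction L L.Dk H09 Subgroup H26
open scoped MatrixGroups H26 commutatorElement

namespace H04.Norm13

/-- non-normal subgroups have maximal normalisers -/
def NM (G : Type*) [Group G] : Prop := ∀ H : Subgroup G, ¬ H.Normal → IsCoatom (normalizer (H : Set G))

theorem coatom_of_le {G : Type*} [Group G] {H M : Subgroup G} (hH : ¬ H.Normal) (hM : IsCoatom M)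
    (h : M ≤ normalizer (H : Set G)) : IsCoatom (normalizer (H : Set G)) := by
  rcases h.lt_or_eq with h | h
  · exact absurd (normalizer_eq_top_iff.1 (hM.2 _ h)) hH
  · exact h ▸ hM

theorem NM.of_comap {G L : Type*} [Group G] [Group L] (π : G →* L) (hπ : Function.Surjective π) (h : NM L)
    (h1 : ∀ H : Subgroup G, ∀ g x, x ∈ H → π (g * x * g⁻¹) ∈ H.map π → g * x * g⁻¹ ∈ H) [Finite G] : NM G := by
  intro H hH
  have e : (normalizer (H.map π : Set L)).comap π ≤ normalizer (H : Set G) := fun g hg =>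
    mem_normalizer_fintype fun x hx => h1 H g x hx (by
      simpa using (mem_normalizer_iff.1 hg (π x)).1 (mem_map_of_mem π hx))
  refine coatom_of_le hH (isCoatom_comap_of_surjective hπ (h _ fun hn => hH ?_)) e
  rw [normalizer_eq_top, comap_top, top_le_iff] at e
  exact normalizer_eq_top_iff.1 e

theorem NM.equiv {G L : Type*} [Group G] [Group L] [Finite G] (e : G ≃* L) (h : NM L) : NM G :=
  NM.of_comap e.toMonoidHom e.surjective h fun _ _ _ _ h => by
    obtain ⟨y, hy, e'⟩ := h
    exact e.injective e' ▸ hy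

theorem NM.prod {K S : Type*} [Group K] [CommGroup S] [Finite K] [Finite S] (h : NM K)
    (hKS : (Nat.card K).Coprime (Nat.card S)) : NM (K × S) := by
  have key : ∀ H : Subgroup (K × S), ∀ x ∈ H, (x.1, (1 : S)) ∈ H := fun H x hx => by
    obtain ⟨m, h1, h2⟩ := Nat.chineseRemainder hKS 1 0
    have : x ^ m = (x.1, 1) := Prod.ext
      (by rw [Prod.pow_fst, ← pow_mod_natCard, h1, pow_mod_natCard, pow_one])
      (by rw [Prod.pow_snd, ← pow_mod_natCard, h2, pow_mod_natCard, pow_zero])
    exact this ▸ pow_mem hx m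
  refine NM.of_comap (MonoidHom.fst K S) Prod.fst_surjective h fun H g x hx ⟨y, hy, e⟩ => ?_
  have : g * x * g⁻¹ = (y.1, 1) * ((x.1, 1)⁻¹ * x) := Prod.ext (by simpa using e.symm) (by simp)
  exact this ▸ mul_mem (key H y hy) (mul_mem (inv_mem (key H x hx)) hx)

variable {F : Type*} [Field F] [Fintype F]

theorem NM.sl (h2 : (2 : F) ≠ 0) (h : NM PSL(2, F)) : NM SL(2, F) := by
  refine NM.of_comap (QuotientGroup.mk' _) (QuotientGroup.mk'_surjective _) h fun H g x hx ⟨y, hy, e⟩ => ?_
  rcases PSL2.mk_eq_mk_iff.1 e with e | e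
  · exact e ▸ hy
  · have h1 : (-1 : SL(2, F)) ∈ H := by
      by_contra hn
      have odd : ∀ z ∈ H, ¬ 2 ∣ orderOf z := by
        rintro z hz ⟨k, hk⟩
        have hk0 : 0 < k := by have := orderOf_pos z; omega
        refine hn (SL2.eq_neg_one_of_mul_self h2 (g := z ^ k) (pow_ne_one_of_lt_orderOf hk0.ne' (by omega))
          (by rw [← pow_add, ← two_mul, ← hk, pow_orderOf_eq_one]) ▸ pow_mem hz k)
      have a : y ^ orderOf x = -1 := by
        rw [e, ← neg_one_mul, (Commute.neg_one_left _).mul_pow, conj_pow, pow_orderOf_eq_one,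
          (Nat.odd_iff.2 (by have := odd x hx; omega)).neg_one_pow]
        simp
      exact hn (a ▸ pow_mem hy _)
    have := mul_mem h1 hy
    rwa [e, neg_one_mul, neg_neg] at this

theorem nm_psl (hF : Fintype.card F = 13) : NM PSL(2, F) := by
  intro H hH
  haveI : Fact (Nat.Prime 13) := ⟨by norm_num⟩
  haveI : Fact (Nat.Prime 2) := ⟨Nat.prime_two⟩
  haveI : CharP F 13 := charP_of_card_eq_prime hF
  have hd : dd F = 2 := by rcases dd_cases (F := F) with h | h <;> omega
  have hG : Nat.card PSL(2, F) = 1092 := card_psl_of hF (by norm_num)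
  have h2 : (2 : F) ≠ 0 := two_ne_zero_of_odd (by rw [hF]; decide)
  have hb : H ≠ ⊥ := by rintro rfl; exact hH inferInstance
  have ht : H ≠ ⊤ := by rintro rfl; exact hH inferInstance
  have coT : ∀ s : SL(2, F), (s : M2 F).trace ^ 2 ≠ 4 → IsCoatom (torusNBar s) := fun s hs =>
    isCoatom_torusNBar hs ((card_torusBar' hs).symm.imp (fun h => ⟨h, by rw [hF]; decide⟩) fun h => ⟨h, by rw [hF]; decide⟩)
  have nT : ∀ s : SL(2, F), (s : M2 F).trace ^ 2 ≠ 4 → ∀ g ∈ torusNBar s, ∀ c ∈ torusBar s,
      (g ∈ torusBar s ∧ g * c * g⁻¹ = c) ∨ (g ∉ torusBar s ∧ g * c * g⁻¹ = c⁻¹) := by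
    rintro s hs _ ⟨g, hg, rfl⟩ _ ⟨c, hc, rfl⟩
    by_cases h : g ∈ centralizer ({s} : Set SL(2, F))
    · refine Or.inl ⟨⟨g, h, rfl⟩, ?_⟩
      rw [← map_inv, ← map_mul, ← map_mul, mul_comm_of_mem_centralizer (SLc.not_isScal_of_trace hs) h hc,
        mul_inv_cancel_right]
    · refine Or.inr ⟨?_, ?_⟩
      · rintro ⟨d, hd, e⟩
        rcases PSL2.mk_eq_mk_iff.1 e with rfl | rfl
        · exact h hd
        · exact h (by simpa [mem_centralizer_singleton_iff] using hd)
      · rw [← map_inv, ← map_mul, ← map_mul, conj_eq_inv_of_notMem hs hg h hc, map_inv]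
  have cyc : IsCyclic H → ¬ 13 ∣ Nat.card H → IsCoatom (normalizer (H : Set PSL(2, F))) := fun hc hp => by
    haveI : IsCyclic (⊤ : Subgroup H) := isCyclic_of_surjective _ topEquiv.symm.surjective
    obtain ⟨s, hs, -, h⟩ := exists_le_torusNBar 13 (M := H) ⊤ (by
      haveI := (nontrivial_iff_ne_bot H).2 hb; exact top_ne_bot) (by rwa [card_top])
    refine coatom_of_le hH (coT s hs) fun g hg => mem_normalizer_fintype fun x hx => ?_
    rcases nT s hs g hg x (h ⟨x, hx⟩ trivial) with h | h <;> rw [h.2]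
    · exact hx
    · exact inv_mem hx
  have a4 : ∀ A : Subgroup PSL(2, F), (A ≃* alternatingGroup (Fin 4)) → IsCoatom A := fun A e =>
    isCoatom_of_A4 (by norm_num) hF (by norm_num) (by norm_num) (by norm_num) e
  rcases clsPSL 13 H with ⟨v, hv⟩ | ⟨hc, hp⟩ | ⟨C, hc, hp, hi, hs⟩ | ⟨⟨e⟩⟩ | ⟨⟨e⟩⟩ | ⟨⟨e⟩⟩ |
    ⟨K, _, _, m, hm, hK, ⟨e⟩⟩ | ⟨K, _, _, m, hm, hK, ⟨e⟩⟩
  · by_cases hp : 13 ∣ Nat.card H
    swap
    · have e := H.equivMapOfInjective _ ProjectiveSpecialLinearGroup.toPGL_injective
      haveI := isCyclic_of_fix 13 (H.map ProjectiveSpecialLinearGroup.toPGL) (x := v) (by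
        rintro _ ⟨g, hg, rfl⟩; exact (toPGL_smul g v).trans (hv ⟨g, hg⟩)) (by rwa [← Nat.card_congr e.toEquiv])
      exact cyc (isCyclic_of_surjective _ e.symm.surjective) hp
    obtain ⟨P, hP⟩ := exists_sylow_normalizer 13 v
    have hin : ∀ x ∈ stabilizer PSL(2, F) v, x ^ 13 = 1 → x ∈ (P : Subgroup PSL(2, F)) := fun x hx h =>
      (isSyl_top P).le_of_le_normalizer' (isPGroup_zpowers ⟨1, h⟩) le_top (zpowers_le.2 (hP hx)) (mem_zpowers x)
    obtain ⟨u, hu, ou⟩ := exists_mem_orderOf_eq hp
    have hPH : (P : Subgroup PSL(2, F)) ≤ H := by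
      have : zpowers u = P := eq_of_le_of_card_ge (zpowers_le.2 (hin u (hv ⟨u, hu⟩) (ou ▸ pow_orderOf_eq_one u))) (by
        rw [Nat.card_zpowers, ou, P.card_eq_multiplicity, hG, show 1092 = 13 * 84 from rfl,
          Nat.factorization_mul (by norm_num) (by norm_num)]
        simp [Nat.factorization_eq_zero_of_not_dvd, Nat.Prime.factorization_self (by norm_num : Nat.Prime 13)])
      exact this ▸ zpowers_le.2 hu
    refine coatom_of_le hH (isCoatom_stab_psl v) fun g hg => mem_normalizer_fintype fun x hx => ?_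
    obtain ⟨σ, f, -, hf⟩ := exists_mult ((stabilizer PSL(2, F) v).map ProjectiveSpecialLinearGroup.toPGL) (x := v) (by
      rintro _ ⟨g, hg, rfl⟩; exact (toPGL_smul g v).trans hg)
    have hx' : x ∈ stabilizer PSL(2, F) v := hv ⟨x, hx⟩
    obtain ⟨b, hb⟩ := hf ⁅(⟨_, g, hg, rfl⟩ : (stabilizer PSL(2, F) v).map ProjectiveSpecialLinearGroup.toPGL),
      ⟨_, x, hx', rfl⟩⁆
    rw [map_commutatorElement f, commutatorElement_eq_one_iff_mul_comm.2 (mul_comm (f _) (f _))] at hb
    have : ⁅g, x⁆ ∈ H := hPH (hin _ (mul_mem (mul_mem (mul_mem hg hx') (inv_mem hg)) (inv_mem hx'))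
      (ProjectiveSpecialLinearGroup.toPGL_injective (by
        rw [map_pow, map_commutatorElement, map_one]
        have hb' : ⁅ProjectiveSpecialLinearGroup.toPGL g, ProjectiveSpecialLinearGroup.toPGL x⁆ =
          σ * aff 1 b * σ⁻¹ := hb
        rw [hb', conj_pow, (aff_pow_char_iff 13).2 rfl]; simp)))
    simpa [commutatorElement_def] using mul_mem this hx
  · exact cyc hc hp
  · have hC := C.card_mul_index
    rw [hi] at hC
    by_cases h1 : C = ⊥
    · rw [h1, card_bot] at hC
      exact cyc (isCyclic_of_prime_card (p := 2) hC.symm) (by rw [← hC]; norm_num)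
    haveI := normal_of_index_eq_two hi
    by_cases h4 : Nat.card C = 2
    · obtain ⟨A, ⟨e⟩⟩ := exists_subgroup_of_injective (exists_A4_psl h2)
      have h4' : Nat.card (Fin 4) = 4 := by simp
      haveI := alternatingGroup.normal_kleinFour h4'
      set V := ((alternatingGroup.kleinFour (Fin 4)).comap e.toMonoidHom).map A.subtype
      have hc : Nat.card V = 2 ^ 2 := by
        rw [card_map_subtype, comap_equiv_eq_map_symm', card_map_of_injective e.symm.injective,
          alternatingGroup.kleinFour_card_of_card_eq_four h4']; rfl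
      have syl : ∀ W : Subgroup PSL(2, F), Nat.card W = 2 ^ 2 → IsSyl 2 W ⊤ := fun W hW =>
        isSyl_of_not_dvd le_top (IsPGroup.of_card hW) (by
          have := W.card_mul_index
          rw [hW, hG] at this
          rw [relIndex_top_right]; omega)
      obtain ⟨g, -, hg⟩ := (syl V hc).exists_cj_eq (syl H (by omega))
      refine coatom_of_le hH (a4 cj(g, A) (((MulAut.conj g).subgroupMap A).symm.trans e)) ?_
      rw [← hg, ← cj_normalizer]
      exact cj_mono _ (le_normalizer_map_subtype _)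
    obtain ⟨s, hs', h3, h⟩ := exists_le_torusNBar 13 C h1 hp
    have hCT : C.map H.subtype ≤ torusBar s := by rintro _ ⟨c, hc, rfl⟩; exact h c hc
    have sq : ∀ t ∈ torusBar s, t * t ∈ H := fun t ht => by
      have e := card_torusBar' hs'
      have c1 : Nat.card C ≠ 1 := fun e => h1 (card_eq_one.1 e)
      have r := ((C.map H.subtype).subgroupOf (torusBar s)).card_mul_index
      rw [card_subgroupOf hCT, card_map_subtype] at r
      rw [hd, hF] at e
      have i2 : ((C.map H.subtype).subgroupOf (torusBar s)).index = 1 ∨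
          ((C.map H.subtype).subgroupOf (torusBar s)).index = 2 := by
        generalize ((C.map H.subtype).subgroupOf (torusBar s)).index = i at r
        generalize Nat.card C = c at r c1 h4
        have : c ≤ 7 := Nat.le_of_dvd (by omega) ⟨i, r.symm⟩ |>.trans (by omega)
        interval_cases c <;> omega
      refine map_subtype_le C (show (⟨t, ht⟩ * ⟨t, ht⟩ : torusBar s) ∈ (C.map H.subtype).subgroupOf (torusBar s) from ?_)
      rcases i2 with i | i
      · rw [index_eq_one.1 i]; trivial
      · exact mul_self_mem_of_index_two i _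
    refine coatom_of_le hH (coT s hs') fun g hg => mem_normalizer_fintype fun x hx => ?_
    by_cases hxT : x ∈ torusBar s
    · rcases nT s hs' g hg x hxT with h | h <;> rw [h.2]
      · exact hx
      · exact inv_mem hx
    · have k : ∀ t ∈ torusBar s, t * x * t⁻¹ ∈ H := fun t ht => by
        have := ((nT s hs' x (h3 hx) t⁻¹ (inv_mem ht)).resolve_left fun h => hxT h.1).2
        rw [show t * x * t⁻¹ = t * (x * t⁻¹ * x⁻¹) * x by group, this, inv_inv]
        exact mul_mem (sq t ht) hx
      by_cases hgT : g ∈ torusBar s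
      · exact k g hgT
      · have : g * x⁻¹ ∈ torusBar s := by
          have i2 : ((torusBar s).subgroupOf (torusNBar s)).index = 2 := by
            have := ((torusBar s).subgroupOf (torusNBar s)).card_mul_index
            rw [card_subgroupOf (torusBar_le s), card_torusNBar hs', mul_comm 2] at this
            exact Nat.eq_of_mul_eq_mul_left Nat.card_pos this
          exact (mul_mem_iff_of_index_two i2 (a := ⟨g, hg⟩) (b := ⟨x⁻¹, inv_mem (h3 hx)⟩)).2
            (by simp [mem_subgroupOf, hgT, hxT])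
        simpa [mul_assoc] using k _ this
  · exact coatom_of_le hH (a4 H e) le_normalizer
  · have := mod_eight_of_S4 e; omega
  · have := five_dvd_of_A5 e; omega
  · exact absurd (eq_top_of_pgl ((eq_of_pow_eq_prime (by norm_num) (hK.trans hF)).trans hF.symm) e) ht
  · exact absurd (eq_top_of_psl ((eq_of_pow_eq_prime (by norm_num) (hK.trans hF)).trans hF.symm) e) ht

end H04.Norm13
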