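import Cfsg.Agent.L.Js0
import Cfsg.Agent.S3035
import Cfsg.Agent.H08.Dihedral
import Cfsg.Agent.H02.PPrimeCore
import Cfsg.Agent.H04.S7D
import Cfsg.Agent.H04.S7E

/-! Part X of S5573. -/

set_option autoImplicit false
open Subgroup

namespace H04.S7X
universe u

theorem th {X : Type*} [Group X] [Finite X] (w : X) : 3 ∣ Nat.card (centralizer {w}) ↔ ∃ x : X, orderOf x = 3 ∧ x * w = w * x := by
  haveI : Fact (Nat.Prime 3) := ⟨Nat.prime_three⟩
  refine ⟨fun h => ?_, fun ⟨x, o, c⟩ => o ▸ Subgroup.orderOf_dvd_natCard _ (mem_centralizer_singleton_iff.2 c)⟩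
  obtain ⟨x, hx⟩ := exists_prime_orderOf_dvd_card' 3 h
  exact ⟨x, (orderOf_coe x).trans hx, mem_centralizer_singleton_iff.1 x.2⟩

theorem cc {X S : Type*} [Group X] [Group S] (e : X ≃* S) (w : X) : Nat.card (centralizer {w}) = Nat.card (centralizer {e w}) :=
  Nat.card_congr (e.toEquiv.subtypeEquiv fun g => by
    rw [mem_centralizer_singleton_iff, mem_centralizer_singleton_iff]
    exact ⟨fun h => by simpa using congrArg e h, fun h => e.injective (by simpa using h)⟩)

theorem x : L.Js.XStmt.{u} := by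
  intro X _ _ U z H cU hU z2 z3
  classical
  obtain ⟨P, UP⟩ := (IsPGroup.of_card (p := 2) (n := 2) cU).exists_le_sylow
  obtain ⟨P2, zP⟩ := (IsPGroup.of_card (p := 2) (n := 1) ((Nat.card_zpowers z).trans z2)).exists_le_sylow
  obtain ⟨g, hg⟩ := MulAction.exists_smul_eq X P2 P
  obtain ⟨x3, o3, c3⟩ := (th z).1 z3
  set s := g * z * g⁻¹ with hs
  have sP : s ∈ (P : Subgroup X) := hg ▸ ⟨z, zP (mem_zpowers z), rfl⟩
  have s2 : orderOf s = 2 := ((MulAut.conj g).orderOf_eq z).trans z2
  have s3 : 3 ∣ Nat.card (centralizer {s}) := (cc (MulAut.conj g) z) ▸ z3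
  have s12 : Nat.card (centralizer {s}) ∣ 12 := ((H s s2).resolve_left fun h => by have := s3.trans h; norm_num at this).2
  have sU : s ∉ U := fun h => by
    have := s3.trans (hU s h fun e => by rw [e, orderOf_one] at s2; omega).2
    norm_num at this
  have big : ∀ W : Subgroup X, W ≤ P → U ≤ W → s ∈ W → 8 ∣ Nat.card W := fun W h1 h2 h3 => by
    obtain ⟨k, hk⟩ := IsPGroup.iff_card.1 (P.2.to_le h1)
    have h4 := card_dvd_of_le h2
    have h5 : Nat.card W ≠ 4 := fun e => sU (eq_of_le_of_card_ge h2 (by omega) ▸ h3)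
    rw [cU, hk] at h4
    rw [hk] at h5 ⊢
    rcases k with _ | _ | _ | k
    · norm_num at h4
    · norm_num at h4
    · norm_num at h5
    · exact ⟨2 ^ k, by ring⟩
  have p8 := big P le_rfl UP sP
  haveI : Nontrivial P := Finite.one_lt_card_iff_nontrivial.1 (lt_of_lt_of_le (by norm_num) (Nat.le_of_dvd Nat.card_pos p8))
  haveI := P.2.center_nontrivial
  obtain ⟨n, n0, hn⟩ := (P.2.to_subgroup (center P)).nontrivial_iff_card.1 inferInstance
  obtain ⟨t, ht⟩ := exists_prime_orderOf_dvd_card' (G := center P) 2 (hn ▸ dvd_pow_self 2 n0.ne')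
  have t2 : orderOf (t.1.1 : X) = 2 := by rw [orderOf_coe, orderOf_coe, ht]
  have PC : (P : Subgroup X) ≤ centralizer {(t.1.1 : X)} := fun y hy =>
    mem_centralizer_singleton_iff.2 (congrArg Subtype.val (mem_center_iff.1 t.2 ⟨y, hy⟩))
  have c8 : Nat.card (centralizer {(t.1.1 : X)}) = 8 := Nat.dvd_antisymm ((H _ t2).resolve_right fun h => by
    have := (p8.trans (card_dvd_of_le PC)).trans h.2; norm_num at this) (p8.trans (card_dvd_of_le PC))
  obtain ⟨v, hv, nc⟩ : ∃ v ∈ U, v * s ≠ s * v := by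
    by_contra h
    push Not at h
    have := ((big (P ⊓ centralizer {s}) inf_le_left (fun v hv => ⟨UP hv, mem_centralizer_singleton_iff.2 (h v hv)⟩)
      ⟨sP, mem_centralizer_singleton_iff.2 rfl⟩).trans (card_dvd_of_le inf_le_right)).trans s12
    norm_num at this
  have vv : v * v = 1 := by rw [← sq, ← (hU v hv fun e => nc (by simp [e])).1, pow_orderOf_eq_one]
  have ss : s * s = 1 := by rw [← sq, ← s2, pow_orderOf_eq_one]
  have vi : v⁻¹ = v := inv_eq_of_mul_eq_one_right vv
  have si : s⁻¹ = s := inv_eq_of_mul_eq_one_right ss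
  have sr : s ∉ zpowers (v * s) := by
    rintro ⟨k, hk⟩
    have : Commute (v * s) s := by
      have := (Commute.refl (v * s)).zpow_right k
      rwa [show (v * s) ^ k = s from hk] at this
    exact nc (mul_right_cancel (this.eq.trans (mul_assoc s v s).symm))
  have rC := PC (mul_mem (UP hv) sP)
  have o4 : orderOf (v * s) = 4 := by
    have h := Subgroup.orderOf_dvd_natCard _ rC
    rw [c8] at h
    have h1 : ¬ orderOf (v * s) ∣ 2 := fun k => nc (by
      have := orderOf_dvd_iff_pow_eq_one.1 k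
      rw [sq] at this
      rw [← inv_eq_of_mul_eq_one_right this, mul_inv_rev, vi, si])
    have h2 : orderOf (v * s) ≠ 8 := fun k => sr (eq_of_le_of_card_ge (zpowers_le.2 rC) (by rw [Nat.card_zpowers, k, c8]) ▸ PC sP)
    have := Nat.le_of_dvd (by norm_num) h
    generalize orderOf (v * s) = o at *
    interval_cases o <;> omega
  obtain ⟨e⟩ := H08.nonempty_closure_equiv_dihedral (by norm_num) o4 ss (by rw [mul_inv_rev v s, vi, si, mul_assoc s (v * s) s, mul_assoc v s s, ss, mul_one]) sr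
  have eq : closure ({v * s, s} : Set X) = centralizer {(t.1.1 : X)} :=
    eq_of_le_of_card_ge ((closure_le _).2 (by rintro _ (rfl | rfl); exacts [rC, PC sP]))
      (by rw [c8, Nat.card_congr e.toEquiv, DihedralGroup.nat_card])
  have o6 : orderOf (x3 * z) = 6 := by
    rw [Commute.orderOf_mul_eq_mul_orderOf_of_coprime c3 (by rw [o3, z2]; norm_num), o3, z2]
  have no6 : ∀ {S : Type} [Group S], (X ≃* S) → (∀ y : S, y ^ 6 = 1 → y ^ 2 = 1 ∨ y ^ 3 = 1) → False := fun e h => by
    have o := (e.orderOf_eq (x3 * z)).trans o6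
    rcases h _ (o ▸ pow_orderOf_eq_one _) with k | k <;> have := orderOf_dvd_of_pow_eq_one k <;> rw [o] at this <;> norm_num at this
  rcases Cfsg.Agent.S3035.result _ t2 ⟨eq ▸ e⟩ with h | ⟨⟨f⟩⟩ | ⟨⟨f⟩⟩ | ⟨⟨f⟩⟩ | ⟨⟨f⟩⟩
  · exfalso
    have od := H02.not_dvd_card_pPrimeCore (G := X) Nat.prime_two
    haveI nO : (Cfsg.pPrimeCore 2 X).Normal := inferInstance
    have iv : ∀ w ∈ U, w ≠ 1 → ∀ o ∈ Cfsg.pPrimeCore 2 X, w * o * w⁻¹ = o⁻¹ := fun w hw w1 o ho => by
      have ww : w * w = 1 := by rw [← sq, ← (hU w hw w1).1, pow_orderOf_eq_one]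
      have fp : MonoidHom.FixedPointFree (MulAut.conjNormal (H := Cfsg.pPrimeCore 2 X) w) := fun y hy => by
        have h1 : w * y * w⁻¹ = y := congrArg Subtype.val hy
        have h2 := (Subgroup.orderOf_dvd_natCard _ (mem_centralizer_singleton_iff.2 (mul_inv_eq_iff_eq_mul.1 h1).symm)).trans (hU w hw w1).2
        have h3 := Subgroup.orderOf_dvd_natCard _ y.2
        have h4 : orderOf (y : X) = 1 := Nat.eq_one_of_dvd_coprimes
          (Nat.Coprime.pow_left 3 ((Nat.Prime.coprime_iff_not_dvd Nat.prime_two).2 od)) h2 h3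
        exact Subtype.ext (orderOf_eq_one_iff.1 h4)
      exact congrArg Subtype.val (congrFun (fp.coe_eq_inv_of_involutive fun y => by
        rw [← MulAut.mul_apply, ← map_mul, ww, map_one, MulAut.one_apply]) ⟨o, ho⟩)
    have bot : Cfsg.pPrimeCore 2 X = ⊥ := (eq_bot_iff_forall _).2 fun o ho => by
      haveI := Fintype.ofFinite U
      obtain ⟨a, b, a1, b1, ab⟩ : ∃ a b : U, a ≠ 1 ∧ b ≠ 1 ∧ a * b ≠ 1 := by
        by_contra k
        push Not at k
        obtain ⟨a, b, c, ab, ac, bc⟩ := Fintype.two_lt_card_iff.1 (show 2 < Fintype.card U by rw [← Nat.card_eq_fintype_card, cU]; norm_num)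
        have al : ∀ y y' : U, y ≠ 1 → y' ≠ 1 → y = y' := fun y y' h1 h2 => mul_right_cancel ((k y y' h1 h2).trans (k y' y' h2 h2).symm)
        by_cases ha : a = 1
        · exact bc (al b c (fun e => ab (ha.trans e.symm)) (fun e => ac (ha.trans e.symm)))
        by_cases hb : b = 1
        · exact ac (al a c ha (fun e => bc (hb.trans e.symm)))
        exact ab (al a b ha hb)
      have h1 := iv _ (a * b).2 (fun e => ab (Subtype.ext e)) o ho
      have h2 : ((a * b : U) : X) * o * ((a * b : U) : X)⁻¹ = a * (b * o * (b : X)⁻¹) * (a : X)⁻¹ := by push_cast; group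
      rw [h2, iv _ b.2 (fun e => b1 (Subtype.ext e)) o ho, iv _ a.2 (fun e => a1 (Subtype.ext e)) _ (inv_mem ho), inv_inv] at h1
      by_contra o1
      exact od ((orderOf_eq_prime (p := 2) (by rw [sq]; exact mul_eq_one_iff_eq_inv.2 h1) o1).symm.dvd.trans (Subgroup.orderOf_dvd_natCard _ ho))
    rw [show Cfsg.oddCore X = ⊥ from bot, sup_bot_eq] at h
    have := Subgroup.orderOf_dvd_natCard (centralizer {(t.1.1 : X)}) (h ▸ mem_top x3)
    rw [o3, c8] at this; norm_num at this
  · exact (no6 f H04.S7D.s4).elim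
  · have k : ∀ w : X, orderOf w = 2 → 3 ∣ Nat.card (centralizer {w}) →
        Nat.card (centralizer {w}) = 12 ∧ IsConj (Equiv.swap 0 1) (f w) := fun w w2 w3 => by
      have o := (f.orderOf_eq w).trans w2
      have c : Nat.card (centralizer {w}) = (Finset.univ.filter fun g => g * f w = f w * g).card := by
        rw [cc f, ← Fintype.card_subtype, ← Nat.card_eq_fintype_card]
        exact Nat.card_congr (Equiv.subtypeEquivRight fun g => mem_centralizer_singleton_iff)
      rcases H04.S7D.s5 (f w) (by rw [← sq, ← o, pow_orderOf_eq_one]) (fun e => by rw [e, orderOf_one] at o; omega) with h | ⟨h, h'⟩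
      · rw [c, h] at w3; norm_num at w3
      · exact ⟨c.trans h, isConj_iff.2 h'⟩
    refine ⟨⟨f⟩, (k z z2 z3).1, fun w w2 w3 => ?_⟩
    simpa using f.symm.toMonoidHom.map_isConj ((k z z2 z3).2.symm.trans (k w w2 w3).2)
  · refine (no6 f fun y hy => ?_).elim
    have h1 : y * y * y * (y * y * y) = 1 := by rw [← hy]; simp only [pow_succ, pow_zero, one_mul, mul_assoc]
    exact (H04.S7D.l3 y.1 (congrArg Subtype.val h1)).imp (fun k => by rw [sq]; exact Subtype.ext k)
      fun k => by rw [pow_three']; exact Subtype.ext k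
  · refine (no6 f fun y hy => ?_).elim
    have h1 : y * y * y * (y * y * y) = 1 := by rw [← hy]; simp only [pow_succ, pow_zero, one_mul, mul_assoc]
    rcases H04.S7E.a6 y.1 (congrArg Subtype.val h1) with k | k | k
    · exact Or.inl (by rw [sq]; exact Subtype.ext k)
    · exact Or.inr (by rw [pow_three']; exact Subtype.ext k)
    · exact absurd y.2 k

end H04.S7X
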