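import Cfsg.Agent.H04.WS
import Cfsg.Agent.H04.S7X

/-! The non-split clause of part X of S5572. -/

set_option autoImplicit false
open Subgroup H04.WS

namespace H04.S5N
universe u

theorem rt8 {G : Type u} [Group G] [Finite G] {A : Subgroup G} (a2 : ∀ g ∈ A, g * g = 1) (cA : Nat.card A = 8) {m : G}
    (m2 : m * m = 1) (hm : ∀ v ∈ A, m * v * m⁻¹ ∈ A) : 2 < Nat.card ↥(A ⊓ centralizer {m}) := by
  let φ : A →* A := MonoidHom.mk' (fun v => ⟨v * (m * v * m⁻¹), mul_mem v.2 (hm v v.2)⟩) fun a b => Subtype.ext (by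
    change (a : G) * b * (m * (a * b) * m⁻¹) = a * (m * a * m⁻¹) * (b * (m * b * m⁻¹))
    calc _ = (a : G) * (b * (m * a * m⁻¹)) * (m * b * m⁻¹) := by group
      _ = _ := by rw [cm2 a2 b.2 (hm a a.2)]; group)
  have hφ : ∀ v : A, (φ v : G) = v * (m * v * m⁻¹) := fun v => rfl
  have mi : m⁻¹ = m := inv_eq_of_mul_eq_one_right m2
  have k1 : φ.ker ≤ (A ⊓ centralizer {m}).subgroupOf A := fun v hv => by
    have h : (v : G) * (m * v * m⁻¹) = 1 := (hφ v).symm.trans (congrArg Subtype.val hv)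
    have h2 : m * v * m⁻¹ = v := (inv_eq_of_mul_eq_one_right h).symm.trans (inv_eq_of_mul_eq_one_right (a2 v v.2))
    exact mem_subgroupOf.2 (mem_inf.2 ⟨v.2, mem_centralizer_singleton_iff.2 (mul_inv_eq_iff_eq_mul.1 h2).symm⟩)
  have k2 : φ.range ≤ (A ⊓ centralizer {m}).subgroupOf A := by
    rintro _ ⟨v, rfl⟩
    refine mem_subgroupOf.2 (mem_inf.2 ⟨(φ v).2, mem_centralizer_singleton_iff.2 ?_⟩)
    rw [hφ]
    calc (v : G) * (m * v * m⁻¹) * m = m * ((m * v * m⁻¹) * v) := by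
          rw [← cm2 a2 v.2 (hm v v.2), cm2 a2 v.2 (hm v v.2), mi]
          calc m * v * m * v * m = m * v * m * v * m := rfl
            _ = m * (v * (m * v * m)) := by group
            _ = m * (m * v * m * v) := by have := cm2 a2 v.2 (hm v v.2); rw [mi] at this; rw [this]
      _ = m * (v * (m * v * m⁻¹)) := by rw [cm2 a2 v.2 (hm v v.2)]
  have c1 := card_le_of_le k1
  have c2 := card_le_of_le k2
  rw [Nat.card_congr (subgroupOfEquivOfLe inf_le_left).toEquiv] at c1 c2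
  have c3 := φ.ker.card_mul_index
  rw [index_ker, cA] at c3
  by_contra h
  push Not at h
  nlinarith

theorem ns {X : Type u} [Group X] [Finite X] {z : X} (E : Subgroup X) [hE : E.Normal] (E2 : ∀ x ∈ E, x * x = 1) (cE : Nat.card E = 8)
    (e : X ⧸ E ≃* Matrix.SpecialLinearGroup (Fin 3) (ZMod 2)) (cz : Nat.card (centralizer {z}) = 192)
    (hw : ∀ w : X, orderOf w = 2 → Nat.card (centralizer {w}) ∣ 16 ∨ IsConj z w) : ∀ K : Subgroup X, ¬ E.IsComplement' K := by
  intro K hK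
  have cS : Nat.card (Matrix.SpecialLinearGroup (Fin 3) (ZMod 2)) = 168 := by
    rw [Nat.card_eq_fintype_card]; decide +kernel
  have cK : Nat.card K = 168 := by rw [← hK.symm.index_eq_card, index_eq_card, Nat.card_congr e.toEquiv, cS]
  obtain ⟨P, hP⟩ := Sylow.exists_subgroup_card_pow_prime (G := K) 2 (n := 3) (by rw [cK]; norm_num)
  have pP := IsPGroup.of_card hP
  haveI : Nontrivial P := Finite.one_lt_card_iff_nontrivial.1 (by rw [hP]; norm_num)
  haveI := pP.center_nontrivial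
  obtain ⟨n, n0, hn⟩ := (pP.to_subgroup (center P)).nontrivial_iff_card.1 inferInstance
  obtain ⟨t, ht⟩ := exists_prime_orderOf_dvd_card' (G := center P) 2 (hn ▸ dvd_pow_self 2 n0.ne')
  have t2 : orderOf (t.1.1.1 : X) = 2 := by rw [orderOf_coe, orderOf_coe, orderOf_coe, ht]
  have tt : (t.1.1.1 : X) * t.1.1.1 = 1 := by rw [← sq, ← t2, pow_orderOf_eq_one]
  have PC : ∀ y : P, (y.1.1 : X) ∈ centralizer {(t.1.1.1 : X)} := fun y =>
    mem_centralizer_singleton_iff.2 (congrArg (fun v : P => (v.1.1 : X)) (mem_center_iff.1 t.2 y))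
  rcases hw _ t2 with h | h
  · have h1 := rt8 E2 cE tt fun v hv => hE.conj_mem v hv _
    have h2 := Nat.card_le_card_of_injective (fun x : ↥(E ⊓ centralizer {(t.1.1.1 : X)}) × P =>
      (⟨x.1.1 * x.2.1.1, mul_mem (mem_inf.1 x.1.2).2 (PC x.2)⟩ : centralizer {(t.1.1.1 : X)})) fun x y k => by
        have := hK.1 (a₁ := (⟨x.1.1, x.1.2.1⟩, x.2.1)) (a₂ := (⟨y.1.1, y.1.2.1⟩, y.2.1)) (congrArg Subtype.val k)
        exact Prod.ext (Subtype.ext (congrArg (fun v => v.1.1) this)) (Subtype.ext (congrArg Prod.snd this))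
    rw [Nat.card_prod, hP] at h2
    have := Nat.le_of_dvd (by norm_num) h
    omega
  · obtain ⟨g, hg⟩ := isConj_iff.1 h
    have c3 : 3 ∣ Nat.card (centralizer {(t.1.1.1 : X)}) := by
      rw [← hg]; exact (H04.S7X.cc (MulAut.conj g) z) ▸ (cz ▸ (by norm_num : 3 ∣ 192))
    obtain ⟨x, o3, c⟩ := (H04.S7X.th _).1 c3
    have x3 : x * x * x = 1 := by rw [← pow_three', ← o3, pow_orderOf_eq_one]
    have C : Commute x t.1.1.1 := c
    have k : ∀ y : X, e (QuotientGroup.mk y) = 1 → y ∈ E := fun y h => (QuotientGroup.eq_one_iff y).1 (e.map_eq_one_iff.1 h)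
    let φ : X →* Matrix.SpecialLinearGroup (Fin 3) (ZMod 2) := e.toMonoidHom.comp (QuotientGroup.mk' E)
    have y2 : x * t.1.1.1 * (x * t.1.1.1) = x * x := by rw [← sq, C.mul_pow, sq, sq, tt, mul_one]
    have y3 : x * t.1.1.1 * (x * t.1.1.1) * (x * t.1.1.1) = t.1.1.1 := by rw [y2, ← mul_assoc, x3, one_mul]
    have h1 : φ (x * t.1.1.1) * φ (x * t.1.1.1) * φ (x * t.1.1.1) * (φ (x * t.1.1.1) * φ (x * t.1.1.1) * φ (x * t.1.1.1)) = 1 := by
      rw [← map_mul, ← map_mul, y3, ← map_mul, tt, map_one]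
    rcases H04.S7D.l3 _ (congrArg Subtype.val h1) with j | j
    · have j' : φ (x * t.1.1.1) * φ (x * t.1.1.1) = 1 := Subtype.ext j
      rw [← map_mul, y2] at j'
      have := E2 _ (k _ j')
      rw [← mul_assoc, x3, one_mul] at this
      rw [this, orderOf_one] at o3; omega
    · have j' : φ (x * t.1.1.1) * φ (x * t.1.1.1) * φ (x * t.1.1.1) = 1 := Subtype.ext j
      rw [← map_mul, ← map_mul, y3] at j'
      have := disjoint_def.1 hK.disjoint (k _ j') t.1.1.2
      rw [this, orderOf_one] at t2; omega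

end H04.S5N
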