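import Cfsg.Agent.H16.HKK

/-! Lie rings spanned by boundedly many ad-nilpotent subgroups: Kreknin's theorem with operators and a bounded
nilpotency criterion. -/

set_option autoImplicit false
open H16.Lie

namespace H04.Sh

universe u

variable {L : Type u} [LieRing L]

/-- bracket of additive subgroups -/
def bb (X Y : AddSubgroup L) : AddSubgroup L := AddSubgroup.closure {z | ∃ x ∈ X, ∃ y ∈ Y, z = ⁅x, y⁆}

theorem mem_bb {X Y : AddSubgroup L} {x y : L} (hx : x ∈ X) (hy : y ∈ Y) : ⁅x, y⁆ ∈ bb X Y :=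
  AddSubgroup.subset_closure ⟨x, hx, y, hy, rfl⟩

theorem bb_le {X Y W : AddSubgroup L} (h : ∀ x ∈ X, ∀ y ∈ Y, ⁅x, y⁆ ∈ W) : bb X Y ≤ W :=
  (AddSubgroup.closure_le _).2 (by rintro _ ⟨x, hx, y, hy, rfl⟩; exact h x hx y hy)

/-- right factors -/
def rt (x : L) (W : AddSubgroup L) : AddSubgroup L := W.comap (LieModule.toEnd ℤ L L x).toAddMonoidHom

/-- elements bracketed into `W` by `S` -/
def lf (S : Set L) (W : AddSubgroup L) : AddSubgroup L where
  carrier := {x | ∀ y ∈ S, ⁅x, y⁆ ∈ W}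
  add_mem' ha hb y hy := by rw [add_lie]; exact add_mem (ha y hy) (hb y hy)
  zero_mem' y _ := by rw [zero_lie]; exact zero_mem _
  neg_mem' ha y hy := by rw [neg_lie]; exact neg_mem (ha y hy)

theorem lie_iSup {ι κ : Sort*} {X : ι → AddSubgroup L} {Y : κ → AddSubgroup L} {W : AddSubgroup L}
    (h : ∀ i j, ∀ x ∈ X i, ∀ y ∈ Y j, ⁅x, y⁆ ∈ W) : ∀ x ∈ ⨆ i, X i, ∀ y ∈ ⨆ j, Y j, ⁅x, y⁆ ∈ W :=
  (iSup_le fun i x hx _ hy => (iSup_le fun j y hy => h i j x hx y hy : ⨆ j, Y j ≤ rt x W) hy :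
    ⨆ i, X i ≤ lf (⨆ j, Y j : AddSubgroup L) W)

/-- relative upper central series -/
def zr (S : Set L) (W : AddSubgroup L) : ℕ → AddSubgroup L
  | 0 => W
  | k + 1 => lf S (zr S W k)

theorem zr_mono {S T : Set L} {W W' : AddSubgroup L} (h : S ⊆ T) (h' : W ≤ W') (k : ℕ) : zr T W k ≤ zr S W' k := by
  induction k with
  | zero => exact h'
  | succ k ih => exact fun x hx y hy => ih (hx y (h hy))

theorem zr_add (S : Set L) (W : AddSubgroup L) (a b : ℕ) : zr S W (a + b) = zr S (zr S W a) b := by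
  induction b with
  | zero => rfl
  | succ b ih => rw [← add_assoc, zr, zr, ih]

theorem le_zr {S : Set L} {W : AddSubgroup L} (h : ∀ x ∈ W, ∀ y ∈ S, ⁅x, y⁆ ∈ W) (k : ℕ) : W ≤ zr S W k := by
  induction k with
  | zero => exact le_rfl
  | succ k ih => exact fun x hx y hy => ih (h x hx y hy)

theorem zr_self {S : Set L} {W : AddSubgroup L} (h : ∀ x ∈ W, ∀ y ∈ S, ⁅x, y⁆ ∈ W) (k : ℕ) :
    ∀ x ∈ zr S W k, ∀ y ∈ S, ⁅x, y⁆ ∈ zr S W k := by
  induction k with
  | zero => exact h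
  | succ k ih => exact fun x hx y hy => ih _ (hx y hy)

theorem zr_iSup {ι : Sort*} {X : ι → AddSubgroup L} {W : AddSubgroup L} (k : ℕ) :
    zr (⋃ i, X i) W k ≤ zr (⨆ i, X i : AddSubgroup L) W k := by
  induction k with
  | zero => exact le_rfl
  | succ k ih =>
    exact fun x hx y hy => (iSup_le fun i y hy => ih (hx y (Set.mem_iUnion.2 ⟨i, hy⟩)) : ⨆ i, X i ≤ rt x _) hy

theorem jac (x y z : L) : ⁅⁅x, y⁆, z⁆ = ⁅⁅x, z⁆, y⁆ + ⁅x, ⁅y, z⁆⁆ := by rw [leibniz_lie x y z, ← lie_skew y]; abel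

theorem bot_inv (S : Set L) : ∀ x ∈ (⊥ : AddSubgroup L), ∀ y ∈ S, ⁅x, y⁆ ∈ (⊥ : AddSubgroup L) := fun x hx y _ => by
  rw [AddSubgroup.mem_bot.1 hx, zero_lie]; exact zero_mem _

section
variable {K V W : AddSubgroup L} (hV : ∀ x ∈ V, ∀ y ∈ K, ⁅x, y⁆ ∈ V) (hW : ∀ x ∈ W, ∀ y ∈ K, ⁅x, y⁆ ∈ W)
  (hc : ∀ x ∈ V, ∀ y ∈ K, ∀ z ∈ K, ⁅x, ⁅y, z⁆⁆ ∈ W)
include hV hW hc

theorem zr_inv {S : Set L} (hS : S ⊆ K) (b : ℕ) : ∀ x ∈ V, x ∈ zr S W b → ∀ y ∈ K, ⁅x, y⁆ ∈ zr S W b := by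
  induction b with
  | zero => exact fun x _ => hW x
  | succ b ih =>
    intro x hx h y hy z hz
    rw [jac]
    exact add_mem (ih _ (hV x hx z (hS hz)) (h z hz) y hy) (le_zr (fun a ha c h => hW a ha c (hS h)) b (hc x hx y hy z (hS hz)))

theorem zr_union {S T : Set L} (hS : S ⊆ K) (hT : T ⊆ K) (n : ℕ) : ∀ a b, a + b = n → ∀ x ∈ V, x ∈ zr S W a →
    x ∈ zr T W b → x ∈ zr (S ∪ T) W n := by
  have := le_zr (S := S ∪ T) fun a ha c h => hW a ha c (Set.union_subset hS hT h)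
  induction n with
  | zero => intro a b e x _ h _; obtain rfl : a = 0 := by omega
            exact h
  | succ n ih =>
    intro a b e x hx h1 h2
    rcases a with _ | a
    · exact this _ h1
    rcases b with _ | b
    · exact this _ h2
    rintro y (hy | hy)
    · exact ih a (b + 1) (by omega) _ (hV x hx y (hS hy)) (h1 y hy) (zr_inv hV hW hc hT _ x hx h2 y (hS hy))
    · exact ih (a + 1) b (by omega) _ (hV x hx y (hT hy)) (zr_inv hV hW hc hS _ x hx h1 y (hT hy)) (h2 y hy)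

theorem zr_fin {ι : Type*} {R : ι → AddSubgroup L} (hR : ∀ i, R i ≤ K) {m : ℕ} (h : ∀ i, V ≤ zr (R i) W m)
    (s : Finset ι) : V ≤ zr (⋃ i ∈ s, R i) W (s.card * m + 1) := by
  classical
  induction s using Finset.induction_on with
  | empty => exact fun x _ y hy => by simp at hy
  | insert i s hi ih =>
    rw [Finset.set_biUnion_insert, Finset.card_insert_of_notMem hi]
    exact fun x hx => zr_union hV hW hc (hR i) (Set.iUnion₂_subset fun j _ => hR j) _ m _ (by ring) x hx (h i hx) (ih hx)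

end

/-- derived series -/
def dd (s : ℕ) (K : AddSubgroup L) : AddSubgroup L := (fun X => bb X X)^[s] K

theorem nil3 (m s : ℕ) : ∀ t : ℕ, ∃ f : ℕ, ∀ (L : Type u) [LieRing L] (ι : Type) [Fintype ι] (R : ι → AddSubgroup L)
    (V : AddSubgroup L), Fintype.card ι ≤ t → (∀ i j, ∃ l, bb (R i) (R j) ≤ R l) →
    (∀ x ∈ V, ∀ y ∈ ⨆ i, R i, ⁅x, y⁆ ∈ V) → (∀ i, V ≤ zr (R i) ⊥ m) → dd s (⨆ i, R i) = ⊥ →
    V ≤ zr (⨆ i, R i : AddSubgroup L) ⊥ f := by
  induction s with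
  | zero =>
    refine fun t => ⟨1, fun L _ ι _ R V _ _ _ _ h x _ y hy => ?_⟩
    rw [AddSubgroup.mem_bot.1 (h.le hy), lie_zero]; exact zero_mem _
  | succ s ih =>
    intro t
    obtain ⟨f, hf⟩ := ih (t * t)
    refine ⟨f * (t * m + 1), fun L _ ι _ R V ht hc hV hm hs => ?_⟩
    set K := ⨆ i, R i
    have e : ⨆ i : ι × ι, bb (R i.1) (R i.2) = bb K K := le_antisymm
      (iSup_le fun i => bb_le fun x hx y hy => mem_bb (le_iSup R _ hx) (le_iSup R _ hy))
      (bb_le (lie_iSup fun i j x hx y hy => AddSubgroup.mem_iSup_of_mem (i, j) (mem_bb hx hy)))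
    have hK : bb K K ≤ K := e ▸ iSup_le fun i => (hc i.1 i.2).elim fun l h => h.trans (le_iSup R l)
    have h1 := hf L (ι × ι) (fun i => bb (R i.1) (R i.2)) V (by rw [Fintype.card_prod]; exact Nat.mul_le_mul ht ht)
      (fun i j => by
        obtain ⟨a, ha⟩ := hc i.1 i.2
        obtain ⟨b, hb⟩ := hc j.1 j.2
        exact ⟨(a, b), bb_le fun x hx y hy => mem_bb (ha hx) (hb hy)⟩)
      (fun x hx y hy => hV x hx y (hK (e ▸ hy)))
      (fun i => (hc i.1 i.2).elim fun l h => (hm l).trans (zr_mono h le_rfl m)) (by rw [e]; exact hs)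
    rw [e] at h1
    have h2 : ∀ j, ∀ x ∈ zr (bb K K : Set L) ⊥ j, ∀ y ∈ K, ⁅x, y⁆ ∈ zr (bb K K : Set L) ⊥ j := fun j => by
      induction j with
      | zero => exact bot_inv _
      | succ j ih =>
        intro x hx y hy z hz
        rw [jac]
        exact add_mem (ih _ (hx z hz) y hy) (hx _ (mem_bb hy (hK hz)))
    have h3 : ∀ j, V ⊓ zr (bb K K) ⊥ j ≤ zr K ⊥ (j * (t * m + 1)) := fun j => by
      induction j with
      | zero => rw [zero_mul]; exact inf_le_right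
      | succ j ih =>
        have := zr_fin (K := K) (V := V ⊓ zr (bb K K) ⊥ (j + 1)) (W := V ⊓ zr (bb K K) ⊥ j)
          (fun x hx y hy => ⟨hV x hx.1 y hy, h2 _ x hx.2 y hy⟩) (fun x hx y hy => ⟨hV x hx.1 y hy, h2 _ x hx.2 y hy⟩)
          (fun x hx y hy z hz => ⟨hV x hx.1 _ (hK (mem_bb hy hz)), hx.2 _ (mem_bb hy hz)⟩) (le_iSup R)
          (fun i => inf_le_left.trans ((hm i).trans (zr_mono le_rfl bot_le m))) Finset.univ
        simp only [Finset.mem_univ, Set.iUnion_true, Finset.card_univ] at this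
        obtain ⟨d, hd⟩ := Nat.exists_eq_add_of_le (Nat.mul_le_mul_right m ht)
        rw [show (j + 1) * (t * m + 1) = j * (t * m + 1) + d + (Fintype.card ι * m + 1) by rw [add_mul, hd]; ring,
          zr_add _ _ (_ + d), zr_add _ _ _ d]
        exact this.trans ((zr_iSup _).trans (zr_mono le_rfl (ih.trans (le_zr (zr_self (bot_inv _) _) d)) _))
    exact (le_inf le_rfl h1).trans (h3 f)

theorem krek {n : ℕ} [NeZero n] (m k : ℕ) : ∃ f : ℕ, ∀ (L : Type u) [LieRing L] (A B : ZMod n → AddSubgroup L), Gr A →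
    (∀ c, A c ≤ zr (A 0) ⊥ m) → Gr B → (∀ i, ∀ x ∈ B i, ∀ y ∈ A 0, ⁅x, y⁆ ∈ B i) → (∀ v : ZMod n, k ≤ v.val → A v ≤ B v) →
    ∀ c, der f A c ≤ B c := by
  induction k with
  | zero => exact ⟨0, fun L _ A B _ _ _ _ h c => h c (Nat.zero_le _)⟩
  | succ k ih =>
    obtain ⟨f, ih⟩ := ih
    refine ⟨f + m * (f + 1), fun L _ A B hA h0 hB hI h c => ?_⟩
    have sub : ∀ {A : ZMod n → AddSubgroup L}, Gr A → (∀ c, A c ≤ zr (A 0) ⊥ m) → ∀ g c,
        der g A c ≤ zr (der g A 0) ⊥ m := fun hA h0 g c =>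
      ((hA.der g).2 c).trans ((h0 c).trans (zr_mono ((hA.der g).2 0) le_rfl m))
    rw [der_add]
    refine ih L _ B (hA.der _).1 (sub hA h0 _) hB (fun i x hx y hy => hI i x hx y ((hA.der _).2 0 hy)) (fun u hu => ?_) c
    rcases hu.lt_or_eq with hu' | hu'
    · exact ((hA.der _).2 u).trans (h u hu')
    have key : ∀ j, ∀ A : ZMod n → AddSubgroup L, Gr A → (∀ c, A c ≤ zr (A 0) ⊥ m) →
        (∀ i, ∀ x ∈ B i, ∀ y ∈ A 0, ⁅x, y⁆ ∈ B i) → (∀ v : ZMod n, k + 1 ≤ v.val → A v ≤ B v) →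
        A u ≤ zr (A 0) (B u) j → der (j * (f + 1)) A u ≤ B u := fun j => by
      induction j with
      | zero => exact fun A _ _ _ _ h => by rw [zero_mul]; exact h
      | succ j ihj =>
        intro A hA h0 hI h h1
        rw [add_mul, one_mul, der_add]
        refine ihj _ (hA.der _).1 (sub hA h0 _) (fun i x hx y hy => hI i x hx y ((hA.der _).2 0 hy))
          (fun v hv => ((hA.der _).2 v).trans (h v hv)) (le_trans ?_ (zr_mono ((hA.der _).2 0) le_rfl j))
        rw [der_succ']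
        set W := zr (A 0) (B u) j
        let B' : ZMod n → AddSubgroup L := fun i =>
          { carrier := {x | x ∈ A i ∧ ∀ j, ∀ y ∈ A j, j + i = u → ⁅y, x⁆ ∈ W}
            add_mem' := fun ha hb => ⟨add_mem ha.1 hb.1, fun j y hy e => by
              rw [lie_add]; exact add_mem (ha.2 j y hy e) (hb.2 j y hy e)⟩
            zero_mem' := ⟨zero_mem _, fun j y _ _ => by rw [lie_zero]; exact zero_mem _⟩
            neg_mem' := fun ha => ⟨neg_mem ha.1, fun j y hy e => by rw [lie_neg]; exact neg_mem (ha.2 j y hy e)⟩ }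
        have hB' : Gr B' := by
          rintro i j x ⟨hx, hx'⟩ y ⟨hy, hy'⟩
          refine ⟨hA _ _ _ hx _ hy, fun l z hz e => ?_⟩
          rw [leibniz_lie, ← lie_skew x]
          exact add_mem (hy' _ _ (hA _ _ _ hz _ hx) (by rw [← e, add_assoc]))
            (neg_mem (hx' _ _ (hA _ _ _ hz _ hy) (by rw [← e, add_assoc, add_comm j])))
        have h2 := ih L A B' hA h0 hB' (fun i x hx z hz => ⟨by simpa using hA _ _ _ hx.1 _ hz, fun j y hy e => by
          rw [leibniz_lie, ← lie_skew x]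
          exact add_mem (zr_self (hI u) _ _ (hx.2 j y hy e) z hz)
            (neg_mem (hx.2 _ _ (hA _ _ _ hy _ hz) (by rw [add_zero, e])))⟩) fun v hv x hx => ⟨hx, fun i y hy e => ?_⟩
        · exact br_le fun i j x hx y hy e => (h2 j hy).2 i x ((hA.der _).2 i hx) e
        rcases hv.lt_or_eq with hv' | hv'
        · refine le_zr (hI u) j (e ▸ hB _ _ _ (h i ?_ hy) _ (h v hv' hx))
          have h2 := ZMod.val_add i v
          rw [e] at h2
          have h3 := ZMod.val_lt i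
          have h4 := ZMod.val_lt v
          by_cases h5 : i.val + v.val < n
          · rw [Nat.mod_eq_of_lt h5] at h2; omega
          · rw [Nat.mod_eq_sub_mod (not_lt.1 h5), Nat.mod_eq_of_lt (by omega)] at h2; omega
        · obtain rfl : v = u := ZMod.val_injective n (hv'.symm.trans hu')
          obtain rfl : i = 0 := by simpa using e
          rw [← lie_skew]
          exact neg_mem (h1 hx y hy)
    exact key m A hA h0 hI h ((h0 u).trans (zr_mono le_rfl bot_le m))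

theorem lie_main (n : ℕ) [NeZero n] (m s t : ℕ) : ∃ f : ℕ, ∀ (L : Type u) [LieRing L] (ι : Type) [Fintype ι]
    (R : ι → AddSubgroup L) (w : ι → ZMod n), Fintype.card ι ≤ t →
    (∀ i j, ∃ l, bb (R i) (R j) ≤ R l ∧ w l = w i + w j) → (∀ i j, R j ≤ zr (R i) ⊥ m) →
    dd s (⨆ i : {i // w i = 0}, R i) = ⊥ → ⨆ i, R i ≤ zr (⨆ i, R i : AddSubgroup L) ⊥ f := by
  obtain ⟨f1, h1⟩ := nil3.{u} m s t
  obtain ⟨f2, h2⟩ := krek.{u} (n := n) f1 n
  obtain ⟨f3, h3⟩ := nil3.{u} m f2 t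
  refine ⟨f3, fun L _ ι _ R w ht hc hm hs => ?_⟩
  classical
  have hK : ∀ x ∈ ⨆ i, R i, ∀ y ∈ ⨆ i, R i, ⁅x, y⁆ ∈ ⨆ i, R i :=
    lie_iSup fun i j x hx y hy => (hc i j).elim fun l h => le_iSup R l (h.1 (mem_bb hx hy))
  let A : ZMod n → AddSubgroup L := fun c => ⨆ i : {i // w i = c}, R i
  have hA : ∀ c, A c ≤ ⨆ i, R i := fun c => iSup_le fun i => le_iSup R i.1
  have a1 := h1 L {i // w i = 0} (fun i => R i) (⨆ i, R i) ((Fintype.card_subtype_le _).trans ht)
    (fun i j => (hc i j).elim fun l h => ⟨⟨l, by rw [h.2, i.2, j.2, add_zero]⟩, h.1⟩)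
    (fun x hx y hy => hK x hx y (hA 0 hy)) (fun i => iSup_le (hm i)) hs
  have a2 := h2 L A (fun _ => ⊥) (fun c d => lie_iSup fun i j x hx y hy => (hc i j).elim fun l h =>
    AddSubgroup.mem_iSup_of_mem (⟨l, by rw [h.2, i.2, j.2]⟩ : {i // w i = c + d}) (h.1 (mem_bb hx hy)))
    (fun c => (hA c).trans a1) (fun _ _ x hx y _ => bot_inv Set.univ x hx y trivial) (fun _ => bot_inv _)
    fun v hv => absurd (ZMod.val_lt v) (by omega)
  have a3 : ∀ g, dd g (⨆ i, R i) ≤ ⨆ c, der g A c := fun g => by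
    induction g with
    | zero => exact iSup_le fun i => le_iSup_of_le (w i) (le_iSup (fun i : {j // w j = w i} => R i) ⟨i, rfl⟩)
    | succ g ih =>
      rw [dd, Function.iterate_succ_apply', der_succ']
      exact bb_le fun x hx y hy => lie_iSup (fun i j x hx y hy => AddSubgroup.mem_iSup_of_mem _ (mem_br hx hy)) x (ih hx) y
        (ih hy)
  exact h3 L ι R _ ht (fun i j => (hc i j).imp fun _ => And.left) hK (fun i => iSup_le (hm i))
    (eq_bot_iff.2 ((a3 f2).trans (iSup_le a2)))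

end H04.Sh
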