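import Cfsg.Agent.H04.Sh1
import Cfsg.Agent.H17.AutGen

/-! Coprime action of an elementary abelian group: passage to the associated Lie ring. -/

set_option autoImplicit false
open H16.Lie Subgroup
open scoped TensorProduct commutatorElement

namespace H04.Sh

variable {G A : Type} [Group G] [CommGroup A] (ρ : A →* MulAut G) {p : ℕ}

/-- fixed points -/
def Fx (B : Subgroup A) : Subgroup G where
  carrier := {g | ∀ b ∈ B, ρ b g = g}
  mul_mem' ha hb b h := by rw [map_mul, ha b h, hb b h]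
  one_mem' b _ := map_one _
  inv_mem' ha b h := by rw [map_inv, ha b h]

/-- invariant subgroups -/
def Iv (X : Subgroup G) : Prop := ∀ a, ∀ x ∈ X, ρ a x ∈ X

/-- characters -/
abbrev Ch (A : Type) [Group A] (p : ℕ) : Type := A →* Multiplicative (ZMod p)

variable {ρ}

theorem Iv.fx (B : Subgroup A) : Iv ρ (Fx ρ B) := fun a x hx b hb => by
  rw [← MulAut.mul_apply, ← map_mul, mul_comm, map_mul, MulAut.mul_apply, hx b hb]

theorem Iv.inf {X Y : Subgroup G} (hX : Iv ρ X) (hY : Iv ρ Y) : Iv ρ (X ⊓ Y) := fun a x hx => ⟨hX a x hx.1, hY a x hx.2⟩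

theorem iv_iff {X : Subgroup G} : Iv ρ X ↔ ∀ a, X.map (ρ a).toMonoidHom ≤ X :=
  ⟨fun h a _ ⟨x, hx, e⟩ => e ▸ h a x hx, fun h a x hx => h a ⟨x, hx, rfl⟩⟩

theorem Iv.comm {X Y : Subgroup G} (hX : Iv ρ X) (hY : Iv ρ Y) : Iv ρ ⁅X, Y⁆ := iv_iff.2 fun a => by
  rw [map_commutator]; exact commutator_mono (iv_iff.1 hX a) (iv_iff.1 hY a)

theorem Iv.iSup {ι : Sort*} {X : ι → Subgroup G} (h : ∀ i, Iv ρ (X i)) : Iv ρ (⨆ i, X i) := iv_iff.2 fun a => by
  rw [Subgroup.map_iSup]; exact iSup_mono fun i => iv_iff.1 (h i) a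

theorem Iv.lcs {X : Subgroup G} (hX : Iv ρ X) (n : ℕ) : Iv ρ (X.lowerCentralSeries n) := by
  induction n with
  | zero => exact hX
  | succ n ih => exact ih.comm hX

theorem ex_ch [Fact p.Prime] (hA : ∀ a : A, a ^ p = 1) {B : Subgroup A} {a : A} (h : a ∉ B) :
    ∃ φ : Ch A p, φ a ≠ 1 ∧ B ≤ φ.ker := by
  letI : Module (ZMod p) (Additive A) := AddCommGroup.zmodModule fun x => hA x
  obtain ⟨f, h1, h2⟩ := Submodule.exists_le_ker_of_notMem (p := AddSubgroup.toZModSubmodule p B.toAddSubgroup)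
    (v := Additive.ofMul a) h
  exact ⟨f.toAddMonoidHom.toMultiplicativeRight, h1, fun b hb => h2 (x := Additive.ofMul b) hb⟩

section
variable [Finite G] [Finite A] [hp : Fact p.Prime] (hA : ∀ a : A, a ^ p = 1) (hc : (Nat.card G).Coprime p)
include hA hc

theorem cp1 {X Y : Subgroup G} (hX : Iv ρ X) (h : ∀ φ : Ch A p, X ⊓ Fx ρ φ.ker ≤ Y) : X ≤ Y := by
  obtain ⟨n, hn⟩ := IsPGroup.iff_card.1 ((show IsPGroup p A from fun a => ⟨1, by simpa using hA a⟩).of_surjective _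
    ρ.rangeRestrict_surjective)
  refine H17.aut_le_of_cocyclic (J := ρ.range) inferInstance (by rintro _ ⟨a, rfl⟩; exact hX a)
    (hn ▸ ((hc.coprime_dvd_left (card_subgroup_dvd_card X)).pow_right n).symm) ?_
  rintro B hB ⟨_, ⟨a, rfl⟩, e⟩ x hx h1
  by_cases ha : a ∈ B.comap ρ
  · exact h 1 ⟨hx, fun b _ => h1 _ ((sup_eq_left.2 (zpowers_le.2 (mem_comap.1 ha))).le (e.ge ⟨b, rfl⟩))⟩
  obtain ⟨φ, h2, h3⟩ := ex_ch hA ha
  refine h φ ⟨hx, fun b hb => h1 _ ?_⟩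
  have : B.comap ρ ⊔ zpowers a = ⊤ := by
    rw [← comap_map_eq_self (f := ρ) (H := B.comap ρ ⊔ zpowers a) fun x hx => mem_sup_left (by simp [show ρ x = 1 from hx]),
      Subgroup.map_sup, MonoidHom.map_zpowers, map_comap_eq_self hB, e, MonoidHom.comap_range_self]
  obtain ⟨c, hc, _, ⟨i, rfl⟩, rfl⟩ := Subgroup.mem_sup.1 (this.ge (mem_top b))
  rw [MonoidHom.mem_ker, map_mul, h3 hc, one_mul, map_zpow, ← orderOf_dvd_iff_zpow_eq_one,
    orderOf_eq_prime (by rw [← map_pow, hA, map_one]) h2] at hb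
  obtain ⟨j, rfl⟩ := hb
  simpa [zpow_mul, hA] using hc

theorem cp2 {X N : Subgroup G} (hX : Iv ρ X) (hN : Iv ρ N) (B : Subgroup A) {h : G} (hh : h ∈ X)
    (e : ∀ b ∈ B, ρ b h * h⁻¹ ∈ N) : ∃ g ∈ X ⊓ Fx ρ B, g * h⁻¹ ∈ N := by
  letI : MulAction B {y // y ∈ X ∧ y * h⁻¹ ∈ N} :=
    { smul := fun b y => ⟨ρ b y, hX _ _ y.2.1, by simpa using mul_mem (hN b _ y.2.2) (e b b.2)⟩
      one_smul := fun y => Subtype.ext (show ρ 1 y = y by simp)
      mul_smul := fun a b y => Subtype.ext (show ρ (a * b) y = ρ a (ρ b y) by simp) }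
  obtain ⟨y, hy⟩ := (show IsPGroup p B from fun a => ⟨1, Subtype.ext (by simpa using hA a)⟩).nonempty_fixed_point_of_prime_not_dvd_card
    {y // y ∈ X ∧ y * h⁻¹ ∈ N} fun hd => hp.out.one_lt.ne' (hc.symm.eq_one_of_dvd (hd.trans (by
      rw [Nat.card_congr (α := {y // y ∈ X ∧ y * h⁻¹ ∈ N}) (β := ↥(X ⊓ N)) ⟨fun y => ⟨y.1 * h⁻¹, X.mul_mem y.2.1 (X.inv_mem hh), y.2.2⟩,
        fun y => ⟨y.1 * h, X.mul_mem (mem_inf.1 y.2).1 hh, by simpa using (mem_inf.1 y.2).2⟩, fun y => by simp, fun y => by simp⟩]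
      exact card_subgroup_dvd_card _)))
  exact ⟨y, ⟨y.2.1, fun b hb => congrArg Subtype.val (hy ⟨b, hb⟩)⟩, y.2.2⟩

end

/-- iterated commutator -/
def it (X Y : Subgroup G) (n : ℕ) : Subgroup G := (fun Z => ⁅Z, Y⁆)^[n] X

/-- derived series -/
def dg (n : ℕ) (X : Subgroup G) : Subgroup G := (fun Z => ⁅Z, Z⁆)^[n] X

section
variable (R : Type) [CommRing R] (K : ℕ → Subgroup G) [hK : NSer K]

/-- the additive subgroup attached to a subgroup -/
noncomputable def Ph (X : Subgroup G) : AddSubgroup (R ⊗[ℤ] AL K) :=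
  AddSubgroup.closure {z | ∃ r j g, g ∈ X ∧ g ∈ K j ∧ z = r ⊗ₜ el K j g}

variable {R K}

theorem mem_Ph {X : Subgroup G} (r : R) {j : ℕ} {g : G} (h : g ∈ X) (h' : g ∈ K j) : r ⊗ₜ el K j g ∈ Ph R K X :=
  AddSubgroup.subset_closure ⟨r, j, g, h, h', rfl⟩

theorem Ph_le {X : Subgroup G} {W : AddSubgroup (R ⊗[ℤ] AL K)}
    (h : ∀ r j g, g ∈ X → g ∈ K j → r ⊗ₜ el K j g ∈ W) : Ph R K X ≤ W :=
  (AddSubgroup.closure_le _).2 (by rintro _ ⟨r, j, g, h1, h2, rfl⟩; exact h r j g h1 h2)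

theorem Ph_mono {X Y : Subgroup G} (h : X ≤ Y) : Ph R K X ≤ Ph R K Y := Ph_le fun r _ _ h1 h2 => mem_Ph r (h h1) h2

theorem Ph_bot : Ph R K ⊥ = ⊥ := eq_bot_iff.2 (Ph_le fun r j g h _ => by simp [mem_bot.1 h, el_one])

theorem Ph_top (x : R ⊗[ℤ] AL K) : x ∈ Ph R K ⊤ := by
  induction x using TensorProduct.induction_on with
  | zero => exact zero_mem _
  | add x y hx hy => exact add_mem hx hy
  | tmul r x =>
    induction x using AL.ind with
    | h0 => simp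
    | h1 i g hg => exact mem_Ph r trivial hg
    | h2 x y hx hy => rw [TensorProduct.tmul_add]; exact add_mem hx hy

theorem Ph_ind {X : Subgroup G} {P : R ⊗[ℤ] AL K → Prop} {x} (hx : x ∈ Ph R K X) (h0 : P 0)
    (h1 : ∀ r j g, g ∈ X → g ∈ K j → P (r ⊗ₜ el K j g)) (h2 : ∀ x y, P x → P y → P (x + y)) : P x := by
  suffices P x ∧ P (-x) from this.1
  induction hx using AddSubgroup.closure_induction with
  | mem z hz =>
    obtain ⟨r, j, g, a, b, rfl⟩ := hz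
    exact ⟨h1 r j g a b, by rw [← TensorProduct.neg_tmul]; exact h1 _ j g a b⟩
  | zero => simpa
  | add x y _ _ a b => exact ⟨h2 _ _ a.1 b.1, by rw [neg_add]; exact h2 _ _ a.2 b.2⟩
  | neg x _ a => simpa using a.symm

theorem lie_cl {L : Type} [LieRing L] {S T : Set L} {W : AddSubgroup L} (h : ∀ x ∈ S, ∀ y ∈ T, ⁅x, y⁆ ∈ W) :
    ∀ x ∈ AddSubgroup.closure S, ∀ y ∈ AddSubgroup.closure T, ⁅x, y⁆ ∈ W :=
  ((AddSubgroup.closure_le _).2 fun x hx _ hy => ((AddSubgroup.closure_le (rt x W)).2 (h x hx)) hy :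
    AddSubgroup.closure S ≤ lf (AddSubgroup.closure T) W)

theorem Ph_lie {X Y : Subgroup G} : ∀ x ∈ Ph R K X, ∀ y ∈ Ph R K Y, ⁅x, y⁆ ∈ Ph R K ⁅X, Y⁆ := lie_cl (by
  rintro _ ⟨r, i, g, h1, h2, rfl⟩ _ ⟨s, j, h, h3, h4, rfl⟩
  exact (congrArg (· ∈ _) (congrArg ((r * s) ⊗ₜ[ℤ] ·) (lie_el h2 h4))).mpr
    (mem_Ph _ (commutator_mem_commutator h1 h3) (hK.comm _ _ _ h2 _ h4)))

theorem Ph_it {Y : Subgroup G} (m : ℕ) : ∀ {X}, it X Y m = ⊥ → Ph R K X ≤ zr (Ph R K Y) ⊥ m := by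
  induction m with
  | zero => intro X h; rw [show X = ⊥ from h, Ph_bot]; exact le_rfl
  | succ m ih => exact fun h x hx y hy => ih h (Ph_lie x hx y hy)

theorem Ph_dg (s : ℕ) : ∀ {X W}, W ≤ Ph R K X → dd s W ≤ Ph R K (dg s X) := by
  induction s with
  | zero => exact id
  | succ s ih => exact fun h => ih (bb_le fun x hx y hy => Ph_lie x (h hx) y (h hy))

theorem Ph_smul {X : Subgroup G} (r : R) : ∀ x ∈ Ph R K X, r • x ∈ Ph R K X :=
  (Ph_le fun s _ _ h1 h2 => mem_Ph (r * s) h1 h2 : Ph R K X ≤ (Ph R K X).comap (DistribSMul.toAddMonoidHom _ r))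

theorem div_mem [Finite G] {n : ℕ} (hc : (Nat.card G).Coprime n) {W : AddSubgroup (R ⊗[ℤ] AL K)} {x : R ⊗[ℤ] AL K}
    (h : n • x ∈ W) : x ∈ W := by
  have h0 : Nat.card G • x = 0 := Ph_ind (P := fun x => Nat.card G • x = 0) (Ph_top x) (by simp) (fun r j g _ h2 => by
    rw [← TensorProduct.tmul_smul, ← el_pow h2, pow_card_eq_one', el_one, TensorProduct.tmul_zero])
    fun a b ha hb => by rw [smul_add, ha, hb, add_zero]
  obtain ⟨u, v, e⟩ := Nat.isCoprime_iff_coprime.2 hc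
  rw [← one_smul ℤ x, ← e, add_smul, mul_smul, mul_smul, natCast_zsmul, natCast_zsmul, h0, smul_zero, zero_add]
  exact zsmul_mem h v

variable (hI : ∀ i, Iv ρ (K i))

variable (R) in
/-- the induced automorphisms -/
noncomputable def be (a : A) : R ⊗[ℤ] AL K →ₗ⁅ℤ⁆ R ⊗[ℤ] AL K :=
  LieAlgebra.ExtendScalars.map (AlgHom.id ℤ R)
    { (AL.map (ρ a).toMonoidHom fun i => hI i a).toIntLinearMap with map_lie' := AL.map_lie _ (fun i => hI i a) _ _ }

theorem be_el (a : A) (r : R) {j : ℕ} {g : G} (h : g ∈ K j) : be R hI a (r ⊗ₜ el K j g) = r ⊗ₜ el K j (ρ a g) :=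
  congrArg (r ⊗ₜ ·) (AL.map_el _ (fun i => hI i a) h)

theorem be_ext {f g : R ⊗[ℤ] AL K →+ R ⊗[ℤ] AL K} (h : ∀ r j x, x ∈ K j → f (r ⊗ₜ el K j x) = g (r ⊗ₜ el K j x)) (x) :
    f x = g x := (Ph_le fun r j x _ h2 => h r j x h2 : Ph R K ⊤ ≤ f.eqLocus g) (Ph_top x)

theorem be_mul (a b : A) (x) : be R hI (a * b) x = be R hI a (be R hI b x) :=
  be_ext (f := (be R hI (a * b)).toLinearMap.toAddMonoidHom)
    (g := (be R hI a).toLinearMap.toAddMonoidHom.comp (be R hI b).toLinearMap.toAddMonoidHom)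
    (fun r j x h => by simp [be_el, h, hI j b x h]) x

theorem be_one (x) : be R hI 1 x = x :=
  be_ext (f := (be R hI 1).toLinearMap.toAddMonoidHom) (g := .id _) (fun r j x h => by simp [be_el, h]) x

theorem be_smul (a : A) (r : R) (x) : be R hI a (r • x) = r • be R hI a x :=
  be_ext (f := (be R hI a).toLinearMap.toAddMonoidHom.comp (DistribSMul.toAddMonoidHom _ r))
    (g := (DistribSMul.toAddMonoidHom _ r).comp (be R hI a).toLinearMap.toAddMonoidHom)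
    (fun s j x h => by simp [be_el, h, TensorProduct.smul_tmul']) x

theorem be_Ph {X : Subgroup G} (hX : Iv ρ X) (a : A) (x) (hx : x ∈ Ph R K X) : be R hI a x ∈ Ph R K X :=
  Ph_ind (P := fun x => be R hI a x ∈ _) hx (by simp)
    (fun r j g h1 h2 => by rw [be_el _ _ _ h2]; exact mem_Ph r (hX a g h1) (hI j a g h2))
    fun a b ha hb => by rw [map_add]; exact add_mem ha hb

variable [Finite G] [Finite A] [hp : Fact p.Prime] (hA : ∀ a : A, a ^ p = 1) (hc : (Nat.card G).Coprime p)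
include hA hc

theorem fix_Ph {X : Subgroup G} (hX : Iv ρ X) (B : Subgroup A) {x} (hx : x ∈ Ph R K X) (h : ∀ b ∈ B, be R hI b x = x) :
    x ∈ Ph R K (X ⊓ Fx ρ B) := by
  haveI := Fintype.ofFinite B
  obtain ⟨n, hn⟩ := IsPGroup.iff_card.1 (show IsPGroup p B from fun a => ⟨1, Subtype.ext (by simpa using hA a)⟩)
  refine div_mem (hn ▸ hc.pow_right n) ?_
  have : ∑ b : B, be R hI b x ∈ Ph R K (X ⊓ Fx ρ B) := by
    refine Ph_ind (P := fun x => ∑ b : B, be R hI b x ∈ _) hx (by simp) (fun r j g h1 h2 => ?_) fun a b ha hb => by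
      simp only [map_add, Finset.sum_add_distrib]; exact add_mem ha hb
    obtain ⟨y, ⟨y1, y2⟩, e⟩ : ∃ y ∈ X ⊓ K j, el K j y = ∑ b : B, el K j (ρ b g) :=
      Finset.sum_induction _ (fun z => ∃ y ∈ X ⊓ K j, el K j y = z)
        (by rintro _ _ ⟨a, ha, rfl⟩ ⟨b, hb, rfl⟩; exact ⟨a * b, mul_mem ha hb, el_mul ha.2 hb.2⟩)
        ⟨1, one_mem _, el_one j⟩ fun b _ => ⟨_, ⟨hX _ g h1, hI j _ g h2⟩, rfl⟩
    obtain ⟨z, ⟨z1, z2⟩, z3⟩ := cp2 hA hc (hX.inf (hI j)) (hI (j + 1)) B ⟨y1, y2⟩ fun b hb => by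
      rw [← el_eq_zero (mul_mem (hI j _ y y2) (inv_mem y2)), el_mul (hI j _ y y2) (inv_mem y2), el_inv y2,
        add_neg_eq_zero]
      refine (AL.map_el (ρ b).toMonoidHom (fun i => hI i b) y2).symm.trans ?_
      rw [e, map_sum]
      exact Fintype.sum_equiv (Equiv.mulLeft ⟨b, hb⟩) _ _ fun c =>
        (AL.map_el _ _ (hI j _ g h2)).trans (by simp)
    rw [← el_eq_zero (mul_mem z1.2 (inv_mem y2)), el_mul z1.2 (inv_mem y2), el_inv y2, add_neg_eq_zero] at z3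
    convert mem_Ph r (X := X ⊓ Fx ρ B) ⟨z1.1, z2⟩ z1.2
    rw [z3, e, TensorProduct.tmul_sum]
    exact Finset.sum_congr rfl fun b _ => be_el hI _ r h2
  rwa [Finset.sum_congr rfl fun (b : B) _ => h b b.2, Finset.sum_const, Finset.card_univ, ← Nat.card_eq_fintype_card] at this

end

theorem grp_main (p : ℕ) [hp : Fact p.Prime] (m s t : ℕ) : ∃ f : ℕ, ∀ (G A : Type) [Group G] [CommGroup A] [Finite G]
    [Finite A] (ρ : A →* MulAut G) (ι : Type) [Finite ι] (F : ι → Subgroup G) (a0 : A), (∀ a : A, a ^ p = 1) →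
    (Nat.card G).Coprime p → Nat.card ι * Nat.card (Ch A p) ≤ t → (∀ i, Iv ρ (F i)) →
    (∀ i j (φ : Ch A p), ∃ l, ⁅F i, F j⁆ ⊓ Fx ρ φ.ker ≤ F l) → (∀ i (φ : Ch A p), it (Fx ρ φ.ker) (F i) m = ⊥) →
    dg s (Fx ρ (zpowers a0)) = ⊥ → (⨆ i, F i).lowerCentralSeries f ≤ (⨆ i, F i).lowerCentralSeries (f + 1) := by
  obtain ⟨f, hf⟩ := lie_main.{0} p m s t
  refine ⟨f, fun G A _ _ _ _ ρ ι _ F a0 hA hc ht hI hcl hm hs => ?_⟩
  obtain ⟨R, _, d, b, i0, w, hb, hw0, hw, hws⟩ := exists_ring p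
  let K := (⨆ i, F i).lowerCentralSeries
  haveI : NSer K := inferInstanceAs (NSer (⨆ i, F i).lowerCentralSeries)
  have hK : ∀ i, Iv ρ (K i) := (Iv.iSup hI).lcs
  haveI : Finite (Ch A p) := DFunLike.finite _
  haveI := Fintype.ofFinite (Ch A p)
  haveI := Fintype.ofFinite ι
  haveI := Fintype.ofFinite A
  let Wt : Ch A p → AddSubgroup (R ⊗[ℤ] AL K) := fun φ =>
    { carrier := {x | ∀ a, be R hK a x = w (φ a).toAdd • x}
      add_mem' := fun hx hy a => by rw [map_add, hx a, hy a, smul_add]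
      zero_mem' := fun a => by rw [map_zero, smul_zero]
      neg_mem' := fun hx a => by rw [map_neg, hx a, smul_neg] }
  have hsm : ∀ (r : R) (x y : R ⊗[ℤ] AL K), ⁅x, r • y⁆ = r • ⁅x, y⁆ :=
    (LieAlgebra.ExtendScalars.instLieAlgebra ℤ R (AL K)).lie_smul
  have fx : ∀ {X} (B : Subgroup A) (φ : Ch A p), Iv ρ X → B ≤ φ.ker → Ph R K X ⊓ Wt φ ≤ Ph R K (X ⊓ Fx ρ B) :=
    fun B φ hX h x hx => fix_Ph hK hA hc hX B hx.1 fun b hb => by rw [hx.2 b, h hb, toAdd_one, hw0, one_smul]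
  have dec : ∀ {X}, Iv ρ X → Ph R K X ≤ ⨆ φ, Ph R K X ⊓ Wt φ := fun {X} hX x hx => by
    obtain ⟨n, hn⟩ := IsPGroup.iff_card.1 (show IsPGroup p (Ch A p) from fun φ => ⟨1, by ext a; simp [← map_pow, hA]⟩)
    refine div_mem (n := p ^ (n + 1)) (hc.pow_right _) ?_
    have e : ∀ a : A, a ≠ 1 → p • ∑ φ : Ch A p, w (-(φ a).toAdd) = 0 := fun a ha => by
      obtain ⟨ψ, h1, -⟩ := ex_ch hA (B := ⊥) ha
      have : ∀ c : ZMod p, ∑ φ : Ch A p, w (-(φ a).toAdd) = ∑ φ : Ch A p, w (-(φ a).toAdd) * w (-(c * (ψ a).toAdd)) :=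
        fun c => (Fintype.sum_equiv (Equiv.mulRight (ψ ^ c.val)) _ _ fun φ => by simp [← hw, add_comm]).symm
      rw [show p • ∑ φ : Ch A p, w (-(φ a).toAdd) = ∑ c : ZMod p, ∑ φ : Ch A p, w (-(φ a).toAdd) by simp,
        Finset.sum_congr rfl fun c _ => this c, Finset.sum_comm]
      refine Finset.sum_eq_zero fun φ _ => ?_
      rw [← Finset.mul_sum, show ∑ c : ZMod p, w (-(c * (ψ a).toAdd)) = ∑ i, w i from
        Fintype.sum_equiv ((Equiv.mulRight₀ _ h1).trans (Equiv.neg _)) _ _ fun i => rfl, hws, mul_zero]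
    have : p ^ (n + 1) • x = p • ∑ φ : Ch A p, ∑ a : A, w (-(φ a).toAdd) • be R hK a x := by
      rw [Finset.sum_comm, Finset.smul_sum, Finset.sum_eq_single 1]
      · simp [hw0, be_one, ← hn, pow_succ', mul_smul]
      · intro a _ ha
        rw [← Finset.sum_smul, ← smul_assoc, e a ha, zero_smul]
      · simp
    rw [this]
    refine nsmul_mem (sum_mem fun φ _ => AddSubgroup.mem_iSup_of_mem φ
      (AddSubgroup.mem_inf.2 ⟨sum_mem fun a _ => Ph_smul _ _ (be_Ph hK hX a x hx), fun c => ?_⟩)) _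
    rw [map_sum, Finset.smul_sum]
    refine Fintype.sum_equiv (Equiv.mulLeft c) _ _ fun a => ?_
    rw [be_smul, ← be_mul, smul_smul, ← hw]
    simp
  have h1 := hf (R ⊗[ℤ] AL K) (ι × Ch A p) (fun i => Ph R K (F i.1) ⊓ Wt i.2) (fun i => (i.2 a0).toAdd)
    (by simpa using ht) (fun i j => by
      obtain ⟨l, hl⟩ := hcl i.1 j.1 (i.2 * j.2)
      refine ⟨(l, i.2 * j.2), bb_le fun x hx y hy => ?_, rfl⟩
      have : ⁅x, y⁆ ∈ Wt (i.2 * j.2) := fun a => by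
        rw [LieHom.map_lie, hx.2 a, hy.2 a, hsm, ← lie_skew, hsm, ← smul_neg, lie_skew, smul_smul, ← hw, add_comm]; rfl
      exact ⟨Ph_mono hl (fx _ _ ((hI _).comm (hI _)) le_rfl ⟨Ph_lie x hx.1 y hy.1, this⟩), this⟩)
    (fun i j => (fx _ _ (hI _) le_rfl).trans ((Ph_mono inf_le_right).trans ((Ph_it m (hm i.1 j.2)).trans
      (zr_mono (fun _ h => h.1) le_rfl m))))
    (eq_bot_iff.2 ((Ph_dg s (iSup_le fun i => (fx _ _ (hI _) (zpowers_le.2 i.2)).trans (Ph_mono inf_le_right))).trans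
      (by rw [hs, Ph_bot])))
  let M := ⨆ i : ι × Ch A p, Ph R K (F i.1) ⊓ Wt i.2
  have h2 : ∀ g ∈ K 0, (1 : R) ⊗ₜ el K 0 g ∈ M := fun g hg => by
    induction hg using iSup_induction' with
    | hp i x hx => exact (dec (hI i)).trans (iSup_le fun φ => le_iSup_of_le (i, φ) le_rfl) (mem_Ph 1 hx (le_iSup F i hx))
    | h1 => simp [el_one]
    | hmul x y hx hy a b => rw [el_mul hx hy, TensorProduct.tmul_add]; exact add_mem a b
  have h3 : ∀ j, ∀ g ∈ K j, ∀ n, j + n = f → (1 : R) ⊗ₜ[ℤ] el K j g ∈ zr (M : Set (R ⊗[ℤ] AL K)) ⊥ n := fun j => by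
    induction j with
    | zero => exact fun g hg n e => (show n = f by omega) ▸ h1 (h2 g hg)
    | succ j ih =>
      intro g hg n e
      induction hg using closure_induction with
      | one => simp [el_one]
      | mul x y hx hy a b => rw [el_mul hx hy, TensorProduct.tmul_add]; exact add_mem a b
      | inv x hx a => rw [el_inv hx, TensorProduct.tmul_neg]; exact neg_mem a
      | mem z hz =>
        obtain ⟨x, hx, y, hy, rfl⟩ := hz
        simpa [lie_el (K := K) (j := 0) hx hy] using ih x hx (n + 1) (by omega) _ (h2 y hy)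
  intro g hg
  have h4 := congrArg (fun z => TensorProduct.equivFinsuppOfBasisLeft b z i0) (AddSubgroup.mem_bot.1 (h3 f g hg 0 rfl))
  simp only [TensorProduct.equivFinsuppOfBasisLeft_apply_tmul_apply, map_zero, Finsupp.zero_apply] at h4
  rw [← hb, Module.Basis.repr_self, Finsupp.single_eq_same, one_smul] at h4
  exact (el_eq_zero hg).1 h4

end H04.Sh
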