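import Mathlib
import Cfsg.Agent.H04.SimpAmb

/-! A flexible criterion `simple_of_good` for the simplicity of the fusion system of a finite group `A` on a Sylow
subgroup `S`: the closure rules `GoodRules` hold for the morphisms of every normal subsystem over `S`. -/

set_option autoImplicit false
open Subgroup Cfsg H26 H09 H28

namespace H04

variable {Γ : Type*} [Group Γ] {p : ℕ}

/-- closure properties of the set of pairs `(P, g)` such that conjugation by `g` on `P` lies in a given normal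
subsystem over `S` -/
structure GoodRules (p : ℕ) (A S : Subgroup Γ) (Good : Subgroup Γ → Γ → Prop) : Prop where
  mono : ∀ {P Q g}, Good P g → Q ≤ P → Good Q g
  comp : ∀ {P Q g h}, Good P g → Good Q h → (∀ x ∈ P, g * x * g⁻¹ ∈ Q) → Good P (h * g)
  inv : ∀ {P g}, Good P g → g ∈ normalizer (P : Set Γ) → Good P g⁻¹
  cent : ∀ {P g}, P ≤ S → (∀ x ∈ P, x * g = g * x) → Good P g
  pn : ∀ {R g}, R ≤ S → g ∈ pN p A R → Good R g
  ext : ∀ {R P g}, Ctr p A R → R ≤ P → P ≤ S → g ∈ A → (∀ x ∈ P, g * x * g⁻¹ ∈ S) → Good R g → Good P g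

/-- the good elements normalising `P` -/
def GoodRules.sub {A S : Subgroup Γ} {Good : Subgroup Γ → Γ → Prop} (h : GoodRules p A S Good) {P : Subgroup Γ}
    (hP : P ≤ S) : Subgroup Γ where
  carrier := {g | g ∈ normalizer (P : Set Γ) ∧ Good P g}
  one_mem' := ⟨one_mem _, h.cent hP (by simp)⟩
  mul_mem' ha hb := ⟨mul_mem ha.1 hb.1, h.comp hb.2 ha.2 fun _ hx => conj_mem_of_normalizer hb.1 hx⟩
  inv_mem' ha := ⟨inv_mem ha.1, h.inv ha.2 ha.1⟩

theorem GoodRules.pN_le {A S : Subgroup Γ} {Good : Subgroup Γ → Γ → Prop} (h : GoodRules p A S Good)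
    {P : Subgroup Γ} (hP : P ≤ S) : pN p A P ≤ h.sub hP := fun _ hg => ⟨pN_le_normalizer _ _ hg, h.pn hP hg⟩

variable [Fact p.Prime]

theorem centric_of_ctr {A S R : Subgroup Γ} [Finite S] (hS : IsPGroup p S) (hSA : S ≤ A) (hR : R ≤ S)
    (h : Ctr p A R) : (fusionSystemOfSubgroup A S hSA).IsCentric R := by
  refine isCentric_iff.2 ⟨hR, fun Q f hf c hc => ?_⟩
  obtain ⟨-, -, g, hgA, hg, -⟩ := (iso_ofSubgroup hSA).1 hf
  have h1 : (H28.cj g)⁻¹ c ∈ R := by
    refine h _ (mul_mem (mul_mem (inv_mem hgA) (hSA hc.1)) hgA) (fun x hx => ?_) ?_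
    · have := (mem_centralizerIn.1 hc).2 _ (hg.map_mem hx)
      simp only [cj_apply, cj_inv_apply] at this ⊢
      calc x * (g⁻¹ * c * g) = g⁻¹ * (g * x * g⁻¹ * c) * g := by group
        _ = _ := by rw [this]; group
    · simpa using (PEl.of_mem hS hc.1).conj g⁻¹
  have := hg.map_mem h1
  rwa [ai] at this

theorem simple_of_good {A S : Subgroup Γ} [Finite A] (hS : IsSyl p S A) (h0 : S ≠ ⊥)
    (h1 : ∀ T ≤ S, T ≠ ⊥ → (∀ x ∈ T, ∀ g ∈ A, g * x * g⁻¹ ∈ S → g * x * g⁻¹ ∈ T) → T = S)
    (h2 : ∀ Good, GoodRules p A S Good → ∀ n ∈ A, n ∈ normalizer (S : Set Γ) → Good S n) (S' : Sylow p A) :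
    (groupFusionSystem (S' : Subgroup A)).IsSimple p := by
  haveI : Finite S := H26.finite_of_le hS.le
  have hF := sat_ofSubgroup hS
  have key : (fusionSystemOfSubgroup A S hS.le).IsSimple p := by
    refine ⟨hF, h0, fun T E hE => ?_⟩
    have hT := (sc_ofSubgroup_iff hS.le).1 hE.1.2.2.2.1
    by_cases hb : T = ⊥
    · exact Or.inl hb
    obtain rfl := h1 T hT.1 hb hT.2
    refine Or.inr ⟨rfl, fun P => ?_⟩
    have hi := hE.1.2.2
    have hg : GoodRules p A T fun P g => M E P (H28.cj g) := by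
      refine ⟨fun h hQ => h.mono hQ, fun h h' e => by rw [map_mul]; exact h.comp h' e, fun h hn => ?_,
        fun hP h => (M.one E hP).congr fun x hx => ?_, fun {R g} hR hg => ?_,
        fun hC hRP hP hg hx h => M_of_centric hS.pg hF hE.1.1 hi.1 (centric_of_ctr hS.pg hS.le (hRP.trans hP) hC) hRP
          (M_cj_ofSubgroup hS.le hP hg hx) h⟩
      · rw [map_inv]; exact ((h.iso_of (hiso_cj_of_normalizer hn)).symm).map
      · simp [← h x hx]
      · have hle := pN_le_normalizer (p := p) A R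
        have hh : HomOn (pN p A R) (fun n => res R (H28.cj n)) := fun x hx y hy => res_cj_mul (hle hx) (hle hy)
        have : res R (H28.cj g) ∈ pElementClosure p ((fusionSystemOfSubgroup A T hS.le).autGroup R) := by
          refine hh.mem_of_closure (fun x hx => ?_) g hg
          obtain ⟨hxA, hx, k, hk⟩ := hx
          have h3 : res R (H28.cj x) ^ p ^ k = 1 := by rw [← res_cj_pow hx, hk]; simp
          refine subset_closure ⟨?_, pEl_iff_orderOf.1 ⟨k, h3⟩⟩
          rw [autGroup_ofSubgroup hS.le hR]; exact res_cj_mem hxA hx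
        exact ((hiso_cj_of_normalizer (hle hg)).iso_of_res_mem hR
          (pElementClosure_le_of_inv hS.pg hF hi hR this)).map
    rw [inv_eq_of_top hi fun a ha => ?_]
    obtain ⟨-, -, g, hgA, hg', e⟩ := (iso_ofSubgroup hS.le).1 ha
    exact (h2 _ hg g hgA hg'.normalizer_of_cj).congr fun x hx => (e x hx).symm
  have h3 : IsSyl p (S.subgroupOf A) ⊤ := by simpa using hS.subgroupOf le_rfl
  exact isSimple_transport (MulEquiv.refl A) h3 ((isFIso_subtype hS.le).symm.simple hS.pg key) S'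

end H04
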