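import Mathlib
import Cfsg.Agent.H04.SimpAmb
import Cfsg.Agent.H04.Basic
import Cfsg.Agent.H09.AutPSL1
import Cfsg.Agent.S2579

/-! The unitriangular group `uT n F` of `SL_n(F)`: generation by transvections, normaliser, Sylow property, and the
criterion `Crit` for the simplicity of the fusion system of `PSL_n(F)` in defining characteristic. -/

set_option autoImplicit false
open Subgroup Cfsg H26 H09 Matrix

namespace H04

variable {n : ℕ} {F : Type*} [Field F]

local notation "SLn" => Matrix.SpecialLinearGroup (Fin n) F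

/-- upper triangular matrices of determinant one -/
def bT (n : ℕ) (F : Type*) [Field F] : Subgroup (Matrix.SpecialLinearGroup (Fin n) F) where
  carrier := {g | g.1.BlockTriangular id}
  one_mem' := blockTriangular_one
  mul_mem' ha hb := ha.mul hb
  inv_mem' {g} hg := by
    letI : Invertible g.1 := ⟨(g⁻¹).1, sl_inv_mul g, sl_mul_inv g⟩
    have := blockTriangular_inv_of_blockTriangular hg
    rw [← invOf_eq_nonsing_inv] at this
    exact this

theorem mem_bT {g : SLn} : g ∈ bT n F ↔ ∀ i j, j < i → g.1 i j = 0 := Iff.rfl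

theorem bT_mul_diag {g h : SLn} (hg : g ∈ bT n F) (hh : h ∈ bT n F) (i : Fin n) :
    (g * h).1 i i = g.1 i i * h.1 i i := by
  rw [sl_val_mul, mul_apply, Finset.sum_eq_single i]
  · intro j _ hj
    rcases lt_or_gt_of_ne hj with h1 | h1
    · rw [mem_bT.1 hg i j h1, zero_mul]
    · rw [mem_bT.1 hh j i h1, mul_zero]
  · simp

theorem bT_pow_diag {g : SLn} (hg : g ∈ bT n F) (i : Fin n) (k : ℕ) : (g ^ k).1 i i = g.1 i i ^ k := by
  induction k with
  | zero => simp [sl_val_one]
  | succ k ih => rw [pow_succ, bT_mul_diag (pow_mem hg k) hg, ih, pow_succ]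

/-- upper unitriangular matrices -/
def uT (n : ℕ) (F : Type*) [Field F] : Subgroup (Matrix.SpecialLinearGroup (Fin n) F) where
  carrier := {g | g ∈ bT n F ∧ ∀ i, g.1 i i = 1}
  one_mem' := ⟨one_mem _, fun i => by simp [sl_val_one]⟩
  mul_mem' ha hb := ⟨mul_mem ha.1 hb.1, fun i => by rw [bT_mul_diag ha.1 hb.1, ha.2, hb.2, one_mul]⟩
  inv_mem' {g} hg := ⟨inv_mem hg.1, fun i => by
    have := bT_mul_diag hg.1 (inv_mem hg.1) i
    rw [mul_inv_cancel, hg.2, one_mul] at this
    rw [← this]; simp [sl_val_one]⟩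

theorem mem_uT {g : SLn} : g ∈ uT n F ↔ g ∈ bT n F ∧ ∀ i, g.1 i i = 1 := Iff.rfl

theorem mem_uT_tv {g : SLn} {v φ : Fin n → F} (e : g.1 = 1 + vecMulVec v φ) :
    g ∈ uT n F ↔ ∀ i j, j ≤ i → v i * φ j = 0 := by
  refine ⟨fun h i j hij => ?_, fun h => ⟨fun i j hij => ?_, fun i => ?_⟩⟩
  · rcases hij.lt_or_eq with h1 | rfl
    · have := mem_bT.1 h.1 i j h1
      rwa [e, Matrix.add_apply, one_apply_ne h1.ne', zero_add, vecMulVec_apply] at this
    · have := h.2 j
      rwa [e, Matrix.add_apply, one_apply_eq, add_eq_left, vecMulVec_apply] at this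
  · have hij' : j < i := hij
    rw [e, Matrix.add_apply, one_apply_ne hij'.ne', zero_add, vecMulVec_apply, h i j hij'.le]
  · rw [e, Matrix.add_apply, one_apply_eq, vecMulVec_apply, h i i le_rfl, add_zero]

theorem uT_le_of_tv {T : Subgroup SLn} (h : ∀ g ∈ uT n F, IsTv g → g ∈ T) : uT n F ≤ T := by
  have key : ∀ s : Finset (Fin n), ∀ g ∈ uT n F, (∀ j ∉ s, g.1 j = (1 : Matrix _ _ F) j) → g ∈ T := by
    intro s
    induction s using Finset.induction_on with
    | empty =>
      intro g _ hg
      have : g = 1 := sl_ext (by ext i j; rw [hg i (by simp), sl_val_one])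
      rw [this]; exact one_mem _
    | insert i s hi ih =>
      intro g hg hs
      set φ : Fin n → F := g.1 i - (1 : Matrix _ _ F) i with hφ
      have h0 : ∀ j, j ≤ i → φ j = 0 := fun j hj => by
        rcases hj.lt_or_eq with h1 | rfl
        · simp [hφ, mem_bT.1 hg.1 i j h1, one_apply_ne h1.ne']
        · simp [hφ, hg.2]
      have hd : φ ⬝ᵥ Pi.single i 1 = 0 := by simp [h0 i le_rfl]
      set t := slTv (Pi.single i 1) φ hd
      have ht : t ∈ uT n F := (mem_uT_tv (slTv_val _ _ hd)).2 fun a b hab => by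
        by_cases ha : a = i
        · subst ha; rw [h0 b hab, mul_zero]
        · simp [ha]
      have h1 : g * t⁻¹ ∈ T := ih _ (mul_mem hg (inv_mem ht)) fun j hj => by
        ext k
        rw [sl_val_mul, tv_inv hd (slTv_val _ _ hd), mul_add, mul_one, mul_vecMulVec, Matrix.add_apply, vecMulVec_apply,
          mulVec_single_one, col_apply]
        by_cases hji : j = i
        · subst hji; simp [hg.2, hφ]
        · rw [hs j (by simp [hji, hj]), one_apply_ne hji]; simp
      simpa using mul_mem h1 (h t ht ⟨_, _, hd, slTv_val _ _ hd⟩)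
  exact fun g hg => key Finset.univ g hg (by simp)

theorem bT_le_normalizer : bT n F ≤ normalizer (uT n F : Set SLn) := fun g hg => by
  have key : ∀ g ∈ bT n F, ∀ x ∈ uT n F, g * x * g⁻¹ ∈ uT n F := fun g hg x hx =>
    ⟨mul_mem (mul_mem hg hx.1) (inv_mem hg), fun i => by
      rw [bT_mul_diag (mul_mem hg hx.1) (inv_mem hg), bT_mul_diag hg hx.1, hx.2, mul_one,
        ← bT_mul_diag hg (inv_mem hg), mul_inv_cancel]; simp [sl_val_one]⟩
  refine mem_normalizer_iff.2 fun x => ⟨key g hg x, fun h => ?_⟩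
  simpa [mul_assoc] using key _ (inv_mem hg) _ h

theorem normalizer_uT [Finite F] {g : SLn} (hg : g ∈ normalizer (uT n F : Set SLn)) : g ∈ bT n F := by
  intro i a hai
  have hai : a < i := hai
  by_contra hne
  have h1 : ∀ b j, a < b → j ≤ i → (g⁻¹).1 b j = 0 := fun b j hb hj => by
    have hd : (Pi.single b 1 : Fin n → F) ⬝ᵥ Pi.single a 1 = 0 := by simp [hb.ne']
    have ht : slTv _ _ hd ∈ uT n F := (mem_uT_tv (slTv_val _ _ hd)).2 fun c d hcd => by
      by_cases h1 : c = a
      · subst h1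
        have : d ≠ b := fun e => by subst e; exact absurd hcd (not_le.2 hb)
        simp [this]
      · simp [h1]
    have := (mem_uT_tv (conj_tv g (slTv_val _ _ hd))).1 ((mem_normalizer_iff.1 hg _).1 ht) i j hj
    rw [mulVec_single_one, single_one_vecMul, col_apply, row_apply] at this
    exact (mul_eq_zero.1 this).resolve_left hne
  let A : Set (Fin n → F) := {v | ∀ j, i < j → v j = 0}
  have h2 : ∀ v ∈ A, ∀ b, a < b → ((g⁻¹).1 *ᵥ v) b = 0 := fun v hv b hb => by
    rw [mulVec, dotProduct]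
    refine Finset.sum_eq_zero fun j _ => ?_
    rcases le_or_gt j i with h | h
    · rw [h1 b j hb h, zero_mul]
    · rw [hv j h, mul_zero]
  have h3 : Set.MapsTo ((g⁻¹).1 *ᵥ ·) A A := fun v hv j hj => h2 v hv j (hai.trans hj)
  have h4 : Function.Injective ((g⁻¹).1 *ᵥ ·) := fun v w e => by
    have := congrArg (g.1 *ᵥ ·) e
    simpa only [mulVec_mulVec, sl_mul_inv, one_mulVec] using this
  obtain ⟨v, hv, e⟩ := ((Set.Finite.injOn_iff_bijOn_of_mapsTo (Set.toFinite A) h3).1 h4.injOn).surjOn
    (show Pi.single i 1 ∈ A from fun j hj => by simp [hj.ne'])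
  have := h2 v hv i hai
  simp only at e
  rw [e] at this
  simp at this

variable {p : ℕ} [Fact p.Prime] [CharP F p]

theorem mem_uT_of_pEl {g : SLn} (hg : g ∈ bT n F) (h : PEl p g) : g ∈ uT n F := by
  refine ⟨hg, fun i => ?_⟩
  obtain ⟨k, hk⟩ := h
  have := bT_pow_diag hg i (p ^ k)
  rw [hk, sl_val_one, one_apply_eq] at this
  have h2 : (g.1 i i - 1) ^ p ^ k = 0 := by rw [sub_pow_char_pow, ← this]; simp
  exact sub_eq_zero.1 (pow_eq_zero_iff (pow_pos (Fact.out : p.Prime).pos k).ne' |>.1 h2)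

theorem isPGroup_uT : IsPGroup p (uT n F) := by
  rintro ⟨g, hg⟩
  rcases Nat.eq_zero_or_pos n with rfl | hn
  · exact ⟨0, Subtype.ext (sl_ext (Subsingleton.elim _ _))⟩
  haveI : Nonempty (Fin n) := ⟨⟨0, hn⟩⟩
  have h1 : (g.1 - 1).charpoly = Polynomial.X ^ n := by
    rw [charpoly_of_isUpperTriangular _ (hg.1.sub blockTriangular_one)]
    simp [hg.2]
  have h2 : (g.1 - 1) ^ n = 0 := by simpa [h1] using (g.1 - 1).aeval_self_charpoly
  refine ⟨n, Subtype.ext (sl_ext ?_)⟩
  have h3 := add_pow_char_pow_of_commute p n (Commute.one_left (g.1 - 1))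
  rw [add_sub_cancel, one_pow, pow_eq_zero_of_le (Nat.lt_pow_self (Fact.out : p.Prime).one_lt).le h2,
    add_zero] at h3
  exact (Matrix.SpecialLinearGroup.coe_pow g _).trans h3

theorem isSyl_uT [Finite F] : IsSyl p (uT n F) ⊤ := by
  refine ⟨le_top, isPGroup_uT, fun Q hQ h1 _ => ?_⟩
  by_contra hne
  have hlt : (uT n F).subgroupOf Q < ⊤ := lt_top_iff_ne_top.2 fun e => hne
    (le_antisymm (subgroupOf_eq_top.1 e) h1)
  haveI := hQ.isNilpotent
  obtain ⟨x, hx, hx'⟩ := SetLike.exists_of_lt (Group.normalizerCondition_of_isNilpotent _ hlt)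
  refine hx' (mem_uT_of_pEl (normalizer_uT ?_) (PEl.of_mem hQ x.2))
  rw [← subgroupOf_normalizer_eq h1] at hx
  exact hx

theorem ctr_ptSub [Finite F] (hn : 2 ≤ n) {v : Fin n → F} (hv : v ≠ 0) (E : Subgroup SLn) : Ctr p E (ptSub v) := by
  intro c _ hc hp
  haveI : Nonempty (Fin n) := ⟨⟨0, by omega⟩⟩
  have h1 : c.1 *ᵥ v = v := by
    refine fix_of_ptSub_le p (X := ptSub v ⊔ zpowers c) ?_ hv le_sup_left c (mem_sup_right (mem_zpowers c))
    refine IsPGroup.to_sup_of_normal_left' (isPGroup_ptSub p v) ?_ ?_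
    · obtain ⟨k, hk⟩ := pEl_iff_orderOf.1 hp
      exact IsPGroup.of_card (n := k) (by rw [Nat.card_zpowers, hk])
    · refine zpowers_le.2 (Subgroup.centralizer_le_normalizer _ fun r hr => hc r hr)
  have h2 : ∀ φ, φ ⬝ᵥ v = 0 → φ ᵥ* (c⁻¹).1 = φ := fun φ hφ => by
    have e := conj_tv c (slTv_val v φ hφ)
    rw [← hc _ ⟨φ, hφ, slTv_val v φ hφ⟩, mul_inv_cancel_right, slTv_val, h1, add_right_inj] at e
    exact (vecMulVec_right_cancel hv e).symm
  have h3 : ∀ j, ∃ a : F, c.1 *ᵥ Pi.single j 1 - Pi.single j 1 = a • v := fun j =>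
    mem_span_of_dot fun φ hφ => by
      rw [dotProduct_sub, sub_eq_zero]
      conv_lhs => rw [← h2 φ hφ, ← dotProduct_mulVec, mulVec_mulVec, sl_inv_mul, one_mulVec]
  choose ψ hψ using h3
  have e : c.1 = 1 + vecMulVec v ψ := by
    ext i j
    have := congrFun (hψ j) i
    rw [mulVec_single_one] at this
    simp only [Pi.sub_apply, col_apply, Pi.smul_apply, smul_eq_mul] at this
    rw [Matrix.add_apply, vecMulVec_apply, mul_comm, ← this, one_apply, Pi.single_apply]; ring
  refine ⟨ψ, ?_, e⟩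
  rw [e, one_add_vecMulVec_mulVec, add_eq_left] at h1
  exact (smul_eq_zero.1 h1).resolve_right hv

theorem ctr_hypSub [Finite F] (hn : 2 ≤ n) {φ : Fin n → F} (hv : φ ≠ 0) (E : Subgroup SLn) :
    Ctr p E (hypSub φ) := fun c _ hc ⟨k, hk⟩ =>
  slInvT_mem_ptSub.1 (ctr_ptSub (p := p) hn hv ⊤ _ trivial (fun r hr => by
    rw [← slInvT_invol r, ← map_mul, ← map_mul, hc _ (slInvT_mem_hypSub.2 hr)])
    ⟨k, by rw [← map_pow, hk, map_one]⟩)

theorem diag2n_mem {T : Subgroup SLn} {a b : Fin n} (hab : a ≠ b)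
    (h1 : ∀ c, SpecialLinearGroup.transvection hab c ∈ T) (h2 : ∀ c, SpecialLinearGroup.transvection hab.symm c ∈ T)
    {c : F} (hc : c ≠ 0) : SpecialLinearGroup.diag2n hab c hc ∈ T := by
  have : SpecialLinearGroup.diag2n hab c hc = SpecialLinearGroup.transvection hab c *
      SpecialLinearGroup.transvection hab.symm (-c⁻¹) * SpecialLinearGroup.transvection hab c *
      SpecialLinearGroup.transvection hab (-1) * SpecialLinearGroup.transvection hab.symm 1 *
      SpecialLinearGroup.transvection hab (-1) := by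
    refine sl_ext ?_
    have e : (SpecialLinearGroup.diag2n hab c hc).1 = 1 + single a a (c - 1) + single b b (c⁻¹ - 1) := by
      ext i j
      simp only [SpecialLinearGroup.diag2n_coe, diagonal_apply, Matrix.add_apply, one_apply, single_apply]
      split_ifs <;> first | (exfalso; grind) | ring
    rw [e]
    simp only [sl_val_mul, SpecialLinearGroup.transvection_coe, mul_add, add_mul, mul_one, one_mul,
      single_mul_single_same, single_mul_single_of_ne _ _ _ _ hab, single_mul_single_of_ne _ _ _ _ hab.symm,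
      add_zero, zero_mul]
    ext i j
    simp only [Matrix.add_apply, one_apply, single_apply]
    split_ifs <;> first | (exfalso; grind) | (field_simp; ring)
  rw [this]
  exact mul_mem (mul_mem (mul_mem (mul_mem (mul_mem (h1 _) (h2 _)) (h1 _)) (h1 _)) (h2 _)) (h1 _)

theorem isTransvection_of {t : SLn} (h : IsTv t) (h1 : t ≠ 1) : IsTransvection t.1 := by
  obtain ⟨v, φ, h0, e⟩ := h
  have h2 : t.1 - 1 = vecMulVec v φ := by rw [e, add_sub_cancel_left]
  refine ⟨le_antisymm (h2 ▸ rank_vecMulVec_le v φ) (Nat.one_le_iff_ne_zero.2 fun h3 => h1 (sl_ext ?_)), ?_⟩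
  · rw [Matrix.rank, Submodule.finrank_eq_zero, LinearMap.range_eq_bot] at h3
    have : t.1 - 1 = 0 := toLin'.injective (by rw [map_zero]; exact h3)
    exact sub_eq_zero.1 this
  · rw [h2, vecMulVec_mul_vecMulVec, h0]; simp

theorem tv_mem_normalizer_ptSub {g : SLn} {v : Fin n → F} [Finite F] (h : g.1 *ᵥ v = v) :
    g ∈ normalizer (ptSub v : Set SLn) :=
  mem_normalizer_fintype fun x hx => by simpa [h] using conj_mem_ptSub g hx

theorem crit_SL [Finite F] (hn : 3 ≤ n) : Crit p (⊤ : Subgroup SLn) (uT n F) := by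
  set i0 : Fin n := ⟨0, by omega⟩
  set i1 : Fin n := ⟨1, by omega⟩
  set il : Fin n := ⟨n - 1, by omega⟩
  have h01 : i0 ≠ i1 := by simp [i0, i1]
  have hl0 : il ≠ i0 := by simp [i0, il]; omega
  have hl1 : il ≠ i1 := by simp [i1, il]; omega
  have hP : ptSub (Pi.single i0 (1 : F)) ≤ uT n F := fun g ⟨φ, h0, e⟩ => (mem_uT_tv e).2 fun i j hij => by
    by_cases hi : i = i0
    · obtain rfl : j = i0 := le_antisymm (hi ▸ hij) (Nat.zero_le _)
      simp only [dotProduct_single, mul_one] at h0
      rw [h0, mul_zero]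
    · simp [hi]
  have hH : hypSub (Pi.single il (1 : F)) ≤ uT n F := fun g hg => by
    obtain ⟨v, h0, e⟩ := mem_hypSub.1 hg
    refine (mem_uT_tv e).2 fun i j hij => ?_
    by_cases hj : j = il
    · obtain rfl : i = il := le_antisymm (by change i.1 ≤ n - 1; omega) (hj ▸ hij)
      simp only [single_dotProduct, one_mul] at h0
      rw [h0, zero_mul]
    · simp [hj]
  refine ⟨isSyl_uT, fun h => ?_, fun T hT hne hsc => ?_, fun g _ hg => ?_⟩
  · have : SpecialLinearGroup.transvection h01 (1 : F) ∈ uT n F :=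
      hP ⟨_, by simp [h01.symm], transvection_val h01 1⟩
    rw [h, mem_bot] at this
    have := congrFun (congrFun (congrArg Subtype.val this) i0) i1
    simp [SpecialLinearGroup.transvection_coe, one_apply_ne h01] at this
  · obtain ⟨P, hPe⟩ : ∃ P : Sylow p SLn, (P : Subgroup SLn) = uT n F :=
      ⟨⟨uT n F, isPGroup_uT, fun hQ hle => (isSyl_uT (p := p)).max _ hQ hle le_top⟩, rfl⟩
    obtain ⟨z, hz, hz1, hzc⟩ := exists_fixed_of_normalizes (isPGroup_uT (n := n) (F := F) (p := p))
      (isPGroup_uT.to_le hT) (fun g hg => mem_normalizer_fintype fun x hx =>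
        hsc _ hx g trivial (mul_mem (mul_mem hg (hT hx)) (inv_mem hg))) hne
    have hz2 : IsTv z := isTv_of_sylow_center p P (by change z ∈ (P : Subgroup SLn); rw [hPe]; exact hT hz)
      fun g hg => (hzc g (by rw [← hPe]; exact hg)).symm
    refine le_antisymm hT (uT_le_of_tv fun t ht ht2 => ?_)
    by_cases h1 : t = 1
    · rw [h1]; exact one_mem _
    obtain ⟨g, hg⟩ := isConj_iff.1 (Cfsg.Agent.S2579.result hn _ _
      (isTransvection_of hz2 hz1) (isTransvection_of ht2 h1))
    exact hg ▸ hsc _ hz g trivial (hg ▸ ht)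
  · have hb := normalizer_uT hg
    have hd : det (diagonal fun i => g.1 i i) = 1 := by
      rw [det_diagonal, ← det_of_isUpperTriangular hb]; exact g.2
    set d : SLn := ⟨_, hd⟩ with hdd
    have diagB : ∀ (D : Fin n → F) (x : SLn), x.1 = diagonal D → x ∈ bT n F := fun D x e =>
      mem_bT.2 fun i j hij => by rw [e, diagonal_apply_ne _ hij.ne']
    have h1 : g * d⁻¹ ∈ uT n F := by
      have hdb : d ∈ bT n F := diagB _ _ rfl
      refine ⟨mul_mem hb (inv_mem hdb), fun i => ?_⟩
      have := bT_mul_diag hdb (inv_mem hdb) i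
      rw [mul_inv_cancel, sl_val_one, one_apply_eq] at this
      rw [bT_mul_diag hb (inv_mem hdb)]
      exact Eq.trans (by rw [hdd]; simp) this.symm
    have h2 : d ∈ nmT p ⊤ (uT n F) := by
      rw [hdd, SpecialLinearGroup.diag_eq_diag2n_prod i1]
      refine noncommProd_mem _ _ fun a _ => ?_
      split_ifs with ha
      swap
      · exact one_mem _
      have hN := bT_le_normalizer (diagB _ _ (SpecialLinearGroup.diag2n_coe ha _
        (SpecialLinearGroup.diagonal_neZero _ hd a)))
      by_cases h0 : a = i0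
      · subst h0
        have key : ∀ {a b : Fin n} (hab : a ≠ b) (c : F), il ≠ a →
            SpecialLinearGroup.transvection hab c ∈ pN p ⊤ (hypSub (Pi.single il (1 : F))) := fun {a b} hab c h => by
          refine mem_pN trivial (mem_normalizer_fintype fun x hx => ?_) ((isTv_transvection hab c).pEl p)
          obtain ⟨v, h0, e⟩ := mem_hypSub.1 hx
          have e2 : ∀ c : F, Pi.single il (1 : F) ᵥ* (SpecialLinearGroup.transvection hab c).1 = Pi.single il 1 :=
            fun c => by rw [transvection_val, vecMul_add, vecMul_one, vecMul_vecMulVec]; simp [h]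
          have e1 := conj_tv (SpecialLinearGroup.transvection hab c) e
          rw [SpecialLinearGroup.transvection_inv, e2] at e1
          refine mem_hypSub.2 ⟨(SpecialLinearGroup.transvection hab c).1 *ᵥ v, by rw [dotProduct_mulVec, e2, h0], ?_⟩
          rw [SpecialLinearGroup.transvection_inv]; exact e1
        exact mem_nmT hN hH (ctr_hypSub (by omega) (by simp) _)
          (diag2n_mem ha (fun c => key _ c hl0) (fun c => key _ c hl1) _)
      · have key : ∀ {a b : Fin n} (hab : a ≠ b) (c : F), b ≠ i0 →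
            SpecialLinearGroup.transvection hab c ∈ pN p ⊤ (ptSub (Pi.single i0 (1 : F))) := fun {a b} hab c h =>
          mem_pN trivial (tv_mem_normalizer_ptSub (by
            rw [transvection_val, one_add_vecMulVec_mulVec]; simp [h])) ((isTv_transvection hab c).pEl p)
        exact mem_nmT hN hP (ctr_ptSub (by omega) (by simp) _)
          (diag2n_mem ha (fun c => key _ c h01.symm) (fun c => key _ c h0) _)
    have h3 : g * d⁻¹ ∈ nmT p ⊤ (uT n F) := mem_sup_left (mem_sup_left h1)
    simpa only [inv_mul_cancel_right] using mul_mem h3 h2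

end H04
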