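import Mathlib
import Cfsg.Agent.L.PSL2Max2
import Cfsg.Agent.L.SL2Loc
import Cfsg.Agent.L.DicksonX

/-! Solvable two-generator subgroups of the minimal simple groups `PSL₂(2^p)`, `PSL₂(3^p)`. -/

set_option autoImplicit false
open Matrix MulAction L L.Dk H09 Subgroup
open scoped MatrixGroups commutatorElement

namespace H04.Solu

section
variable {G : Type*} [Group G]

/-- `x` and `y` generate a solvable group -/
abbrev Sol (x y : G) : Prop := Group.IsSolvable (closure ({x, y} : Set G))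

theorem sol_of_ab (V : Subgroup G) (hV : ∀ a ∈ V, ∀ b ∈ V, a * b = b * a) {x y : G} (hx : x ∈ normalizer (V : Set G))
    (hy : y ∈ normalizer (V : Set G)) (h : ⁅x, y⁆ ∈ V) : Sol x y := by
  set H := closure ({x, y} : Set G)
  have hH : H ≤ normalizer (V : Set G) := (closure_le _).2 (by rintro _ (rfl | rfl) <;> assumption)
  haveI : (V.subgroupOf H).Normal := (normal_subgroupOf_iff_le_normalizer_inf).2 (by
    intro g hg
    refine mem_normalizer_iff.2 fun a => ⟨fun h => ⟨(mem_normalizer_iff.1 (hH hg) a).1 h.1, ?_⟩,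
      fun h => ⟨(mem_normalizer_iff.1 (hH hg) a).2 h.1, ?_⟩⟩
    · exact H.mul_mem (H.mul_mem hg h.2) (H.inv_mem hg)
    · simpa [mul_assoc] using H.mul_mem (H.mul_mem (H.inv_mem hg) h.2) hg)
  haveI : Group.IsSolvable (V.subgroupOf H) := Group.isSolvable_of_comm fun a b =>
    Subtype.ext (Subtype.ext (hV _ a.2 _ b.2))
  haveI : Group.IsSolvable (H ⧸ V.subgroupOf H) := Group.isSolvable_of_comm fun a b => by
    obtain ⟨⟨a, ha⟩, rfl⟩ := QuotientGroup.mk'_surjective _ a
    obtain ⟨⟨b, hb⟩, rfl⟩ := QuotientGroup.mk'_surjective _ b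
    have x0 : x ∈ H := subset_closure (by simp)
    have y0 : y ∈ H := subset_closure (by simp)
    have c : Commute (QuotientGroup.mk' (V.subgroupOf H) ⟨x, x0⟩) (QuotientGroup.mk' (V.subgroupOf H) ⟨y, y0⟩) := by
      rw [← commutatorElement_eq_one_iff_commute, ← map_commutatorElement, QuotientGroup.mk'_apply,
        QuotientGroup.eq_one_iff]
      exact h
    induction ha, hb using closure_induction₂ with
    | mem a b ha hb => rcases ha with rfl | rfl <;> rcases hb with rfl | rfl <;> first | rfl | exact c | exact c.symm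
    | one_left => exact (Commute.map (Commute.one_left _) _)
    | one_right => exact (Commute.map (Commute.one_right _) _)
    | mul_left a b c ha hb hc h1 h2 =>
      exact (map_mul (QuotientGroup.mk' (V.subgroupOf H)) (⟨a, ha⟩ : H) ⟨b, hb⟩).symm ▸ Commute.mul_left h1 h2
    | mul_right a b c ha hb hc h1 h2 =>
      exact (map_mul (QuotientGroup.mk' (V.subgroupOf H)) (⟨a, ha⟩ : H) ⟨b, hb⟩).symm ▸ Commute.mul_right h1 h2
    | inv_left a b ha hb h1 => exact (map_inv (QuotientGroup.mk' (V.subgroupOf H)) (⟨a, ha⟩ : H)).symm ▸ Commute.inv_left h1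
    | inv_right a b ha hb h1 => exact (map_inv (QuotientGroup.mk' (V.subgroupOf H)) (⟨b, hb⟩ : H)).symm ▸ Commute.inv_right h1
  exact Group.isSolvable_of_ker_le_range (V.subgroupOf H).subtype (QuotientGroup.mk' (V.subgroupOf H)) (by simp)

theorem Sol.of_mem {x y a b : G} (h : Sol a b) (hx : x ∈ closure ({a, b} : Set G)) (hy : y ∈ closure ({a, b} : Set G)) :
    Sol x y := by
  have : closure ({x, y} : Set G) ≤ closure {a, b} := (closure_le _).2 (by rintro _ (rfl | rfl) <;> assumption)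
  exact Group.isSolvable_of_isSolvable_injective (inclusion_injective this)

theorem norm_zpowers [Finite G] {x y : G} (h : y * x * y⁻¹ ∈ zpowers x) : y ∈ normalizer (zpowers x : Set G) := by
  refine mem_normalizer_fintype ?_
  rintro _ ⟨k, rfl⟩
  show y * x ^ k * y⁻¹ ∈ zpowers x
  rw [← conj_zpow]; exact zpow_mem h k

theorem sol_of_norm [Finite G] {x y : G} (h : y * x * y⁻¹ = x ∨ y * x * y⁻¹ = x⁻¹) : Sol x y := by
  have h' : y * x * y⁻¹ ∈ zpowers x := by rcases h with h | h <;> rw [h] <;> simp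
  refine sol_of_ab (zpowers x) ?_ (le_normalizer (mem_zpowers x)) (norm_zpowers h') ?_
  · rintro _ ⟨a, rfl⟩ _ ⟨b, rfl⟩; exact zpow_mul_comm x a b
  · rw [show ⁅x, y⁆ = x * (y * x * y⁻¹)⁻¹ by group]
    exact mul_mem (mem_zpowers x) (inv_mem h')

theorem sol_of_sq [Finite G] {x y : G} (hx : x ^ 2 = 1) (h : y ^ 2 = 1 ∨ (x * y) ^ 2 = 1) : Sol x y := by
  have hi : x⁻¹ = x := inv_eq_of_mul_eq_one_right (by rw [← pow_two, hx])
  rcases h with h | h
  · have hy : y⁻¹ = y := inv_eq_of_mul_eq_one_right (by rw [← pow_two, h])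
    refine (sol_of_norm (x := x * y) (y := x) (Or.inr (by rw [_root_.mul_inv_rev, hy, ← mul_assoc, ← pow_two, hx, one_mul]))).of_mem
      (mem_cl_right _ _) ?_
    simpa using mul_mem (inv_mem (mem_cl_right (x * y) x)) (mem_cl_left (x * y) x)
  · refine (sol_of_norm (x := y) (y := x) (Or.inr ?_)).of_mem (mem_cl_right _ _) (mem_cl_left _ _)
    rw [hi, eq_inv_iff_mul_eq_one, ← h, pow_two, mul_assoc]

theorem sol_of_A4 [Finite G] {t x : G} (ht : t ^ 2 = 1) (hx : x ^ 3 = 1) (h : (t * x) ^ 3 = 1) : Sol t x := by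
  set u := x * t * x⁻¹ with hu
  have hi : t⁻¹ = t := inv_eq_of_mul_eq_one_right (by rw [← pow_two, ht])
  have hu2 : u * u = 1 := by rw [hu, ← pow_two, conj_pow, ht]; simp
  have hui : u⁻¹ = u := inv_eq_of_mul_eq_one_right hu2
  have h3 : x * u * x⁻¹ = (t * u)⁻¹ := by
    rw [eq_comm, inv_eq_iff_mul_eq_one, ← h, show (t * x) ^ 3 = t * u * (x * u * x⁻¹) * x ^ 3 by rw [hu]; simp only [pow_succ, pow_zero]; group, hx, mul_one]
  have hw : (t * u)⁻¹ * (t * u)⁻¹ = 1 := by rw [← h3, ← pow_two, conj_pow, pow_two, hu2]; simp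
  have hc : t * u = u * t := by
    have := inv_eq_of_mul_eq_one_right hw
    rw [inv_inv, _root_.mul_inv_rev, hi, hui] at this
    exact this
  have a1 := mem_cl_left t u
  have a2 := mem_cl_right t u
  have nrm : ∀ g : G, g * t * g⁻¹ ∈ closure ({t, u} : Set G) → g * u * g⁻¹ ∈ closure ({t, u} : Set G) →
      g ∈ normalizer (closure ({t, u} : Set G) : Set G) := fun g h1 h2 => mem_normalizer_fintype fun a ha => by
    have : closure ({t, u} : Set G) ≤ (closure ({t, u} : Set G)).comap (MulAut.conj g).toMonoidHom :=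
      (closure_le _).2 (by rintro _ (rfl | rfl) <;> assumption)
    exact this ha
  refine sol_of_ab (closure {t, u}) (fun a ha b hb => ?_) (le_normalizer a1) (nrm x a2 (h3 ▸ inv_mem (mul_mem a1 a2))) ?_
  · haveI := isMulCommutative_closure (k := ({t, u} : Set G)) (by
      rintro _ (rfl | rfl) _ (rfl | rfl) <;> first | rfl | exact hc | exact hc.symm)
    exact setLike_mul_comm ha hb
  · rw [show ⁅t, x⁆ = t * u⁻¹ by rw [hu]; group]
    exact mul_mem a1 (inv_mem a2)

theorem card_sol_conj (g x : G) : Nat.card {y // Sol (g * x * g⁻¹) y} = Nat.card {y // Sol x y} := by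
  have key : ∀ g x y : G, Sol x y → Sol (g * x * g⁻¹) (g * y * g⁻¹) := fun g x y h => by
    have : closure ({g * x * g⁻¹, g * y * g⁻¹} : Set G) = (closure ({x, y} : Set G)).map (MulAut.conj g).toMonoidHom := by
      rw [MonoidHom.map_closure, Set.image_pair]; rfl
    rw [Sol, this]
    exact Group.isSolvable_of_surjective (f := ((MulAut.conj g).subgroupMap (closure {x, y})).toMonoidHom)
      ((MulAut.conj g).subgroupMap (closure {x, y})).surjective
  refine Nat.card_congr ((MulAut.conj g⁻¹).toEquiv.subtypeEquiv fun y => ⟨fun h => ?_, fun h => ?_⟩)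
  · simpa [mul_assoc] using key g⁻¹ _ _ h
  · simpa [mul_assoc] using key g _ _ h

end

variable {F : Type*} [Field F] [Fintype F]

/-- the dihedral alternative -/
def Dih (r : ℕ) {G : Type*} [Group G] (x y : G) : Prop :=
  (¬ r ∣ orderOf x ∧ (y * x * y⁻¹ = x ∨ y * x * y⁻¹ = x⁻¹)) ∨ (x ^ 2 = 1 ∧ (y ^ 2 = 1 ∨ (x * y) ^ 2 = 1))

theorem dih_of {r : ℕ} {H : Type*} [Group H] [Finite H] (C : Subgroup H) (h : IsCyclic C) (hp : ¬ r ∣ Nat.card C)
    (hi : C.index = 2) (hs : ∀ g, g ∉ C → g * g = 1) (x y : H) : Dih r x y := by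
  by_cases hx : x ∈ C
  · refine Or.inl ⟨fun h => hp (h.trans (orderOf_dvd_natCard _ hx)), ?_⟩
    by_cases hy : y ∈ C
    · left
      rw [mul_inv_eq_iff_eq_mul]
      exact congrArg Subtype.val (h.commGroup.mul_comm ⟨y, hy⟩ ⟨x, hx⟩)
    · right
      have := hs (y * x) fun h => hy (by simpa using mul_mem h (inv_mem hx))
      rw [inv_eq_of_mul_eq_one_right (hs y hy), eq_inv_iff_mul_eq_one, ← this, mul_assoc]
  · refine Or.inr ⟨by rw [pow_two, hs x hx], ?_⟩
    by_cases hy : y ∈ C
    · right; rw [pow_two]; exact hs _ fun h => hx (by simpa using mul_mem h (inv_mem hy))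
    · left; rw [pow_two, hs y hy]

theorem Dih.map {r : ℕ} {G H : Type*} [Group G] [Group H] {f : H →* G} (hf : Function.Injective f) {x y : H}
    (h : Dih r x y) : Dih r (f x) (f y) := by
  simp only [Dih, orderOf_injective f hf, ← map_mul, ← map_inv, ← map_pow, hf.eq_iff, map_eq_one_iff f hf]
  exact h

theorem cases_sol (r : ℕ) [Fact r.Prime] [CharP F r] {p : ℕ} (hp : p.Prime) (hF : Fintype.card F = r ^ p)
    (hr : r = 2 ∨ (r = 3 ∧ Odd p)) {x y : PSL(2, F)} (h : Sol x y) :
    (∃ v : P1 F, x • v = v ∧ y • v = v) ∨ Dih r x y ∨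
      (r = 3 ∧ ∃ f : alternatingGroup (Fin 4) →* PSL(2, F), Function.Injective f ∧ ∃ a b, f a = x ∧ f b = y) := by
  set H := closure ({x, y} : Set PSL(2, F))
  let x' : H := ⟨x, mem_cl_left x y⟩
  let y' : H := ⟨y, mem_cl_right x y⟩
  have pr : r.Prime := Fact.out
  have q4 : 4 ≤ Fintype.card F := by
    rw [hF]
    calc 4 = 2 ^ 2 := rfl
      _ ≤ r ^ 2 := Nat.pow_le_pow_left pr.two_le 2
      _ ≤ r ^ p := Nat.pow_le_pow_right pr.pos hp.two_le
  have hd : Dih r x' y' → Dih r x y := Dih.map (f := H.subtype) Subtype.val_injective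
  have ntop : H ≠ ⊤ := fun e => not_solvable_psl q4 (by
    have : Group.IsSolvable (⊤ : Subgroup PSL(2, F)) := e ▸ h
    exact Group.isSolvable_of_surjective (f := (⊤ : Subgroup PSL(2, F)).subtype) fun g => ⟨⟨g, trivial⟩, rfl⟩)
  have even : r = 2 → ∀ g : PSL(2, F), 2 ∣ orderOf g → g ^ 2 = 1 := by
    rintro rfl g hg
    have : Fintype.card F % 2 = 0 := by rw [hF, Nat.pow_mod]; simp [hp.ne_zero]
    rcases orderOf_psl 2 g with h | h | h
    · exact h
    all_goals have := (hg.mul_left _).trans h; omega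
  have q8 : r = 3 → Fintype.card F % 8 = 3 := by
    rintro rfl
    obtain ⟨k, rfl⟩ := (hr.resolve_left (by norm_num)).2
    rw [hF, pow_succ, pow_mul, Nat.mul_mod, Nat.pow_mod]; norm_num
  have a4 : Nonempty (H ≃* alternatingGroup (Fin 4)) → (∃ v : P1 F, x • v = v ∧ y • v = v) ∨ Dih r x y ∨
      (r = 3 ∧ ∃ f : alternatingGroup (Fin 4) →* PSL(2, F), Function.Injective f ∧ ∃ a b, f a = x ∧ f b = y) := by
    rintro ⟨e⟩
    rcases hr with rfl | ⟨rfl, -⟩
    · left
      have h4 : Nat.card (Fin 4) = 4 := by simp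
      haveI := alternatingGroup.normal_kleinFour h4
      have hc : Nat.card ((alternatingGroup.kleinFour (Fin 4)).comap e.toMonoidHom) = 2 ^ 2 := by
        rw [comap_equiv_eq_map_symm', card_map_of_injective e.symm.injective,
          alternatingGroup.kleinFour_card_of_card_eq_four h4]; rfl
      obtain ⟨v, hv⟩ := fix_of_normal_pGroup 2 (ProjectiveSpecialLinearGroup.toPGL.comp H.subtype)
        (ProjectiveSpecialLinearGroup.toPGL_injective.comp Subtype.val_injective) (fun g x => toPGL_smul g.1 x)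
        ((alternatingGroup.kleinFour (Fin 4)).comap e.toMonoidHom) (fun h => by rw [h] at hc; simp at hc)
        (IsPGroup.of_card hc)
      exact ⟨v, hv x', hv y'⟩
    · exact Or.inr (Or.inr ⟨rfl, H.subtype.comp e.symm.toMonoidHom, Subtype.val_injective.comp e.symm.injective,
        e x', e y', by simp [x'], by simp [y']⟩)
  have six : r = 2 → Nat.card H = 6 → Dih r x y := by
    intro h2 h6
    haveI : Fact (Nat.Prime 3) := ⟨Nat.prime_three⟩
    obtain ⟨c, hc⟩ := exists_prime_orderOf_dvd_card' (G := H) 3 (by rw [h6]; norm_num)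
    have hi : (zpowers c).index = 2 := by
      have := (zpowers c).card_mul_index
      rw [Nat.card_zpowers, hc, h6] at this; omega
    refine hd (dih_of (zpowers c) inferInstance (by rw [Nat.card_zpowers, hc, h2]; norm_num) hi (fun g hg => ?_) _ _)
    by_cases h3 : 2 ∣ orderOf g
    · exact Subtype.ext (by simpa [pow_two] using even h2 g (by rwa [orderOf_coe]))
    · exact absurd (by
        have h4 : g ^ (orderOf g + 1) = g := by rw [pow_succ, pow_orderOf_eq_one, one_mul]
        obtain ⟨k, hk⟩ : 2 ∣ orderOf g + 1 := by omega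
        rw [← h4, hk, pow_mul]
        exact pow_mem (sq_mem_of_index_two hi g) k) hg
  have sub : ∀ (K : Type) [Field K] [Fintype K] (m : ℕ), Fintype.card K ^ m = Fintype.card F →
      (Fintype.card K = r ∧ m = p) ∨ Fintype.card K = Fintype.card F := fun K _ _ m hK => by
    rw [hF] at hK
    have hm : m ≠ 0 := by
      rintro rfl
      exact (Nat.one_lt_pow hp.ne_zero pr.one_lt).ne hK
    obtain ⟨k, -, hk⟩ := (Nat.dvd_prime_pow pr).1 (hK ▸ dvd_pow_self (Fintype.card K) hm)
    rw [hk, ← pow_mul] at hK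
    have := Nat.pow_right_injective pr.two_le hK
    rcases (Nat.dvd_prime hp).1 ⟨m, this.symm⟩ with h1 | h1
    · left; rw [h1] at hk this; exact ⟨by simpa using hk, by simpa using this⟩
    · right; rw [hk, h1, hF]
  rcases clsPSL r H with ⟨v, hv⟩ | ⟨hc, hp⟩ | ⟨C, hc, hp, hi, hs⟩ | e | ⟨⟨e⟩⟩ | ⟨⟨e⟩⟩ |
    ⟨K, _, _, m, hm, hK, ⟨e⟩⟩ | ⟨K, _, _, m, hm, hK, ⟨e⟩⟩
  · exact Or.inl ⟨v, hv x', hv y'⟩
  · refine Or.inr (Or.inl (hd (Or.inl ⟨fun h => hp (h.trans (orderOf_dvd_natCard _)), Or.inl ?_⟩)))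
    rw [mul_inv_eq_iff_eq_mul]; exact hc.commGroup.mul_comm _ _
  · exact Or.inr (Or.inl (hd (dih_of C hc hp hi hs _ _)))
  · exact a4 e
  · exfalso
    rcases hr with h2 | ⟨h3, -⟩
    · have h4 : orderOf (e.symm (finRotate 4)) = 4 := by
        rw [MulEquiv.orderOf_eq]; exact orderOf_eq_prime_pow (p := 2) (n := 1) (by decide) (by decide)
      have := even h2 (e.symm (finRotate 4)) (by rw [orderOf_coe, h4]; norm_num)
      have := orderOf_dvd_of_pow_eq_one this
      rw [orderOf_coe, h4] at this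
      omega
    · have := mod_eight_of_S4 e
      have := q8 h3
      omega
  · exact absurd (Group.isSolvable_of_surjective (f := e.toMonoidHom) e.surjective) not_solvable_A5
  · rcases sub K m hK with ⟨h1, rfl⟩ | h1
    · rcases hr with h2 | ⟨h3, ho⟩
      · exact Or.inr (Or.inl (six h2 (by rw [Nat.card_congr e.toEquiv, card_PGL2, h1, h2]; rfl)))
      · exact absurd (Nat.card_congr e.toEquiv ▸ card_subgroup_dvd_card H)
          (not_pgl_dvd_psl hK (by have := q8 h3; exact Nat.odd_iff.2 (by omega)) ho)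
    · exact absurd (eq_top_of_pgl h1 e) ntop
  · rcases sub K m hK with ⟨h1, rfl⟩ | h1
    · rcases hr with h2 | ⟨h3, ho⟩
      · exact Or.inr (Or.inl (six h2 (by
          rw [Nat.card_congr e.toEquiv]; exact card_psl_of h1 (by rw [h2]; rfl))))
      · obtain ⟨f, hf⟩ := exists_A4_psl (F := K) (two_ne_zero_of_odd (by rw [h1, h3]; decide))
        have hc : Nat.card PSL(2, K) = 12 := card_psl_of h1 (by rw [h3]; rfl)
        exact a4 ⟨e.trans (MulEquiv.ofBijective f ((Nat.bijective_iff_injective_and_card f).2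
          ⟨hf, by rw [hc, card_A4]⟩)).symm⟩
    · exact absurd (eq_top_of_psl h1 e) ntop

end H04.Solu
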