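import Mathlib
import Cfsg.Agent.H04.Solu1

/-! Solubilizers in `PSL₂(2^p)` and `PSL₂(3^p)`. -/

set_option autoImplicit false
open Matrix MulAction L L.Dk L.SLc H09 Subgroup
open scoped MatrixGroups

namespace H04.Solu

variable {F : Type*} [Field F]

local notation "μ" => (QuotientGroup.mk : SL(2, F) → PSL(2, F))

theorem tr_eq (s : SL(2, F)) : (s : M2 F).trace = s 0 0 + s 1 1 := trace_fin_two _

theorem mk_eq_one {s : SL(2, F)} : μ s = 1 ↔ s 0 1 = 0 ∧ s 1 0 = 0 ∧ s 0 0 = s 1 1 := by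
  rw [QuotientGroup.eq_one_iff, SL2.mem_center_iff_entries]

theorem tr_of_sq {s : SL(2, F)} (h : μ s ^ 2 = 1) (h1 : μ s ≠ 1) : s 0 0 + s 1 1 = 0 := by
  rw [pow_two, ← QuotientGroup.mk_mul, mk_eq_one] at h
  simp only [SL2.mul_apply] at h
  by_contra ht
  refine h1 (mk_eq_one.2 ⟨mul_left_cancel₀ ht ?_, mul_left_cancel₀ ht ?_, mul_left_cancel₀ ht ?_⟩)
  · linear_combination h.1
  · linear_combination h.2.1
  · linear_combination h.2.2

theorem tr_of_cube {s : SL(2, F)} (h : μ s ^ 3 = 1) (h1 : μ s ≠ 1) : (s 0 0 + s 1 1) ^ 2 = 1 := by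
  rw [pow_three, ← QuotientGroup.mk_mul, ← QuotientGroup.mk_mul, mk_eq_one] at h
  simp only [SL2.mul_apply] at h
  have hd := SL2.det_eq s
  by_contra ht
  have ht := sub_ne_zero.2 ht
  refine h1 (mk_eq_one.2 ⟨mul_left_cancel₀ ht ?_, mul_left_cancel₀ ht ?_, mul_left_cancel₀ ht ?_⟩)
  · linear_combination h.1 + s 0 1 * hd
  · linear_combination h.2.1 + s 1 0 * hd
  · linear_combination h.2.2 + (s 0 0 - s 1 1) * hd

theorem sol_of_fix [Fintype F] {x y : PSL(2, F)} {v : P1 F} (hx : x • v = v) (hy : y • v = v) : Sol x y :=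
  isSolvable_psl_of_fix _ (x := v) fun g => by
    have : closure ({x, y} : Set PSL(2, F)) ≤ stabilizer PSL(2, F) v :=
      (closure_le _).2 (by rintro _ (rfl | rfl) <;> assumption)
    exact this g.2

variable [Fintype F]

theorem card_lift (x : PSL(2, F)) {S : Set SL(2, F)} (h : ∀ Y, Sol x (μ Y) ↔ Y ∈ S) :
    dd F * Nat.card {y // Sol x y} = Nat.card S := by
  have := QuotientGroup.card_preimage_mk (center SL(2, F)) {y | Sol x y}
  rw [card_center_SL] at this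
  rw [show S = _ from Set.ext fun Y => (h Y).symm]
  exact this.symm

theorem card_split (P : F → F → F → Prop) :
    Nat.card {Y : SL(2, F) | Y 1 0 = 0 ∨ (Y 1 0 ≠ 0 ∧ P (Y 0 0) (Y 1 0) (Y 1 1))} =
      Fintype.card F * (Fintype.card F - 1) + Nat.card {t : F × F × F // t.2.1 ≠ 0 ∧ P t.1 t.2.1 t.2.2} := by
  have h1 : Nat.card {Y : SL(2, F) | Y 1 0 = 0} = Fintype.card F * (Fintype.card F - 1) := by
    rw [← card_ne_zero_field, ← Nat.card_eq_fintype_card, ← Nat.card_prod]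
    refine Nat.card_congr (Equiv.symm (Equiv.ofBijective
      (fun t => ⟨sl2 t.2.1 t.1 0 (t.2.1)⁻¹ (by rw [mul_inv_cancel₀ t.2.2]; ring), rfl⟩) ⟨?_, ?_⟩))
    · rintro ⟨a, b, hb⟩ ⟨c, d, hd⟩ h
      have := congrArg Subtype.val h
      simp only [sl2_eq_iff] at this
      simp [this.1, this.2.1]
    · rintro ⟨Y, hY⟩
      have hY : Y 1 0 = 0 := hY
      have hd := SL2.det_eq Y
      rw [hY, mul_zero, sub_zero] at hd
      exact ⟨⟨Y 0 1, Y 0 0, left_ne_zero_of_mul_eq_one hd⟩,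
        Subtype.ext (SL2.ext' rfl rfl hY.symm (eq_inv_of_mul_eq_one_right hd).symm)⟩
  have h2 : Nat.card {Y : SL(2, F) | Y 1 0 ≠ 0 ∧ P (Y 0 0) (Y 1 0) (Y 1 1)} =
      Nat.card {t : F × F × F // t.2.1 ≠ 0 ∧ P t.1 t.2.1 t.2.2} := by
    refine Nat.card_congr (Equiv.ofBijective (fun Y => ⟨(Y.1 0 0, Y.1 1 0, Y.1 1 1), Y.2⟩) ⟨?_, ?_⟩)
    · rintro ⟨Y, hY⟩ ⟨Z, hZ⟩ h
      obtain ⟨a, b, c⟩ : Y 0 0 = Z 0 0 ∧ Y 1 0 = Z 1 0 ∧ Y 1 1 = Z 1 1 := by simpa using h
      refine Subtype.ext (SL2.ext' a (mul_left_cancel₀ hZ.1 ?_) b c)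
      have d1 := SL2.det_eq Y
      rw [a, b, c] at d1
      linear_combination SL2.det_eq Z - d1
    · rintro ⟨⟨a, e, d⟩, h1, h2⟩
      exact ⟨⟨sl2 a ((a * d - 1) / e) e d (by rw [div_mul_cancel₀ _ h1]; ring), h1, h2⟩, rfl⟩
  rw [← h1, ← h2, Set.ofPred_or, Nat.card_coe_set_eq, Nat.card_coe_set_eq, Nat.card_coe_set_eq, Set.ncard_union_eq]
  rw [Set.disjoint_left]
  exact fun Y h h' => h'.1 h

theorem fix_inf {X : SL(2, F)} : μ X • (pInf : P1 F) = pInf ↔ X 1 0 = 0 := sl_smul_pInf_eq_pInf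

theorem fix_pt {X : SL(2, F)} {t : F} : μ X • pt t = pt t ↔ X 0 0 * t + X 0 1 = t * (X 1 0 * t + X 1 1) :=
  sl_smul_pt_eq_pt

theorem not_fix {X : SL(2, F)} (h : NoEig (X : M2 F)) (v : P1 F) : μ X • v ≠ v := fun hv => by
  have hd := SL2.det_eq X
  rcases P1.cases v with rfl | ⟨t, rfl⟩
  · exact h.apply10 (fix_inf.1 hv)
  · apply noEig_iff.1 h (X 1 0 * t + X 1 1)
    rw [tr_eq, X.det_coe]
    linear_combination (-X 1 0) * fix_pt.1 hv - hd

theorem exists_un (r : ℕ) [Fact r.Prime] [CharP F r] {x : PSL(2, F)} (hx : orderOf x = r) :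
    ∃ (g : PSL(2, F)) (c : F), c ≠ 0 ∧ x = g * μ (un c) * g⁻¹ := by
  obtain ⟨v, hv⟩ := exists_fixed_of_pGroup (F := F) r (P := zpowers x)
    (IsPGroup.of_card (n := 1) (by rw [Nat.card_zpowers, hx, pow_one]))
  obtain ⟨g, rfl⟩ := exists_sl_smul_pInf v
  obtain ⟨X, hX⟩ := QuotientGroup.mk_surjective ((μ g)⁻¹ * x * μ g)
  have h0 : X 1 0 = 0 := by
    rw [← fix_inf, hX, mul_smul, mul_smul, inv_smul_eq_iff]
    exact hv ⟨x, mem_zpowers x⟩
  have e : x = μ g * μ X * (μ g)⁻¹ := by rw [hX]; group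
  have h1 : μ X ^ r = 1 := by
    have := pow_orderOf_eq_one x
    rwa [hx, e, conj_pow, conj_eq_one_iff] at this
  have h2 := jj_of_pow_char r (g := ProjectiveSpecialLinearGroup.toPGL (μ X)) (by rw [← map_pow, h1, map_one])
  rw [show ProjectiveSpecialLinearGroup.toPGL (μ X) = SpecialLinearGroup.toPGL X from rfl, jj_toPGL, tr_eq] at h2
  have hd := SL2.det_eq X
  rw [h0, mul_zero, sub_zero] at hd
  have h3 : X 0 0 = X 1 1 := sub_eq_zero.1 (pow_eq_zero_iff two_ne_zero |>.1 (by linear_combination h2 - 4 * hd))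
  rw [← h3] at hd
  refine ⟨μ g, X 0 0 * X 0 1, fun h => ?_, ?_⟩
  · rw [e, mk_eq_one.2 ⟨(mul_eq_zero.1 h).resolve_left (left_ne_zero_of_mul_eq_one hd), h0, h3⟩] at hx
    simp at hx
    exact (Fact.out : r.Prime).one_lt.ne hx
  · rw [e]; congr 2
    rw [PSL2.mk_eq_mk_iff]
    rcases mul_self_eq_one_iff.1 hd with h | h
    · left; exact SL2.ext' h (by rw [h, one_mul]; rfl) h0 (h3 ▸ h)
    · right
      exact SL2.ext' h (by rw [h]; show _ = -(-1 * X 0 1); ring) (h0.trans neg_zero.symm) (h3 ▸ h)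

theorem un00 (c : F) : un c 0 0 = 1 := rfl
theorem un01 (c : F) : un c 0 1 = c := rfl
theorem un10 (c : F) : un c 1 0 = 0 := rfl
theorem un11 (c : F) : un c 1 1 = 1 := rfl

theorem fix_un {c : F} (hc : c ≠ 0) {v : P1 F} (h : μ (un c) • v = v) : v = pInf := by
  rcases P1.cases v with rfl | ⟨t, rfl⟩
  · rfl
  · rw [fix_pt, un00, un01, un10, un11] at h
    exact absurd (by linear_combination h) hc

theorem A4_pow (r : ℕ) {x : PSL(2, F)} {f : alternatingGroup (Fin 4) →* PSL(2, F)} {a : alternatingGroup (Fin 4)}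
    (h : f a = x) : x ^ 2 = 1 ∨ x ^ 3 = 1 := by
  rw [← h, ← map_pow, ← map_pow]
  exact (pow_A4 a).imp (fun h => by rw [h, map_one]) (fun h => by rw [h, map_one])

section
variable (r : ℕ) [Fact r.Prime] [CharP F r] {p : ℕ} (hp : p.Prime) (hF : Fintype.card F = r ^ p)
    (hr : r = 2 ∨ (r = 3 ∧ Odd p))
include hp hF hr

theorem sol_iff_ss {X : SL(2, F)} (h2 : μ X ^ 2 ≠ 1) (h3 : μ X ^ r ≠ 1) (Y : SL(2, F)) :
    Sol (μ X) (μ Y) ↔ (∃ v : P1 F, μ X • v = v ∧ μ Y • v = v) ∨ Y * X * Y⁻¹ = X ∨ Y * X * Y⁻¹ = X⁻¹ := by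
  constructor
  · intro h
    rcases cases_sol r hp hF hr h with h | (⟨-, h⟩ | ⟨h, -⟩) | ⟨rfl, f, -, a, -, h, -⟩
    · exact Or.inl h
    · right
      have ht : X 0 0 + X 1 1 ≠ 0 := fun e => h2 (mk_sq_of_tr e)
      have key : ∀ Z : SL(2, F), (Z : M2 F).trace = (X : M2 F).trace → Y * X * Y⁻¹ = -Z → Y * X * Y⁻¹ = Z := by
        intro Z h1 e
        by_cases h2 : (2 : F) = 0
        · rw [e, SL2.neg_eq_self h2]
        · have := SL2_trace_conj Y X
          rw [e, trace_neg', h1, tr_eq] at this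
          exact absurd (mul_left_cancel₀ h2 (by linear_combination -this)) ht
      rw [← QuotientGroup.mk_inv, ← QuotientGroup.mk_inv, ← QuotientGroup.mk_mul, ← QuotientGroup.mk_mul,
        PSL2.mk_eq_mk_iff, PSL2.mk_eq_mk_iff] at h
      exact h.imp (fun h => h.elim id (key _ rfl)) (fun h => h.elim id (key _ (SL2_trace_inv X)))
    · exact absurd h h2
    · exact (A4_pow 3 h).elim (absurd · h2) (absurd · h3)
  · rintro (⟨v, a, b⟩ | h)
    · exact sol_of_fix a b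
    · exact sol_of_norm (h.imp (fun h => congrArg μ h) (fun h => congrArg μ h))

theorem ss_pre {x : PSL(2, F)} (h1 : x ≠ 1) (h2 : orderOf x ≠ 2)
    (h : orderOf x ∣ Fintype.card F - 1 ∨ orderOf x ∣ Fintype.card F + 1) : x ^ 2 ≠ 1 ∧ x ^ r ≠ 1 := by
  refine ⟨fun e => h2 (orderOf_eq_prime e h1), fun e => ?_⟩
  rw [orderOf_eq_prime e h1] at h
  have h3 := char_dvd_card (F := F) r
  have h4 : 1 < Fintype.card F := Fintype.one_lt_card
  apply (Fact.out : r.Prime).one_lt.ne'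
  rcases h with h | h
  · exact Nat.dvd_one.1 ((Nat.dvd_sub_iff_right h4.le h3).1 h)
  · exact Nat.dvd_one.1 ((Nat.dvd_add_right h3).1 h)

theorem ss_two {X : SL(2, F)} (h1 : μ X ≠ 1) (h2 : orderOf (μ X) ≠ 2) {a b : ℕ} (h3 : orderOf (μ X) ∣ a)
    (h4 : Nat.card (centralizer ({X} : Set SL(2, F))) = b) (h : a + 2 = b ∨ b + 2 = a) : False := by
  have h5 : orderOf (μ X) ∣ b := (orderOf_map_dvd (QuotientGroup.mk' _) X).trans
    (h4 ▸ orderOf_dvd_natCard _ (mem_centralizer_singleton_iff.2 rfl))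
  have : orderOf (μ X) ∣ 2 := by
    rcases h with rfl | rfl
    · exact (Nat.dvd_add_right h3).1 h5
    · exact (Nat.dvd_add_right h5).1 h3
  exact h1 (orderOf_eq_one_iff.1 (((Nat.dvd_prime Nat.prime_two).1 this).resolve_right h2))

theorem card_add {x : PSL(2, F)} (h1 : x ≠ 1) (h2 : orderOf x ≠ 2) (h : orderOf x ∣ Fintype.card F + 1) :
    dd F * Nat.card {y // Sol x y} = 2 * (Fintype.card F + 1) := by
  obtain ⟨X, rfl⟩ := QuotientGroup.mk_surjective x
  obtain ⟨a2, a3⟩ := ss_pre r hp hF hr h1 h2 (Or.inr h)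
  have ht : (X : M2 F).trace ^ 2 ≠ 4 := fun e => a3 (mk_pow_char r e)
  have h4 : 1 < Fintype.card F := Fintype.one_lt_card
  rcases card_torus ht with ⟨-, e⟩ | ⟨hn, e⟩
  · exact (ss_two r hp hF hr h1 h2 h e (Or.inr (by omega))).elim
  rw [← e, ← card_normalizer_torus ht]
  refine card_lift _ fun Y => ?_
  rw [sol_iff_ss r hp hF hr a2 a3, SetLike.mem_coe, mem_normalizer_torus ht, or_iff_right]
  exact fun ⟨v, hv, _⟩ => not_fix hn v hv

theorem card_sub {x : PSL(2, F)} (h1 : x ≠ 1) (h2 : orderOf x ≠ 2) (h : orderOf x ∣ Fintype.card F - 1) :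
    dd F * Nat.card {y // Sol x y} = 2 * (Fintype.card F * (Fintype.card F - 1)) := by
  obtain ⟨X, rfl⟩ := QuotientGroup.mk_surjective x
  obtain ⟨a2, a3⟩ := ss_pre r hp hF hr h1 h2 (Or.inl h)
  have ht : (X : M2 F).trace ^ 2 ≠ 4 := fun e => a3 (mk_pow_char r e)
  have h4 : 1 < Fintype.card F := Fintype.one_lt_card
  rcases card_torus ht with ⟨hn, -⟩ | ⟨-, e⟩
  swap
  · exact (ss_two r hp hF hr h1 h2 h e (Or.inl (by omega))).elim
  rw [noEig_iff] at hn
  push Not at hn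
  obtain ⟨a, ha⟩ := hn
  rw [X.det_coe] at ha
  have ha0 : a ≠ 0 := by rintro rfl; simp at ha
  obtain ⟨g, hg⟩ := isConj_iff.1 (isConj_SL_of_disc (h := dg (Units.mk0 a ha0)) ht (by
    rw [trace_dg, Units.val_inv_eq_inv_val, Units.val_mk0]; field_simp; linear_combination -ha))
  rw [← card_sol_conj (μ g), ← QuotientGroup.mk_inv, ← QuotientGroup.mk_mul, ← QuotientGroup.mk_mul]
  have b2 : μ (g * X * g⁻¹) ^ 2 ≠ 1 := by
    rwa [QuotientGroup.mk_mul, QuotientGroup.mk_mul, QuotientGroup.mk_inv, conj_pow, Ne, conj_eq_one_iff]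
  have b3 : μ (g * X * g⁻¹) ^ r ≠ 1 := by
    rwa [QuotientGroup.mk_mul, QuotientGroup.mk_mul, QuotientGroup.mk_inv, conj_pow, Ne, conj_eq_one_iff]
  rw [hg] at b2 b3 ⊢
  set D := dg (Units.mk0 a ha0)
  have d00 : D 0 0 = a := rfl
  have d01 : D 0 1 = 0 := rfl
  have d10 : D 1 0 = 0 := rfl
  have d11 : D 1 1 = a⁻¹ := Units.val_inv_eq_inv_val _
  have hne : a - a⁻¹ ≠ 0 := fun e => b2 (by rw [mk_eq_one.2 ⟨d01, d10, by rw [d00, d11]; exact sub_eq_zero.1 e⟩, one_pow])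
  rw [card_lift _ (S := {Y : SL(2, F) | Y 1 0 = 0 ∨ (Y 1 0 ≠ 0 ∧ Y 1 1 = (Y 0 0)⁻¹)}), card_split fun a _ d => d = a⁻¹,
    two_mul]
  · congr 1
    rw [← card_ne_zero_field, ← Nat.card_eq_fintype_card, ← Nat.card_prod]
    exact Nat.card_congr ⟨fun t => (t.1.1, ⟨t.1.2.1, t.2.1⟩), fun t => ⟨(t.1, t.2.1, t.1⁻¹), t.2.2, rfl⟩,
      by rintro ⟨⟨a, e, d⟩, h1, h⟩; obtain rfl : d = a⁻¹ := h; rfl, fun t => rfl⟩
  intro Y
  have hd := SL2.det_eq Y
  rw [sol_iff_ss r hp hF hr b2 b3, mul_inv_eq_iff_eq_mul, mul_inv_eq_iff_eq_mul, SL2.ext_iff', SL2.ext_iff']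
  simp only [SL2.mul_apply, SL2.inv_00, SL2.inv_01, SL2.inv_10, SL2.inv_11, d00, d01, d10, d11, Set.mem_ofPred_eq]
  constructor
  · intro h
    by_cases h0 : Y 1 0 = 0
    · exact Or.inl h0
    refine Or.inr ⟨h0, ?_⟩
    rcases h with ⟨v, h1, h2⟩ | h | h
    · rcases P1.cases v with rfl | ⟨t, rfl⟩
      · exact absurd (fix_inf.1 h2) h0
      · rw [fix_pt, d00, d01, d10, d11] at h1
        have : t = 0 := mul_left_cancel₀ hne (by linear_combination h1)
        subst this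
        rw [fix_pt] at h2
        exact eq_inv_of_mul_eq_one_right (by linear_combination hd + Y 1 0 * h2)
    · exact absurd (mul_left_cancel₀ hne (by linear_combination h.2.2.1)) h0
    · have e1 : Y 0 0 = 0 := mul_left_cancel₀ hne (by linear_combination h.1)
      have e2 : Y 1 1 = 0 := mul_left_cancel₀ hne (by linear_combination -h.2.2.2)
      rw [e1, e2, _root_.inv_zero]
  · rintro (h | ⟨h0, h⟩)
    · exact Or.inl ⟨pInf, fix_inf.2 d10, fix_inf.2 h⟩
    · by_cases e : Y 0 0 = 0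
      · rw [e, _root_.inv_zero] at h
        right; right
        rw [e, h]; refine ⟨?_, ?_, ?_, ?_⟩ <;> ring
      · refine Or.inl ⟨pt 0, by rw [fix_pt, d01]; ring, ?_⟩
        rw [h, mul_inv_cancel₀ e] at hd
        rw [fix_pt, mul_zero, zero_mul, zero_add]
        exact mul_left_cancel₀ h0 (by linear_combination -hd)

end

theorem card_inv_two [CharP F 2] {p : ℕ} (hp : p.Prime) (hF : Fintype.card F = 2 ^ p) {x : PSL(2, F)}
    (hx : orderOf x = 2) : dd F * Nat.card {y // Sol x y} = 3 * (Fintype.card F * (Fintype.card F - 1)) := by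
  obtain ⟨g, c, hc, rfl⟩ := exists_un 2 hx
  have h2 : (2 : F) = 0 := by simpa using CharP.cast_eq_zero F 2
  have hx' : orderOf (μ (un c)) = 2 := ((MulAut.conj g).orderOf_eq _).symm.trans hx
  rw [card_sol_conj, card_lift _ (S := {Y : SL(2, F) | Y 1 0 = 0 ∨ (Y 1 0 ≠ 0 ∧ (Y 1 1 = Y 0 0 ∨ Y 1 1 = Y 0 0 + c * Y 1 0))}),
    card_split fun a e d => d = a ∨ d = a + c * e]
  · have : Nat.card {t : F × F × F // t.2.1 ≠ 0 ∧ (t.2.2 = t.1 ∨ t.2.2 = t.1 + c * t.2.1)} =
        Nat.card (Bool × F × {x : F // x ≠ 0}) := by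
      refine Nat.card_congr (Equiv.symm (Equiv.ofBijective (fun t => ⟨(t.2.1, t.2.2.1,
        if t.1 then t.2.1 else t.2.1 + c * t.2.2.1), t.2.2.2, by cases t.1 <;> simp⟩) ⟨?_, ?_⟩))
      · rintro ⟨i, a, e, he⟩ ⟨j, b, f, hf⟩ h
        simp only [Subtype.mk.injEq, Prod.mk.injEq] at h
        obtain ⟨rfl, rfl, h⟩ := h
        cases i <;> cases j <;> simp_all
      · rintro ⟨⟨a, e, d⟩, h1, h⟩
        rcases (show d = a ∨ d = a + c * e from h) with rfl | rfl
        · exact ⟨(true, d, ⟨e, h1⟩), rfl⟩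
        · exact ⟨(false, a, ⟨e, h1⟩), rfl⟩
    rw [this, Nat.card_prod, Nat.card_prod, card_ne_zero_field, Nat.card_eq_fintype_card, Nat.card_eq_fintype_card,
      Fintype.card_bool]
    ring
  intro Y
  have e2 : (un c * Y) 0 0 + (un c * Y) 1 1 = Y 0 0 + c * Y 1 0 + Y 1 1 := by
    simp only [SL2.mul_apply, un00, un01, un10, un11]; ring
  have e3 : (un c * Y) 1 0 = Y 1 0 := by simp only [SL2.mul_apply, un10, un11]; ring
  constructor
  · intro h
    by_cases h0 : Y 1 0 = 0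
    · exact Or.inl h0
    refine Or.inr ⟨h0, ?_⟩
    rcases cases_sol 2 hp hF (Or.inl rfl) h with ⟨v, a, b⟩ | (⟨h, -⟩ | ⟨-, h | h⟩) | ⟨h, -⟩
    · rw [fix_un hc a] at b; exact absurd (fix_inf.1 b) h0
    · exact absurd hx'.symm.dvd h
    · left; linear_combination tr_of_sq h (fun e => h0 (mk_eq_one.1 e).2.1) - Y 0 0 * h2
    · right
      have := tr_of_sq (s := un c * Y) h (fun e => h0 (e3 ▸ (mk_eq_one.1 e).2.1))
      linear_combination e2.symm.trans this - (Y 0 0 + c * Y 1 0) * h2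
    · omega
  · rintro (h | ⟨-, h⟩)
    · exact sol_of_fix (fix_inf.2 (un10 c)) (fix_inf.2 h)
    · refine sol_of_sq (orderOf_dvd_iff_pow_eq_one.1 hx'.dvd) (h.imp (fun h => mk_sq_of_tr ?_) fun h => mk_sq_of_tr (s := un c * Y) ?_)
      · linear_combination h + Y 0 0 * h2
      · linear_combination e2 + h + (Y 0 0 + c * Y 1 0) * h2

theorem un_pow (c : F) (n : ℕ) : un c ^ n = un (n * c) := by
  induction n with
  | zero => simp [un_zero]
  | succ n ih => rw [pow_succ, ih, ← un_add, Nat.cast_succ, add_mul, one_mul]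

theorem tr_mul_un (Y : SL(2, F)) (b : F) : (Y * un b) 0 0 + (Y * un b) 1 1 = Y 0 0 + Y 1 1 + Y 1 0 * b := by
  simp only [SL2.mul_apply, un00, un01, un10, un11]; ring

theorem A4_three : ∀ a b : alternatingGroup (Fin 4), a ^ 3 = 1 → a ≠ 1 → ∃ i : Fin 3, b = a ^ i.1 ∨
    (b * a ^ i.1 ≠ 1 ∧ (b * a ^ i.1) ^ 2 = 1 ∧ b * a ^ (i.1 + 1) ≠ 1 ∧ (b * a ^ (i.1 + 1)) ^ 3 = 1) := by decide +kernel

theorem A4_two : ∀ a b : alternatingGroup (Fin 4), a ^ 2 = 1 → b ^ 2 = 1 ∨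
    (b ≠ 1 ∧ b ^ 3 = 1 ∧ a * b ≠ 1 ∧ (a * b) ^ 3 = 1) := by decide +kernel

section
variable [CharP F 3] {p : ℕ} (hp : p.Prime) (ho : Odd p) (hF : Fintype.card F = 3 ^ p)
include hp ho hF

theorem card_un_three {x : PSL(2, F)} (hx : orderOf x = 3) :
    dd F * Nat.card {y // Sol x y} = Fintype.card F * (Fintype.card F - 1) + 6 * Fintype.card F := by
  haveI : Fact (Nat.Prime 3) := ⟨Nat.prime_three⟩
  obtain ⟨g, c, hc, rfl⟩ := exists_un 3 hx
  have h3 : (3 : F) = 0 := by simpa using CharP.cast_eq_zero F 3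
  have h2 : (1 : F) ≠ -1 := fun h => one_ne_zero (by linear_combination h3 - h : (1 : F) = 0)
  have hx' : orderOf (μ (un c)) = 3 := ((MulAut.conj g).orderOf_eq _).symm.trans hx
  have hx3 : μ (un c) ^ 3 = 1 := orderOf_dvd_iff_pow_eq_one.1 hx'.dvd
  rw [card_sol_conj, card_lift _ (S := {Y : SL(2, F) | Y 1 0 = 0 ∨ (Y 1 0 ≠ 0 ∧ ((Y 1 0 * c) ^ 2 = 1 ∧
    (Y 0 0 + Y 1 1 = 0 ∨ Y 0 0 + Y 1 1 = 1 ∨ Y 0 0 + Y 1 1 = -1)))}),
    card_split fun a e d => (e * c) ^ 2 = 1 ∧ (a + d = 0 ∨ a + d = 1 ∨ a + d = -1)]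
  · congr 1
    rw [show 6 * Fintype.card F = Nat.card (F × ({1, -1} : Set F) × ({0, 1, -1} : Set F)) by
      rw [Nat.card_prod, Nat.card_prod, Nat.card_coe_set_eq, Nat.card_coe_set_eq, Set.ncard_pair h2,
        Set.ncard_insert_of_notMem (by simp), Set.ncard_pair h2, Nat.card_eq_fintype_card]; ring]
    refine Nat.card_congr ⟨fun t => (t.1.1, ⟨t.1.2.1 * c, sq_eq_one_iff.1 t.2.2.1⟩, ⟨t.1.1 + t.1.2.2, t.2.2.2⟩),
      fun t => ⟨(t.1, t.2.1.1 / c, t.2.2.1 - t.1), div_ne_zero ?_ hc, ?_, ?_⟩, fun t => ?_, fun t => ?_⟩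
    · rcases t.2.1.2 with h | h <;> rw [h] <;> simp
    · rw [div_mul_cancel₀ _ hc]; exact sq_eq_one_iff.2 t.2.1.2
    · rw [add_sub_cancel]; exact t.2.2.2
    · simp [hc]
    · simp [hc]
  intro Y
  constructor
  · intro h
    by_cases h0 : Y 1 0 = 0
    · exact Or.inl h0
    refine Or.inr ⟨h0, ?_⟩
    rcases cases_sol 3 hp hF (Or.inr ⟨rfl, ho⟩) h with ⟨v, a, b⟩ | (⟨h, -⟩ | ⟨h, -⟩) | ⟨-, f, hf, a, b, ha, hb⟩
    · rw [fix_un hc a] at b; exact absurd (fix_inf.1 b) h0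
    · exact absurd hx'.symm.dvd h
    · have := orderOf_dvd_of_pow_eq_one h
      rw [hx'] at this; omega
    obtain ⟨i, e | ⟨e1, e2, e3, e4⟩⟩ := A4_three a b (hf (by rw [map_pow, ha, hx3, map_one]))
      (by rintro rfl; rw [← ha, map_one, orderOf_one] at hx'; omega)
    · refine absurd (fix_inf.1 ?_) h0
      rw [← hb, e, map_pow, ha, ← QuotientGroup.mk_pow, un_pow]
      exact fix_inf.2 rfl
    · have k : ∀ n : ℕ, f (b * a ^ n) = μ (Y * un (n * c)) := fun n => by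
        rw [map_mul, map_pow, ha, hb, ← un_pow]; rfl
      have t1 := tr_of_sq (s := Y * un (i.1 * c)) (by rw [← k, ← map_pow, e2, map_one])
        (by rw [← k]; exact (map_ne_one_iff f hf).2 e1)
      have t2 := tr_of_cube (s := Y * un ((i.1 + 1 : ℕ) * c)) (by rw [← k, ← map_pow, e4, map_one])
        (by rw [← k]; exact (map_ne_one_iff f hf).2 e3)
      rw [tr_mul_un] at t1 t2
      have t3 : (Y 1 0 * c) ^ 2 = 1 := by
        refine Eq.trans ?_ t2; congr 1; push_cast; linear_combination -t1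
      refine ⟨t3, ?_⟩
      fin_cases i <;> simp only [Nat.cast_zero, Nat.cast_one, Nat.cast_ofNat] at t1 <;>
        rcases sq_eq_one_iff.1 t3 with h | h
      · left; linear_combination t1
      · left; linear_combination t1
      · right; right; linear_combination t1 - h
      · right; left; linear_combination t1 - h
      · right; left; linear_combination t1 - 2 * h - h3
      · right; right; linear_combination t1 - 2 * h + h3
  · rintro (h | ⟨-, t3, h⟩)
    · exact sol_of_fix (fix_inf.2 (un10 c)) (fix_inf.2 h)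
    · have : ∃ n : ℕ, Y 0 0 + Y 1 1 + Y 1 0 * (n * c) = 0 := by
        rcases sq_eq_one_iff.1 t3 with e | e <;> rcases h with h | h | h
        · exact ⟨0, by push_cast; linear_combination h⟩
        · exact ⟨2, by push_cast; linear_combination h + 2 * e + h3⟩
        · exact ⟨1, by push_cast; linear_combination h + e⟩
        · exact ⟨0, by push_cast; linear_combination h⟩
        · exact ⟨1, by push_cast; linear_combination h + e⟩
        · exact ⟨2, by push_cast; linear_combination h + 2 * e - h3⟩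
      obtain ⟨n, hn⟩ := this
      refine (sol_of_A4 (t := μ (Y * un (n * c))) (mk_sq_of_tr (by rw [tr_mul_un, hn])) hx3
        (mm_cube ?_)).of_mem (mem_cl_right _ _) ?_
      · rw [mul_assoc, ← un_add, tr_mul_un]; refine Eq.trans ?_ t3; congr 1; linear_combination hn
      · have := mul_mem (mem_cl_left (μ (Y * un (n * c))) (μ (un c))) (inv_mem (pow_mem (mem_cl_right _ _) n))
        rw [← un_pow, QuotientGroup.mk_mul, QuotientGroup.mk_pow] at this ⊢
        rwa [mul_inv_cancel_right] at this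

theorem neg_one_nonsq (t : F) : t ^ 2 ≠ -1 := fun h => by
  have : Fintype.card F % 4 = 3 := by
    obtain ⟨k, rfl⟩ := ho
    rw [hF, pow_succ, pow_mul, Nat.mul_mod, Nat.pow_mod]; norm_num
  exact FiniteField.isSquare_neg_one_iff.1 ⟨t, by rw [← h, pow_two]⟩ this

theorem sq_add_sq_zero {a b : F} (h : a ^ 2 + b ^ 2 = 0) : a = 0 ∧ b = 0 := by
  have hb : b = 0 := by
    by_contra hb
    exact neg_one_nonsq hp ho hF (a / b) (by field_simp; linear_combination h)
  subst hb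
  exact ⟨by simpa using h, rfl⟩

theorem card_circle {k : F} (hk : k ≠ 0) : Nat.card {z : F × F // z.1 ^ 2 + z.2 ^ 2 = k} = Fintype.card F + 1 := by
  have h3 : (3 : F) = 0 := by simpa using CharP.cast_eq_zero F 3
  let W : SL(2, F) := sl2 0 1 (-1) 0 (by ring)
  have t0 : (W : M2 F).trace = 0 := by rw [tr_eq]; exact add_zero _
  have hn : NoEig (W : M2 F) := noEig_iff.2 fun c h => neg_one_nonsq hp ho hF c (by
    rw [t0, W.det_coe] at h; linear_combination h)
  have h1 := card_centralizer_SL_noEig hn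
  rw [card_centralizer_SL hn.not_isScal] at h1
  obtain ⟨a, b, hab⟩ := exists_det_lin_eq (W : M2 F) (Or.inr (hn.disc_ne' )) k
  simp only [det_lin, t0, W.det_coe, mul_zero, add_zero, mul_one] at h1 hab
  rw [← h1]
  refine Nat.card_congr ⟨fun z => ⟨((a * z.1.1 + b * z.1.2) / k, (a * z.1.2 - b * z.1.1) / k), ?_⟩,
    fun z => ⟨(a * z.1.1 - b * z.1.2, a * z.1.2 + b * z.1.1), ?_⟩, fun z => ?_, fun z => ?_⟩
  · have := z.2
    field_simp
    linear_combination (a ^ 2 + b ^ 2) * this + k * hab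
  · linear_combination (a ^ 2 + b ^ 2) * z.2 + hab
  · ext <;> simp only <;> field_simp
    · linear_combination z.1.1 * hab
    · linear_combination z.1.2 * hab
  · ext <;> simp only <;> field_simp
    · linear_combination z.1.1 * hab
    · linear_combination z.1.2 * hab

theorem card_quad : Nat.card {z : (F × F) × (F × F) // z.2.1 ^ 2 + z.2.2 ^ 2 = z.1.1 ^ 2 + z.1.2 ^ 2 - 1 ∧
    ((z.1.1 * z.1.2 = 0 ∨ (z.1.1 ^ 2 = 1 ∧ z.1.2 ^ 2 = 1)) ∨ (z.2.1 = 0 ∧ z.2.2 = 0))} =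
      2 * (Fintype.card F * (Fintype.card F + 1)) := by
  classical
  have h3 : (3 : F) = 0 := by simpa using CharP.cast_eq_zero F 3
  rw [Nat.card_congr (Equiv.subtypeProdEquivSigmaSubtype fun (s z : F × F) => z.1 ^ 2 + z.2 ^ 2 = s.1 ^ 2 + s.2 ^ 2 - 1 ∧
    ((s.1 * s.2 = 0 ∨ (s.1 ^ 2 = 1 ∧ s.2 ^ 2 = 1)) ∨ (z.1 = 0 ∧ z.2 = 0))), Nat.card_sigma]
  have e : ∀ s : F × F, Nat.card {z : F × F // z.1 ^ 2 + z.2 ^ 2 = s.1 ^ 2 + s.2 ^ 2 - 1 ∧
      ((s.1 * s.2 = 0 ∨ (s.1 ^ 2 = 1 ∧ s.2 ^ 2 = 1)) ∨ (z.1 = 0 ∧ z.2 = 0))} =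
      (if s.1 ^ 2 + s.2 ^ 2 = 1 then 1 else 0) + (Fintype.card F + 1) *
        if s.1 ^ 2 + s.2 ^ 2 ≠ 1 ∧ (s.1 * s.2 = 0 ∨ (s.1 ^ 2 = 1 ∧ s.2 ^ 2 = 1)) then 1 else 0 := by
    intro s
    by_cases h : s.1 ^ 2 + s.2 ^ 2 = 1
    · simp only [h, if_true, ne_eq, not_true, false_and, if_false, mul_zero, add_zero, sub_self]
      rw [Nat.card_eq_one_iff_exists]
      exact ⟨⟨(0, 0), by simp⟩, fun z => Subtype.ext (Prod.ext (sq_add_sq_zero hp ho hF z.2.1).1
        (sq_add_sq_zero hp ho hF z.2.1).2)⟩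
    · by_cases h' : s.1 * s.2 = 0 ∨ (s.1 ^ 2 = 1 ∧ s.2 ^ 2 = 1)
      · simp only [h, h', if_false, ne_eq, not_false_iff, true_and, if_true, true_or, and_true, zero_add, mul_one]
        exact card_circle hp ho hF (sub_ne_zero.2 h)
      · simp only [h, h', if_false, and_false, mul_zero, add_zero, false_or]
        rw [Nat.card_eq_zero]
        left
        exact ⟨fun z => h (by linear_combination (z.1.1 * z.2.2.1 + z.1.2 * z.2.2.2) - z.2.1)⟩
  simp only [e, Finset.sum_add_distrib, ← Finset.mul_sum, Finset.sum_boole, Nat.cast_id]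
  have c1 := card_circle hp ho hF (one_ne_zero (α := F))
  rw [Nat.card_eq_fintype_card, Fintype.card_subtype] at c1
  rw [c1]
  have c2 : (Finset.univ.filter fun s : F × F => s.1 ^ 2 + s.2 ^ 2 ≠ 1 ∧ (s.1 * s.2 = 0 ∨ (s.1 ^ 2 = 1 ∧ s.2 ^ 2 = 1))).card + 1 =
      2 * Fintype.card F := by
    have a1 : (Finset.univ.filter fun s : F × F => s.1 ^ 2 = 1 ∧ s.2 ^ 2 = 1).card =
        (Finset.univ.filter fun s : F × F => s.1 * s.2 = 0 ∧ s.1 ^ 2 + s.2 ^ 2 = 1).card := by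
      symm
      refine Finset.card_bij' (fun s _ => (s.1 + s.2, s.1 - s.2)) (fun s _ => (-(s.1 + s.2), s.2 - s.1)) ?_ ?_ ?_ ?_
      · simp only [Finset.mem_filter, Finset.mem_univ, true_and]
        exact fun s h => ⟨by linear_combination h.2 + 2 * h.1, by linear_combination h.2 - 2 * h.1⟩
      · simp only [Finset.mem_filter, Finset.mem_univ, true_and]
        exact fun s h => ⟨by linear_combination h.1 - h.2, by linear_combination 2 * h.1 + 2 * h.2 + h3⟩
      · intro s _; ext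
        · simp only; linear_combination (-s.1) * h3
        · simp only; linear_combination (-s.2) * h3
      · intro s _; ext
        · simp only; linear_combination (-s.1) * h3
        · simp only; linear_combination (-s.2) * h3
    have a2 := Finset.card_filter_add_card_filter_not (s := Finset.univ.filter fun s : F × F => s.1 * s.2 = 0)
      (fun s => s.1 ^ 2 + s.2 ^ 2 = 1)
    rw [Finset.filter_filter, Finset.filter_filter] at a2
    have a3 : (Finset.univ.filter fun s : F × F => s.1 * s.2 = 0).card + 1 = 2 * Fintype.card F := by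
      have : (Finset.univ.filter fun s : F × F => s.1 * s.2 = 0) =
          ({0} ×ˢ Finset.univ) ∪ (Finset.univ ×ˢ {0}) := by ext s; simp [Prod.ext_iff, eq_comm]
      have b := Finset.card_union_add_card_inter (({0} : Finset F) ×ˢ (Finset.univ : Finset F)) (Finset.univ ×ˢ {0})
      rw [Finset.product_inter_product] at b
      simp at b
      rw [this]; simp; omega
    have a4 : (Finset.univ.filter fun s : F × F => s.1 ^ 2 + s.2 ^ 2 ≠ 1 ∧ (s.1 * s.2 = 0 ∨ (s.1 ^ 2 = 1 ∧ s.2 ^ 2 = 1))) =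
        (Finset.univ.filter fun s : F × F => s.1 * s.2 = 0 ∧ ¬ s.1 ^ 2 + s.2 ^ 2 = 1) ∪
          (Finset.univ.filter fun s : F × F => s.1 ^ 2 = 1 ∧ s.2 ^ 2 = 1) := by
      ext s
      simp only [Finset.mem_filter, Finset.mem_univ, true_and, Finset.mem_union]
      refine ⟨fun h => h.2.imp_left fun h' => ⟨h', h.1⟩, fun h => h.elim (fun h => ⟨h.2, Or.inl h.1⟩) fun h =>
        ⟨fun e => one_ne_zero (by linear_combination e - h.1 - h.2 : (1 : F) = 0), Or.inr h⟩⟩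
    rw [a4, Finset.card_union_of_disjoint, a1]
    · omega
    · rw [Finset.disjoint_filter]
      rintro s - h h'
      exact one_ne_zero (by linear_combination (s.1 * s.2) * h.1 - s.2 ^ 2 * h'.1 - h'.2 : (1 : F) = 0)
  nlinarith [c2]

theorem card_inv_three {x : PSL(2, F)} (hx : orderOf x = 2) :
    dd F * Nat.card {y // Sol x y} = 2 * (Fintype.card F * (Fintype.card F + 1)) := by
  haveI : Fact (Nat.Prime 3) := ⟨Nat.prime_three⟩
  have h3 : (3 : F) = 0 := by simpa using CharP.cast_eq_zero F 3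
  obtain ⟨X, rfl⟩ := QuotientGroup.mk_surjective x
  have x2 : μ X ^ 2 = 1 := orderOf_dvd_iff_pow_eq_one.1 hx.dvd
  have x1 : μ X ≠ 1 := fun h => by rw [h, orderOf_one] at hx; omega
  let W : SL(2, F) := sl2 0 1 (-1) 0 (by ring)
  have w00 : W 0 0 = 0 := rfl
  have w01 : W 0 1 = 1 := rfl
  have w10 : W 1 0 = -1 := rfl
  have w11 : W 1 1 = 0 := rfl
  have w2 : μ W ^ 2 = 1 := mk_sq_of_tr (add_zero _)
  obtain ⟨g, hg⟩ := isConj_iff.1 (isConj_SL_of_disc (g := X) (h := W) (by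
    rw [tr_eq, tr_of_sq x2 x1]; intro h; exact one_ne_zero (by linear_combination -h - h3 : (1 : F) = 0))
    (by rw [tr_eq, tr_eq, tr_of_sq x2 x1, w00, w11, add_zero]))
  rw [← card_sol_conj (μ g), ← QuotientGroup.mk_inv, ← QuotientGroup.mk_mul, ← QuotientGroup.mk_mul, hg,
    ← card_quad hp ho hF, card_lift _ (S := {Y : SL(2, F) | ((Y 0 0 + Y 1 1) * (Y 1 0 - Y 0 1) = 0 ∨
      ((Y 0 0 + Y 1 1) ^ 2 = 1 ∧ (Y 1 0 - Y 0 1) ^ 2 = 1)) ∨ (Y 0 0 - Y 1 1 = 0 ∧ Y 1 0 + Y 0 1 = 0)})]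
  · refine Nat.card_congr ⟨fun Y => ⟨((Y.1 0 0 + Y.1 1 1, Y.1 1 0 - Y.1 0 1), (Y.1 0 0 - Y.1 1 1, Y.1 1 0 + Y.1 0 1)), ?_, Y.2⟩,
      fun z => ⟨sl2 (-(z.1.1.1 + z.1.2.1)) (z.1.1.2 - z.1.2.2) (-(z.1.1.2 + z.1.2.2)) (z.1.2.1 - z.1.1.1) ?_, ?_⟩,
      fun Y => ?_, fun z => ?_⟩
    · linear_combination (-4) * SL2.det_eq Y.1 - h3
    · linear_combination -z.2.1
    · have := z.2.2
      simp only [Set.mem_ofPred_eq, sl2_00, sl2_01, sl2_10, sl2_11]
      convert this using 4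
      · linear_combination (-z.1.1.1) * h3
      · linear_combination (-z.1.1.2) * h3
      · congr 1; linear_combination (-z.1.1.1) * h3
      · congr 1; linear_combination (-z.1.1.2) * h3
      · linear_combination (-z.1.2.1) * h3
      · linear_combination (-z.1.2.2) * h3
    · refine Subtype.ext (SL2.ext' ?_ ?_ ?_ ?_) <;> simp only [sl2_00, sl2_01, sl2_10, sl2_11]
      · linear_combination (-Y.1 0 0) * h3
      · linear_combination (-Y.1 0 1) * h3
      · linear_combination (-Y.1 1 0) * h3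
      · linear_combination (-Y.1 1 1) * h3
    · ext <;> simp only [sl2_00, sl2_01, sl2_10, sl2_11]
      · linear_combination (-z.1.1.1) * h3
      · linear_combination (-z.1.1.2) * h3
      · linear_combination (-z.1.2.1) * h3
      · linear_combination (-z.1.2.2) * h3
  intro Y
  have e2 : (W * Y) 0 0 + (W * Y) 1 1 = Y 1 0 - Y 0 1 := by simp only [SL2.mul_apply, w00, w01, w10, w11]; ring
  have sq : μ Y ^ 2 = 1 → ((Y 0 0 + Y 1 1) * (Y 1 0 - Y 0 1) = 0 ∨
      ((Y 0 0 + Y 1 1) ^ 2 = 1 ∧ (Y 1 0 - Y 0 1) ^ 2 = 1)) ∨ (Y 0 0 - Y 1 1 = 0 ∧ Y 1 0 + Y 0 1 = 0) := fun h => by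
    by_cases h1 : μ Y = 1
    · obtain ⟨a, b, c⟩ := mk_eq_one.1 h1
      right; rw [a, b, c]; simp
    · left; left; rw [tr_of_sq h h1, zero_mul]
  constructor
  · intro h
    rcases cases_sol 3 hp hF (Or.inr ⟨rfl, ho⟩) h with ⟨v, a, -⟩ | (⟨-, h⟩ | ⟨-, h | h⟩) | ⟨-, f, hf, a, b, ha, hb⟩
    · exfalso
      rcases P1.cases v with rfl | ⟨t, rfl⟩
      · rw [fix_inf, w10] at a; simp at a
      · rw [fix_pt, w00, w01, w10, w11] at a
        exact neg_one_nonsq hp ho hF t (by linear_combination a)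
    · rw [inv_eq_of_mul_eq_one_right ((pow_two _).symm.trans w2), or_self, mul_inv_eq_iff_eq_mul,
        ← QuotientGroup.mk_mul, ← QuotientGroup.mk_mul, PSL2.mk_eq_mk_iff, SL2.ext_iff', SL2.ext_iff'] at h
      simp only [SL2.mul_apply, w00, w01, w10, w11, SpecialLinearGroup.coe_neg, Matrix.neg_apply] at h
      rcases h with h | h
      · right; exact ⟨by linear_combination h.2.1, by linear_combination -h.1⟩
      · left; left; rw [show Y 0 0 + Y 1 1 = 0 by linear_combination h.2.1, zero_mul]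
    · exact sq h
    · left; left
      by_cases h1 : μ (W * Y) = 1
      · obtain ⟨a, b, -⟩ := mk_eq_one.1 h1
        simp only [SL2.mul_apply, w00, w01, w10, w11] at a b
        rw [show Y 0 0 + Y 1 1 = 0 by linear_combination a - b, zero_mul]
      · rw [← e2, tr_of_sq h h1, mul_zero]
    · rcases A4_two a b (hf (by rw [map_pow, ha, w2, map_one])) with e | ⟨e1, e2', e3, e4⟩
      · exact sq (by rw [← hb, ← map_pow, e, map_one])
      · have k : f (a * b) = μ (W * Y) := by rw [map_mul, ha, hb]; rfl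
        left; right
        exact ⟨tr_of_cube (by rw [← hb, ← map_pow, e2', map_one]) (hb ▸ (map_ne_one_iff f hf).2 e1),
          e2 ▸ tr_of_cube (by rw [← k, ← map_pow, e4, map_one]) (k ▸ (map_ne_one_iff f hf).2 e3)⟩
  · rintro ((h | ⟨h, h'⟩) | ⟨h, h'⟩)
    · exact sol_of_sq w2 ((mul_eq_zero.1 h).imp mk_sq_of_tr fun h => mm_sq (e2.trans h))
    · exact sol_of_A4 w2 (mk_cube_of_tr h) (mm_cube (by rw [e2, h']))
    · refine sol_of_norm (Or.inl ?_)
      rw [mul_inv_eq_iff_eq_mul, ← QuotientGroup.mk_mul, ← QuotientGroup.mk_mul]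
      congr 1
      refine SL2.ext' ?_ ?_ ?_ ?_ <;> simp only [SL2.mul_apply, w00, w01, w10, w11]
      · linear_combination -h'
      · linear_combination h
      · linear_combination h
      · linear_combination h'

end

end H04.Solu
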