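import Mathlib
import Cfsg.Agent.H04.SimpSL

/-! Opposite Borel subgroups of `SL_n(F)`; two Sylow 2-subgroups of `L_n(2).2` meet nontrivially. -/

set_option autoImplicit false
open Subgroup Cfsg H26 H09 Matrix
open scoped H26 Pointwise

namespace H04.SylL

variable {n : ℕ} {F : Type*} [Field F]

local notation "SLn" => Matrix.SpecialLinearGroup (Fin n) F

theorem exists_anti {g : SLn} (h : ∀ t ∈ uT n F, g⁻¹ * t * g ∈ uT n F → t = 1) :
    ∃ u ∈ uT n F, ∀ i k : Fin n, i < k → (u * g).1 i k.rev = 0 := by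
  classical
  have key : ∀ i : Fin n, ∃ c : Fin n → F, (∀ l, l ≤ i → c l = 0) ∧
      ∀ k, i < k → g.1 i k.rev + ∑ l, c l * g.1 l k.rev = 0 := by
    intro i
    let M : Matrix (Fin n) (Fin n) F := Matrix.of fun l k =>
      if i < l ∧ i < k then g.1 l k.rev else if l = k then 1 else 0
    have hL : ∀ c : Fin n → F, ∀ k, k ≤ i → (c ᵥ* M) k = c k := by
      intro c k hk
      simp [vecMul, dotProduct, M, not_lt.2 hk]
    have hL' : ∀ c : Fin n → F, (∀ l, l ≤ i → c l = 0) → ∀ k, i < k → (c ᵥ* M) k = ∑ l, c l * g.1 l k.rev := by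
      intro c hc k hk
      simp only [vecMul, dotProduct, M, of_apply]
      refine Finset.sum_congr rfl fun l _ => ?_
      rcases le_or_gt l i with hl | hl
      · simp [hc l hl]
      · simp [hl, hk]
    have hR : ∀ v : Fin n → F, ∀ k, k ≤ i → (M *ᵥ v) k = v k := by
      intro c k hk
      simp [mulVec, dotProduct, M, not_lt.2 hk]
    have hR' : ∀ v : Fin n → F, (∀ l, l ≤ i → v l = 0) → ∀ l, i < l → (M *ᵥ v) l = ∑ k, g.1 l k.rev * v k := by
      intro c hc k hk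
      simp only [mulVec, dotProduct, M, of_apply]
      refine Finset.sum_congr rfl fun l _ => ?_
      rcases le_or_gt l i with hl | hl
      · simp [hc l hl]
      · simp [hl, hk]
    have hM : M.det ≠ 0 := by
      intro hd
      obtain ⟨c, hc0, hc⟩ := Matrix.exists_vecMul_eq_zero_iff.2 hd
      obtain ⟨v, hv0, hv⟩ := Matrix.exists_mulVec_eq_zero_iff.2 hd
      have c1 : ∀ l, l ≤ i → c l = 0 := fun l hl => by rw [← hL c l hl, hc]; rfl
      have v1 : ∀ l, l ≤ i → v l = 0 := fun l hl => by rw [← hR v l hl, hv]; rfl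
      set w : Fin n → F := fun k => v k.rev with hw
      have c2 : ∀ k, i < k → (c ᵥ* g.1) k.rev = 0 := fun k hk => by
        have := hL' c c1 k hk
        rw [hc] at this
        exact this.symm
      have v2 : ∀ l, i < l → (g.1 *ᵥ w) l = 0 := fun l hl => by
        have := hR' v v1 l hl
        rw [hv] at this
        rw [mulVec, dotProduct, ← Equiv.sum_comp Fin.revPerm]
        simpa [hw] using this.symm
      have hd0 : ∀ a b, b ≤ a → (g.1 *ᵥ w) a * c b = 0 := fun a b hab => by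
        rcases le_or_gt a i with h1 | h1
        · rw [c1 b (hab.trans h1), mul_zero]
        · rw [v2 a h1, zero_mul]
      have hd : c ⬝ᵥ (g.1 *ᵥ w) = 0 := Finset.sum_eq_zero fun a _ => by rw [mul_comm, hd0 a a le_rfl]
      have ht : slTv _ _ hd ∈ uT n F := (mem_uT_tv (slTv_val _ _ hd)).2 hd0
      have e := conj_tv g⁻¹ (slTv_val _ _ hd)
      rw [inv_inv, mulVec_mulVec, sl_inv_mul, one_mulVec] at e
      have h1 := h _ ht ((mem_uT_tv e).2 fun a b hab => by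
        rcases le_or_gt a.rev i with h1 | h1
        · rw [show w a = 0 from v1 _ h1, zero_mul]
        · have := c2 b.rev (h1.trans_le (Fin.rev_le_rev.2 hab))
          rw [Fin.rev_rev] at this
          rw [this, mul_zero])
      rw [h1, mul_one, inv_mul_cancel, sl_val_one, left_eq_add] at e
      obtain ⟨a, ha⟩ := Function.ne_iff.1 hv0
      have h3 : c ᵥ* g.1 ≠ 0 := fun h0 => hc0 (by
        have := congrArg (· ᵥ* (g⁻¹).1) h0
        simpa only [vecMul_vecMul, sl_mul_inv, vecMul_one, zero_vecMul] using this)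
      obtain ⟨b, hb⟩ := Function.ne_iff.1 h3
      have := congrFun (congrFun e a.rev) b
      rw [vecMulVec_apply] at this
      simp only [hw, Fin.rev_rev, Matrix.zero_apply] at this
      exact mul_ne_zero ha hb this
    let b : Fin n → F := fun k => if i < k then - g.1 i k.rev else 0
    have hc : (b ᵥ* M⁻¹) ᵥ* M = b := by
      rw [vecMul_vecMul, nonsing_inv_mul _ (Ne.isUnit hM), vecMul_one]
    have c1 : ∀ l, l ≤ i → (b ᵥ* M⁻¹) l = 0 := fun l hl => by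
      rw [← hL (b ᵥ* M⁻¹) l hl, hc]; simp [b, not_lt.2 hl]
    refine ⟨b ᵥ* M⁻¹, c1, fun k hk => ?_⟩
    rw [← hL' _ c1 k hk, hc]; simp [b, hk]
  choose c hc1 hc2 using key
  let U : Matrix (Fin n) (Fin n) F := 1 + Matrix.of c
  have hU : U.BlockTriangular id := fun i j hij => by
    have hij : j < i := hij
    simp [U, one_apply_ne hij.ne', hc1 i j hij.le]
  have hd : ∀ i, U i i = 1 := fun i => by simp [U, hc1 i i le_rfl]
  refine ⟨⟨U, by rw [det_of_isUpperTriangular hU]; simp [hd]⟩, ⟨hU, hd⟩, fun i k hik => ?_⟩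
  show (U * g.1) i k.rev = 0
  rw [add_mul, one_mul, Matrix.add_apply, mul_apply]
  exact hc2 i k hik

theorem bT_two : bT n (ZMod 2) ≤ uT n (ZMod 2) := fun g hg => ⟨hg, fun i => by
  have := bT_mul_diag hg (inv_mem hg) i
  rw [mul_inv_cancel, sl_val_one, one_apply_eq] at this
  revert this
  generalize g.1 i i = a
  generalize (g⁻¹).1 i i = b
  revert a b; decide⟩

theorem exists_rev : ∃ w : SpecialLinearGroup (Fin n) (ZMod 2), ∀ x : SpecialLinearGroup (Fin n) (ZMod 2),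
    ∀ i k, (w * x).1 i k = x.1 i.rev k := by
  have hd : (Equiv.Perm.permMatrix (ZMod 2) (Fin.revPerm : Equiv.Perm (Fin n))).det = 1 := by
    rw [det_permutation]
    rcases Int.units_eq_one_or (Equiv.Perm.sign (Fin.revPerm : Equiv.Perm (Fin n))) with h | h <;> rw [h] <;> decide
  refine ⟨⟨_, hd⟩, fun x i k => ?_⟩
  show (Equiv.Perm.permMatrix (ZMod 2) (Fin.revPerm : Equiv.Perm (Fin n)) * x.1) i k = _
  rw [PEquiv.toMatrix_toPEquiv_mul]; rfl

theorem opp_two {g h : SpecialLinearGroup (Fin n) (ZMod 2)} (hg : uT n (ZMod 2) ⊓ cj(g, uT n (ZMod 2)) = ⊥)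
    (hh : uT n (ZMod 2) ⊓ cj(h, uT n (ZMod 2)) = ⊥) :
    ∃ u ∈ uT n (ZMod 2), cj(u, cj(g, uT n (ZMod 2))) = cj(h, uT n (ZMod 2)) := by
  obtain ⟨w, hw⟩ := exists_rev (n := n)
  have key : ∀ g : SpecialLinearGroup (Fin n) (ZMod 2), uT n (ZMod 2) ⊓ cj(g, uT n (ZMod 2)) = ⊥ →
      ∃ u ∈ uT n (ZMod 2), w * (u * g) ∈ uT n (ZMod 2) := by
    intro g hg
    obtain ⟨u, hu, h1⟩ := exists_anti (g := g) fun t ht h => by
      rw [← mem_bot, ← hg]; exact ⟨ht, mem_cj.2 h⟩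
    refine ⟨u, hu, bT_two fun i j hij => ?_⟩
    have hij : j < i := hij
    rw [hw, ← Fin.rev_rev j]
    exact h1 _ _ (Fin.rev_lt_rev.2 hij)
  obtain ⟨u, hu, h1⟩ := key g hg
  obtain ⟨v, hv, h2⟩ := key h hh
  refine ⟨v⁻¹ * u, mul_mem (inv_mem hv) hu, ?_⟩
  rw [cj_cj, show v⁻¹ * u * g = h * ((w * (v * h))⁻¹ * (w * (u * g))) by group, ← cj_cj,
    cj_eq_self_of_mem (mul_mem (inv_mem h2) h1)]

theorem index_two {G : Type*} [Group G] [Finite G] {N : Subgroup G} [N.Normal] (hidx : N.index = 2)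
    (h1 : ∀ U, IsSyl 2 U N → N ⊓ normalizer (U : Set G) ≤ U)
    (h2 : ∀ U V W, IsSyl 2 U N → IsSyl 2 V N → IsSyl 2 W N → U ⊓ V = ⊥ → U ⊓ W = ⊥ → ∃ u ∈ U, cj(u, V) = W)
    {S T : Subgroup G} (hS : IsSyl 2 S ⊤) (hT : IsSyl 2 T ⊤) : S ⊓ T ≠ ⊥ := by
  haveI : Fact (Nat.Prime 2) := ⟨Nat.prime_two⟩
  intro hb
  have nN : (⊤ : Subgroup G) ≤ normalizer (N : Set G) := by rw [normalizer_eq_top]
  have hU := hS.inf_of_le le_top nN
  have hV := hT.inf_of_le le_top nN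
  have ex : ∀ {S : Subgroup G}, IsSyl 2 S ⊤ → ∃ s ∈ S, s ∉ N := fun {S} hS => by
    by_contra hc
    push Not at hc
    have hle : S ≤ N := hc
    apply hS.not_dvd
    rw [relIndex_top_right, ← hidx]
    exact index_dvd_of_le hle
  obtain ⟨s, hs, hsN⟩ := ex hS
  obtain ⟨t, ht, htN⟩ := ex hT
  have hUV : (S ⊓ N) ⊓ (T ⊓ N) = ⊥ := eq_bot_iff.2 (hb ▸ inf_le_inf inf_le_left inf_le_left)
  have hs' : cj(s, S ⊓ N) = S ⊓ N := by rw [cj_inf, cj_eq_self_of_mem hs, cj_eq_of_normal]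
  obtain ⟨u, hu, e⟩ := h2 _ _ _ hU hV (hV.cj_of_mem_normalizer (nN (mem_top s))) hUV (by
    rw [← hs', ← cj_inf, hUV, cj_bot])
  have hx : u⁻¹ * s ∈ normalizer ((T ⊓ N : Subgroup G) : Set G) := by
    rw [← cj_eq_iff, ← cj_cj, ← e, cj_inv_cj]
  have ht' : t ∈ normalizer ((T ⊓ N : Subgroup G) : Set G) := by
    rw [← cj_eq_iff, cj_inf, cj_eq_self_of_mem ht, cj_eq_of_normal]
  have hxN : u⁻¹ * s ∉ N := fun h => hsN (by simpa using mul_mem hu.2 h)
  have hy : t⁻¹ * (u⁻¹ * s) ∈ N := by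
    rw [mul_mem_iff_of_index_two hidx]
    simp [htN, hxN]
  have hy' := h1 _ hV (mem_inf.2 ⟨hy, mul_mem (inv_mem ht') hx⟩)
  have hxT : u⁻¹ * s ∈ T := by simpa using mul_mem ht hy'.1
  have : u⁻¹ * s ∈ S ⊓ T := mem_inf.2 ⟨mul_mem (inv_mem (mem_inf.1 hu).1) hs, hxT⟩
  rw [hb, mem_bot] at this
  exact hxN (this ▸ one_mem N)

theorem main {G : Type*} [Group G] [Finite G] (N : Subgroup G) [N.Normal]
    (e : N ≃* SpecialLinearGroup (Fin n) (ZMod 2)) (hidx : N.index = 2)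
    {S T : Subgroup G} (hS : IsSyl 2 S ⊤) (hT : IsSyl 2 T ⊤) : S ⊓ T ≠ ⊥ := by
  haveI : Fact (Nat.Prime 2) := ⟨Nat.prime_two⟩
  let φ : SpecialLinearGroup (Fin n) (ZMod 2) →* G := N.subtype.comp e.symm.toMonoidHom
  have hφ : Function.Injective φ := Subtype.val_injective.comp e.symm.injective
  have hr : ∀ x ∈ N, ∃ y, φ y = x := fun x hx => ⟨e ⟨x, hx⟩, by simp [φ]⟩
  have hN : (⊤ : Subgroup _).map φ = N := by
    ext x
    refine ⟨?_, fun hx => ?_⟩
    · rintro ⟨y, -, rfl⟩; exact (e.symm y).2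
    · obtain ⟨y, rfl⟩ := hr x hx; exact ⟨y, trivial, rfl⟩
  have h0 : IsSyl 2 ((uT n (ZMod 2)).map φ) N := hN ▸ (isSyl_uT (p := 2)).map φ
  have hA : ∀ U, IsSyl 2 U N → ∃ a, U = (cj(a, uT n (ZMod 2))).map φ := fun U hU => by
    obtain ⟨g, hg, e⟩ := h0.exists_cj_eq hU
    obtain ⟨y, rfl⟩ := hr g hg
    exact ⟨y, by rw [map_cj, e]⟩
  refine index_two hidx (fun U hU => ?_) (fun U V W hU hV hW h1 h2 => ?_) hS hT
  · obtain ⟨a, rfl⟩ := hA U hU
    rintro x ⟨hx, hx'⟩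
    obtain ⟨y, rfl⟩ := hr x hx
    refine ⟨y, mem_cj.2 (bT_two (normalizer_uT ?_)), rfl⟩
    have h3 : cj(y, cj(a, uT n (ZMod 2))) = cj(a, uT n (ZMod 2)) := by
      apply Subgroup.map_injective hφ
      rw [map_cj φ y]; exact cj_eq_iff.2 hx'
    rw [← cj_eq_iff, ← cj_cj, ← cj_cj, h3, cj_inv_cj]
  · obtain ⟨a, rfl⟩ := hA U hU
    obtain ⟨b, rfl⟩ := hA V hV
    obtain ⟨c, rfl⟩ := hA W hW
    rw [← map_inf _ _ _ hφ, map_eq_bot_iff_of_injective _ hφ] at h1 h2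
    obtain ⟨u, hu, e⟩ := opp_two (g := a⁻¹ * b) (h := a⁻¹ * c)
      (by rw [← cj_eq_bot_iff (g := a), cj_inf, cj_cj, mul_inv_cancel_left, h1])
      (by rw [← cj_eq_bot_iff (g := a), cj_inf, cj_cj, mul_inv_cancel_left, h2])
    refine ⟨φ (a * u * a⁻¹), ⟨_, conj_mem_cj hu, rfl⟩, ?_⟩
    rw [← map_cj]
    congr 1
    have := congrArg (fun K => cj(a, K)) e
    simp only [cj_cj] at this ⊢
    simpa [mul_assoc] using this

end H04.SylL
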