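import Mathlib
import Cfsg.Prelude.Def_Classical

/-! Two Sylow 2-subgroups of `O⁺(2m,2)` meet nontrivially. -/

set_option autoImplicit false
open Cfsg Matrix Pointwise

namespace H04.SylO

variable {F : Type*} [Field F] {m : ℕ}

/-- polar form of `quadFormPlus` -/
def Bp (u v : Fin m ⊕ Fin m → F) : F := ∑ i : Fin m, (u (.inl i) * v (.inr i) + u (.inr i) * v (.inl i))

theorem Q_add (u v : Fin m ⊕ Fin m → F) :
    quadFormPlus m F (u + v) = quadFormPlus m F u + quadFormPlus m F v + Bp u v := by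
  simp only [quadFormPlus, Bp, ← Finset.sum_add_distrib, Pi.add_apply]
  exact Finset.sum_congr rfl fun i _ => by ring

theorem Q_smul (c : F) (u : Fin m ⊕ Fin m → F) :
    quadFormPlus m F (c • u) = c * c * quadFormPlus m F u := by
  simp only [quadFormPlus, Finset.mul_sum, Pi.smul_apply, smul_eq_mul]
  exact Finset.sum_congr rfl fun i _ => by ring

theorem Bp_comm (u v : Fin m ⊕ Fin m → F) : Bp u v = Bp v u := by
  simp only [Bp]; exact Finset.sum_congr rfl fun i _ => by ring

theorem Bp_add (u v w : Fin m ⊕ Fin m → F) : Bp (u + v) w = Bp u w + Bp v w := by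
  simp only [Bp, ← Finset.sum_add_distrib, Pi.add_apply]
  exact Finset.sum_congr rfl fun i _ => by ring

theorem Bp_sub (u v w : Fin m ⊕ Fin m → F) : Bp (u - v) w = Bp u w - Bp v w := by
  simp only [Bp, ← Finset.sum_sub_distrib, Pi.sub_apply]
  exact Finset.sum_congr rfl fun i _ => by ring

theorem Bp_smul (c : F) (u w : Fin m ⊕ Fin m → F) : Bp (c • u) w = c * Bp u w := by
  simp only [Bp, Finset.mul_sum, Pi.smul_apply, smul_eq_mul]
  exact Finset.sum_congr rfl fun i _ => by ring

theorem Bp_self (u : Fin m ⊕ Fin m → F) : Bp u u = 2 * quadFormPlus m F u := by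
  simp only [Bp, quadFormPlus, Finset.mul_sum]
  exact Finset.sum_congr rfl fun i _ => by ring

theorem Bp_inl (u : Fin m ⊕ Fin m → F) (i : Fin m) : Bp u (Pi.single (.inl i) 1) = u (.inr i) := by
  simp only [Bp]
  rw [Finset.sum_eq_single i]
  · simp
  · intro j _ hj; simp [Pi.single_apply, hj]
  · simp

theorem Bp_inr (u : Fin m ⊕ Fin m → F) (i : Fin m) : Bp u (Pi.single (.inr i) 1) = u (.inl i) := by
  simp only [Bp]
  rw [Finset.sum_eq_single i]
  · simp
  · intro j _ hj; simp [Pi.single_apply, hj]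
  · simp

/-- `Bp` as a linear map in the first variable -/
def BL (w : Fin m ⊕ Fin m → F) : (Fin m ⊕ Fin m → F) →ₗ[F] F where
  toFun u := Bp u w
  map_add' u v := Bp_add u v w
  map_smul' c u := Bp_smul c u w

theorem exists_Bp {u : Fin m ⊕ Fin m → F} (hu : u ≠ 0) : ∃ x, Bp x u = 1 := by
  obtain ⟨k, hk⟩ := Function.ne_iff.1 hu
  rcases k with i | i
  · refine ⟨(u (.inl i))⁻¹ • Pi.single (.inr i) 1, ?_⟩
    rw [Bp_smul, Bp_comm, Bp_inr]; exact inv_mul_cancel₀ hk
  · refine ⟨(u (.inr i))⁻¹ • Pi.single (.inl i) 1, ?_⟩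
    rw [Bp_smul, Bp_comm, Bp_inl]; exact inv_mul_cancel₀ hk

abbrev GG (m : ℕ) (F : Type*) [Field F] := isometryGroup F (quadFormPlus m F)

/-- action on vectors -/
def act (g : GG m F) (v : Fin m ⊕ Fin m → F) : Fin m ⊕ Fin m → F := (g.1 : Matrix _ _ F) *ᵥ v

theorem act_mul (g h : GG m F) (v : Fin m ⊕ Fin m → F) : act (g * h) v = act g (act h v) := by
  simp [act]

theorem act_one (v : Fin m ⊕ Fin m → F) : act (1 : GG m F) v = v := by simp [act]

theorem act_add (g : GG m F) (u v : Fin m ⊕ Fin m → F) : act g (u + v) = act g u + act g v :=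
  Matrix.mulVec_add _ _ _

theorem act_sub (g : GG m F) (u v : Fin m ⊕ Fin m → F) : act g (u - v) = act g u - act g v :=
  Matrix.mulVec_sub _ _ _

theorem act_smul (g : GG m F) (c : F) (u : Fin m ⊕ Fin m → F) : act g (c • u) = c • act g u :=
  Matrix.mulVec_smul _ _ _

theorem Q_act (g : GG m F) (v : Fin m ⊕ Fin m → F) : quadFormPlus m F (act g v) = quadFormPlus m F v :=
  g.2 v v

theorem Bp_act (g : GG m F) (u v : Fin m ⊕ Fin m → F) : Bp (act g u) (act g v) = Bp u v := by
  have h := Q_act g (u + v)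
  rw [act_add, Q_add, Q_add, Q_act, Q_act] at h
  exact add_left_cancel h

theorem act_ext {g h : GG m F} (H : ∀ v, act g v = act h v) : g = h := by
  apply Subtype.ext; apply Units.ext
  ext i j
  have := congrFun (H (Pi.single j 1)) i
  simpa [act] using this

/-- build an isometry from an involutory linear map -/
theorem exists_iso (T : (Fin m ⊕ Fin m → F) →ₗ[F] (Fin m ⊕ Fin m → F)) (hT : ∀ v, T (T v) = v)
    (hQ : ∀ v, quadFormPlus m F (T v) = quadFormPlus m F v) : ∃ g : GG m F, ∀ v, act g v = T v := by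
  have hM : LinearMap.toMatrix' T * LinearMap.toMatrix' T = 1 := by
    rw [← LinearMap.toMatrix'_comp, ← LinearMap.toMatrix'_id]
    congr 1; exact LinearMap.ext hT
  refine ⟨⟨⟨LinearMap.toMatrix' T, LinearMap.toMatrix' T, hM, hM⟩, ?_⟩, ?_⟩
  · intro u v
    show quadFormPlus m F (LinearMap.toMatrix' T *ᵥ u) = _
    rw [LinearMap.toMatrix'_mulVec, hQ]
  · intro v
    show LinearMap.toMatrix' T *ᵥ v = _
    rw [LinearMap.toMatrix'_mulVec]

variable (h2 : (2 : F) = 0) (h01 : ∀ x : F, x = 0 ∨ x = 1)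
include h2 h01

/-- a non-trivial isometry fixing `2m - 2` given vectors -/
theorem exists_fix {ι : Type} [Fintype ι] (a : ι → (Fin m ⊕ Fin m → F)) (hι : Fintype.card ι + 2 ≤ 2 * m) :
    ∃ g : GG m F, g ≠ 1 ∧ ∀ i, act g (a i) = a i := by
  let L : (Fin m ⊕ Fin m → F) →ₗ[F] (ι → F) := LinearMap.pi fun i => BL (a i)
  have hk : 2 ≤ Module.finrank F (LinearMap.ker L) := by
    have h1 := LinearMap.finrank_range_add_finrank_ker L
    have h3 := Submodule.finrank_le (LinearMap.range L)
    simp only [Module.finrank_fintype_fun_eq_card, Fintype.card_sum, Fintype.card_fin] at h1 h3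
    omega
  have hX : ∀ v ∈ LinearMap.ker L, ∀ i, Bp (a i) v = 0 := by
    intro v hv i
    rw [Bp_comm]; exact congrFun (LinearMap.mem_ker.1 hv) i
  by_cases hn : ∃ v ∈ LinearMap.ker L, quadFormPlus m F v = 1
  · obtain ⟨v, hv, hQ⟩ := hn
    have hv0 : v ≠ 0 := by rintro rfl; simp [quadFormPlus] at hQ
    have hvv : Bp v v = 0 := by rw [Bp_self, h2, zero_mul]
    obtain ⟨g, hg⟩ := exists_iso (LinearMap.id + (BL v).smulRight v) (fun x => by
      show (x + Bp x v • v) + Bp (x + Bp x v • v) v • v = x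
      rw [Bp_add, Bp_smul, hvv, mul_zero, add_zero, add_assoc, ← add_smul, ← two_mul, h2, zero_mul,
        zero_smul, add_zero]) (fun x => by
      show quadFormPlus m F (x + Bp x v • v) = _
      rw [Q_add, Q_smul, hQ, Bp_comm x (_ • v), Bp_smul, Bp_comm v x]
      linear_combination (Bp x v * Bp x v) * h2)
    refine ⟨g, ?_, fun i => ?_⟩
    · rintro rfl
      obtain ⟨x, hx⟩ := exists_Bp hv0
      have := hg x
      rw [act_one] at this
      change x = x + Bp x v • v at this
      rw [hx, one_smul] at this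
      exact hv0 (by simpa using this)
    · rw [hg]
      show a i + Bp (a i) v • v = _
      rw [hX v hv, zero_smul, add_zero]
  · push Not at hn
    have hn0 : ∀ v ∈ LinearMap.ker L, quadFormPlus m F v = 0 := fun v hv =>
      (h01 _).resolve_right (hn v hv)
    obtain ⟨f, hf⟩ := exists_linearIndependent_of_le_finrank hk
    set u : Fin m ⊕ Fin m → F := (f 0).1
    set w : Fin m ⊕ Fin m → F := (f 1).1
    have hu : u ∈ LinearMap.ker L := (f 0).2
    have hw : w ∈ LinearMap.ker L := (f 1).2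
    have huw : Bp u w = 0 := by
      have := hn0 _ (add_mem hu hw)
      rw [Q_add, hn0 u hu, hn0 w hw] at this
      simpa using this
    have huu : Bp u u = 0 := by rw [Bp_self, h2, zero_mul]
    have hww : Bp w w = 0 := by rw [Bp_self, h2, zero_mul]
    obtain ⟨g, hg⟩ := exists_iso (LinearMap.id + (BL u).smulRight w + (BL w).smulRight u) (fun x => by
      show (x + Bp x u • w + Bp x w • u) + Bp (x + Bp x u • w + Bp x w • u) u • w
        + Bp (x + Bp x u • w + Bp x w • u) w • u = x
      simp only [Bp_add, Bp_smul, huu, hww, huw, Bp_comm w u, mul_zero, add_zero]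
      have : (2 : F) • (Bp x u • w + Bp x w • u) = 0 := by rw [h2, zero_smul]
      linear_combination (norm := module) this) (fun x => by
      show quadFormPlus m F (x + Bp x u • w + Bp x w • u) = _
      rw [Q_add, Q_add, Q_smul, Q_smul, hn0 u hu, hn0 w hw, Bp_add, Bp_comm x (_ • w), Bp_comm x (_ • u),
        Bp_smul, Bp_smul, Bp_smul, Bp_comm w (_ • u), Bp_smul, huw, Bp_comm w x, Bp_comm u x]
      linear_combination (Bp x u * Bp x w) * h2)
    refine ⟨g, ?_, fun i => ?_⟩
    · rintro rfl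
      have hu0 : u ≠ 0 := fun h => hf.ne_zero 0 (Subtype.ext h)
      obtain ⟨x, hx⟩ := exists_Bp hu0
      have := hg x
      rw [act_one] at this
      change x = x + Bp x u • w + Bp x w • u at this
      rw [hx, one_smul, add_assoc] at this
      have h3 : Bp x w • f 0 + (1 : F) • f 1 = 0 := by
        apply Subtype.ext
        show Bp x w • u + (1 : F) • w = 0
        rw [one_smul, add_comm]
        simpa using this
      have := (LinearIndependent.pair_iff.1 (by
        convert hf using 1; ext i; fin_cases i <;> rfl : LinearIndependent F ![f 0, f 1])) _ _ h3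
      exact one_ne_zero this.2
    · rw [hg]
      show a i + Bp (a i) u • w + Bp (a i) w • u = _
      rw [hX u hu, hX w hw, zero_smul, zero_smul, add_zero, add_zero]

/-- an isometry fixing `e_i` for `i ≠ 0` has order dividing 4 -/
theorem pow_four (o : Fin m) (g : GG m F)
    (hg : ∀ i, i ≠ o → act g (Pi.single (.inl i) 1) = Pi.single (.inl i) 1) : g ^ 4 = 1 := by
  classical
  -- N = g - 1
  have hA : ∀ v : Fin m ⊕ Fin m → F, (∀ i, v (.inr i) = 0) → v (.inl o) = 0 → act g v = v := by
    intro v h1 h0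
    have hv : v = ∑ i : Fin m, v (.inl i) • Pi.single (.inl i) (1 : F) := by
      ext k
      rcases k with j | j
      · simp [Finset.sum_apply, Pi.single_apply]
      · simp [Finset.sum_apply, Pi.single_apply, h1]
    have : act g v = ∑ i : Fin m, v (.inl i) • act g (Pi.single (.inl i) (1 : F)) := by
      conv_lhs => rw [hv]
      simp only [act, Matrix.mulVec_sum, Matrix.mulVec_smul]
    rw [this]
    conv_rhs => rw [hv]
    refine Finset.sum_congr rfl fun i _ => ?_
    by_cases hi : i = o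
    · subst hi; simp [h0]
    · rw [hg i hi]
  have hperp : ∀ v : Fin m ⊕ Fin m → F, ∀ i, i ≠ o → act g v (.inr i) = v (.inr i) := by
    intro v i hi
    rw [← Bp_inl (act g v), ← Bp_inl v, ← hg i hi, Bp_act, hg i hi]
  have hQp : ∀ v : Fin m ⊕ Fin m → F, (∀ i, i ≠ o → v (.inr i) = 0) →
      quadFormPlus m F v = v (.inl o) * v (.inr o) := by
    intro v hv
    simp only [quadFormPlus]
    rw [Finset.sum_eq_single o]
    · intro j _ hj; rw [hv j hj, mul_zero]
    · simp
  set n : Fin m ⊕ Fin m → F := Pi.single (.inl o) 1 + Pi.single (.inr o) 1 with hn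
  have hnp : ∀ i, i ≠ o → n (.inr i) = 0 := by intro i hi; simp [hn, hi]
  have hgn : act g n (.inl o) = 1 ∧ act g n (.inr o) = 1 := by
    have h1 := Q_act g n
    rw [hQp _ (fun i hi => by rw [hperp _ i hi, hnp i hi]), hQp n hnp] at h1
    have h3 : n (.inl o) * n (.inr o) = 1 := by simp [hn]
    rw [h3] at h1
    constructor
    · refine (h01 _).resolve_left fun h => ?_
      rw [h, zero_mul] at h1; exact zero_ne_one h1
    · refine (h01 _).resolve_left fun h => ?_
      rw [h, mul_zero] at h1; exact zero_ne_one h1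
  -- `g n - n ∈ A`
  have hdn : (∀ i, (act g n - n) (.inr i) = 0) ∧ (act g n - n) (.inl o) = 0 := by
    refine ⟨fun i => ?_, ?_⟩
    · by_cases hi : i = o
      · subst hi; rw [Pi.sub_apply, hgn.2]; simp [hn]
      · rw [Pi.sub_apply, hperp _ i hi, sub_self]
    · rw [Pi.sub_apply, hgn.1]; simp [hn]
  have hBA : ∀ v a : Fin m ⊕ Fin m → F, (∀ i, i ≠ o → v (.inr i) = 0) → (∀ i, a (.inr i) = 0) →
      a (.inl o) = 0 → Bp v a = 0 := by
    intro v a hv h1 h0
    simp only [Bp]
    refine Finset.sum_eq_zero fun i _ => ?_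
    by_cases hi : i = o
    · subst hi; simp [h1, h0]
    · simp [h1, hv i hi]
  have hBn : ∀ v : Fin m ⊕ Fin m → F, Bp v n = v (.inr o) + v (.inl o) := by
    intro v
    rw [hn, Bp_comm, Bp_add, Bp_comm, Bp_inl, Bp_comm, Bp_inr]
  -- step 2
  have s2 : ∀ v : Fin m ⊕ Fin m → F, (∀ i, i ≠ o → v (.inr i) = 0) →
      (act g v - v) (.inr o) + (act g v - v) (.inl o) = 0 := by
    intro v hv
    rw [← hBn, Bp_sub]
    have h1 : Bp (act g v) (act g n) = Bp v n := Bp_act g v n
    have h3 : Bp (act g v) (act g n - n) = 0 :=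
      hBA _ _ (fun i hi => by rw [hperp _ i hi, hv i hi]) hdn.1 hdn.2
    rw [Bp_comm, Bp_sub, Bp_comm, h1, Bp_comm n] at h3
    linear_combination -h3
  have s3 : ∀ v : Fin m ⊕ Fin m → F, (∀ i, i ≠ o → v (.inr i) = 0) → v (.inr o) + v (.inl o) = 0 →
      (∀ i, (act g v - v) (.inr i) = 0) ∧ (act g v - v) (.inl o) = 0 := by
    intro v hv h0
    have he : v (.inr o) = v (.inl o) := by linear_combination h0 - v (.inl o) * h2
    have ha : act g (v - v (.inl o) • n) = v - v (.inl o) • n := by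
      apply hA
      · intro i
        by_cases hi : i = o
        · subst hi; simp [hn, he]
        · simp [hn, hi, hv i hi]
      · simp [hn]
    have hd : act g v - v = v (.inl o) • (act g n - n) := by
      rw [act_sub, act_smul] at ha
      rw [smul_sub]
      linear_combination (exp := 1) ha
    rw [hd]
    exact ⟨fun i => by rw [Pi.smul_apply, hdn.1 i, smul_zero], by rw [Pi.smul_apply, hdn.2, smul_zero]⟩
  apply act_ext
  intro v
  obtain ⟨v1, h1⟩ : ∃ v1, v1 = act g v - v := ⟨_, rfl⟩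
  obtain ⟨v2, h2'⟩ : ∃ v2, v2 = act g v1 - v1 := ⟨_, rfl⟩
  obtain ⟨v3, h3⟩ : ∃ v3, v3 = act g v2 - v2 := ⟨_, rfl⟩
  have p1 : ∀ i, i ≠ o → v1 (.inr i) = 0 := fun i hi => by rw [h1, Pi.sub_apply, hperp _ i hi, sub_self]
  have p2 : ∀ i, i ≠ o → v2 (.inr i) = 0 := fun i hi => by rw [h2', Pi.sub_apply, hperp _ i hi, sub_self]
  have q3 := s3 v2 p2 (h2' ▸ s2 v1 p1)
  rw [← h3] at q3
  have q4 : act g v3 = v3 := hA v3 q3.1 q3.2
  have e1 : act g v = v + v1 := by rw [h1]; abel
  have e2 : act g v1 = v1 + v2 := by rw [h2']; abel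
  have e3 : act g v2 = v2 + v3 := by rw [h3]; abel
  rw [act_one, pow_succ, pow_succ, pow_two, act_mul, act_mul, act_mul]
  simp only [e1, act_add, e2, e3, q4]
  have : (2 : F) • ((2 : F) • v1 + (3 : F) • v2 + (2 : F) • v3) = 0 := by rw [h2, zero_smul]
  linear_combination (norm := module) this

theorem main [Finite F] (hm : 1 ≤ m) (H : Sylow 2 (GG m F)) (x : GG m F) :
    (H : Subgroup (GG m F)) ⊓ MulAut.conj x • (H : Subgroup (GG m F)) ≠ ⊥ := by
  classical
  let o : Fin m := ⟨0, hm⟩
  let C : Subgroup (GG m F) :=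
    { carrier := {g | ∀ i, i ≠ o → act g (Pi.single (.inl i) 1) = Pi.single (.inl i) 1}
      mul_mem' := fun {a b} ha hb i hi => by rw [act_mul, hb i hi, ha i hi]
      one_mem' := fun i _ => act_one _
      inv_mem' := fun {a} ha i hi => by
        conv_lhs => rw [← ha i hi]
        rw [← act_mul, inv_mul_cancel, act_one] }
  have hC : IsPGroup 2 C := fun g => ⟨2, Subtype.ext (pow_four h2 h01 o g.1 g.2)⟩
  obtain ⟨S, hS⟩ := hC.exists_le_sylow
  haveI : Fact (Nat.Prime 2) := ⟨Nat.prime_two⟩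
  obtain ⟨h, hh⟩ := MulAction.exists_smul_eq (GG m F) S H
  obtain ⟨t, ht, hf⟩ := exists_fix h2 h01 (ι := {i : Fin m // i ≠ o} ⊕ {i : Fin m // i ≠ o})
    (Sum.elim (fun i => act h (Pi.single (.inl i.1) 1)) (fun i => act (x * h) (Pi.single (.inl i.1) 1)))
    (by simp [Fintype.card_subtype_compl]; omega)
  have key : ∀ y : GG m F, (∀ i, i ≠ o → act t (act y (Pi.single (.inl i) 1)) = act y (Pi.single (.inl i) 1)) →
      y⁻¹ * t * y ∈ S := by
    intro y hy
    apply hS
    intro i hi
    rw [act_mul, act_mul, hy i hi, ← act_mul, inv_mul_cancel, act_one]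
  have hH : ∀ z, h⁻¹ * z * h ∈ S → z ∈ H := by
    intro z hz
    rw [← hh]
    show z ∈ ((h • S : Sylow 2 _) : Subgroup (GG m F))
    rw [Sylow.coe_subgroup_smul, Subgroup.mem_pointwise_smul_iff_inv_smul_mem]
    have hz' : h⁻¹ * z * h ∈ (S : Subgroup (GG m F)) := hz
    simpa using hz'
  intro hb
  apply ht
  rw [← Subgroup.mem_bot, ← hb]
  refine ⟨hH t (key h fun i hi => hf (.inl ⟨i, hi⟩)), ?_⟩
  show t ∈ MulAut.conj x • (H : Subgroup (GG m F))
  rw [Subgroup.mem_pointwise_smul_iff_inv_smul_mem]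
  have := key (x * h) fun i hi => hf (.inr ⟨i, hi⟩)
  apply hH
  simpa [mul_assoc] using this

end H04.SylO
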