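import Mathlib
import Cfsg.Prelude.Def_Transfer

/-! Thompson's lemma on an element of order three with one Jordan block of size three, part A:
weight frames for a normalized four-group and the decomposition `E = [E,R] ⊕ C_E(R)`. -/

namespace H04.TL

open Subgroup

variable {S : Type*} [Group S] {E : Type*} [AddCommGroup E] [Module (ZMod 3) E]

theorem three (v : E) : v + v + v = 0 := by
  have h : (3 : ZMod 3) • v = 0 := by rw [show (3 : ZMod 3) = 0 from rfl, zero_smul]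
  rw [show (3 : ZMod 3) = 1 + 1 + 1 from rfl, add_smul, add_smul, one_smul] at h
  exact h

theorem eq_zero_of_neg {v : E} (h : -v = v) : v = 0 := by
  have h3 := three v
  have h2 : v + v = 0 := by nth_rewrite 1 [← h]; exact neg_add_cancel v
  rwa [h2, zero_add] at h3

theorem zcases (a : ZMod 3) : a = 0 ∨ a = 1 ∨ a = -1 := by revert a; decide

/-- conjugation by `b`. -/
def cj (b x : S) : S := b * x * b⁻¹

theorem cj_mul (b x y : S) : cj b (x * y) = cj b x * cj b y := by simp only [cj]; group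
theorem cj_inv (b x : S) : cj b x⁻¹ = (cj b x)⁻¹ := by simp only [cj]; group
theorem cj_one (b : S) : cj b 1 = 1 := by simp [cj]
theorem cj_inj {b x y : S} (h : cj b x = cj b y) : x = y := by simpa [cj] using h
theorem cj3 {b : S} (h : b ^ 3 = 1) (x : S) : cj b (cj b (cj b x)) = x := by
  have : cj b (cj b (cj b x)) = b ^ 3 * x * (b ^ 3)⁻¹ := by
    simp only [cj, pow_three, mul_inv_rev, mul_assoc]
  rw [this, h]; group

theorem norm_comm {b : S} (h : b ^ 3 = 1) (x : S) :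
    (x⁻¹ * cj b x) * cj b (x⁻¹ * cj b x) * cj b (cj b (x⁻¹ * cj b x)) = 1 := by
  simp only [cj_mul, cj_inv, cj3 h]; group

variable (ρ : Representation (ZMod 3) S E)

theorem mul_ap (x y : S) (v : E) : ρ (x * y) v = ρ x (ρ y v) := by rw [map_mul]; rfl
theorem one_ap (v : E) : ρ 1 v = v := by rw [map_one]; rfl
theorem cj_ap (b x : S) (v : E) : ρ (cj b x) (ρ b v) = ρ b (ρ x v) := by
  rw [← mul_ap, ← mul_ap, cj, inv_mul_cancel_right]
theorem inv_ap (x : S) (v : E) : ρ x⁻¹ (ρ x v) = v := by rw [← mul_ap, inv_mul_cancel, one_ap]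
theorem ap_inv (x : S) (v : E) : ρ x (ρ x⁻¹ v) = v := by rw [← mul_ap, mul_inv_cancel, one_ap]
theorem ap_inj (x : S) {u v : E} (h : ρ x u = ρ x v) : u = v := by
  rw [← inv_ap ρ x u, h, inv_ap]

/-- standing hypotheses. -/
structure Hyp (b : S) : Prop where
  inj : Function.Injective ρ
  b3 : b ^ 3 = 1
  card : Nat.card (LinearMap.range (ρ b - 1)) ≤ 9

/-- `w` generates with its `b`-conjugate a four-group on which `b` acts without fixed points. -/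
structure V4 (b w : S) : Prop where
  ne : w ≠ 1
  sq : w * w = 1
  comm : w * cj b w = cj b w * w
  prod : w * cj b w * cj b (cj b w) = 1

/-- a weight frame. -/
structure Fr (b w : S) (e : E) : Prop where
  ne : e ≠ 0
  h0 : ρ w e = e
  h1 : ρ (cj b w) e = -e
  uniq : ∀ v, ρ w v = v → ρ (cj b w) v = -v → ∃ a : ZMod 3, v = a • e
  fix : ∀ u, ρ w u = u → ρ (cj b w) u = u → ρ b u = u
  D : ∀ v, ∃ a c : ZMod 3, ρ b v - v = a • (ρ b e - e) + c • (ρ b (ρ b e) - ρ b e)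

variable {ρ} {b w : S}

theorem Hyp.eq_one (h : Hyp ρ b) {g : S} (hg : ∀ v, ρ g v = v) : g = 1 :=
  h.inj (by rw [map_one]; ext v; exact hg v)

theorem Hyp.bbb (h : Hyp ρ b) (v : E) : ρ b (ρ b (ρ b v)) = v := by
  rw [← mul_ap, ← mul_ap, ← pow_three', h.b3, one_ap]

theorem V4.sq1 (hw : V4 b w) : cj b w * cj b w = 1 := by rw [← cj_mul, hw.sq, cj_one]

theorem V4.w2 (hw : V4 b w) : cj b (cj b w) = w * cj b w := by
  have h1 : (w * cj b w) * (w * cj b w) = 1 := by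
    calc _ = w * (cj b w * w) * cj b w := by group
      _ = (w * w) * (cj b w * cj b w) := by rw [← hw.comm]; group
      _ = 1 := by rw [hw.sq, hw.sq1, one_mul]
  exact mul_left_cancel (hw.prod.trans h1.symm)

theorem V4.ww (hw : V4 b w) (v : E) : ρ w (ρ w v) = v := by rw [← mul_ap, hw.sq, one_ap]
theorem V4.w1w1 (hw : V4 b w) (v : E) : ρ (cj b w) (ρ (cj b w) v) = v := by
  rw [← mul_ap, hw.sq1, one_ap]
theorem V4.sw (hw : V4 b w) (v : E) : ρ (cj b w) (ρ w v) = ρ w (ρ (cj b w) v) := by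
  rw [← mul_ap, ← hw.comm, mul_ap]

/-- `w` on `b v` is computed by the third involution. -/
theorem V4.wb (hw : V4 b w) (h : Hyp ρ b) (v : E) : ρ w (ρ b v) = ρ b (ρ w (ρ (cj b w) v)) := by
  rw [← mul_ap ρ w (cj b w), ← hw.w2, ← cj_ap ρ b (cj b (cj b w)), cj3 h.b3]

/-- the weight decomposition. -/
theorem V4.dec (hw : V4 b w) (v : E) : ∃ v0 v1 v2 v3 : E, v = v0 + v1 + v2 + v3 ∧
    (ρ w v0 = v0 ∧ ρ (cj b w) v0 = -v0) ∧ (ρ w v1 = -v1 ∧ ρ (cj b w) v1 = v1) ∧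
    (ρ w v2 = -v2 ∧ ρ (cj b w) v2 = -v2) ∧ (ρ w v3 = v3 ∧ ρ (cj b w) v3 = v3) ∧
    ∀ N : Submodule (ZMod 3) E, (∀ u ∈ N, ρ w u ∈ N) → (∀ u ∈ N, ρ (cj b w) u ∈ N) → v ∈ N →
      v0 ∈ N ∧ v1 ∈ N ∧ v2 ∈ N ∧ v3 ∈ N := by
  refine ⟨v + ρ w v - ρ (cj b w) v - ρ w (ρ (cj b w) v), v - ρ w v + ρ (cj b w) v - ρ w (ρ (cj b w) v),
    v - ρ w v - ρ (cj b w) v + ρ w (ρ (cj b w) v), v + ρ w v + ρ (cj b w) v + ρ w (ρ (cj b w) v),
    ?_, ?_, ?_, ?_, ?_, fun N h0 h1 hv => ?_⟩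
  · have := three v
    calc v = v + (v + v + v) := by rw [this, add_zero]
      _ = _ := by abel
  any_goals (simp only [map_add, map_sub, hw.ww, hw.w1w1, hw.sw]; constructor <;> abel)
  have a := h0 v hv
  have c := h1 v hv
  have d := h0 _ c
  exact ⟨N.sub_mem (N.sub_mem (N.add_mem hv a) c) d, N.sub_mem (N.add_mem (N.sub_mem hv a) c) d,
    N.add_mem (N.sub_mem (N.sub_mem hv a) c) d, N.add_mem (N.add_mem (N.add_mem hv a) c) d⟩

/-- independence of weight vectors. -/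
theorem indep {x y : S} {v0 v1 v2 v3 : E} (h : v0 + v1 + v2 + v3 = 0)
    (h0 : ρ x v0 = v0 ∧ ρ y v0 = -v0) (h1 : ρ x v1 = -v1 ∧ ρ y v1 = v1)
    (h2 : ρ x v2 = -v2 ∧ ρ y v2 = -v2) (h3 : ρ x v3 = v3 ∧ ρ y v3 = v3) :
    v0 = 0 ∧ v1 = 0 ∧ v2 = 0 ∧ v3 = 0 := by
  have a := congrArg (ρ x) h
  have c := congrArg (ρ y) h
  simp only [map_add, map_zero, h0.1, h0.2, h1.1, h1.2, h2.1, h2.2, h3.1, h3.2] at a c
  have d := congrArg (ρ x) c
  simp only [map_add, map_neg, map_zero, h0.1, h1.1, h2.1, h3.1, neg_neg] at d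
  refine ⟨?_, ?_, ?_, ?_⟩
  · have : v0 = (v0 + v1 + v2 + v3) + (v0 + -v1 + -v2 + v3) - (-v0 + v1 + -v2 + v3) - (-v0 + -v1 + v2 + v3)
      - (v0 + v0 + v0) := by abel
    rw [this, h, a, c, d, three v0]; simp
  · have : v1 = (v0 + v1 + v2 + v3) - (v0 + -v1 + -v2 + v3) + (-v0 + v1 + -v2 + v3) - (-v0 + -v1 + v2 + v3)
      - (v1 + v1 + v1) := by abel
    rw [this, h, a, c, d, three v1]; simp
  · have : v2 = (v0 + v1 + v2 + v3) - (v0 + -v1 + -v2 + v3) - (-v0 + v1 + -v2 + v3) + (-v0 + -v1 + v2 + v3)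
      - (v2 + v2 + v2) := by abel
    rw [this, h, a, c, d, three v2]; simp
  · have : v3 = (v0 + v1 + v2 + v3) + (v0 + -v1 + -v2 + v3) + (-v0 + v1 + -v2 + v3) + (-v0 + -v1 + v2 + v3)
      - (v3 + v3 + v3) := by abel
    rw [this, h, a, c, d, three v3]; simp

theorem V4.s01 (hw : V4 b w) (h : Hyp ρ b) {v : E} (hv : ρ w v = v ∧ ρ (cj b w) v = -v) :
    ρ w (ρ b v) = -ρ b v ∧ ρ (cj b w) (ρ b v) = ρ b v := by
  rw [hw.wb h, cj_ap, hv.2, map_neg, hv.1, map_neg]; exact ⟨rfl, rfl⟩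

theorem V4.s12 (hw : V4 b w) (h : Hyp ρ b) {v : E} (hv : ρ w v = -v ∧ ρ (cj b w) v = v) :
    ρ w (ρ b v) = -ρ b v ∧ ρ (cj b w) (ρ b v) = -ρ b v := by
  rw [hw.wb h, cj_ap, hv.2, hv.1, map_neg]; exact ⟨rfl, rfl⟩

theorem V4.s20 (hw : V4 b w) (h : Hyp ρ b) {v : E} (hv : ρ w v = -v ∧ ρ (cj b w) v = -v) :
    ρ w (ρ b v) = ρ b v ∧ ρ (cj b w) (ρ b v) = -ρ b v := by
  rw [hw.wb h, cj_ap, hv.2, map_neg, hv.1, neg_neg, map_neg]; exact ⟨rfl, rfl⟩

theorem V4.s33 (hw : V4 b w) (h : Hyp ρ b) {v : E} (hv : ρ w v = v ∧ ρ (cj b w) v = v) :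
    ρ w (ρ b v) = ρ b v ∧ ρ (cj b w) (ρ b v) = ρ b v := by
  rw [hw.wb h, cj_ap, hv.2, hv.1]; exact ⟨rfl, rfl⟩

theorem V4.frame [Finite E] (hw : V4 b w) (h : Hyp ρ b) : ∃ e, Fr ρ b w e := by
  classical
  let T : Set E := {v | ρ w v = v ∧ ρ (cj b w) v = -v}
  obtain ⟨e, he, hne⟩ : ∃ e ∈ T, e ≠ 0 := by
    by_contra hcon
    push Not at hcon
    refine hw.ne (h.eq_one fun v => ?_)
    obtain ⟨v0, v1, v2, v3, rfl, h0, h1, h2, h3, -⟩ := hw.dec (ρ := ρ) v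
    have a2 : v2 = 0 := ap_inj ρ b (by rw [hcon _ (hw.s20 h h2), map_zero])
    have a1 : v1 = 0 := ap_inj ρ b (ap_inj ρ b (by rw [hcon _ (hw.s20 h (hw.s12 h h1)), map_zero, map_zero]))
    rw [a1, a2, add_zero, add_zero, map_add, h0.1, h3.1]
  let f : T × T → LinearMap.range (ρ b - 1) := fun p => ⟨_, ⟨p.1 + ρ b p.2, rfl⟩⟩
  have hf : Function.Injective f := by
    rintro ⟨⟨u, hu⟩, ⟨v, hv⟩⟩ ⟨⟨u', hu'⟩, ⟨v', hv'⟩⟩ huv
    have h1 := congrArg Subtype.val huv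
    simp only [f, LinearMap.sub_apply, Module.End.one_apply, map_add] at h1
    have hu2 : ρ w (u' - u) = u' - u ∧ ρ (cj b w) (u' - u) = -(u' - u) := by
      rw [map_sub, map_sub, hu.1, hu.2, hu'.1, hu'.2]; constructor <;> abel
    have hv2 : ρ w (v - v') = v - v' ∧ ρ (cj b w) (v - v') = -(v - v') := by
      rw [map_sub, map_sub, hv.1, hv.2, hv'.1, hv'.2]; constructor <;> abel
    have h5 : ρ w (-(u' - u) - (v - v')) = -(u' - u) - (v - v') ∧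
        ρ (cj b w) (-(u' - u) - (v - v')) = -(-(u' - u) - (v - v')) := by
      rw [map_sub (ρ w), map_sub (ρ (cj b w)), map_neg, map_neg, hu2.1, hu2.2, hv2.1, hv2.2]; constructor <;> abel
    have := indep (v3 := 0) (v0 := u' - u) (v1 := ρ b (-(u' - u) - (v - v'))) (v2 := ρ b (ρ b (v - v')))
      (by simp only [map_sub, map_neg]; rw [← sub_eq_zero] at h1; refine Eq.trans ?_ h1; abel)
      hu2 (hw.s01 h h5) (hw.s12 h (hw.s01 h hv2)) (by simp)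
    have a1 : u' = u := sub_eq_zero.mp this.1
    have a2 : v = v' := sub_eq_zero.mp (ap_inj ρ b (ap_inj ρ b (by rw [this.2.2.1, map_zero, map_zero])))
    subst a1 a2; rfl
  let g : ZMod 3 → T := fun a => ⟨a • e, by
    constructor
    · rw [map_smul, he.1]
    · rw [map_smul, he.2, smul_neg]⟩
  have hg : Function.Injective g := fun a c hac => smul_left_injective (ZMod 3) hne (congrArg Subtype.val hac)
  have c1 := Nat.card_le_card_of_injective f hf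
  have c2 := Nat.card_le_card_of_injective g hg
  have c3 := h.card
  rw [Nat.card_prod] at c1
  rw [Nat.card_zmod] at c2
  have c4 : Nat.card T = 3 := by nlinarith
  have hg' : Function.Surjective g :=
    ((Nat.bijective_iff_injective_and_card g).mpr ⟨hg, by rw [Nat.card_zmod, c4]⟩).2
  have hf' : Function.Surjective f :=
    ((Nat.bijective_iff_injective_and_card f).mpr ⟨hf, by rw [Nat.card_prod]; rw [c4] at c1 ⊢; omega⟩).2
  have hD : ∀ v, ∃ a c : ZMod 3, ρ b v - v = a • (ρ b e - e) + c • (ρ b (ρ b e) - ρ b e) := fun v => by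
    obtain ⟨⟨u1, u2⟩, hu⟩ := hf' ⟨_, ⟨v, rfl⟩⟩
    obtain ⟨a, rfl⟩ := hg' u1
    obtain ⟨c, rfl⟩ := hg' u2
    refine ⟨a, c, ?_⟩
    have h1 := congrArg Subtype.val hu
    simp only [f, g, LinearMap.sub_apply, Module.End.one_apply, map_add, map_smul] at h1
    rw [← h1, smul_sub, smul_sub]
  refine ⟨e, hne, he.1, he.2, fun v h0 h1 => ?_, fun u h0 h1 => ?_, hD⟩
  · obtain ⟨a, ha⟩ := hg' ⟨v, h0, h1⟩
    exact ⟨a, (congrArg Subtype.val ha).symm⟩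
  · obtain ⟨a, c, hac⟩ := hD u
    have h3 := hw.s33 h ⟨h0, h1⟩
    have e1 := hw.s01 h he
    have e2 := hw.s12 h e1
    have := indep (x := w) (y := cj b w) (ρ := ρ) (v0 := -(a • e)) (v1 := (a - c) • ρ b e) (v2 := c • ρ b (ρ b e))
      (v3 := -(ρ b u - u)) (by rw [hac, smul_sub, smul_sub, sub_smul]; abel)
      (by simp only [map_neg, map_smul, he.1, he.2, smul_neg, and_self])
      (by simp only [map_neg, map_smul, e1.1, e1.2, smul_neg, and_self])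
      (by simp only [map_neg, map_smul, e2.1, e2.2, smul_neg, and_self])
      (by simp only [map_neg, map_sub, h3.1, h3.2, h0, h1, and_self])
    exact sub_eq_zero.mp (neg_eq_zero.mp this.2.2.2)

/-- hypotheses on `R = [R,b]`. -/
structure RH (b : S) (R : Subgroup S) : Prop where
  nb : ∀ r ∈ R, cj b r ∈ R
  cop : ¬ 3 ∣ Nat.card R
  gen : ∀ H : Subgroup S, (∀ r ∈ R, r⁻¹ * cj b r ∈ H) → R ≤ H

variable (ρ) in
/-- `[E,R]`. -/
def F0 (R : Subgroup S) : Submodule (ZMod 3) E := Submodule.span (ZMod 3) {x | ∃ r ∈ R, ∃ v, x = ρ r v - v}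

variable (ρ) in
/-- `C_E(R)`. -/
def F1 (R : Subgroup S) : Submodule (ZMod 3) E where
  carrier := {v | ∀ r ∈ R, ρ r v = v}
  add_mem' ha hb r hr := by rw [map_add, ha r hr, hb r hr]
  zero_mem' r _ := map_zero _
  smul_mem' c x hx r hr := by rw [map_smul, hx r hr]

variable {R : Subgroup S}

theorem mem_F0 {r : S} (hr : r ∈ R) (v : E) : ρ r v - v ∈ F0 ρ R := Submodule.subset_span ⟨r, hr, v, rfl⟩

theorem F0_le {N : Submodule (ZMod 3) E} (h : ∀ r ∈ R, ∀ v, ρ r v - v ∈ N) : F0 ρ R ≤ N :=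
  Submodule.span_le.mpr (by rintro _ ⟨r, hr, v, rfl⟩; exact h r hr v)

theorem F0_R {r : S} (hr : r ∈ R) {v : E} (hv : v ∈ F0 ρ R) : ρ r v ∈ F0 ρ R := by
  have := (F0 ρ R).add_mem (mem_F0 hr v) hv
  rwa [sub_add_cancel] at this

theorem RH.F0_b (hR : RH b R) {v : E} (hv : v ∈ F0 ρ R) : ρ b v ∈ F0 ρ R := by
  have : F0 ρ R ≤ (F0 ρ R).comap (ρ b) := F0_le fun r hr v => by
    rw [Submodule.mem_comap, map_sub, ← cj_ap]; exact mem_F0 (hR.nb r hr) _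
  exact this hv

theorem exists_proj [Finite S] (hR : ¬ 3 ∣ Nat.card R) : ∃ π : E →ₗ[ZMod 3] E, (∀ v, π v ∈ F1 ρ R) ∧
    (∀ v, v - π v ∈ F0 ρ R) ∧ (∀ v ∈ F0 ρ R, π v = 0) ∧ ∀ v ∈ F1 ρ R, π v = v := by
  classical
  have := Fintype.ofFinite R
  have hn : (Nat.card R : ZMod 3) ≠ 0 := by rwa [Ne, ZMod.natCast_eq_zero_iff]
  have hc : ∀ v : E, ((Nat.card R : ZMod 3)⁻¹ • ∑ _r : R, v) = v := fun v => by
    rw [Finset.sum_const, Finset.card_univ, ← Nat.card_eq_fintype_card, ← Nat.cast_smul_eq_nsmul (ZMod 3),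
      smul_smul, inv_mul_cancel₀ hn, one_smul]
  refine ⟨(Nat.card R : ZMod 3)⁻¹ • ∑ r : R, ρ r, fun v s hs => ?_, fun v => ?_, ?_, fun v hv => ?_⟩
  · simp only [LinearMap.smul_apply, LinearMap.sum_apply, map_smul, map_sum]
    congr 1
    exact Fintype.sum_equiv (Equiv.mulLeft ⟨s, hs⟩) _ _ fun r => by simp [mul_ap]
  · simp only [LinearMap.smul_apply, LinearMap.sum_apply]
    nth_rewrite 1 [← hc v]
    rw [← smul_sub, ← Finset.sum_sub_distrib]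
    refine Submodule.smul_mem _ _ (Submodule.sum_mem _ fun r _ => ?_)
    rw [← neg_sub]; exact Submodule.neg_mem _ (mem_F0 r.2 v)
  · refine F0_le (N := LinearMap.ker _) fun s hs v => ?_
    rw [LinearMap.mem_ker, map_sub, sub_eq_zero]
    simp only [LinearMap.smul_apply, LinearMap.sum_apply]
    congr 1
    exact Fintype.sum_equiv (Equiv.mulRight ⟨s, hs⟩) _ _ fun r => by simp [mul_ap]
  · simp only [LinearMap.smul_apply, LinearMap.sum_apply]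
    rw [Finset.sum_congr rfl fun (r : R) _ => hv r r.2, hc]

theorem F_disj [Finite S] (hR : ¬ 3 ∣ Nat.card R) {v : E} (h0 : v ∈ F0 ρ R) (h1 : v ∈ F1 ρ R) : v = 0 := by
  obtain ⟨π, -, -, a, c⟩ := exists_proj (ρ := ρ) hR
  rw [← c v h1, a v h0]

theorem F_dec [Finite S] (hR : ¬ 3 ∣ Nat.card R) (v : E) : ∃ x ∈ F0 ρ R, ∃ u ∈ F1 ρ R, v = x + u := by
  obtain ⟨π, a, c, -, -⟩ := exists_proj (ρ := ρ) hR
  exact ⟨_, c v, _, a v, (sub_add_cancel _ _).symm⟩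

theorem Hyp.eq_one_F0 [Finite S] (h : Hyp ρ b) (hR : ¬ 3 ∣ Nat.card R) {r : S} (hr : r ∈ R)
    (h0 : ∀ v ∈ F0 ρ R, ρ r v = v) : r = 1 := h.eq_one fun v => by
  obtain ⟨x, hx, u, hu, rfl⟩ := F_dec (ρ := ρ) hR v
  rw [map_add, h0 x hx, hu r hr]

variable (ρ) in
/-- elements acting trivially on `E / N`. -/
def trivQ (N : Submodule (ZMod 3) E) : Subgroup S where
  carrier := {g | ∀ v, ρ g v - v ∈ N}
  one_mem' v := by rw [one_ap, sub_self]; exact N.zero_mem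
  mul_mem' {g h} hg hh v := by
    have := N.add_mem (hg (ρ h v)) (hh v)
    rwa [sub_add_sub_cancel, ← mul_ap] at this
  inv_mem' {g} hg v := by
    have := N.neg_mem (hg (ρ g⁻¹ v))
    rwa [ap_inv, neg_sub] at this

variable (ρ) in
/-- elements acting trivially on `N`. -/
def trivS (N : Submodule (ZMod 3) E) : Subgroup S where
  carrier := {g | ∀ v ∈ N, ρ g v = v}
  one_mem' v _ := one_ap ρ v
  mul_mem' {g h} hg hh v hv := by rw [mul_ap, hh v hv, hg v hv]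
  inv_mem' {g} hg v hv := by nth_rewrite 1 [← hg v hv]; rw [inv_ap]

theorem RH.kl (hR : RH b R) {N : Submodule (ZMod 3) E} (hN : ∀ r ∈ R, ∀ v ∈ N, ρ r v ∈ N)
    (hb : ∀ v, ρ b v - v ∈ N) : F0 ρ R ≤ N := by
  refine F0_le fun r hr => hR.gen (trivQ ρ N) (fun r hr => ?_) hr
  rw [cj, show r⁻¹ * (b * r * b⁻¹) = (r⁻¹ * b * r) * b⁻¹ by group]
  refine mul_mem (fun v => ?_) (inv_mem hb)
  have := hN _ (inv_mem hr) _ (hb (ρ r v))
  rwa [map_sub, inv_ap, ← mul_ap, ← mul_ap] at this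

theorem RH.kl' (hR : RH b R) {N : Submodule (ZMod 3) E} (hN : ∀ r ∈ R, ∀ v ∈ N, ρ r v ∈ N)
    (hb : ∀ v ∈ N, ρ b v = v) : N ≤ F1 ρ R := by
  refine fun v hv r hr => hR.gen (trivS ρ N) (fun r hr => ?_) hr v hv
  rw [cj, show r⁻¹ * (b * r * b⁻¹) = (r⁻¹ * b * r) * b⁻¹ by group]
  refine mul_mem (fun v hv => ?_) (inv_mem hb)
  rw [mul_ap, mul_ap, hb _ (hN r hr v hv), inv_ap]

variable {e : E}

theorem Fr.uniq1 (f : Fr ρ b w e) (hw : V4 b w) (h : Hyp ρ b) {v : E} (hv : ρ w v = -v ∧ ρ (cj b w) v = v) :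
    ∃ a : ZMod 3, v = a • ρ b e := by
  have := hw.s20 h (hw.s12 h hv)
  obtain ⟨a, ha⟩ := f.uniq _ this.1 this.2
  exact ⟨a, by rw [← map_smul, ← ha, h.bbb]⟩

theorem Fr.uniq2 (f : Fr ρ b w e) (hw : V4 b w) (h : Hyp ρ b) {v : E} (hv : ρ w v = -v ∧ ρ (cj b w) v = -v) :
    ∃ a : ZMod 3, v = a • ρ b (ρ b e) := by
  have := hw.s20 h hv
  obtain ⟨a, ha⟩ := f.uniq _ this.1 this.2
  exact ⟨a, by rw [← map_smul, ← map_smul, ← ha, h.bbb]⟩

theorem Fr.dec (f : Fr ρ b w e) (hw : V4 b w) (h : Hyp ρ b) (v : E) : ∃ a0 a1 a2 : ZMod 3, ∃ u,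
    v = a0 • e + a1 • ρ b e + a2 • ρ b (ρ b e) + u ∧ ρ w u = u ∧ ρ (cj b w) u = u := by
  obtain ⟨v0, v1, v2, v3, rfl, h0, h1, h2, h3, -⟩ := hw.dec (ρ := ρ) v
  obtain ⟨a0, rfl⟩ := f.uniq _ h0.1 h0.2
  obtain ⟨a1, rfl⟩ := f.uniq1 hw h h1
  obtain ⟨a2, rfl⟩ := f.uniq2 hw h h2
  exact ⟨a0, a1, a2, v3, rfl, h3⟩

theorem Fr.D_le (f : Fr ρ b w e) {N : Submodule (ZMod 3) E} (hN : ∀ v ∈ N, ρ b v ∈ N) (he : e ∈ N) (v : E) :
    ρ b v - v ∈ N := by
  obtain ⟨a, c, hac⟩ := f.D v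
  rw [hac]
  exact N.add_mem (N.smul_mem _ (N.sub_mem (hN _ he) he)) (N.smul_mem _ (N.sub_mem (hN _ (hN _ he)) (hN _ he)))

theorem Fr.mem0 (f : Fr ρ b w e) (hR : RH b R) (hwR : w ∈ R) : e ∈ F0 ρ R := by
  have := mem_F0 (ρ := ρ) (hR.nb w hwR) e
  rw [f.h1, show -e - e = e - (e + e + e) by abel, three, sub_zero] at this
  exact this

theorem Fr.be_ne (f : Fr ρ b w e) (hw : V4 b w) (h : Hyp ρ b) : ρ b e ≠ e := fun he => by
  have := (hw.s01 h ⟨f.h0, f.h1⟩).1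
  rw [he, f.h0] at this
  exact f.ne (eq_zero_of_neg this.symm)

theorem mem_of_smul {N : Submodule (ZMod 3) E} {a : ZMod 3} {v : E} (h : a • v ∈ N) (ha : a • v ≠ 0) : v ∈ N :=
  (N.smul_mem_iff (fun h0 => ha (by rw [h0, zero_smul]))).mp h

theorem RH.irr [Finite S] [Finite E] (hR : RH b R) (h : Hyp ρ b) (hw : V4 b w) (hwR : w ∈ R)
    {N : Submodule (ZMod 3) E} (hle : N ≤ F0 ρ R) (hN : ∀ r ∈ R, ∀ v ∈ N, ρ r v ∈ N)
    (hb : ∀ v ∈ N, ρ b v ∈ N) : N = ⊥ ∨ N = F0 ρ R := by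
  obtain ⟨e, f⟩ := hw.frame h
  by_cases he : e ∈ N
  · exact Or.inr (hle.antisymm (hR.kl hN (f.D_le hb he)))
  refine Or.inl (eq_bot_iff.mpr fun v hv => F_disj hR.cop (hle hv) (hR.kl' hN (fun v hv => ?_) hv))
  obtain ⟨v0, v1, v2, v3, rfl, h0, h1, h2, h3, hm⟩ := hw.dec (ρ := ρ) v
  obtain ⟨m0, m1, m2, -⟩ := hm N (hN w hwR) (hN _ (hR.nb w hwR)) hv
  obtain ⟨a0, rfl⟩ := f.uniq _ h0.1 h0.2
  obtain ⟨a1, rfl⟩ := f.uniq1 hw h h1
  obtain ⟨a2, rfl⟩ := f.uniq2 hw h h2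
  have z0 : a0 • e = 0 := by_contra fun hc => he (mem_of_smul m0 hc)
  have z1 : a1 • ρ b e = 0 := by_contra fun hc => he (h.bbb e ▸ hb _ (hb _ (mem_of_smul m1 hc)))
  have z2 : a2 • ρ b (ρ b e) = 0 := by_contra fun hc => he (h.bbb e ▸ hb _ (mem_of_smul m2 hc))
  rw [z0, z1, z2, zero_add, zero_add, zero_add]
  exact f.fix _ h3.1 h3.2

theorem RH.faith [Finite S] [Finite E] (hR : RH b R) (h : Hyp ρ b) (hw : V4 b w) (hwR : w ∈ R)
    {r β : S} (hr : r ∈ R) (hβ : β ∈ zpowers b) (hg : ∀ v ∈ F0 ρ R, ρ (r * β) v = v) : r * β = 1 := by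
  obtain ⟨e, f⟩ := hw.frame h
  have hnb : ∀ n : ℕ, ∀ x ∈ R, b ^ n * x * (b ^ n)⁻¹ ∈ R := fun n => by
    induction n with
    | zero => simp
    | succ n ih =>
      intro x hx
      have := hR.nb _ (ih x hx)
      rwa [cj, show b * (b ^ n * x * (b ^ n)⁻¹) * b⁻¹ = b ^ (n + 1) * x * (b ^ (n + 1))⁻¹ by group] at this
  obtain ⟨n, rfl⟩ := (mem_powers_iff_mem_zpowers.mpr hβ)
  simp only at hg ⊢
  have hg' : r * b ^ n ∈ trivS ρ (F0 ρ R) := hg
  have hc : r * b ^ n * r = r * (r * b ^ n) := by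
    have h1 : (r * b ^ n) * r * (r * b ^ n)⁻¹ * r⁻¹ = 1 := by
      refine h.eq_one_F0 hR.cop ?_ fun v hv => ?_
      · rw [show (r * b ^ n) * r * (r * b ^ n)⁻¹ * r⁻¹ = r * (b ^ n * r * (b ^ n)⁻¹) * r⁻¹ * r⁻¹ by group]
        exact mul_mem (mul_mem (mul_mem hr (hnb n r hr)) (inv_mem hr)) (inv_mem hr)
      · rw [mul_ap, mul_ap, mul_ap, inv_mem hg' _ (F0_R (inv_mem hr) hv), ap_inv, hg v hv]
    calc _ = ((r * b ^ n) * r * (r * b ^ n)⁻¹ * r⁻¹) * (r * (r * b ^ n)) := by group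
      _ = _ := by rw [h1, one_mul]
  have hc' : Commute r (b ^ n) := by
    have : r * (b ^ n * r) = r * (r * b ^ n) := by rw [← hc, mul_assoc]
    exact (mul_left_cancel this).symm
  have h2 : (b ^ n) ^ Nat.card R ∈ trivS ρ (F0 ρ R) := by
    have := pow_mem hg' (Nat.card R)
    rwa [hc'.mul_pow, show r ^ Nat.card R = 1 from
      congrArg Subtype.val (pow_card_eq_one' (x := (⟨r, hr⟩ : R))), one_mul] at this
  by_cases h3 : 3 ∣ n
  · obtain ⟨k, rfl⟩ := h3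
    rw [pow_mul, h.b3, one_pow, mul_one] at hg ⊢
    exact h.eq_one_F0 hR.cop hr hg
  exfalso
  have h4 : ¬ 3 ∣ n * Nat.card R := fun hd => ((Nat.Prime.dvd_mul Nat.prime_three).mp hd).elim h3 hR.cop
  rw [← pow_mul] at h2
  generalize n * Nat.card R = m at h2 h4
  have h5 : b ∈ trivS ρ (F0 ρ R) := by
    have := mul_mem h2 h2
    have h6 := mul_mem this this
    obtain ⟨k, rfl | rfl⟩ : ∃ k, m = 3 * k + 1 ∨ m = 3 * k + 2 := ⟨m / 3, by omega⟩
    · rwa [pow_add, pow_mul, h.b3, one_pow, one_mul, pow_one] at h2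
    · rwa [pow_add, pow_mul, h.b3, one_pow, one_mul, ← pow_add, show 2 + 2 = 3 + 1 from rfl, pow_add, h.b3,
        one_mul, pow_one] at this
  exact f.be_ne hw h (h5 e (f.mem0 hR hwR))

end H04.TL
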