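import Mathlib
import Cfsg.Agent.H04.TLa
import Cfsg.Agent.H02.Fitting
import Cfsg.Agent.H01.Coprime
import Cfsg.Agent.H02.MinNormal

/-! Thompson's lemma, part B: `[O_{3'}(S), b]` is a 2-group. -/

namespace H04.TL

open Subgroup Cfsg

variable {S : Type*} [Group S] {E : Type*} [AddCommGroup E] [Module (ZMod 3) E]
variable {ρ : Representation (ZMod 3) S E} {b w : S} {e : E}

theorem eq_one_of_cube [Finite S] {L : Subgroup S} (hL : ¬ 3 ∣ Nat.card L) {g : S} (hg : g ∈ L) (h3 : g ^ 3 = 1) :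
    g = 1 := by
  have h1 := orderOf_dvd_of_pow_eq_one h3
  rcases (Nat.dvd_prime Nat.prime_three).mp h1 with h2 | h2
  · exact orderOf_eq_one_iff.mp h2
  · exact absurd (h2 ▸ L.orderOf_dvd_natCard hg) hL

theorem Hyp.card_dvd [Finite S] [Finite E] (h : Hyp ρ b) {L : Subgroup S} (hL : ¬ 3 ∣ Nat.card L)
    {W : Submodule (ZMod 3) E} (hW : L ≤ trivQ ρ W) :
    ∃ d, Nat.card W = 3 ^ d ∧ Nat.card L ∣ ∏ i : Fin d, (3 ^ d - 3 ^ (i : ℕ)) := by
  have hm : ∀ g : L, ∀ v ∈ W, ρ g v ∈ W := fun g v hv => by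
    have := W.add_mem (hW g.2 v) hv
    rwa [sub_add_cancel] at this
  let ψ : L →* Module.End (ZMod 3) W :=
    { toFun := fun g => (ρ g).restrict (hm g)
      map_one' := by ext v; simp
      map_mul' := fun g k => by ext v; simp }
  let bas := Module.finBasis (ZMod 3) W
  let φ := ((LinearMap.toMatrixAlgEquiv bas).toMulEquiv.toMonoidHom.comp ψ).toHomUnits
  have hφ : Function.Injective φ := by
    refine (injective_iff_map_eq_one φ).mpr fun g hg => ?_
    have h1 : ψ g = 1 := (LinearMap.toMatrixAlgEquiv bas).injective (by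
      rw [map_one]; exact congrArg Units.val hg)
    have h2 : ∀ v ∈ W, ρ g v = v := fun v hv => congrArg Subtype.val (LinearMap.congr_fun h1 ⟨v, hv⟩)
    refine Subtype.ext (eq_one_of_cube hL g.2 (h.eq_one fun v => ?_))
    have h3 := h2 _ (hW g.2 v)
    obtain ⟨d, hd⟩ : ∃ d, ρ g v - v = d := ⟨_, rfl⟩
    rw [hd] at h3
    have h4 : ρ g v = v + d := by rw [← hd]; abel
    rw [pow_three, mul_ap, mul_ap, h4, map_add, h3, h4, map_add, map_add, h3, h4]
    calc _ = v + (d + d + d) := by abel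
      _ = v := by rw [three, add_zero]
  refine ⟨Module.finrank (ZMod 3) W, by rw [Module.natCard_eq_pow_finrank (K := ZMod 3), Nat.card_zmod], ?_⟩
  have := Subgroup.card_dvd_of_injective φ hφ
  have h5 := Matrix.card_GL_field (𝔽 := ZMod 3) (Module.finrank (ZMod 3) W)
  rw [ZMod.card] at h5
  exact h5 ▸ this

theorem Hyp.card_dvd4 [Finite S] [Finite E] (h : Hyp ρ b) {L : Subgroup S} (hL : ¬ 3 ∣ Nat.card L)
    {W : Submodule (ZMod 3) E} (hW : L ≤ trivQ ρ W) (hc : Nat.card W ≤ 81) : Nat.card L ∣ 33280 := by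
  obtain ⟨d, h1, h2⟩ := h.card_dvd hL hW
  have hd : d ≤ 4 := (Nat.pow_le_pow_iff_right (by norm_num : 1 < 3)).mp (by rw [← h1]; exact hc)
  have h3 : Nat.card L ∣ 33280 * 3 ^ 6 := h2.trans (by interval_cases d <;> simp [Fin.prod_univ_succ])
  exact (Nat.Coprime.pow_right 6 ((Nat.Prime.coprime_iff_not_dvd Nat.prime_three).mpr hL).symm).dvd_of_dvd_mul_right h3

theorem Hyp.card_dvd5 [Finite S] [Finite E] (h : Hyp ρ b) {L : Subgroup S} (hL : ¬ 3 ∣ Nat.card L)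
    {W : Submodule (ZMod 3) E} (hW : L ≤ trivQ ρ W) (hc : Nat.card W ≤ 243) : Nat.card L ∣ 8053760 := by
  obtain ⟨d, h1, h2⟩ := h.card_dvd hL hW
  have hd : d ≤ 5 := (Nat.pow_le_pow_iff_right (by norm_num : 1 < 3)).mp (by rw [← h1]; exact hc)
  have h3 : Nat.card L ∣ 8053760 * 3 ^ 10 := h2.trans (by interval_cases d <;> simp [Fin.prod_univ_succ])
  exact (Nat.Coprime.pow_right 10 ((Nat.Prime.coprime_iff_not_dvd Nat.prime_three).mpr hL).symm).dvd_of_dvd_mul_right h3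

theorem card_sup_le [Finite E] (A B : Submodule (ZMod 3) E) : Nat.card (A ⊔ B : Submodule (ZMod 3) E) ≤ Nat.card A * Nat.card B := by
  rw [← Nat.card_prod]
  refine Nat.card_le_card_of_surjective (fun p : A × B => (⟨p.1 + p.2, Submodule.add_mem_sup p.1.2 p.2.2⟩ :
    (A ⊔ B : Submodule (ZMod 3) E))) ?_
  rintro ⟨v, hv⟩
  obtain ⟨a, ha, c, hc, rfl⟩ := Submodule.mem_sup.mp hv
  exact ⟨⟨⟨a, ha⟩, ⟨c, hc⟩⟩, rfl⟩

theorem card_map_le [Finite E] (A : Submodule (ZMod 3) E) (f : E →ₗ[ZMod 3] E) : Nat.card (A.map f) ≤ Nat.card A := by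
  refine Nat.card_le_card_of_surjective (fun p : A => (⟨f p, Submodule.mem_map_of_mem p.2⟩ : A.map f)) ?_
  rintro ⟨_, v, hv, rfl⟩
  exact ⟨⟨v, hv⟩, rfl⟩

theorem card_span_le (e : E) : Nat.card (Submodule.span (ZMod 3) {e}) ≤ 3 := by
  refine (Nat.card_le_card_of_surjective (fun a : ZMod 3 => (⟨a • e, Submodule.smul_mem _ _
    (Submodule.mem_span_singleton_self e)⟩ : Submodule.span (ZMod 3) {e})) ?_).trans (Nat.card_zmod 3).le
  rintro ⟨v, hv⟩
  obtain ⟨a, rfl⟩ := Submodule.mem_span_singleton.mp hv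
  exact ⟨a, rfl⟩

theorem trivQ_mono {A B : Submodule (ZMod 3) E} (h : A ≤ B) : trivQ ρ A ≤ trivQ ρ B := fun _ hg v => h (hg v)

theorem comm_triv (x : S) : b ∈ trivQ ρ (LinearMap.range (ρ b - 1) ⊔ (LinearMap.range (ρ b - 1)).map (ρ x⁻¹)) ∧
    x⁻¹ * cj b x ∈ trivQ ρ (LinearMap.range (ρ b - 1) ⊔ (LinearMap.range (ρ b - 1)).map (ρ x⁻¹)) := by
  have h1 : b ∈ trivQ ρ (LinearMap.range (ρ b - 1) ⊔ (LinearMap.range (ρ b - 1)).map (ρ x⁻¹)) :=
    fun v => Submodule.mem_sup_left ⟨v, rfl⟩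
  refine ⟨h1, ?_⟩
  rw [cj, show x⁻¹ * (b * x * b⁻¹) = (x⁻¹ * b * x) * b⁻¹ by group]
  refine mul_mem (fun v => Submodule.mem_sup_right ⟨_, ⟨ρ x v, rfl⟩, ?_⟩) (inv_mem h1)
  rw [LinearMap.sub_apply, Module.End.one_apply, map_sub, inv_ap, mul_ap, mul_ap]

theorem fix_of_line {g : S} (hg : g ^ 13 = 1) {v : E} {a : ZMod 3} (h : ρ g v = a • v) : ρ g v = v := by
  have h1 : ∀ n : ℕ, ρ (g ^ n) v = a ^ n • v := fun n => by
    induction n with
    | zero => rw [pow_zero, pow_zero, one_ap, one_smul]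
    | succ n ih => rw [pow_succ', mul_ap, ih, map_smul, h, smul_smul, pow_succ]
  have h2 := h1 13
  rw [hg, one_ap, (by decide : ∀ a : ZMod 3, a ^ 13 = a)] at h2
  rw [h, ← h2]

theorem comm_ap {g x : S} (h : g * x = x * g) (v : E) : ρ x (ρ g v) = ρ g (ρ x v) := by
  rw [← mul_ap, ← h, mul_ap]

/-- an element of order 13 commuting with the four-group (with its conjugate) commutes with `b`. -/
theorem Fr.fix13 (f : Fr ρ b w e) (hw : V4 b w) (h : Hyp ρ b) {g : S} (hg : g ^ 13 = 1) (h0 : g * w = w * g)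
    (h1 : g * cj b w = cj b w * g) (h2 : cj b g * w = w * cj b g) : cj b g = g := by
  have key : ∀ g : S, g ^ 13 = 1 → g * w = w * g → g * cj b w = cj b w * g →
      ρ g e = e ∧ ρ g (ρ b e) = ρ b e ∧ ρ g (ρ b (ρ b e)) = ρ b (ρ b e) := fun g hg h0 h1 => by
    have e1 := hw.s01 h ⟨f.h0, f.h1⟩
    have e2 := hw.s12 h e1
    obtain ⟨a0, ha0⟩ := f.uniq (ρ g e) (by rw [comm_ap h0, f.h0]) (by rw [comm_ap h1, f.h1, map_neg])
    obtain ⟨a1, ha1⟩ := f.uniq1 hw h (v := ρ g (ρ b e)) ⟨by rw [comm_ap h0, e1.1, map_neg], by rw [comm_ap h1, e1.2]⟩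
    obtain ⟨a2, ha2⟩ := f.uniq2 hw h (v := ρ g (ρ b (ρ b e)))
      ⟨by rw [comm_ap h0, e2.1, map_neg], by rw [comm_ap h1, e2.2, map_neg]⟩
    exact ⟨fix_of_line hg ha0, fix_of_line hg ha1, fix_of_line hg ha2⟩
  have k1 := key g hg h0 h1
  have k2 := key (cj b g) (by rw [cj, conj_pow, hg]; group) h2 (by rw [← cj_mul, h0, cj_mul])
  refine h.inj (LinearMap.ext fun v => ?_)
  obtain ⟨a0, a1, a2, u, rfl, hu0, hu1⟩ := f.dec hw h v
  have hu : ρ (cj b g) u = ρ g u := by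
    nth_rewrite 1 [← f.fix u hu0 hu1]
    rw [cj_ap, f.fix _ (by rw [comm_ap h0, hu0]) (by rw [comm_ap h1, hu1])]
  simp only [map_add, map_smul, k1.1, k1.2.1, k1.2.2, k2.1, k2.2.1, k2.2.2, hu]

theorem sylow13 {L : Type*} [Group L] [Finite L] (hL : Nat.card L ∣ 2 ^ 10 * 13) {p g : L} (hp : p ^ 13 = 1)
    (hp1 : p ≠ 1) (hg : g ^ 13 = 1) : g ∈ zpowers p := by
  have hF : Fact (Nat.Prime 13) := ⟨by norm_num⟩
  obtain ⟨P⟩ : Nonempty (Sylow 13 L) := inferInstance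
  have h1 := card_sylow_modEq_one 13 L
  have h2 : Nat.card (Sylow 13 L) ∣ 2 ^ 10 * 13 := (P.card_dvd_index.trans (index_dvd_card _)).trans hL
  have h3 : Nat.card (Sylow 13 L) ∣ 2 ^ 10 := by
    refine Nat.Coprime.dvd_of_dvd_mul_right ?_ h2
    exact ((Nat.Prime.coprime_iff_not_dvd hF.out).mpr (not_dvd_card_sylow 13 L)).symm
  obtain ⟨j, hj, h4⟩ := (Nat.dvd_prime_pow Nat.prime_two).mp h3
  have h5 : Nat.card (Sylow 13 L) = 1 := by
    rw [h4] at h1 ⊢
    interval_cases j <;> simp_all [Nat.ModEq]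
  have : Subsingleton (Sylow 13 L) := (Nat.card_eq_one_iff_unique.mp h5).1
  have hm : ∀ x : L, x ^ 13 = 1 → x ∈ (P : Subgroup L) := fun x hx => by
    have hx' : IsPGroup 13 (zpowers x) := IsPGroup.iff_card.mpr (by
      rw [Nat.card_zpowers]
      exact ((Nat.dvd_prime_pow (m := 1) hF.out).mp (by simpa using orderOf_dvd_of_pow_eq_one hx)).imp
        fun _ h => h.2)
    obtain ⟨Q, hQ⟩ := hx'.exists_le_sylow
    exact Subsingleton.elim Q P ▸ hQ (mem_zpowers x)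
  obtain ⟨k, hk⟩ := IsPGroup.iff_card.mp P.2
  have h6 : 13 ^ k ∣ 13 := by
    refine Nat.Coprime.dvd_of_dvd_mul_left ?_ ((hk ▸ card_subgroup_dvd_card (P : Subgroup L)).trans hL)
    exact Nat.Coprime.pow _ _ (by norm_num)
  have h7 : orderOf p = 13 := orderOf_eq_prime hp hp1
  have h8 : zpowers p = P := eq_of_le_of_card_ge (zpowers_le.mpr (hm p hp)) (by
    rw [Nat.card_zpowers, h7, hk]; exact Nat.le_of_dvd (by norm_num) h6)
  exact h8 ▸ hm g hg

theorem map_cj {G : Type*} [Group G] (π : S →* G) (b x : S) : π (cj b x) = cj (π b) (π x) := by simp [cj]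

theorem cj_pow (b x : S) (n : ℕ) : cj b (x ^ n) = cj b x ^ n := by rw [cj, cj, conj_pow]

theorem zmod5 : ∀ n : ZMod 5, n + 1 + n * n ≠ 0 := by decide

theorem stepA [Finite S] [Finite E] (h : Hyp ρ b) (hw : V4 b w) {Q : Subgroup S} (hQ : ∀ u ∈ Q, u * u = 1)
    (hwQ : w ∈ Q) (hw1 : cj b w ∈ Q) {T : Subgroup S} [T.Normal] (hT : IsPGroup 2 T) {q : ℕ} (hq : q.Prime)
    (h2 : q ≠ 2) (h3 : q ≠ 3) {X : Subgroup (S ⧸ T)} [hXn : X.Normal] (hX : IsPGroup q X) {x : S}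
    (hx : (x : S ⧸ T) ∈ X) : x⁻¹ * cj b x ∈ T := by
  have hF : Fact q.Prime := ⟨hq⟩
  by_contra hy
  obtain ⟨e, f⟩ := hw.frame h
  let π := QuotientGroup.mk' T
  let Y := X.comap π
  have hYn : Y.Normal := hXn.comap π
  have hyn := norm_comm h.b3 x
  have hc := comm_triv (ρ := ρ) (b := b) x
  have hyY : x⁻¹ * cj b x ∈ Y := mul_mem (inv_mem hx) (hYn.conj_mem x hx b)
  have c4 : Nat.card (LinearMap.range (ρ b - 1) ⊔ (LinearMap.range (ρ b - 1)).map (ρ x⁻¹) : Submodule (ZMod 3) E) ≤ 81 :=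
    (card_sup_le _ _).trans (Nat.mul_le_mul h.card ((card_map_le _ _).trans h.card))
  generalize (LinearMap.range (ρ b - 1) ⊔ (LinearMap.range (ρ b - 1)).map (ρ x⁻¹) : Submodule (ZMod 3) E) = W at hc c4
  generalize x⁻¹ * cj b x = y at hy hyn hc hyY
  have hy1 : π y ≠ 1 := fun h1 => hy ((QuotientGroup.eq_one_iff y).mp h1)
  have hy2 : cj b y ∈ Y := hYn.conj_mem y hyY b
  have hyn' : π y * cj (π b) (π y) * cj (π b) (cj (π b) (π y)) = 1 := by
    rw [← map_cj, ← map_cj, ← map_mul, ← map_mul, hyn, map_one]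
  have hpr : ∀ L : Subgroup S, L ≤ Y ⊔ Q → ∀ r : ℕ, r.Prime → r ∣ Nat.card L → r = 2 ∨ r = q := by
    intro L hL r hr hd
    have : Fact r.Prime := ⟨hr⟩
    obtain ⟨⟨g, hg⟩, hgo⟩ := exists_prime_orderOf_dvd_card' r hd
    rw [Subgroup.orderOf_mk] at hgo
    obtain ⟨n, hn, u, hu, rfl⟩ := mem_sup_of_normal_left.mp (hL hg)
    have h1 : (n * u) ^ 2 ∈ Y := by
      rw [show (n * u) ^ 2 = n * (u * n * u⁻¹) * (u * u) by rw [pow_two]; group, hQ u hu, mul_one]
      exact mul_mem hn (hYn.conj_mem n hn u)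
    obtain ⟨k, hk⟩ := hX ⟨_, h1⟩
    have h4 : ((n * u) ^ 2) ^ q ^ k ∈ T := (QuotientGroup.eq_one_iff _).mp (congrArg Subtype.val hk)
    obtain ⟨m, hm⟩ := hT ⟨_, h4⟩
    have h5 : (n * u) ^ (2 * q ^ k * 2 ^ m) = 1 := by rw [pow_mul, pow_mul]; exact congrArg Subtype.val hm
    have h6 := hgo ▸ orderOf_dvd_of_pow_eq_one h5
    rcases (Nat.Prime.dvd_mul hr).mp h6 with h7 | h7
    · rcases (Nat.Prime.dvd_mul hr).mp h7 with h8 | h8
      · exact Or.inl ((Nat.prime_dvd_prime_iff_eq hr Nat.prime_two).mp h8)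
      · exact Or.inr ((Nat.prime_dvd_prime_iff_eq hr hq).mp (hr.dvd_of_dvd_pow h8))
    · exact Or.inl ((Nat.prime_dvd_prime_iff_eq hr Nat.prime_two).mp (hr.dvd_of_dvd_pow h7))
  have hn3 : ∀ L : Subgroup S, L ≤ Y ⊔ Q → ¬ 3 ∣ Nat.card L := fun L hL hd => by
    rcases hpr L hL 3 Nat.prime_three hd with h1 | h1
    · omega
    · exact h3 h1.symm
  have hc2 : cj b y ∈ trivQ ρ W := mul_mem (mul_mem hc.1 hc.2) (inv_mem hc.1)
  let H := closure {y, cj b y}
  have hHY : H ≤ Y := (closure_le _).mpr (by rintro _ (rfl | rfl) <;> assumption)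
  have d4 := h.card_dvd4 (hn3 H (hHY.trans le_sup_left))
    ((closure_le _).mpr (by rintro _ (rfl | rfl); exacts [hc.2, hc2])) c4
  have hP : IsPGroup q (H.map π) := hX.to_le (map_le_iff_le_comap.mpr hHY)
  obtain ⟨k, hk⟩ := IsPGroup.iff_card.mp hP
  have d5 : q ^ k ∣ 33280 := hk ▸ (card_map_dvd H π).trans d4
  have hyP : π y ∈ H.map π := mem_map_of_mem π (subset_closure (by simp))
  have hk0 : k ≠ 0 := by
    rintro rfl
    rw [pow_zero, card_eq_one] at hk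
    exact hy1 (mem_bot.mp (hk ▸ hyP))
  have d6 : q ∣ 2 ^ 9 * 5 * 13 := (dvd_pow_self q hk0).trans d5
  have hq' : q = 5 ∨ q = 13 := by
    rcases (Nat.Prime.dvd_mul hq).mp d6 with h7 | h7
    · rcases (Nat.Prime.dvd_mul hq).mp h7 with h8 | h8
      · exact absurd ((Nat.prime_dvd_prime_iff_eq hq Nat.prime_two).mp (hq.dvd_of_dvd_pow h8)) h2
      · exact Or.inl ((Nat.prime_dvd_prime_iff_eq hq (by norm_num)).mp h8)
    · exact Or.inr ((Nat.prime_dvd_prime_iff_eq hq (by norm_num)).mp h7)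
  have d7 : q ^ k ∣ q := by
    rcases hq' with rfl | rfl
    · exact Nat.Coprime.dvd_of_dvd_mul_left (m := 6656) (Nat.Coprime.pow_left _ (by norm_num)) d5
    · exact Nat.Coprime.dvd_of_dvd_mul_left (m := 2560) (Nat.Coprime.pow_left _ (by norm_num)) d5
  have ho : orderOf (π y) = q :=
    ((Nat.dvd_prime hq).mp ((hk ▸ (H.map π).orderOf_dvd_natCard hyP).trans d7)).resolve_left
      fun h1 => hy1 (orderOf_eq_one_iff.mp h1)
  rcases hq' with rfl | rfl
  · have h8 : zpowers (π y) = H.map π := eq_of_le_of_card_ge (zpowers_le.mpr hyP) (by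
      rw [Nat.card_zpowers, ho, hk]; exact Nat.le_of_dvd (by norm_num) d7)
    have h9 : π (cj b y) ∈ zpowers (π y) := h8 ▸ mem_map_of_mem π (subset_closure (by simp))
    obtain ⟨n, hn⟩ := mem_powers_iff_mem_zpowers.mpr h9
    simp only [map_cj] at hn
    rw [← hn, cj_pow, ← hn, ← pow_mul, ← pow_succ', ← pow_add] at hyn'
    have h10 := ho ▸ orderOf_dvd_of_pow_eq_one hyn'
    exact zmod5 n (by exact_mod_cast (ZMod.natCast_eq_zero_iff _ 5).mpr h10)
  let L := closure {w, cj b w, y, cj b y}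
  have hLY : L ≤ Y ⊔ Q := (closure_le _).mpr (by
    rintro _ (rfl | rfl | rfl | rfl)
    exacts [mem_sup_right hwQ, mem_sup_right hw1, mem_sup_left hyY, mem_sup_left hy2])
  have hbW : b ∈ trivQ ρ (W ⊔ Submodule.span (ZMod 3) {e}) := trivQ_mono le_sup_left hc.1
  have hwW : w ∈ trivQ ρ (W ⊔ Submodule.span (ZMod 3) {e}) := fun v => by
    obtain ⟨a0, a1, a2, u, rfl, hu0, hu1⟩ := f.dec hw h v
    have e1 := hw.s01 h ⟨f.h0, f.h1⟩
    have e2 := hw.s12 h e1
    have m0 : e ∈ W ⊔ Submodule.span (ZMod 3) {e} := Submodule.mem_sup_right (Submodule.mem_span_singleton_self e)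
    have m1 := Submodule.add_mem _ (hbW e) m0
    rw [sub_add_cancel] at m1
    have m2 := Submodule.add_mem _ (hbW (ρ b e)) m1
    rw [sub_add_cancel] at m2
    simp only [map_add, map_smul, f.h0, e1.1, e2.1, hu0]
    have := Submodule.neg_mem _ (Submodule.add_mem _ (Submodule.smul_mem _ (a1 + a1) m1) (Submodule.smul_mem _ (a2 + a2) m2))
    convert this using 1
    simp only [smul_neg, add_smul]; abel
  have d8 := h.card_dvd5 (hn3 L hLY) (W := W ⊔ Submodule.span (ZMod 3) {e}) ((closure_le _).mpr (by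
    rintro _ (rfl | rfl | rfl | rfl)
    exacts [hwW, mul_mem (mul_mem hbW hwW) (inv_mem hbW), trivQ_mono le_sup_left hc.2, trivQ_mono le_sup_left hc2]))
    ((card_sup_le _ _).trans (Nat.mul_le_mul c4 (card_span_le e)))
  have d9 : Nat.card L ∣ 2 ^ 10 * 13 := by
    refine Nat.Coprime.dvd_of_dvd_mul_right (n := 5 * 11 ^ 2) (Nat.Coprime.mul_right ?_ (Nat.Coprime.pow_right _ ?_)) d8
    · exact ((Nat.Prime.coprime_iff_not_dvd (by norm_num)).mpr fun hd => by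
        have := hpr L hLY 5 (by norm_num) hd; omega).symm
    · exact ((Nat.Prime.coprime_iff_not_dvd (by norm_num)).mpr fun hd => by
        have := hpr L hLY 11 (by norm_num) hd; omega).symm
  have mw : w ∈ L := subset_closure (by simp)
  have mw1 : cj b w ∈ L := subset_closure (by simp)
  have my : y ∈ L := subset_closure (by simp)
  have my1 : cj b y ∈ L := subset_closure (by simp)
  have hLb : L ≤ L.comap (MulAut.conj b).toMonoidHom := (closure_le _).mpr (by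
    rintro _ (rfl | rfl | rfl | rfl)
    · exact mw1
    · show cj b (cj b w) ∈ L
      exact hw.w2 ▸ mul_mem mw mw1
    · exact my1
    · show cj b (cj b y) ∈ L
      exact (eq_inv_of_mul_eq_one_right hyn) ▸ inv_mem (mul_mem my my1))
  have hp13 : (y ^ 2 ^ 10) ^ 13 = 1 := by
    rw [← pow_mul]; exact orderOf_dvd_iff_pow_eq_one.mp ((L.orderOf_dvd_natCard my).trans d9)
  have hyp : π y = π (y ^ 2 ^ 10) ^ 4 := by
    rw [map_pow, ← pow_mul, show 2 ^ 10 * 4 = 13 * 315 + 1 by norm_num, pow_succ, pow_mul, ← ho,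
      pow_orderOf_eq_one, one_pow, one_mul]
  have mp : y ^ 2 ^ 10 ∈ L := pow_mem my _
  generalize y ^ 2 ^ 10 = p at hp13 hyp mp
  have hp1 : p ≠ 1 := by rintro rfl; exact hy1 (by rw [hyp, map_one, one_pow])
  have hz : ∀ g, cj g p ∈ L → ∃ n : ℕ, p ^ n = cj g p := fun g hg => by
    have := sylow13 d9 (p := ⟨p, mp⟩) (g := ⟨_, hg⟩) (Subtype.ext hp13) (fun h1 => hp1 (congrArg Subtype.val h1))
      (Subtype.ext (by simp only [SubmonoidClass.mk_pow, OneMemClass.coe_one]; rw [← cj_pow, hp13, cj_one]))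
    obtain ⟨n, hn⟩ := mem_powers_iff_mem_zpowers.mpr this
    exact ⟨n, congrArg Subtype.val hn⟩
  obtain ⟨i, hi⟩ := hz b (hLb mp)
  obtain ⟨j, hj⟩ := hz w (mul_mem (mul_mem mw mp) (inv_mem mw))
  have k1 : cj b (cj w p) = cj w (cj b p) := by rw [← hi, ← hj, cj_pow, cj_pow, ← hi, ← hj, ← pow_mul, ← pow_mul, mul_comm]
  have k2 : p * cj b w = cj b w * p := by
    refine cj_inj (b := b) ?_
    rw [cj_mul, cj_mul, hw.w2]
    have k3 : cj b (cj w p) = cj b w * cj b p * (cj b w)⁻¹ := by rw [← cj_inv, ← cj_mul, ← cj_mul]; rfl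
    rw [k3] at k1
    have k4 : w * w = 1 := hw.sq
    have k5 : w⁻¹ = w := inv_eq_of_mul_eq_one_right k4
    calc _ = w * (w * cj b p * w⁻¹) * cj b w := by
          rw [k5, show w * (w * cj b p * w) * cj b w = (w * w) * (cj b p * (w * cj b w)) by group, k4, one_mul]
      _ = w * (cj b w * cj b p * (cj b w)⁻¹) * cj b w := by rw [k1]; rfl
      _ = _ := by group
  have k6 : p * w = w * p := by
    refine cj_inj (b := b) ?_
    rw [cj_mul, cj_mul, ← hi]
    exact (Commute.pow_left k2 i).eq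
  have k7 := f.fix13 hw h hp13 k6 k2 (by rw [← hi]; exact (Commute.pow_left k6 i).eq)
  have k8 : cj (π b) (π y) = π y := by rw [hyp, cj_pow, ← map_cj, k7]
  rw [k8, k8, ← pow_three'] at hyn'
  have := ho ▸ orderOf_dvd_of_pow_eq_one hyn'
  norm_num at this

theorem gen_le [Finite S] {K H : Subgroup S} (nb : ∀ k ∈ K, cj b k ∈ K) (hH : ∀ k ∈ K, k⁻¹ * cj b k ∈ H) :
    ⁅K, zpowers b⁆ ≤ H := by
  have key : ∀ n : ℕ, ∀ k ∈ K, k⁻¹ * cj (b ^ n) k ∈ H := fun n => by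
    induction n with
    | zero => intro k _; simp [cj]
    | succ n ih =>
      intro k hk
      have := mul_mem (hH k hk) (ih _ (nb k hk))
      rwa [show k⁻¹ * cj b k * ((cj b k)⁻¹ * cj (b ^ n) (cj b k)) = k⁻¹ * cj (b ^ (n + 1)) k by
        simp only [cj]; group] at this
  refine commutator_le.mpr fun k hk β hβ => ?_
  obtain ⟨n, rfl⟩ := mem_powers_iff_mem_zpowers.mpr hβ
  have := key n _ (inv_mem hk)
  rwa [cj, inv_inv, ← mul_assoc, ← mul_assoc] at this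

theorem comm_mem_comm {K : Subgroup S} {k : S} (hk : k ∈ K) : k⁻¹ * cj b k ∈ ⁅K, zpowers b⁆ := by
  have := commutator_mem_commutator (inv_mem hk) (mem_zpowers b)
  rwa [commutatorElement_def, inv_inv, mul_assoc, mul_assoc, ← mul_assoc b] at this

/-- elements centralized by `β` modulo a normal subgroup. -/
def modC {G : Type*} [Group G] (β : G) (O : Subgroup G) [hO : O.Normal] : Subgroup G where
  carrier := {f | f⁻¹ * cj β f ∈ O}
  one_mem' := by simp [cj]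
  mul_mem' {f g} hf hg := by
    have := mul_mem (hO.conj_mem _ hf g⁻¹) hg
    show _ ∈ O
    rwa [show g⁻¹ * (f⁻¹ * cj β f) * g⁻¹⁻¹ * (g⁻¹ * cj β g) = (f * g)⁻¹ * cj β (f * g) by simp only [cj]; group] at this
  inv_mem' {f} hf := by
    have := hO.conj_mem _ (inv_mem hf) f
    show _ ∈ O
    rwa [show f * (f⁻¹ * cj β f)⁻¹ * f⁻¹ = f⁻¹⁻¹ * cj β f⁻¹ by simp only [cj]; group] at this

theorem two_core [Finite S] [Finite E] [Group.IsSolvable S] (h : Hyp ρ b) (hw : V4 b w) {Q : Subgroup S}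
    (hQ : ∀ u ∈ Q, u * u = 1) (hwQ : w ∈ Q) (hw1 : cj b w ∈ Q) :
    ⁅pPrimeCore 3 S, zpowers b⁆ ≤ pCore 2 S := by
  have hKn : (pPrimeCore 3 S).Normal := inferInstance
  refine gen_le (fun k hk => hKn.conj_mem k hk b) fun k hk => ?_
  let π := QuotientGroup.mk' (pCore 2 S)
  have hA : ∀ q : ℕ, q.Prime → q ≠ 3 → ∀ x ∈ pCore q (S ⧸ pCore 2 S), x⁻¹ * cj (π b) x = 1 := by
    intro q hq h3 x hx
    by_cases h2 : q = 2
    · subst h2
      rw [H02.pCore_quotient_pCore, mem_bot] at hx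
      rw [hx]; simp [cj]
    obtain ⟨x, rfl⟩ := QuotientGroup.mk'_surjective (pCore 2 S) x
    have := stepA h hw hQ hwQ hw1 (H02.pCore_isPGroup 2 S) hq h2 h3 (H02.pCore_isPGroup q _) hx
    rw [← map_cj, ← map_inv, ← map_mul]
    exact (QuotientGroup.eq_one_iff _).mpr this
  have hle := H02.map_pPrimeCore_le (p := 3) π (QuotientGroup.mk'_surjective _)
  have hk' : π k ∈ pPrimeCore 3 (S ⧸ pCore 2 S) := hle (mem_map_of_mem π hk)
  have hKn' : (pPrimeCore 3 (S ⧸ pCore 2 S)).Normal := inferInstance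
  have hb3 : π b ^ 3 = 1 := by rw [← map_pow, h.b3, map_one]
  suffices hs : (π k)⁻¹ * cj (π b) (π k) = 1 by
    rw [← map_cj, ← map_inv, ← map_mul] at hs
    exact (QuotientGroup.eq_one_iff _).mp hs
  generalize π k = k' at hk'
  generalize π b = β at hA hb3
  have hy : k'⁻¹ * cj β k' ∈ pPrimeCore 3 (S ⧸ pCore 2 S) := mul_mem (inv_mem hk') (hKn'.conj_mem k' hk' β)
  have hyn := norm_comm hb3 k'
  have hF : k'⁻¹ * cj β k' ∈ fittingSubgroup (S ⧸ pCore 2 S) := by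
    refine H02.centralizer_fitting_le _ (le_centralizer_iff.mp ?_ (mem_zpowers _))
    rw [H02.fitting_eq_iSup_pCore]
    refine iSup_le fun q => le_centralizer_iff.mp (zpowers_le.mpr ?_)
    by_cases h3 : (q : ℕ) = 3
    · intro x hx
      exact (H02.commute_pCore_pPrimeCore (h3 ▸ hx) hy).eq
    · have hβ : β ∈ centralizer (pCore (q : ℕ) (S ⧸ pCore 2 S) : Set _) := fun x hx => by
        have := hA q q.2 h3 x hx
        calc x * β = x * (x⁻¹ * cj β x) * β := by rw [this, mul_one]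
          _ = β * x := by simp only [cj]; group
      have hn : (centralizer (pCore (q : ℕ) (S ⧸ pCore 2 S) : Set (S ⧸ pCore 2 S))).Normal := inferInstance
      rw [cj, show k'⁻¹ * (β * k' * β⁻¹) = k'⁻¹ * β * k'⁻¹⁻¹ * β⁻¹ by group]
      exact mul_mem (hn.conj_mem β hβ _) (inv_mem hβ)
  have hM : fittingSubgroup (S ⧸ pCore 2 S) ≤ modC β (pCore 3 (S ⧸ pCore 2 S)) := by
    rw [H02.fitting_eq_iSup_pCore]
    refine iSup_le fun q x hx => ?_
    by_cases h3 : (q : ℕ) = 3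
    · rw [h3] at hx
      exact mul_mem (inv_mem hx) ((inferInstance : (pCore 3 (S ⧸ pCore 2 S)).Normal).conj_mem x hx β)
    · show _ ∈ pCore 3 _
      rw [hA q q.2 h3 x hx]; exact one_mem _
  generalize k'⁻¹ * cj β k' = y at hy hyn hF
  have h1 : y⁻¹ * cj β y ∈ pCore 3 (S ⧸ pCore 2 S) ⊓ pPrimeCore 3 (S ⧸ pCore 2 S) :=
    mem_inf.mpr ⟨hM hF, mul_mem (inv_mem hy) (hKn'.conj_mem y hy β)⟩
  rw [H02.pCore_inf_pPrimeCore, mem_bot, inv_mul_eq_one] at h1
  rw [← h1, ← h1, ← pow_three'] at hyn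
  exact eq_one_of_cube (H02.not_dvd_card_pPrimeCore Nat.prime_three) hy hyn

theorem rh_comm [Finite S] [Group.IsSolvable S] (hb : b ^ 3 = 1) : RH b ⁅pPrimeCore 3 S, zpowers b⁆ := by
  have hKn : (pPrimeCore 3 S).Normal := inferInstance
  have hle : ⁅pPrimeCore 3 S, zpowers b⁆ ≤ pPrimeCore 3 S := commutator_le_left _ _
  have nb : ∀ r ∈ ⁅pPrimeCore 3 S, zpowers b⁆, cj b r ∈ ⁅pPrimeCore 3 S, zpowers b⁆ := by
    have : ⁅pPrimeCore 3 S, zpowers b⁆ ≤ (⁅pPrimeCore 3 S, zpowers b⁆).comap (MulAut.conj b).toMonoidHom :=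
      gen_le (fun k hk => hKn.conj_mem k hk b) fun k hk => by
        show cj b (k⁻¹ * cj b k) ∈ ⁅pPrimeCore 3 S, zpowers b⁆
        rw [cj_mul, cj_inv]; exact comm_mem_comm (hKn.conj_mem k hk b)
    exact fun r hr => this hr
  refine ⟨nb, fun hd => H02.not_dvd_card_pPrimeCore Nat.prime_three (hd.trans (card_dvd_of_le hle)), fun H hH => ?_⟩
  rw [← H01.commutator_commutator_eq (A := zpowers b) (K := pPrimeCore 3 S) le_normalizer_of_normal ?_
    (Or.inl inferInstance)]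
  · exact gen_le nb hH
  · rw [Nat.card_zpowers]
    exact Nat.Coprime.coprime_dvd_left (orderOf_dvd_of_pow_eq_one hb) (H02.pPrimeCore_coprime 3 S).symm

theorem exists_v4 [Finite S] [Group.IsSolvable S] (hb : b ^ 3 = 1) {Q : Subgroup S} (hQ : IsElementaryAbelian 2 Q)
    (hBQ : zpowers b ≤ normalizer (Q : Set S)) (hBQ' : ¬ zpowers b ≤ centralizer (Q : Set S))
    (P : Sylow 3 S) (hP : ∀ x ∈ (P : Subgroup S), x * b = b * x) :
    ∃ w, V4 b w ∧ w ∈ Q ∧ cj b w ∈ Q ∧ w ∈ ⁅pPrimeCore 3 S, zpowers b⁆ := by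
  have nb : ∀ x ∈ Q, cj b x ∈ Q := fun x hx => (mem_normalizer_iff.mp (hBQ (mem_zpowers b)) x).mp hx
  obtain ⟨q, hq, hqb⟩ : ∃ q ∈ Q, q * b ≠ b * q := by
    by_contra hc
    push Not at hc
    exact hBQ' (zpowers_le.mpr hc)
  have hwQ : q⁻¹ * cj b q ∈ Q := mul_mem (inv_mem hq) (nb q hq)
  have hsq : ∀ x ∈ Q, x * x = 1 := fun x hx => by rw [← pow_two]; exact hQ.2 x hx
  have hw : V4 b (q⁻¹ * cj b q) := by
    refine ⟨fun h1 => hqb ?_, hsq _ hwQ, ?_, norm_comm hb q⟩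
    · calc q * b = q * (q⁻¹ * cj b q) * b := by rw [h1, mul_one]
        _ = b * q := by simp only [cj]; group
    · exact congrArg Subtype.val (hQ.1.is_comm.comm (⟨_, hwQ⟩ : Q) ⟨_, nb _ hwQ⟩)
  refine ⟨_, hw, hwQ, nb _ hwQ, ?_⟩
  have hK : q⁻¹ * cj b q ∈ pPrimeCore 3 S := by
    have : Fact (Nat.Prime 3) := ⟨Nat.prime_three⟩
    let π := QuotientGroup.mk' (pPrimeCore 3 S)
    have hs := QuotientGroup.mk'_surjective (pPrimeCore 3 S)
    have h1 : π b ∈ pCore 3 (S ⧸ pPrimeCore 3 S) := by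
      rw [← H02.fitting_eq_pCore Nat.prime_three (H02.pPrimeCore_quotient_pPrimeCore 3 S)]
      refine H02.centralizer_fitting_le _ fun x hx => ?_
      rw [H02.fitting_eq_pCore Nat.prime_three (H02.pPrimeCore_quotient_pPrimeCore 3 S)] at hx
      obtain ⟨y, hy, rfl⟩ := H02.pCore_le_sylow (P.mapSurjective hs) hx
      rw [← map_mul, ← map_mul, hP y hy]
    have h2 : π (q⁻¹ * cj b q) ∈ pCore 3 (S ⧸ pPrimeCore 3 S) := by
      rw [cj, show q⁻¹ * (b * q * b⁻¹) = q⁻¹ * b * q⁻¹⁻¹ * b⁻¹ by group, map_mul, map_mul, map_mul, map_inv π q⁻¹,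
        map_inv π b]
      exact mul_mem ((inferInstance : (pCore 3 _).Normal).conj_mem _ h1 _) (inv_mem h1)
    obtain ⟨k, hk⟩ := H02.pCore_isPGroup 3 _ ⟨_, h2⟩
    have h3 : π (q⁻¹ * cj b q) ^ 3 ^ k = 1 := congrArg Subtype.val hk
    have h4 : π (q⁻¹ * cj b q) ^ 2 = 1 := by rw [pow_two, ← map_mul, hw.sq, map_one]
    refine (QuotientGroup.eq_one_iff _).mp (orderOf_eq_one_iff.mp (Nat.eq_one_of_dvd_coprimes
      (Nat.Coprime.pow_left k (by norm_num : Nat.Coprime 3 2)) (orderOf_dvd_of_pow_eq_one h3)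
      (orderOf_dvd_of_pow_eq_one h4)))
  generalize q⁻¹ * cj b q = w at hw hK
  have := (rh_comm hb).nb _ (comm_mem_comm (b := b) hK)
  rwa [inv_eq_of_mul_eq_one_right hw.sq, ← hw.w2, cj3 hb] at this

end H04.TL
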