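import Mathlib
import Cfsg.Agent.H04.TLb
import Cfsg.Agent.H04.Extraspecial

/-! Thompson's lemma, part C: the structure of the 2-group `R = [R,b]`. -/

namespace H04.TL

open Subgroup Cfsg

variable {S : Type*} [Group S] {E : Type*} [AddCommGroup E] [Module (ZMod 3) E]
variable {ρ : Representation (ZMod 3) S E} {b w z : S} {e : E} {R : Subgroup S}

theorem RH.noRefl [Finite E] (hR : RH b R) {t : S} (ht : t ∈ R) (he : e ≠ 0) (h1 : ρ t e = -e)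
    (h2 : ∀ v, ρ t v - v ∈ Submodule.span (ZMod 3) {e}) : False := by
  let δ : S →* ZMod 3 := LinearMap.det.comp ρ
  have h3 : t ∈ δ.toHomUnits.ker := hR.gen _ (fun r _ => by
    rw [MonoidHom.mem_ker, map_mul, map_cj, map_inv, cj, mul_inv_cancel_comm, inv_mul_cancel]) ht
  have h4 : LinearMap.det (ρ t) = 1 := congrArg Units.val h3
  have hW : Submodule.span (ZMod 3) {e} ≤ (Submodule.span (ZMod 3) {e}).comap (ρ t) := fun v hv => by
    have := Submodule.add_mem _ (h2 v) hv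
    rwa [sub_add_cancel] at this
  have h5 : (ρ t).restrict (p := Submodule.span (ZMod 3) {e}) (q := Submodule.span (ZMod 3) {e}) hW =
      (-1 : ZMod 3) • LinearMap.id := by
    ext ⟨v, hv⟩
    obtain ⟨a, rfl⟩ := Submodule.mem_span_singleton.mp hv
    simp [h1]
  have h6 : (Submodule.span (ZMod 3) {e}).mapQ _ (ρ t) hW = LinearMap.id := by
    ext v
    simp only [LinearMap.comp_apply, Submodule.mkQ_apply, Submodule.mapQ_apply, LinearMap.id_apply]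
    exact (Submodule.Quotient.eq _).mpr (h2 v)
  rw [LinearMap.det_eq_det_mul_det _ _ hW, h5, h6, LinearMap.det_smul, finrank_span_singleton he] at h4
  simp at h4
  exact absurd h4 (by decide)

theorem sign_of_line {g : S} {v : E} {a : ZMod 3} (h : ρ g v = a • v) : ρ g v = v ∨ ρ g v = -v := by
  rcases zcases a with rfl | rfl | rfl
  · have : v = 0 := ap_inj ρ g (by rw [h, zero_smul, map_zero])
    rw [this, map_zero]; exact Or.inl rfl
  · exact Or.inl (by rw [h, one_smul])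
  · exact Or.inr (by rw [h, neg_smul, one_smul])

theorem Fr.signs (f : Fr ρ b w e) (hw : V4 b w) (h : Hyp ρ b) {g : S} (h0 : g * w = w * g)
    (h1 : g * cj b w = cj b w * g) : (ρ g e = e ∨ ρ g e = -e) ∧ (ρ g (ρ b e) = ρ b e ∨ ρ g (ρ b e) = -ρ b e) ∧
      (ρ g (ρ b (ρ b e)) = ρ b (ρ b e) ∨ ρ g (ρ b (ρ b e)) = -ρ b (ρ b e)) := by
  have e1 := hw.s01 h ⟨f.h0, f.h1⟩
  have e2 := hw.s12 h e1
  obtain ⟨a0, ha0⟩ := f.uniq (ρ g e) (by rw [comm_ap h0, f.h0]) (by rw [comm_ap h1, f.h1, map_neg])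
  obtain ⟨a1, ha1⟩ := f.uniq1 hw h (v := ρ g (ρ b e)) ⟨by rw [comm_ap h0, e1.1, map_neg], by rw [comm_ap h1, e1.2]⟩
  obtain ⟨a2, ha2⟩ := f.uniq2 hw h (v := ρ g (ρ b (ρ b e)))
    ⟨by rw [comm_ap h0, e2.1, map_neg], by rw [comm_ap h1, e2.2, map_neg]⟩
  exact ⟨sign_of_line ha0, sign_of_line ha1, sign_of_line ha2⟩

theorem fix_sq {g : S} {v : E} (h : ρ g v = v ∨ ρ g v = -v) : ρ (g * g) v = v := by
  rcases h with h | h
  · rw [mul_ap, h, h]
  · rw [mul_ap, h, map_neg, h, neg_neg]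

theorem fix_of_iff {g k : S} {v : E} (h : ρ g v = v ∨ ρ g v = -v) (h' : ρ k v = v ∨ ρ k v = -v)
    (hi : ρ g v = v ↔ ρ k v = v) : ρ (g⁻¹ * k) v = v := by
  have : ρ k v = ρ g v := by
    by_cases h1 : ρ g v = v
    · rw [h1, hi.mp h1]
    · rw [h.resolve_left h1, h'.resolve_left (mt hi.mpr h1)]
  rw [mul_ap, this, inv_ap]

theorem elemAb_of_sq {A : Subgroup S} (h : ∀ a ∈ A, a * a = 1) : IsElementaryAbelian 2 A := by
  refine ⟨⟨⟨fun a c => Subtype.ext ?_⟩⟩, fun a ha => by rw [pow_two, h a ha]⟩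
  have h1 := inv_eq_of_mul_eq_one_right (h _ (mul_mem a.2 c.2))
  rw [mul_inv_rev, inv_eq_of_mul_eq_one_right (h _ a.2), inv_eq_of_mul_eq_one_right (h _ c.2)] at h1
  exact h1.symm

theorem neg_ne {v : E} (h : v ≠ 0) : -v ≠ v := fun h1 => h (eq_zero_of_neg h1)

theorem RH.caseA [Finite S] [Finite E] (hR : RH b R) (h : Hyp ρ b) (hw : V4 b w) (hwR : w ∈ R)
    (hc : ∀ r ∈ R, r * w = w * r) (hc1 : ∀ r ∈ R, r * cj b w = cj b w * r) :
    IsElementaryAbelian 2 R ∧ Nat.card R = 4 := by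
  classical
  obtain ⟨e, f⟩ := hw.frame h
  have e1 := hw.s01 h ⟨f.h0, f.h1⟩
  have e2 := hw.s12 h e1
  have sg := fun r hr => f.signs hw h (hc r hr) (hc1 r hr)
  have hu : ∀ u ∈ F0 ρ R, ρ w u = u → ρ (cj b w) u = u → u = 0 := fun u hu h0 h1 => by
    let N : Submodule (ZMod 3) E := F1 ρ (closure {w, cj b w})
    have hN : ∀ v, v ∈ N ↔ ρ w v = v ∧ ρ (cj b w) v = v := fun v =>
      ⟨fun hv => ⟨hv _ (subset_closure (by simp)), hv _ (subset_closure (by simp))⟩, fun hv r hr => by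
        have : closure {w, cj b w} ≤ trivS ρ (Submodule.span (ZMod 3) {v}) := (closure_le _).mpr (by
          rintro _ (rfl | rfl) x hx <;> obtain ⟨a, rfl⟩ := Submodule.mem_span_singleton.mp hx
          · rw [map_smul, hv.1]
          · rw [map_smul, hv.2])
        exact this hr v (Submodule.mem_span_singleton_self v)⟩
    refine F_disj hR.cop hu (hR.kl' (N := N) (fun r hr v hv => ?_) (fun v hv => ?_) ((hN u).mpr ⟨h0, h1⟩))
    · rw [hN] at hv ⊢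
      rw [comm_ap (hc r hr), comm_ap (hc1 r hr), hv.1, hv.2]; exact ⟨rfl, rfl⟩
    · rw [hN] at hv; exact f.fix v hv.1 hv.2
  have m0 := f.mem0 hR hwR
  have hd : ∀ x ∈ F0 ρ R, ∃ a0 a1 a2 : ZMod 3, x = a0 • e + a1 • ρ b e + a2 • ρ b (ρ b e) := fun x hx => by
    obtain ⟨a0, a1, a2, u, rfl, h0, h1⟩ := f.dec hw h x
    refine ⟨a0, a1, a2, ?_⟩
    rw [hu u ((Submodule.add_mem_iff_right _ (Submodule.add_mem _ (Submodule.add_mem _ (Submodule.smul_mem _ _ m0)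
      (Submodule.smul_mem _ _ (hR.F0_b m0))) (Submodule.smul_mem _ _ (hR.F0_b (hR.F0_b m0))))).mp hx) h0 h1, add_zero]
  have inj : ∀ r ∈ R, ρ r (ρ b e) = ρ b e → ρ r (ρ b (ρ b e)) = ρ b (ρ b e) → r = 1 := fun r hr h1 h2 => by
    rcases (sg r hr).1 with h0 | h0
    · refine h.eq_one_F0 hR.cop hr fun x hx => ?_
      obtain ⟨a0, a1, a2, rfl⟩ := hd x hx
      simp only [map_add, map_smul, h0, h1, h2]
    · refine (hR.noRefl hr f.ne h0 fun v => ?_).elim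
      obtain ⟨x, hx, u, hu, rfl⟩ := F_dec (ρ := ρ) hR.cop v
      obtain ⟨a0, a1, a2, rfl⟩ := hd x hx
      simp only [map_add, map_smul, h0, h1, h2, hu r hr]
      refine Submodule.mem_span_singleton.mpr ⟨-(a0 + a0), ?_⟩
      simp only [smul_neg, neg_smul, add_smul]; abel
  refine ⟨elemAb_of_sq fun r hr => inj _ (mul_mem hr hr) (fix_sq (sg r hr).2.1) (fix_sq (sg r hr).2.2), ?_⟩
  let F : R → Bool × Bool := fun r => (decide (ρ r (ρ b e) = ρ b e), decide (ρ r (ρ b (ρ b e)) = ρ b (ρ b e)))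
  have n1 : -ρ b e ≠ ρ b e := neg_ne fun h0 => f.ne (ap_inj ρ b (by rw [h0, map_zero]))
  have n2 : -ρ b (ρ b e) ≠ ρ b (ρ b e) :=
    neg_ne fun h0 => f.ne (ap_inj ρ b (ap_inj ρ b (by rw [h0, map_zero, map_zero])))
  rw [Nat.card_congr (Equiv.ofBijective F ⟨fun r s hrs => ?_, fun p => ?_⟩)]
  · simp
  · simp only [F, Prod.mk.injEq, decide_eq_decide] at hrs
    exact Subtype.ext (inv_mul_eq_one.mp (inj _ (mul_mem (inv_mem r.2) s.2)
      (fix_of_iff (sg r r.2).2.1 (sg s s.2).2.1 hrs.1) (fix_of_iff (sg r r.2).2.2 (sg s s.2).2.2 hrs.2)))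
  · have w1 := hR.nb w hwR
    rcases p with ⟨_ | _, _ | _⟩
    · exact ⟨⟨w, hwR⟩, by simp [F, e1.1, e2.1, n1, n2]⟩
    · exact ⟨⟨w * cj b w, mul_mem hwR w1⟩, by simp [F, e1.1, e2.1, e1.2, e2.2, n1, n2]⟩
    · exact ⟨⟨cj b w, w1⟩, by simp [F, e1.2, e2.2, n1, n2]⟩
    · exact ⟨1, by simp [F]⟩

theorem exists_inv_pow {G : Type*} [Group G] {y : G} (hy : y ≠ 1) {k : ℕ} (hk : y ^ 2 ^ k = 1) :
    ∃ n : ℕ, y ^ n ≠ 1 ∧ y ^ n * y ^ n = 1 := by
  induction k with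
  | zero => exact absurd (by simpa using hk) hy
  | succ k ih =>
    by_cases h : y ^ 2 ^ k = 1
    · exact ih h
    · exact ⟨2 ^ k, h, by rw [← pow_two, ← pow_mul, ← pow_succ, hk]⟩

theorem exists_central_inv {G : Type*} [Group G] [Finite G] [Nontrivial G] (hG : IsPGroup 2 G) :
    ∃ x ∈ center G, x ≠ 1 ∧ x * x = 1 := by
  have := hG.center_nontrivial
  obtain ⟨⟨y, hy⟩, hy1⟩ := exists_ne (1 : center G)
  obtain ⟨k, hk⟩ := hG y
  obtain ⟨n, h1, h2⟩ := exists_inv_pow (fun h => hy1 (Subtype.ext h)) hk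
  exact ⟨_, pow_mem hy n, h1, h2⟩

/-- data when `b` centralizes `Z(R)`. -/
structure CB (ρ : Representation (ZMod 3) S E) (b : S) (R : Subgroup S) (z : S) : Prop where
  mem : z ∈ R
  ne : z ≠ 1
  sq : z * z = 1
  cen : ∀ r ∈ R, r * z = z * r
  neg : ∀ v ∈ F0 ρ R, ρ z v = -v
  zb : ∀ x ∈ R, (∀ r ∈ R, r * x = x * r) → cj b x = x
  uniq : ∀ x ∈ R, (∀ r ∈ R, r * x = x * r) → x * x = 1 → x = 1 ∨ x = z

theorem RH.cases [Finite S] [Finite E] (hR : RH b R) (h : Hyp ρ b) (h2 : IsPGroup 2 R) (hw : V4 b w) (hwR : w ∈ R) :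
    (IsElementaryAbelian 2 R ∧ Nat.card R = 4) ∨ ∃ z, CB ρ b R z := by
  by_cases hz : ∀ x ∈ R, (∀ r ∈ R, r * x = x * r) → cj b x = x
  · right
    have : Nontrivial R := ⟨⟨⟨w, hwR⟩, 1, fun h1 => hw.ne (congrArg Subtype.val h1)⟩⟩
    obtain ⟨⟨z, hzR⟩, h3, h4, h5⟩ := exists_central_inv h2
    have hneg : ∀ x ∈ R, (∀ r ∈ R, r * x = x * r) → x * x = 1 → x ≠ 1 → ∀ v ∈ F0 ρ R, ρ x v = -v := by
      intro x hx hc hs hne v hv
      have hb : b * x = x * b := by rw [← mul_inv_eq_iff_eq_mul]; exact hz x hx hc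
      rcases hR.irr h hw hwR (N := F0 ρ R ⊓ LinearMap.ker (ρ x - 1)) inf_le_left
        (fun r hr v hv => ⟨F0_R hr hv.1, by
          have := hv.2
          simp only [SetLike.mem_coe, LinearMap.mem_ker, LinearMap.sub_apply, Module.End.one_apply, sub_eq_zero] at this ⊢
          rw [comm_ap (hc r hr), this]⟩)
        (fun v hv => ⟨hR.F0_b hv.1, by
          have := hv.2
          simp only [SetLike.mem_coe, LinearMap.mem_ker, LinearMap.sub_apply, Module.End.one_apply, sub_eq_zero] at this ⊢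
          rw [comm_ap hb, this]⟩) with h6 | h6
      · have : ρ x v + v ∈ F0 ρ R ⊓ LinearMap.ker (ρ x - 1) := ⟨(F0 ρ R).add_mem (F0_R hx hv) hv, by
          simp only [SetLike.mem_coe, LinearMap.mem_ker, LinearMap.sub_apply, Module.End.one_apply, sub_eq_zero]
          rw [map_add, ← mul_ap, hs, one_ap, add_comm]⟩
        rw [h6, Submodule.mem_bot] at this
        exact eq_neg_of_add_eq_zero_left this
      · refine absurd (h.eq_one_F0 hR.cop hx fun v hv => ?_) hne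
        have := (h6.ge hv).2
        simpa [sub_eq_zero] using this
    have hc : ∀ r ∈ R, r * z = z * r := fun r hr => congrArg Subtype.val (mem_center_iff.mp h3 ⟨r, hr⟩)
    have hs : z * z = 1 := congrArg Subtype.val h5
    have hn := hneg z hzR hc hs fun h1 => h4 (Subtype.ext h1)
    refine ⟨z, hzR, fun h1 => h4 (Subtype.ext h1), hs, hc, hn, hz, fun x hx hxc hxs => ?_⟩
    by_cases h1 : x = 1
    · exact Or.inl h1
    refine Or.inr (inv_mul_eq_one.mp (h.eq_one_F0 hR.cop (mul_mem (inv_mem hzR) hx) fun v hv => ?_)).symm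
    rw [mul_ap, hneg x hx hxc hxs h1 v hv, ← hn v hv, inv_ap]
  · left
    push Not at hz
    obtain ⟨x, hx, hc, hne⟩ := hz
    have hnb : ∀ x ∈ R, (∀ r ∈ R, r * x = x * r) → ∀ r ∈ R, r * cj b x = cj b x * r := fun x hx hc r hr => by
      rw [← cj3 h.b3 r, ← cj_mul, hc _ (hR.nb _ (hR.nb _ hr)), cj_mul]
    have hy : x⁻¹ * cj b x ∈ R := mul_mem (inv_mem hx) (hR.nb x hx)
    have hyc : ∀ r ∈ R, r * (x⁻¹ * cj b x) = x⁻¹ * cj b x * r := fun r hr =>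
      (Commute.mul_right (Commute.inv_right (hc r hr)) (hnb x hx hc r hr)).eq
    have hy1 : x⁻¹ * cj b x ≠ 1 := fun h1 => hne (inv_mul_eq_one.mp h1).symm
    have hyn := norm_comm h.b3 x
    generalize x⁻¹ * cj b x = y at hy hyc hy1 hyn
    obtain ⟨k, hk⟩ := h2 ⟨y, hy⟩
    obtain ⟨n, h3, h4⟩ := exists_inv_pow hy1 (congrArg Subtype.val hk)
    have hc' : ∀ r ∈ R, r * y ^ n = y ^ n * r := fun r hr => (Commute.pow_right (hyc r hr) n).eq
    have y1 := hR.nb y hy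
    refine hR.caseA h (w := y ^ n) ⟨h3, h4, (hc' _ (hR.nb _ (pow_mem hy n))).symm, ?_⟩ (pow_mem hy n) hc'
      (hnb _ (pow_mem hy n) hc')
    rw [cj_pow, cj_pow, ← Commute.mul_pow (hyc _ y1).symm, ← Commute.mul_pow
      (hnb _ y1 (hnb y hy hyc) _ (mul_mem hy y1)), hyn, one_pow]

/-- `ε ∈ {1,z}`. -/
def ep (z ε : S) : Prop := ε = 1 ∨ ε = z

/-- central in `R`. -/
def Zm (R : Subgroup S) (x : S) : Prop := ∀ r ∈ R, r * x = x * r

/-- central in `R` modulo `z`. -/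
def Ym (R : Subgroup S) (z x : S) : Prop := x ∈ R ∧ ∀ r ∈ R, ∃ ε, ep z ε ∧ cj r x = x * ε

theorem cj_cj (a c x : S) : cj a (cj c x) = cj (a * c) x := by simp only [cj]; group
theorem cj_cj' (a c x : S) : cj (cj a c) (cj a x) = cj a (cj c x) := by simp only [cj]; group
theorem cj_eq_iff {a x : S} : cj a x = x ↔ a * x = x * a := mul_inv_eq_iff_eq_mul

variable {ε ε' x y : S}

theorem CB.emem (c : CB ρ b R z) (h : ep z ε) : ε ∈ R := by rcases h with rfl | rfl; exacts [one_mem _, c.mem]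
theorem CB.ecen (c : CB ρ b R z) (h : ep z ε) : Zm R ε := fun r hr => by
  rcases h with rfl | rfl; exacts [by simp, c.cen r hr]
theorem CB.eb (c : CB ρ b R z) (h : ep z ε) : cj b ε = ε := c.zb _ (c.emem h) (c.ecen h)
theorem CB.esq (c : CB ρ b R z) (h : ep z ε) : ε * ε = 1 := by rcases h with rfl | rfl; exacts [by simp, c.sq]
theorem CB.einv (c : CB ρ b R z) (h : ep z ε) : ε⁻¹ = ε := inv_eq_of_mul_eq_one_right (c.esq h)
theorem CB.emul (c : CB ρ b R z) (h : ep z ε) (h' : ep z ε') : ep z (ε * ε') := by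
  rcases h with rfl | rfl <;> rcases h' with rfl | rfl
  exacts [Or.inl (by simp), Or.inr (by simp), Or.inr (by simp), Or.inl c.sq]

theorem CB.ymul (c : CB ρ b R z) (hx : Ym R z x) (hy : Ym R z y) : Ym R z (x * y) := by
  refine ⟨mul_mem hx.1 hy.1, fun r hr => ?_⟩
  obtain ⟨ε, h1, h2⟩ := hx.2 r hr
  obtain ⟨ε', h3, h4⟩ := hy.2 r hr
  exact ⟨_, c.emul h1 h3, by
    rw [cj_mul, h2, h4, mul_assoc, ← mul_assoc ε, ← c.ecen h1 y hy.1]; group⟩

theorem CB.yinv (c : CB ρ b R z) (hx : Ym R z x) : Ym R z x⁻¹ := by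
  refine ⟨inv_mem hx.1, fun r hr => ?_⟩
  obtain ⟨ε, h1, h2⟩ := hx.2 r hr
  exact ⟨_, h1, by rw [cj_inv, h2, mul_inv_rev, c.einv h1, c.ecen h1 _ (inv_mem hx.1)]⟩

theorem CB.ycj (c : CB ρ b R z) (hR : RH b R) (h : Hyp ρ b) (hx : Ym R z x) : Ym R z (cj b x) := by
  refine ⟨hR.nb _ hx.1, fun r hr => ?_⟩
  obtain ⟨ε, h1, h2⟩ := hx.2 _ (hR.nb _ (hR.nb _ hr))
  exact ⟨_, h1, by rw [← cj3 h.b3 r, cj_cj', h2, cj_mul, c.eb h1]⟩

theorem CB.yep (c : CB ρ b R z) (h : ep z ε) : Ym R z ε :=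
  ⟨c.emem h, fun r hr => ⟨1, Or.inl rfl, by rw [mul_one, cj_eq_iff, c.ecen h r hr]⟩⟩

theorem CB.ysymm (c : CB ρ b R z) (hx : x ∈ R) (hy : y ∈ R) (h : ep z ε) (h1 : cj x y = y * ε) :
    cj y x = x * ε := by
  have h2 : x * y = y * (x * ε) := by rw [c.ecen h x hx, ← mul_assoc, ← h1, cj]; group
  calc cj y x = y * (x * ε) * (ε⁻¹ * y⁻¹) := by simp only [cj]; group
    _ = _ := by rw [← h2, c.einv h, ← c.ecen h _ (inv_mem hy)]; group

theorem CB.c1 (c : CB ρ b R z) (hR : RH b R) (hx : Ym R z x) (h : Zm R (x⁻¹ * cj b x)) : Zm R x := by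
  intro r hr
  refine (hR.gen (centralizer {x}) (fun r hr => ?_) hr x rfl).symm
  obtain ⟨ε, h1, h2⟩ := hx.2 r hr
  have h3 : cj b x = x * (x⁻¹ * cj b x) := by group
  have h4 := cj_cj' b r x
  generalize x⁻¹ * cj b x = t at h h3
  rw [h2, cj_mul, c.eb h1, h3, cj_mul, cj_eq_iff.mpr (h _ (hR.nb r hr)), mul_assoc x t, ← h ε (c.emem h1),
    ← mul_assoc, mul_left_inj, ← h2] at h4
  rw [mem_centralizer_singleton_iff, ← cj_eq_iff, ← cj_cj, h4, cj_cj, inv_mul_cancel]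
  simp [cj]

theorem CB.e1 [Finite S] (c : CB ρ b R z) (h2 : IsPGroup 2 R) {C : Subgroup S} (hC : C ≤ R)
    (hZ : ∀ x ∈ C, Zm C x → Zm R x) (hn : ∃ x ∈ C, ¬ Zm R x) :
    ∃ x ∈ C, ¬ Zm R x ∧ ∀ r ∈ C, ∃ ε, ep z ε ∧ cj r x = x * ε := by
  have hc : ∀ x : C, x ∈ center C ↔ Zm C x := fun x =>
    ⟨fun hx r hr => congrArg Subtype.val (mem_center_iff.mp hx ⟨r, hr⟩), fun hx => mem_center_iff.mpr fun r =>
      Subtype.ext (hx r r.2)⟩
  have : Nontrivial (C ⧸ center C) := by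
    obtain ⟨x, hx, h⟩ := hn
    exact ⟨⟨((⟨x, hx⟩ : C) : C ⧸ center C), 1, fun h1 => h (hZ x hx ((hc _).mp ((QuotientGroup.eq_one_iff _).mp h1)))⟩⟩
  obtain ⟨x, h3, h4, h5⟩ := exists_central_inv ((h2.to_le hC).to_quotient (center C))
  obtain ⟨x, rfl⟩ := QuotientGroup.mk_surjective x
  refine ⟨x, x.2, fun h => h4 ((QuotientGroup.eq_one_iff _).mpr ((hc x).mpr fun r hr => h r (hC hr))), fun r hr => ?_⟩
  have h6 : Zm C ((x : S) * x) := (hc (x * x)).mp ((QuotientGroup.eq_one_iff _).mp h5)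
  have h7 : Zm C ((x : S)⁻¹ * cj r x) := (hc (x⁻¹ * ((⟨r, hr⟩ : C) * x * (⟨r, hr⟩ : C)⁻¹))).mp ((QuotientGroup.eq_one_iff _).mp (by
    rw [QuotientGroup.mk_mul, QuotientGroup.mk_mul, QuotientGroup.mk_mul, mem_center_iff.mp h3, QuotientGroup.mk_inv,
      QuotientGroup.mk_inv]
    group))
  have h8 : (x : S)⁻¹ * cj r x ∈ C := mul_mem (inv_mem x.2) (mul_mem (mul_mem hr x.2) (inv_mem hr))
  refine ⟨_, c.uniq _ (hC h8) (hZ _ h8 h7) ?_, by group⟩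
  have h9 := cj_eq_iff.mpr (h6 r hr)
  rw [cj_mul] at h9
  have h10 := h7 x x.2
  have h11 : cj r x = x * ((x : S)⁻¹ * cj r x) := by group
  generalize (x : S)⁻¹ * cj r x = t at h10 h11
  rw [h11, mul_assoc, ← mul_assoc t, ← h10, mul_left_cancel_iff, mul_assoc] at h9
  exact mul_left_cancel (h9.trans (mul_one _).symm)

theorem CB.dich [Finite S] (c : CB ρ b R z) (hR : RH b R) (h : Hyp ρ b) (hx : Ym R z x) (hn : ¬ Zm R x) :
    Ym R z (x⁻¹ * cj b x) ∧ ¬ Zm R (x⁻¹ * cj b x) ∧ (V4 b (x⁻¹ * cj b x) ∨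
      ((x⁻¹ * cj b x) * (x⁻¹ * cj b x) = z ∧ cj (x⁻¹ * cj b x) (cj b (x⁻¹ * cj b x)) = cj b (x⁻¹ * cj b x) * z)) := by
  have hw := c.ymul (c.yinv hx) (c.ycj hR h hx)
  have hwn : ¬ Zm R (x⁻¹ * cj b x) := fun h1 => hn (c.c1 hR hx h1)
  have hp := norm_comm h.b3 x
  generalize x⁻¹ * cj b x = w at hw hwn hp
  refine ⟨hw, hwn, ?_⟩
  have hs : Zm R (w * w) := fun r hr => by
    obtain ⟨ε, h1, h2⟩ := hw.2 r hr
    rw [← cj_eq_iff, cj_mul, h2, mul_assoc, ← mul_assoc ε, ← c.ecen h1 w hw.1, mul_assoc, c.esq h1, mul_one]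
  have s1 : cj b w * cj b w = w * w := by rw [← cj_mul, c.zb _ (mul_mem hw.1 hw.1) hs]
  have s2 : cj b (cj b w) * cj b (cj b w) = w * w := by rw [← cj_mul, s1, c.zb _ (mul_mem hw.1 hw.1) hs]
  obtain ⟨ε, h1, h2⟩ := (c.ycj hR h hw).2 w hw.1
  have w1 := hR.nb w hw.1
  have k1 : (w * w) ^ 3 * ε = 1 := by
    have k2 : (w * cj b w) * (w * cj b w) * (w * w) = 1 := by
      rw [← s2, eq_inv_of_mul_eq_one_left hp]; group
    have k3 : (w * cj b w) * (w * cj b w) = cj w (cj b w) * (w * w) * cj b w := by simp only [cj]; group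
    have k6 := c.ecen h1 _ (mul_mem hw.1 hw.1)
    have k7 := c.ecen h1 _ w1
    have k8 := hs _ w1
    rw [k3, h2] at k2
    generalize w * w = s at s1 k2 k6 k8 ⊢
    calc s ^ 3 * ε = (cj b w * cj b w) * s * (s * ε) := by rw [s1, pow_three]; group
      _ = cj b w * (cj b w * s * ε) * s := by rw [k6]; group
      _ = cj b w * ε * s * cj b w * s := by
          rw [show cj b w * s * ε = ε * s * cj b w by rw [k8, mul_assoc s, k7, ← mul_assoc s, k6]]; group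
      _ = 1 := k2
  have k4 : (w * w) ^ 2 = 1 := by
    refine eq_one_of_cube hR.cop (pow_mem (mul_mem hw.1 hw.1) 2) ?_
    rw [← pow_mul, mul_comm, pow_mul, eq_inv_of_mul_eq_one_left k1, c.einv h1, pow_two, c.esq h1]
  rw [pow_succ, k4, one_mul] at k1
  have k5 : w * w = ε := by rw [eq_inv_of_mul_eq_one_left k1, c.einv h1]
  rcases h1 with rfl | rfl
  · exact Or.inl ⟨fun h0 => hwn fun r _ => by rw [h0]; simp, k5, cj_eq_iff.mp (by rw [h2, mul_one]), hp⟩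
  · exact Or.inr ⟨k5, h2⟩

theorem CB.existsW [Finite S] (c : CB ρ b R z) (hR : RH b R) (h : Hyp ρ b) (h2 : IsPGroup 2 R) {q : S}
    (hq : V4 b q) (hqR : q ∈ R) : ∃ w, V4 b w ∧ Ym R z w ∧ ¬ Zm R w := by
  have hqn : ¬ Zm R q := fun h1 => by
    have h3 := hq.prod
    rw [c.zb q hqR h1, c.zb q hqR h1, hq.sq, one_mul] at h3
    exact hq.ne h3
  obtain ⟨x, hx, h3, h4⟩ := c.e1 h2 le_rfl (fun _ _ h => h) ⟨q, hqR, hqn⟩
  obtain ⟨hi, hin, hv | ⟨i2, ij⟩⟩ := c.dich hR h ⟨hx, h4⟩ h3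
  · exact ⟨_, hv, hi, hin⟩
  have hp := norm_comm h.b3 x
  generalize x⁻¹ * cj b x = i at hi hin i2 ij hp
  have hj := c.ycj hR h hi
  have ez : ep z z := Or.inr rfl
  have ji := c.ysymm hi.1 hj.1 ez ij
  have nc : i * cj b i ≠ cj b i * i := fun h1 => c.ne (by rwa [cj_eq_iff.mpr h1, left_eq_mul] at ij)
  let C := R ⊓ centralizer {i, cj b i}
  have hC : ∀ x, x ∈ C ↔ x ∈ R ∧ x * i = i * x ∧ x * cj b i = cj b i * x := fun x =>
    ⟨fun hx => ⟨hx.1, (hx.2 _ (by simp)).symm, (hx.2 _ (by simp)).symm⟩, fun hx => ⟨hx.1, by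
      rintro _ (rfl | rfl); exacts [hx.2.1.symm, hx.2.2.symm]⟩⟩
  have hk : ∀ x ∈ C, x * cj b (cj b i) = cj b (cj b i) * x := fun x hx => by
    rw [eq_inv_of_mul_eq_one_right hp]
    exact (Commute.inv_right (Commute.mul_right ((hC x).mp hx).2.1 ((hC x).mp hx).2.2)).eq
  have hCb : ∀ x ∈ C, cj b x ∈ C := fun x hx => (hC _).mpr ⟨hR.nb x hx.1,
    by rw [← cj3 h.b3 i, ← cj_mul, hk x hx, cj_mul], by rw [← cj_mul, ((hC x).mp hx).2.1, cj_mul]⟩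
  have dec : ∀ r ∈ R, ∃ n, (n = 1 ∨ n = i ∨ n = cj b i ∨ n = i * cj b i) ∧ n⁻¹ * r ∈ C := fun r hr => by
    obtain ⟨ε, e1, e2⟩ := hi.2 r hr
    obtain ⟨ε', e3, e4⟩ := hj.2 r hr
    have key : ∀ n ∈ R, cj n i = i * ε → cj n (cj b i) = cj b i * ε' → n⁻¹ * r ∈ C := fun n hn a1 a2 =>
      (hC _).mpr ⟨mul_mem (inv_mem hn) hr, by rw [← cj_eq_iff, ← cj_cj, e2, ← a1, cj_cj]; simp [cj],
        by rw [← cj_eq_iff, ← cj_cj, e4, ← a2, cj_cj]; simp [cj]⟩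
    have ii : cj i i = i := by simp [cj]
    have jj : cj (cj b i) (cj b i) = cj b i := cj_eq_iff.mpr rfl
    rcases e1 with rfl | rfl <;> rcases e3 with rfl | rfl
    · exact ⟨1, by simp, key 1 (one_mem _) (by simp [cj]) (by simp [cj])⟩
    · exact ⟨i, by simp, key i hi.1 (by rw [ii, mul_one]) ij⟩
    · exact ⟨cj b i, by simp, key _ hj.1 ji (by rw [jj, mul_one])⟩
    · exact ⟨i * cj b i, by simp, key _ (mul_mem hi.1 hj.1)
        (by rw [← cj_cj, ji, cj_mul, ii, cj_eq_iff.mpr (c.cen i hi.1)]) (by rw [← cj_cj, jj, ij])⟩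
  have hcn : ∀ x ∈ C, ∀ n, (n = 1 ∨ n = i ∨ n = cj b i ∨ n = i * cj b i) → n * x = x * n := fun x hx n hn => by
    obtain ⟨-, a1, a2⟩ := (hC x).mp hx
    rcases hn with rfl | rfl | rfl | rfl
    exacts [by simp, a1.symm, a2.symm, (Commute.mul_right a1 a2).eq.symm]
  have hZ : ∀ x ∈ C, Zm C x → Zm R x := fun x hx hz r hr => by
    obtain ⟨n, hn, h5⟩ := dec r hr
    have := Commute.mul_left (hcn x hx n hn) (hz _ h5)
    rwa [mul_inv_cancel_left] at this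
  have hn : ∃ x ∈ C, ¬ Zm R x := by
    by_contra hcon
    push Not at hcon
    obtain ⟨n, hn, h5⟩ := dec q hqR
    have h6 := hcon _ h5
    have h7 := c.zb _ h5.1 h6
    have hnR : n ∈ R := by
      have := mul_mem hqR (inv_mem h5.1)
      rwa [show q * (n⁻¹ * q)⁻¹ = q * q⁻¹ * n by group, mul_inv_cancel, one_mul] at this
    have h8 : q = n * (n⁻¹ * q) := by group
    generalize n⁻¹ * q = t at h6 h7 h8
    have h9 := hq.comm
    rw [h8, cj_mul, h7, mul_assoc, mul_assoc, ← mul_assoc t, ← mul_assoc t, ← h6 _ hnR, ← h6 _ (hR.nb _ hnR),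
      mul_assoc _ t, mul_assoc _ t, ← mul_assoc, ← mul_assoc (cj b n), mul_left_inj] at h9
    rcases hn with rfl | rfl | rfl | rfl
    · exact hqn (by rwa [h8, one_mul])
    · exact nc h9
    · exact nc (cj_inj (b := b) (by rw [cj_mul, cj_mul, h9]))
    · rw [eq_inv_of_mul_eq_one_left hp, cj_inv, cj3 h.b3, ← mul_inv_rev, ← mul_inv_rev, inv_inj] at h9
      exact nc (cj_inj (b := b) (cj_inj (b := b) (by simp only [cj_mul, cj3 h.b3]; exact h9.symm)))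
  obtain ⟨x, hx, h3, h4⟩ := c.e1 h2 inf_le_left hZ hn
  have hxY : Ym R z x := ⟨hx.1, fun r hr => by
    obtain ⟨n, hn, h5⟩ := dec r hr
    obtain ⟨ε, e1, e2⟩ := h4 _ h5
    have hnR : n ∈ R := by
      have := mul_mem hr (inv_mem h5.1)
      rwa [show r * (n⁻¹ * r)⁻¹ = r * r⁻¹ * n by group, mul_inv_cancel, one_mul] at this
    refine ⟨ε, e1, ?_⟩
    rw [← mul_inv_cancel_left n r, ← cj_cj, e2, cj_mul, cj_eq_iff.mpr (hcn x hx n hn),
      cj_eq_iff.mpr (c.ecen e1 n hnR)]⟩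
  obtain ⟨hi', hin', hv | ⟨i2', ij'⟩⟩ := c.dich hR h hxY h3
  · exact ⟨_, hv, hi', hin'⟩
  have hp' := norm_comm h.b3 x
  have hiC : x⁻¹ * cj b x ∈ C := mul_mem (inv_mem hx) (hCb x hx)
  generalize x⁻¹ * cj b x = u at hi' hin' i2' ij' hp' hiC
  obtain ⟨-, a1, a2⟩ := (hC u).mp hiC
  obtain ⟨-, a3, a4⟩ := (hC _).mp (hCb u hiC)
  have a5 := hk u hiC
  have a6 := hk _ (hCb u hiC)
  have hn' : ¬ Zm R (i * u) := fun h5 => nc (by
    have := h5 _ hj.1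
    rw [mul_assoc, a2, ← mul_assoc, ← mul_assoc, mul_left_inj] at this
    exact this.symm)
  refine ⟨i * u, ⟨fun h0 => hn' fun r _ => by rw [h0]; simp, ?_, ?_, ?_⟩, c.ymul hi hi', hn'⟩
  · rw [mul_assoc, ← mul_assoc u, a1, mul_assoc, i2', ← mul_assoc, i2, c.sq]
  · rw [← cj_eq_iff, cj_mul, ← cj_cj, cj_mul, cj_eq_iff.mpr a2, ij', cj_mul, cj_mul, ij, cj_eq_iff.mpr a3.symm,
      cj_eq_iff.mpr (c.cen i hi.1), mul_assoc, ← mul_assoc z, ← c.cen _ (hCb u hiC).1, mul_assoc, c.sq, mul_one]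
  · simp only [cj_mul]
    calc _ = i * (u * cj b i) * (cj b u * cj b (cj b i)) * cj b (cj b u) := by group
      _ = i * cj b i * (u * cj b (cj b i)) * cj b u * cj b (cj b u) := by rw [a2, a6]; group
      _ = (i * cj b i * cj b (cj b i)) * (u * cj b u * cj b (cj b u)) := by rw [a5]; group
      _ = 1 := by rw [hp, hp', one_mul]

theorem CB.ep_iff (c : CB ρ b R z) : ε ∈ zpowers z ↔ ep z ε := by
  refine ⟨fun h => ?_, fun h => by rcases h with rfl | rfl; exacts [one_mem _, mem_zpowers _]⟩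
  have h1 : zpowers z ≤ R ⊓ centralizer (R : Set S) := zpowers_le.mpr ⟨c.mem, c.cen⟩
  refine c.uniq ε (h1 h).1 (h1 h).2 ?_
  obtain ⟨k, rfl⟩ := mem_zpowers_iff.mp h
  rw [← Commute.mul_zpow rfl, c.sq, one_zpow]

theorem CB.final [Finite S] [Finite E] (c : CB ρ b R z) (hR : RH b R) (h : Hyp ρ b) (hw : V4 b w) (hY : Ym R z w)
    (hn : ¬ Zm R w) : IsExtraspecial 2 R ∧ Nat.card R = 32 ∧
      ∃ A : Subgroup S, A ≤ R ∧ IsElementaryAbelian 2 A ∧ Nat.card A = 8 := by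
  classical
  obtain ⟨e, f⟩ := hw.frame h
  have hwR := hY.1
  have hY1 := c.ycj hR h hY
  have w1 := hY1.1
  have ez : ep z z := Or.inr rfl
  have e1 := hw.s01 h ⟨f.h0, f.h1⟩
  have e2 := hw.s12 h e1
  have m0 := f.mem0 hR hwR
  have m1 := hR.F0_b m0
  have m2 := hR.F0_b m1
  have shift : ∀ r ∈ R, ∀ α β, ep z α → ep z β → cj r w = w * α → cj r (cj b w) = cj b w * β →
      cj (cj b r) w = w * (α * β) ∧ cj (cj b r) (cj b w) = cj b w * α := fun r hr α β ha hb h1 h2 => by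
    refine ⟨?_, by rw [cj_cj', h1, cj_mul, c.eb ha]⟩
    nth_rewrite 1 [← cj3 h.b3 w]
    rw [cj_cj', hw.w2, cj_mul, h1, h2, mul_assoc, ← mul_assoc α, ← c.ecen ha _ w1, mul_assoc, ← mul_assoc w,
      ← hw.w2, cj_mul, cj3 h.b3, c.eb (c.emul ha hb)]
  obtain ⟨r1, hr1, t1, t1'⟩ : ∃ r ∈ R, cj r w = w * z ∧ cj r (cj b w) = cj b w * 1 := by
    simp only [Zm, not_forall] at hn
    obtain ⟨r, hr, hne⟩ := hn
    obtain ⟨α, ha, h1⟩ := hY.2 r hr
    obtain ⟨β, hb, h2⟩ := hY1.2 r hr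
    rcases ha with rfl | rfl
    · exact absurd (cj_eq_iff.mp (by rw [h1, mul_one])) hne
    rcases hb with rfl | rfl
    · exact ⟨r, hr, h1, h2⟩
    have k1 := shift r hr _ _ ez ez h1 h2
    rw [c.sq] at k1
    have k2 := shift _ (hR.nb r hr) _ _ (Or.inl rfl) ez k1.1 k1.2
    rw [one_mul] at k2
    exact ⟨_, hR.nb _ (hR.nb r hr), k2⟩
  have hr3 := hR.nb _ hr1
  have hr2 := hR.nb _ hr3
  obtain ⟨t3, t3'⟩ := shift _ hr1 _ _ ez (Or.inl rfl) t1 t1'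
  rw [mul_one] at t3
  obtain ⟨t2, t2'⟩ := shift _ hr3 _ _ ez ez t3 t3'
  rw [c.sq] at t2
  let D := R ⊓ centralizer {w, cj b w}
  have hD : ∀ x, x ∈ D ↔ x ∈ R ∧ x * w = w * x ∧ x * cj b w = cj b w * x := fun x =>
    ⟨fun hx => ⟨hx.1, (hx.2 _ (by simp)).symm, (hx.2 _ (by simp)).symm⟩, fun hx => ⟨hx.1, by
      rintro _ (rfl | rfl); exacts [hx.2.1.symm, hx.2.2.symm]⟩⟩
  have sg := fun d (hd : d ∈ D) => f.signs hw h ((hD d).mp hd).2.1 ((hD d).mp hd).2.2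
  obtain ⟨e3, n3, m3, a3, a3', u3⟩ : ∃ e3, e3 ≠ 0 ∧ e3 ∈ F0 ρ R ∧ ρ w e3 = e3 ∧ ρ (cj b w) e3 = e3 ∧
      ∀ v ∈ F0 ρ R, ρ w v = v → ρ (cj b w) v = v → ∃ a : ZMod 3, v = a • e3 := by
    generalize cj b (cj b r1) = r at hr2 t2 t2'
    rw [mul_one, cj_eq_iff] at t2
    refine ⟨ρ r⁻¹ e, fun h0 => f.ne (ap_inj ρ r⁻¹ (by rw [h0, map_zero])), F0_R (inv_mem hr2) m0, ?_, ?_,
      fun v hv h0 h1 => ?_⟩
    · rw [comm_ap (Commute.inv_left t2).eq, f.h0]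
    · refine ap_inj ρ r ?_
      rw [← cj_ap, t2', ap_inv, mul_ap, c.neg _ m0, map_neg, f.h1, neg_neg]
    · obtain ⟨a, ha⟩ := f.uniq (ρ r v) (by rw [comm_ap t2, h0]) (by
        have := cj_ap ρ r (cj b w) v
        rw [t2', mul_ap, c.neg _ (F0_R hr2 hv), map_neg, h1] at this
        exact neg_eq_iff_eq_neg.mp this)
      exact ⟨a, by rw [← map_smul, ← ha, inv_ap]⟩
  have hd : ∀ x ∈ F0 ρ R, ∃ a0 a1 a2 a3 : ZMod 3, x = a0 • e + a1 • ρ b e + a2 • ρ b (ρ b e) + a3 • e3 :=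
    fun x hx => by
    obtain ⟨a0, a1, a2, u, rfl, h0, h1⟩ := f.dec hw h x
    obtain ⟨a, rfl⟩ := u3 u ((Submodule.add_mem_iff_right _ (Submodule.add_mem _ (Submodule.add_mem _
      (Submodule.smul_mem _ _ m0) (Submodule.smul_mem _ _ m1)) (Submodule.smul_mem _ _ m2))).mp hx) h0 h1
    exact ⟨a0, a1, a2, a, rfl⟩
  have inj : ∀ d ∈ D, ρ d e = e → ρ d (ρ b e) = ρ b e → ρ d (ρ b (ρ b e)) = ρ b (ρ b e) → d = 1 := by
    intro d hdD h0 h1 h2
    obtain ⟨hr, k1, k2⟩ := (hD d).mp hdD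
    obtain ⟨a, ha⟩ := u3 (ρ d e3) (F0_R hr m3) (by rw [comm_ap k1, a3]) (by rw [comm_ap k2, a3'])
    rcases sign_of_line ha with h3 | h3
    · refine h.eq_one_F0 hR.cop hr fun x hx => ?_
      obtain ⟨a0, a1, a2, a3, rfl⟩ := hd x hx
      simp only [map_add, map_smul, h0, h1, h2, h3]
    · refine (hR.noRefl hr n3 h3 fun v => ?_).elim
      obtain ⟨x, hx, u, hu, rfl⟩ := F_dec (ρ := ρ) hR.cop v
      obtain ⟨a0, a1, a2, a3, rfl⟩ := hd x hx
      simp only [map_add, map_smul, h0, h1, h2, h3, hu d hr]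
      refine Submodule.mem_span_singleton.mpr ⟨-(a3 + a3), ?_⟩
      simp only [smul_neg, neg_smul, add_smul]; abel
  have sqD : ∀ d ∈ D, d * d = 1 := fun d hd =>
    inj _ (mul_mem hd hd) (fix_sq (sg d hd).1) (fix_sq (sg d hd).2.1) (fix_sq (sg d hd).2.2)
  have wD : w ∈ D := (hD _).mpr ⟨hwR, rfl, hw.comm⟩
  have w1D : cj b w ∈ D := (hD _).mpr ⟨w1, hw.comm.symm, rfl⟩
  have zD : z ∈ D := (hD _).mpr ⟨c.mem, (c.cen _ hwR).symm, (c.cen _ w1).symm⟩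
  have n0 : -e ≠ e := neg_ne f.ne
  have n1 : -ρ b e ≠ ρ b e := neg_ne fun h0 => f.ne (ap_inj ρ b (by rw [h0, map_zero]))
  have n2 : -ρ b (ρ b e) ≠ ρ b (ρ b e) :=
    neg_ne fun h0 => f.ne (ap_inj ρ b (ap_inj ρ b (by rw [h0, map_zero, map_zero])))
  let F : D → Bool × Bool × Bool := fun r =>
    (decide (ρ r e = e), decide (ρ r (ρ b e) = ρ b e), decide (ρ r (ρ b (ρ b e)) = ρ b (ρ b e)))
  have hF : Function.Injective F := fun r s hrs => by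
    simp only [F, Prod.mk.injEq, decide_eq_decide] at hrs
    exact Subtype.ext (inv_mul_eq_one.mp (inj _ (mul_mem (inv_mem r.2) s.2) (fix_of_iff (sg r r.2).1 (sg s s.2).1 hrs.1)
      (fix_of_iff (sg r r.2).2.1 (sg s s.2).2.1 hrs.2.1) (fix_of_iff (sg r r.2).2.2 (sg s s.2).2.2 hrs.2.2)))
  have yz := c.yep ez
  have hS : ∀ p, ∃ d : D, Ym R z d ∧ F d = p := fun p => by
    have z0 := c.neg _ m0
    have z1 := c.neg _ m1
    have z2 := c.neg _ m2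
    rcases p with ⟨_ | _, _ | _, _ | _⟩
    · exact ⟨⟨z, zD⟩, yz, by simp [F, z0, z1, z2, n0, n1, n2]⟩
    · exact ⟨⟨w * cj b w, mul_mem wD w1D⟩, c.ymul hY hY1, by simp [F, f.h0, f.h1, e1.1, e2.1, e1.2, e2.2, n0, n1, n2]⟩
    · exact ⟨⟨cj b w, w1D⟩, hY1, by simp [F, f.h1, e1.2, e2.2, n0, n2]⟩
    · exact ⟨⟨w * z, mul_mem wD zD⟩, c.ymul hY yz, by simp [F, z0, z1, z2, f.h0, e1.1, e2.1, n0]⟩
    · exact ⟨⟨w, wD⟩, hY, by simp [F, f.h0, e1.1, e2.1, n1, n2]⟩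
    · exact ⟨⟨cj b w * z, mul_mem w1D zD⟩, c.ymul hY1 yz, by simp [F, z0, z1, z2, f.h1, e1.2, e2.2, n1]⟩
    · exact ⟨⟨w * cj b w * z, mul_mem (mul_mem wD w1D) zD⟩, c.ymul (c.ymul hY hY1) yz,
        by simp [F, z0, z1, z2, f.h0, f.h1, e1.1, e2.1, e1.2, e2.2, n2]⟩
    · exact ⟨1, c.yep (Or.inl rfl), by simp [F]⟩
  have cD : Nat.card D = 8 := by
    rw [Nat.card_congr (Equiv.ofBijective F ⟨hF, fun p => (hS p).imp fun _ h => h.2⟩)]; simp
  have yD : ∀ d ∈ D, Ym R z d := fun d hd => by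
    obtain ⟨d', h1, h2⟩ := hS (F ⟨d, hd⟩)
    rwa [hF h2] at h1
  have key : ∀ r ∈ R, ∀ n ∈ R, cj r w = cj n w → cj r (cj b w) = cj n (cj b w) → n⁻¹ * r ∈ D :=
    fun r hr n hn a1 a2 => (hD _).mpr ⟨mul_mem (inv_mem hn) hr, by rw [← cj_eq_iff, ← cj_cj, a1, cj_cj]; simp [cj],
      by rw [← cj_eq_iff, ← cj_cj, a2, cj_cj]; simp [cj]⟩
  have dec : ∀ r ∈ R, ∃ n, (n = 1 ∨ n = r1 ∨ n = cj b r1 ∨ n = r1 * cj b r1) ∧ n⁻¹ * r ∈ D := fun r hr => by
    obtain ⟨α, ha, h1⟩ := hY.2 r hr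
    obtain ⟨β, hb, h2⟩ := hY1.2 r hr
    rcases ha with rfl | rfl <;> rcases hb with rfl | rfl
    · exact ⟨1, by simp, key r hr 1 (one_mem _) (by rw [h1]; simp [cj]) (by rw [h2]; simp [cj])⟩
    · exact ⟨r1 * cj b r1, by simp, key r hr _ (mul_mem hr1 hr3)
        (by rw [h1, ← cj_cj, t3, cj_mul, t1, cj_eq_iff.mpr (c.cen _ hr1), mul_assoc, c.sq])
        (by rw [h2, ← cj_cj, t3', cj_mul, t1', cj_eq_iff.mpr (c.cen _ hr1), mul_one])⟩
    · exact ⟨r1, by simp, key r hr _ hr1 (by rw [h1, t1]) (by rw [h2, t1'])⟩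
    · exact ⟨cj b r1, by simp, key r hr _ hr3 (by rw [h1, t3]) (by rw [h2, t3'])⟩
  have zE : ∀ x ∈ R, Zm R x → ep z x := fun x hx hz =>
    c.uniq x hx hz (sqD x ((hD x).mpr ⟨hx, (hz _ hwR).symm, (hz _ w1).symm⟩))
  have cjcomm : ∀ r ∈ R, ∀ s ∈ R, ∀ x, Ym R z x → cj (r * s) x = cj (s * r) x := fun r hr s hs x hx => by
    obtain ⟨α, ha, h1⟩ := hx.2 r hr
    obtain ⟨β, hb, h2⟩ := hx.2 s hs
    rw [← cj_cj, ← cj_cj, h1, h2, cj_mul, cj_mul, h1, h2, cj_eq_iff.mpr (c.ecen ha s hs),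
      cj_eq_iff.mpr (c.ecen hb r hr), mul_assoc, mul_assoc, c.ecen ha _ (c.emem hb)]
  have y1 : Ym R z r1 := by
    have tD : (r1 * cj b r1)⁻¹ * (cj b r1 * r1) ∈ D := key _ (mul_mem hr3 hr1) _ (mul_mem hr1 hr3)
      (cjcomm _ hr3 _ hr1 _ hY) (cjcomm _ hr3 _ hr1 _ hY1)
    have tD' : r1⁻¹ * cj (cj b r1) r1 ∈ D := by
      obtain ⟨ε, h1, h2⟩ := (yD _ tD).2 _ hr3
      rw [show r1⁻¹ * cj (cj b r1) r1 = cj (cj b r1) ((r1 * cj b r1)⁻¹ * (cj b r1 * r1)) by simp only [cj]; group, h2]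
      exact mul_mem tD (by rcases h1 with rfl | rfl; exacts [one_mem _, zD])
    have dD : (r1 * cj b r1)⁻¹ * cj b (cj b r1) ∈ D := key _ hr2 _ (mul_mem hr1 hr3)
      (by rw [t2, ← cj_cj, t3, cj_mul, t1, cj_eq_iff.mpr (c.cen _ hr1), mul_assoc, c.sq])
      (by rw [t2', ← cj_cj, t3', cj_mul, t1', cj_eq_iff.mpr (c.cen _ hr1), mul_one])
    have ht : ep z (r1⁻¹ * cj (cj b r1) r1) := by
      refine zE _ tD'.1 (c.c1 hR (yD _ tD') ?_)
      obtain ⟨ε, h1, h2⟩ := (yD _ dD).2 _ hr3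
      have h3 := c.ysymm hr3 dD.1 h1 h2
      obtain ⟨ε', h4, h5⟩ := (c.yinv (yD _ tD')).2 _ (mul_mem (inv_mem hr3) hr1)
      have h6 : cj b (r1⁻¹ * cj (cj b r1) r1) = cj ((cj b r1)⁻¹ * r1) (r1⁻¹ * cj (cj b r1) r1)⁻¹ * ε := by
        rw [cj_mul, cj_inv, ← cj_cj', ← mul_inv_cancel_left (r1 * cj b r1) (cj b (cj b r1)), ← cj_cj, h3, cj_mul,
          cj_eq_iff.mpr (c.ecen h1 _ (mul_mem hr1 hr3))]
        simp only [cj]; group
      rw [h6, h5, ← mul_assoc, ← mul_assoc, ← mul_inv_rev, sqD _ tD', inv_one, one_mul]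
      exact c.ecen (c.emul h4 h1)
    have h7 : cj (cj b r1) r1 = r1 * (r1⁻¹ * cj (cj b r1) r1) := by group
    refine ⟨hr1, fun r hr => ?_⟩
    obtain ⟨n, hn, h5⟩ := dec r hr
    obtain ⟨ε, h1, h2⟩ := (yD _ h5).2 _ hr1
    have h3 := c.ysymm hr1 h5.1 h1 h2
    have rr : cj r1 r1 = r1 := cj_eq_iff.mpr rfl
    rw [← mul_inv_cancel_left n r, ← cj_cj, h3, cj_mul]
    rcases hn with rfl | rfl | rfl | rfl
    · exact ⟨ε, h1, by simp [cj]⟩
    · exact ⟨ε, h1, by rw [rr, cj_eq_iff.mpr (c.ecen h1 _ hr1)]⟩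
    · exact ⟨_, c.emul ht h1, by rw [cj_eq_iff.mpr (c.ecen h1 _ hr3), ← mul_assoc, ← h7]⟩
    · exact ⟨_, c.emul ht h1, by
        rw [cj_eq_iff.mpr (c.ecen h1 _ (mul_mem hr1 hr3)), ← cj_cj, h7, cj_mul, rr, cj_eq_iff.mpr (c.ecen ht _ hr1),
          mul_assoc, ← h7]⟩
  have yR : ∀ r ∈ R, Ym R z r := fun r hr => by
    obtain ⟨n, hn, h5⟩ := dec r hr
    rw [← mul_inv_cancel_left n r]
    refine c.ymul ?_ (yD _ h5)
    rcases hn with rfl | rfl | rfl | rfl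
    exacts [c.yep (Or.inl rfl), y1, c.ycj hR h y1, c.ymul y1 (c.ycj hR h y1)]
  have oz : orderOf z = 2 := orderOf_eq_prime (by rw [pow_two, c.sq]) c.ne
  refine ⟨?_, ?_, D, inf_le_left, elemAb_of_sq sqD, cD⟩
  · refine isExtraspecial_of_aes (z := z) ⟨oz, c.mem, c.cen, fun x hx y hy => ?_, fun x hx => ?_⟩
      (fun x hx => c.ep_iff.mpr (zE x hx.1 hx.2)) fun hc => hn fun r hr =>
        congrArg Subtype.val (hc.is_comm.comm (⟨r, hr⟩ : R) ⟨w, hwR⟩)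
    · obtain ⟨ε, h1, h2⟩ := (yR y hy).2 x hx
      rw [commutatorElement_def, show x * y * x⁻¹ = cj x y from rfl, h2, c.ecen h1 y hy, mul_inv_cancel_right]
      exact c.ep_iff.mpr h1
    · refine c.ep_iff.mpr (zE _ (pow_mem hx 2) fun r hr => ?_)
      obtain ⟨ε, h1, h2⟩ := (yR x hx).2 r hr
      rw [← cj_eq_iff, pow_two, cj_mul, h2, mul_assoc, ← mul_assoc ε, ← c.ecen h1 x hx, mul_assoc, c.esq h1, mul_one]
  · have hm : ∀ x, Ym R z x → ∀ r ∈ R, ∀ s ∈ R, x⁻¹ * cj (r * s) x = x⁻¹ * cj r x * (x⁻¹ * cj s x) :=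
      fun x hx r hr s hs => by
      obtain ⟨β, hb, h2⟩ := hx.2 s hs
      rw [← cj_cj, h2, cj_mul, cj_eq_iff.mpr (c.ecen hb r hr)]; group
    let φ : R →* S × S := MonoidHom.mk' (fun r => (w⁻¹ * cj (r : S) w, (cj b w)⁻¹ * cj (r : S) (cj b w))) fun r s =>
      Prod.ext (hm _ hY _ r.2 _ s.2) (hm _ hY1 _ r.2 _ s.2)
    have k1 : φ.ker = D.subgroupOf R := by
      ext r
      rw [MonoidHom.mem_ker, mem_subgroupOf, hD, Prod.ext_iff]
      simp only [φ, MonoidHom.mk'_apply, Prod.fst_one, Prod.snd_one, inv_mul_eq_one, r.2, true_and, ← cj_eq_iff]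
      exact and_congr eq_comm eq_comm
    have k2 : φ.range = (zpowers z).prod (zpowers z) := by
      refine le_antisymm ?_ ?_
      · rintro _ ⟨r, rfl⟩
        obtain ⟨α, ha, h1⟩ := hY.2 r r.2
        obtain ⟨β, hb, h2⟩ := hY1.2 r r.2
        exact ⟨c.ep_iff.mpr (by simpa [φ, h1] using ha), c.ep_iff.mpr (by simpa [φ, h2] using hb)⟩
      · rintro ⟨α, β⟩ ⟨ha, hb⟩
        have ha' : ep z α := c.ep_iff.mp ha
        have hb' : ep z β := c.ep_iff.mp hb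
        rcases ha' with ha' | ha' <;> rcases hb' with hb' | hb' <;> rw [ha', hb']
        · exact one_mem _
        · exact ⟨⟨_, hr2⟩, by simp [φ, t2, t2']⟩
        · exact ⟨⟨_, hr1⟩, by simp [φ, t1, t1']⟩
        · exact ⟨⟨_, hr3⟩, by simp [φ, t3, t3']⟩
    rw [← φ.ker.card_mul_index, index_ker, k1, k2, Nat.card_congr (subgroupOfEquivOfLe inf_le_left).toEquiv, cD,
      Nat.card_congr (prodEquiv _ _).toEquiv, Nat.card_prod, Nat.card_zpowers, oz]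

end H04.TL
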