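import Cfsg.Agent.H02.Higman1
import Cfsg.Agent.H04.Pat
import Cfsg.Agent.H04.Rank2

/-! 2-groups of order at least `2^14` with `|Z₄| = 16` whose `C(Z₃)` has small Frattini subgroup: preliminaries. -/

set_option autoImplicit false
open Cfsg BG Subgroup H02.Suz H02.Hig
open scoped commutatorElement

local notation "#" => Nat.card

namespace H04.U14

variable {G : Type*} [Group G] [Finite G]

theorem idx {M : Type*} [AddCommGroup M] [Finite M] {A : Subgroup G} {f : G → M} (h : AddOn A f) :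
    h.ker.relIndex A ≤ # M ∧ (# M ≤ h.ker.relIndex A → ∀ m, ∃ x ∈ A, f x = m) := by
  let φ : A →* Multiplicative M := MonoidHom.mk' (fun x => .ofAdd (f x)) fun x y => h _ x.2 _ y.2
  have e : h.ker.relIndex A = # φ.range := by
    rw [← index_ker, show φ.ker = h.ker.subgroupOf A from Subgroup.ext fun x => ⟨fun a => ⟨x.2, a⟩, fun a => a.2⟩]; rfl
  rw [e]
  refine ⟨card_le_card_group _, fun a m => ?_⟩
  obtain ⟨x, hx⟩ := (eq_top_of_le_card φ.range a).ge (mem_top (Multiplicative.ofAdd m))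
  exact ⟨x, x.2, hx⟩

theorem map_pw {H : Type*} [Group H] (f : G →* H) (A : Subgroup G) : (pw A 2).map f = pw (A.map f) 2 := by
  refine le_antisymm (map_le_iff_le_comap.2 (pw2_le_iff.2 fun a ha => ?_)) (pw2_le_iff.2 ?_)
  · rw [mem_comap, map_mul]; exact sq_mem_pw (mem_map_of_mem f ha)
  · rintro _ ⟨a, ha, rfl⟩; exact ⟨_, sq_mem_pw ha, map_mul _ _ _⟩

theorem fr_eq {A : Subgroup G} (h : IsPGroup 2 A) : (frattini A).map A.subtype = pw A 2 :=
  le_antisymm ((map_subtype_frattini_le_iff h).2 ⟨fun _ hx _ hy => comm_mem_of_sq (fun _ => sq_mem_pw) hx hy,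
    fun _ hx => pow_mem_pw hx 2⟩) (pw_le_iff.2 fun _ hx => pow_mem_map_frattini h hx)

def Dd (W : Subgroup G) : Prop := ∀ U ≤ W, U.relIndex W ≤ 16 → pw W 2 ≤ U

omit [Finite G] in
theorem Dd.map {H : Type*} [Group H] [Finite G] {W : Subgroup G} (h : Dd W) (f : G →* H) : Dd (W.map f) := fun U _ hU => by
  rw [← map_pw, map_le_iff_le_comap]
  exact (h (U.comap f ⊓ W) inf_le_right (by rwa [inf_relIndex_right, relIndex_comap])).trans inf_le_left

theorem Dd.pw_le {W U : Subgroup G} (h : Dd W) (hU : U ≤ W) (hi : U.relIndex W ≤ 8) : pw W 2 ≤ pw U 2 := fun x hx => by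
  by_contra c
  obtain ⟨f, f1, f2, f3⟩ := exists_functional (M := ZMod 2) (B := pw U 2) CharTwo.add_self_eq_zero (fun _ => sq_mem_pw)
    (H02.Hig.pw_le U 2) (h U hU (by omega) hx) c 1
  have := (idx f1).1
  have e := (h f1.ker (fun _ a => hU a.1) (by
    rw [← relIndex_mul_relIndex _ _ _ (fun _ a => a.1 : f1.ker ≤ U) hU]
    exact (Nat.mul_le_mul this hi).trans (by simp)) hx).2
  simp [f3] at e

theorem d8 {Q : Type*} [Group Q] [Fintype Q] (ι : Q ≃* DihedralGroup 4) (K : Subgroup Q) (h1 : K.index = 2)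
    (h2 : ∀ k ∈ K, k * k = 1) : ∃ z g₁ g₂ : Q, z ∈ K ∧ z ≠ 1 ∧ z * z = 1 ∧ (∀ g, z * g = g * z) ∧ z = g₁ * g₁ ∧
      (∀ g ∉ K, g = g₁ ∨ g = g₁ * z ∨ g = g₂ ∨ g = g₂ * z) ∧
      ∀ f : Q → ZMod 2, (∀ g, f g⁻¹ = f g) → (∀ k ∈ K, f k = 0) → ∑ g, f g = 0 → ∀ g, f (g * z) = f g := by
  open DihedralGroup in
  have e : ∀ x y z, x * y = z → ι.symm x * ι.symm y = ι.symm z := fun x y z h => by rw [← map_mul, h]
  have n1 : ι.symm (.r 1) ∉ K := fun a => by
    have := h2 _ a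
    rw [← map_mul, map_eq_one_iff _ ι.symm.injective] at this
    exact absurd this (by decide)
  have z1 : ι.symm (.r 2) ∈ K := e (.r 1) (.r 1) _ rfl ▸ mul_self_mem_of_index_two h1 _
  have z0 : ι.symm (.r 0) ∈ K := by rw [show (.r 0 : DihedralGroup 4) = 1 from rfl, map_one]; exact one_mem _
  have c : ∀ g : DihedralGroup 4, g = .r 0 ∨ g = .r 1 ∨ g = .r 2 ∨ g = .r 3 ∨ g = .sr 0 ∨ g = .sr 1 ∨ g = .sr 2 ∨ g = .sr 3 := by
    decide
  obtain ⟨i, j, i1, i2⟩ : ∃ i j : ZMod 4, ι.symm (.sr i) ∈ K ∧ (i = 0 ∧ j = 1 ∨ i = 1 ∧ j = 0) := by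
    by_cases a : ι.symm (.sr 0) ∈ K
    · exact ⟨0, 1, a, .inl ⟨rfl, rfl⟩⟩
    · exact ⟨1, 0, e (.sr 0) (.r 1) _ rfl ▸ (mul_mem_iff_of_index_two h1).2 (iff_of_false a n1), .inr ⟨rfl, rfl⟩⟩
  have i3 : ι.symm (.sr (i + 2)) ∈ K := e (.sr i) (.r 2) _ rfl ▸ mul_mem i1 z1
  refine ⟨ι.symm (.r 2), ι.symm (.r 1), ι.symm (.sr j), z1, by rw [Ne, map_eq_one_iff _ ι.symm.injective]; decide, h2 _ z1,
    fun g => ?_, (e (.r 1) (.r 1) _ rfl).symm, fun g hg => ?_, fun f f1 f2 f3 g => ?_⟩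
  · obtain ⟨g, rfl⟩ := ι.symm.surjective g
    rw [← map_mul, ← map_mul]; congr 1; revert g; decide
  · obtain ⟨g, rfl⟩ := ι.symm.surjective g
    simp only [← map_mul, EmbeddingLike.apply_eq_iff_eq]
    rcases i2 with ⟨rfl, rfl⟩ | ⟨rfl, rfl⟩ <;> rcases c g with rfl | rfl | rfl | rfl | rfl | rfl | rfl | rfl <;>
      first | decide | contradiction
  · obtain ⟨g, rfl⟩ := ι.symm.surjective g
    rw [← ι.symm.toEquiv.sum_comp, show (Finset.univ : Finset (DihedralGroup 4)) =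
      {.r 0, .r 1, .r 2, .r 3, .sr 0, .sr 1, .sr 2, .sr 3} by decide] at f3
    have a := f1 (ι.symm (.r 1))
    rw [← map_inv, show (.r 1 : DihedralGroup 4)⁻¹ = .r 3 from rfl] at a
    have b0 := f2 _ z0
    have b1 := f2 _ z1
    have b2 := f2 _ i1
    have b3 := f2 _ i3
    repeat rw [Finset.sum_insert (by decide)] at f3
    simp only [Finset.sum_singleton, MulEquiv.toEquiv_eq_coe, EquivLike.coe_coe] at f3
    have k : ∀ a b c : ZMod 2, (0 + (a + (0 + (a + (0 + (b + (0 + c)))))) = 0 ∨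
      0 + (a + (0 + (a + (b + (0 + (c + 0)))))) = 0) → b = c := by decide
    rw [← map_mul]
    rcases i2 with ⟨rfl, rfl⟩ | ⟨rfl, rfl⟩
    · replace b3 : f (ι.symm (.sr 2)) = 0 := b3
      rw [a, b0, b1, b2, b3] at f3
      have := k _ _ _ (.inl f3)
      rcases c g with rfl | rfl | rfl | rfl | rfl | rfl | rfl | rfl
      exacts [b1.trans b0.symm, a, b0.trans b1.symm, a.symm, b3.trans b2.symm, this.symm, b2.trans b3.symm, this]
    · replace b3 : f (ι.symm (.sr 3)) = 0 := b3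
      rw [a, b0, b1, b2, b3] at f3
      have := k _ _ _ (.inr f3)
      rcases c g with rfl | rfl | rfl | rfl | rfl | rfl | rfl | rfl
      exacts [b1.trans b0.symm, a, b0.trans b1.symm, a.symm, this.symm, b3.trans b2.symm, this, b2.trans b3.symm]

local notation "Z" => Subgroup.upperCentralSeries G

theorem zcard (hG : IsPGroup 2 G) (ha : 16 < # G) (hb : # (Z 4) = 16) {i : ℕ} (hi : i ≤ 4) : # (Z i) = 2 ^ i := by
  have h : ∀ i < 4, 2 * # (Z i) ≤ # (Z (i + 1)) := fun i hi => by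
    refine mul_card_le_of_lt (hG.to_subgroup _) (lt_of_le_of_ne (Subgroup.upperCentralSeries_mono G i.le_succ) fun e => ?_)
    obtain ⟨x, -, a, -, b⟩ := exists_central_step hG (Z i) ⊤ fun c => by
      have := Subgroup.card_le_of_le (c.trans (Subgroup.upperCentralSeries_mono G hi.le))
      rw [Subgroup.card_top] at this
      omega
    exact a (e ▸ b)
  have h0 : # (Z 0) = 1 := Subgroup.card_bot
  have h1 := h 0 (by omega)
  have h2 := h 1 (by omega)
  have h3 := h 2 (by omega)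
  have h4 := h 3 (by omega)
  interval_cases i <;> simp only [Nat.reduceAdd, Nat.reducePow] at * <;> omega

theorem zstep (hG : IsPGroup 2 G) (ha : 16 < # G) (hb : # (Z 4) = 16) {i : ℕ} (hi : i < 4) (N : Subgroup G) [N.Normal]
    (h : ¬ N ≤ Z i) : ∃ x ∈ N, x ∉ Z i ∧ Z i ⊔ zpowers x = Z (i + 1) := by
  obtain ⟨x, a, b, c, d⟩ := exists_central_step hG (Z i) N h
  refine ⟨x, a, b, eq_of_le_of_card_le (sup_le (Subgroup.upperCentralSeries_mono G i.le_succ) (zpowers_le.2 d)) ?_⟩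
  rw [card_sup_zpowers _ (H01.le_normalizer_of_normal ⊤ _ trivial) b c, zcard hG ha hb hi, zcard hG ha hb hi.le, pow_succ']

theorem zle (hG : IsPGroup 2 G) (ha : 16 < # G) (hb : # (Z 4) = 16) {i : ℕ} (hi : i < 4) (N : Subgroup G) [N.Normal]
    (h : ¬ N ≤ Z i) : Z (i + 1) ≤ N := by
  induction i with
  | zero => obtain ⟨x, a, -, c⟩ := zstep hG ha hb hi N h; exact c ▸ sup_le bot_le (zpowers_le.2 a)
  | succ i ih =>
    obtain ⟨x, a, -, c⟩ := zstep hG ha hb hi N h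
    exact c ▸ sup_le (ih (by omega) fun d => h (d.trans (Subgroup.upperCentralSeries_mono G i.le_succ))) (zpowers_le.2 a)

theorem aut_step {X : Subgroup G} [hX : X.Characteristic] {α : MulAut G} (ho : Odd (orderOf α)) (hsq : ∀ x, x * x ∈ X) {x : G}
    (h : (x⁻¹ * α x)⁻¹ * α (x⁻¹ * α x) ∈ X) : x⁻¹ * α x ∈ X := by
  obtain ⟨c, hc⟩ : ∃ c, c = x⁻¹ * α x := ⟨_, rfl⟩
  rw [← hc] at h ⊢
  have k : ∀ u v : G, (u : G ⧸ X) = v → (α u : G ⧸ X) = α v := fun u v e => QuotientGroup.eq.2 (by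
    rw [← map_inv, ← map_mul]; exact (characteristic_iff_le_comap.1 hX α) (QuotientGroup.eq.1 e))
  have e : ∀ n : ℕ, ((α ^ n) x : G ⧸ X) = (x * c ^ n : G) := fun n => by
    induction n with
    | zero => simp
    | succ n ih =>
      rw [pow_succ', MulAut.mul_apply, k _ _ ih, map_mul, map_pow, show α x = x * c by rw [hc]; group, pow_succ']
      simp only [QuotientGroup.mk_mul, QuotientGroup.mk_pow, mul_assoc, ← QuotientGroup.eq.2 h]
  obtain ⟨m, hm⟩ := ho
  have := QuotientGroup.eq.1 (e (orderOf α))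
  rw [pow_orderOf_eq_one, MulAut.one_apply, inv_mul_cancel_left, hm, pow_succ, pow_mul, pow_two] at this
  exact (mul_mem_cancel_left (pow_mem (hsq c) m)).1 this

theorem aut_two {X Y : Subgroup G} [hX : X.Characteristic] [hY : Y.Characteristic] (h : X.relIndex Y ≤ 2) (α : MulAut G)
    {y : G} (hy : y ∈ Y) : y⁻¹ * α y ∈ X := by
  have h0 : X.relIndex Y ≠ 0 := FiniteIndex.index_ne_zero
  have a : α y ∈ Y := characteristic_iff_le_comap.1 hY α hy
  have b : α y ∈ X ↔ y ∈ X := (SetLike.ext_iff.1 (characteristic_iff_comap_eq.1 hX α) y)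
  rcases (by omega : X.relIndex Y = 1 ∨ X.relIndex Y = 2) with e | e
  · exact relIndex_eq_one.1 e (mul_mem (inv_mem hy) a)
  · exact (mul_mem_iff_of_index_two e (a := ⟨y, hy⟩⁻¹) (b := ⟨_, a⟩)).2 (by simp [mem_subgroupOf, b])

end H04.U14
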