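import Cfsg.Agent.H04.U14a

/-! 2-groups of order at least `2^14` with `|Z₄| = 16` whose `C(Z₃)` has small Frattini subgroup: structure. -/

set_option autoImplicit false
open Cfsg BG Subgroup H02.Suz H02.Hig
open scoped commutatorElement

local notation "#" => Nat.card

namespace H04.U14

variable {G : Type*} [Group G] [Finite G]

local notation "Z" => Subgroup.upperCentralSeries G

theorem coord (hG : IsPGroup 2 G) (ha : 2 ^ 14 ≤ # G) (hb : # (Z 4) = 16) {W : Subgroup G} [W.Normal] [Fintype (G ⧸ W)]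
    (hW : W = C_(Z 3)) (hc : # (pw W 2) ≤ 8) : # G = 2 ^ 14 ∧ W.index = 8 ∧ pw W 2 = Z 3 ∧ Z 4 ≤ W ∧
      ∃ (μ : G → ZMod 2) (e : G), AddOn W μ ∧ e ∈ W ∧ (∀ x ∈ Z 4, x ∉ Z 3 → μ x = 1) ∧ (∀ x ∈ Z 3, μ x = 0) ∧
        ∀ f : G → ZMod 2, AddOn W f → (∀ x ∈ Z 3, f x = 0) → ∀ w ∈ W,
          f w = ∑ q : G ⧸ W, μ (q.out⁻¹ * w * q.out) * f (q.out * e * q.out⁻¹) := by
  classical
  have ha' : 16 < # G := by omega
  have i1 : W.index ≤ 8 := hW ▸ index_centralizer_le hG 3 _ (zcard hG ha' hb (by omega))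
  have : (pw W 2).Normal := normalizer_eq_top_iff.1 (eq_top_iff.2 fun g _ => norm_pw (H01.le_normalizer_of_normal ⊤ _ trivial) 2)
  have i2 := W.card_mul_index
  have w4 : Z 4 ≤ W := zle hG ha' hb (by omega) W fun a => by
    have := Subgroup.card_le_of_le a
    rw [zcard hG ha' hb (by omega)] at this
    nlinarith
  obtain ⟨i, hi, hD⟩ : ∃ i ≤ 3, pw W 2 = Z i := by
    have d3 : pw W 2 ≤ Z 3 := by
      by_contra a
      have := Subgroup.card_le_of_le (zle hG ha' hb (by omega) _ a)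
      rw [hb] at this
      omega
    by_cases a : pw W 2 ≤ Z 2
    · by_cases b : pw W 2 ≤ Z 1
      · by_cases c : pw W 2 ≤ Z 0
        · exact ⟨0, by omega, le_antisymm c bot_le⟩
        · exact ⟨1, by omega, le_antisymm b (zle hG ha' hb (by omega) _ c)⟩
      · exact ⟨2, by omega, le_antisymm a (zle hG ha' hb (by omega) _ b)⟩
    · exact ⟨3, le_rfl, le_antisymm d3 (zle hG ha' hb (by omega) _ a)⟩
  have m4 : Z (i + 1) ≤ W := (Subgroup.upperCentralSeries_mono G (by omega)).trans w4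
  obtain ⟨x, -, x1, x2⟩ := zstep hG ha' hb (i := i) (by omega) W fun a => by
    have := Subgroup.card_le_of_le (m4.trans a)
    rw [zcard hG ha' hb (by omega), zcard hG ha' hb (by omega), Nat.pow_le_pow_iff_right Nat.one_lt_two] at this
    omega
  have x3 : x ∈ Z (i + 1) := x2 ▸ mem_sup_right (mem_zpowers x)
  obtain ⟨μ, μ1, μ2, μ3⟩ := exists_functional (M := ZMod 2) (B := pw W 2) CharTwo.add_self_eq_zero (fun _ => sq_mem_pw)
    (H02.Hig.pw_le W 2) (m4 x3) (hD ▸ x1) 1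
  have cj : ∀ w ∈ W, ∀ g, g⁻¹ * w * g ∈ W := fun w hw g => Normal.conj_mem' ‹_› w hw g
  let Φ : G → G ⧸ W → ZMod 2 := fun w q => μ (q.out⁻¹ * w * q.out)
  have Φ1 : AddOn W Φ := fun v hv w hw => funext fun q => by
    rw [Pi.add_apply, ← μ1 _ (cj v hv _) _ (cj w hw _)]; simp only [Φ]; congr 1; group
  have Φ2 : ∀ w ∈ W, ∀ g : G, Φ w g = μ (g⁻¹ * w * g) := fun w hw g => by
    obtain ⟨h, e⟩ := QuotientGroup.mk_out_eq_mul W g
    rw [← μ1.conj (inv_mem h.2) (cj w hw g)]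
    simp only [Φ, e]; congr 1; group
  have : Φ1.ker.Normal := ⟨fun w hw g => ⟨Normal.conj_mem ‹_› w hw.1 g, funext fun q => by
    have := congrFun hw.2 (g⁻¹ * q.out : G)
    rw [Φ2 w hw.1] at this
    refine Eq.trans ?_ this; simp only [Φ]; congr 1; group⟩⟩
  have Φ3 : Φ1.ker = Z i := le_antisymm (by
    by_contra a
    have := congrFun (zle hG ha' hb (by omega) _ a x3).2 (1 : G)
    rw [Φ2 x (m4 x3)] at this
    simp [μ3] at this) fun w hw => ⟨H02.Hig.pw_le W 2 (hD ▸ hw), funext fun q => μ2 _ (hD ▸ Normal.conj_mem' inferInstance w hw _)⟩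
  obtain ⟨j1, j2⟩ := idx Φ1
  have j3 := H01.card_mul_relIndex ((Subgroup.upperCentralSeries_mono G i.le_succ).trans m4)
  rw [Φ3, Nat.card_fun, Nat.card_zmod, ← index_eq_card] at j1 j2
  rw [zcard hG ha' hb (by omega)] at j3
  obtain ⟨rfl, j4, j5⟩ : i = 3 ∧ W.index = 8 ∧ (Z i).relIndex W = 2 ^ 8 := by
    rw [← i2, ← j3] at ha
    generalize W.index = n at *
    generalize (Z i).relIndex W = r at *
    interval_cases i <;> interval_cases n <;> omega
  obtain ⟨e, e1, e2⟩ := j2 (by rw [j4, j5]) (Pi.single 1 1)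
  refine ⟨by rw [← i2, ← j3, j4, j5]; rfl, j4, hD, w4, μ, e, μ1, e1, fun y hy hy' => ?_, hD ▸ μ2, fun f f1 f2 => ?_⟩
  · have : y * x ∈ Z 3 := (mul_mem_iff_of_index_two (H := (Z 3).subgroupOf (Z 4)) (a := ⟨y, hy⟩) (b := ⟨x, x3⟩) (by
      have := H01.card_mul_relIndex (Subgroup.upperCentralSeries_mono G (by omega : 3 ≤ 4))
      rw [zcard hG ha' hb (by omega), hb] at this
      exact (by omega : (Z 3).relIndex (Z 4) = 2))).2 (iff_of_false hy' x1)
    have := μ2 _ (hD ▸ this)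
    rw [μ1 _ (w4 hy) _ (m4 x3), μ3] at this
    exact CharTwo.add_eq_zero.1 this
  have e3 : ∀ q : G ⧸ W, q.out * e * q.out⁻¹ ∈ W := fun q => Normal.conj_mem ‹_› e e1 _
  have e4 : ∀ q h : G ⧸ W, Φ (q.out * e * q.out⁻¹) h = if h = q then 1 else 0 := fun q h => by
    have := congrFun e2 (q.out⁻¹ * h.out : G)
    rw [Φ2 e e1, QuotientGroup.mk_mul, QuotientGroup.mk_inv, QuotientGroup.out_eq', QuotientGroup.out_eq', Pi.single_apply] at this
    simp only [inv_mul_eq_one, eq_comm (a := q)] at this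
    rw [← this]; simp only [Φ]; congr 1; group
  suffices h : ∀ s : Finset (G ⧸ W), ∀ w ∈ W, (∀ q ∉ s, Φ w q = 0) → f w = ∑ q ∈ s, Φ w q * f (q.out * e * q.out⁻¹) from
    fun w hw => h _ w hw (by simp)
  intro s
  induction s using Finset.induction_on with
  | empty => exact fun w hw h => f2 w (Φ3.le ⟨hw, funext fun q => h q (by simp)⟩)
  | insert a s ha ih =>
    intro w hw h
    rw [Finset.sum_insert ha]
    rcases (by decide : ∀ a : ZMod 2, a = 0 ∨ a = 1) (Φ w a) with c | c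
    · rw [c, zero_mul, zero_add]
      exact ih w hw fun q hq => (eq_or_ne q a).elim (· ▸ c) fun d => h q (by simp [d, hq])
    · have := ih _ (mul_mem hw (e3 a)) fun q hq => by
        rw [Φ1 _ hw _ (e3 a), Pi.add_apply, e4]
        split_ifs with d
        · rw [d, c]; rfl
        · rw [h q (by simp [d, hq]), add_zero]
      rw [f1 _ hw _ (e3 a), Finset.sum_congr rfl fun q hq => by
        rw [Φ1 _ hw _ (e3 a), Pi.add_apply, e4, if_neg (ne_of_mem_of_not_mem hq ha), add_zero]] at this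
      rw [c, one_mul, ← this, add_comm (f w), ← add_assoc, CharTwo.add_self_eq_zero, zero_add]

theorem main (hG : IsPGroup 2 G) (ha : 2 ^ 14 ≤ # G) (hb : # (Z 4) = 16) {W : Subgroup G} [W.Normal]
    (hW : W = C_(Z 3)) (hc : # (pw W 2) ≤ 8) (hd : Dd W) : # G = 2 ^ 14 ∧ W.index = 8 ∧ pw W 2 = Z 3 ∧ ⁅W, W⁆ = Z 3 ∧
      W ⊓ C_(W) = Z 3 ∧ (∀ z ∈ Z 3, z ^ 2 = 1) ∧ Nonempty (G ⧸ W ≃* DihedralGroup 4) ∧
      ∀ α : MulAut G, Odd (orderOf α) → α = 1 := by
  classical
  have := Fintype.ofFinite (G ⧸ W)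
  obtain ⟨a1, a2, a3, w4, μ, e, μ1, e1, μ2, μ3, hE⟩ := coord hG ha hb hW hc
  have ha' : 16 < # G := by omega
  have c1 := zcard hG ha' hb (i := 1) (by omega)
  have c2 := zcard hG ha' hb (i := 2) (by omega)
  have c3 := zcard hG ha' hb (i := 3) (by omega)
  have m : ∀ {i j}, i ≤ j → Z i ≤ Z j := fun h => Subgroup.upperCentralSeries_mono G h
  have w3 : Z 3 ≤ W := (m (by omega)).trans w4
  have zc : ∀ z ∈ Z 3, ∀ w ∈ W, z * w = w * z := fun z hz w hw => (hW ▸ hw : w ∈ C_(Z 3)) z hz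
  have cm : ∀ u ∈ W, ∀ v ∈ W, ⁅u, v⁆ ∈ Z 3 := fun u hu v hv => a3 ▸ comm_mem_of_sq (fun _ => sq_mem_pw) hu hv
  have sq : ∀ u ∈ W, u * u ∈ Z 3 := fun u hu => a3 ▸ sq_mem_pw hu
  have n32 : ¬ Z 3 ≤ Z 2 := fun a => by have := Subgroup.card_le_of_le a; omega
  obtain ⟨x, -, x1, x2⟩ := zstep hG ha' hb (i := 2) (by omega) (Z 3) n32
  have x3 : x ∈ Z 3 := x2 ▸ mem_sup_right (mem_zpowers x)
  have i32 : (Z 2).relIndex (Z 3) = 2 := by have := H01.card_mul_relIndex (m (by omega : 2 ≤ 3)); rw [c2, c3] at this; omega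
  obtain ⟨χ, χ1, χ2, χ3⟩ := exists_functional (M := ZMod 2) (A := Z 3) (B := Z 2) CharTwo.add_self_eq_zero
    (fun y hy => mul_self_mem_of_index_two i32 ⟨y, hy⟩) (m (by omega)) x3 x1 1
  have χ4 : ∀ y ∈ Z 3, χ y = 0 → y ∈ Z 2 := fun y hy h => by
    by_contra c
    have := χ2 (y * x) ((mul_mem_iff_of_index_two i32 (a := ⟨y, hy⟩) (b := ⟨x, x3⟩)).2 (iff_of_false c x1))
    rw [χ1 _ hy _ x3, h, χ3] at this
    simp at this
  have χ5 : ∀ y ∈ Z 3, ∀ g, χ (g * y * g⁻¹) = χ y := fun y hy g => by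
    have := Subgroup.mem_upperCentralSeries_succ_iff.1 hy g
    rw [show g * y * g⁻¹ = ⁅y, g⁆⁻¹ * y by rw [commutatorElement_def]; group, χ1 _ (inv_mem (m (by omega) this)) _ hy,
      χ2 _ (inv_mem this), zero_add]
  have b1 : ∀ w ∈ W, AddOn W fun u => χ ⁅u, w⁆ := fun w hw u hu v hv => by
    simp only
    rw [commutatorElement_mul_left_of_commute (zc _ (cm v hv w hw) u hu).symm, χ1 _ (cm v hv w hw) _ (cm u hu w hw), add_comm]
  have b2 : ∀ u ∈ W, ∀ v ∈ W, χ ⁅u, v⁆ = χ ⁅v, u⁆ := fun u hu v hv => by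
    rw [← commutatorElement_inv, χ1.inv (cm v hv u hu), CharTwo.neg_eq]
  have b3 : ∀ w ∈ W, ∀ z ∈ Z 3, χ ⁅z, w⁆ = 0 := fun w hw z hz => by
    rw [commutatorElement_eq_one_iff_mul_comm.2 (zc z hz w hw), χ1.one]
  have L : ∀ Y ≤ W, Y.relIndex W ≤ 4 → ¬ ∀ u ∈ Y, ∀ v ∈ Y, χ ⁅u, v⁆ = 0 := fun Y y1 y2 h => by
    have f : AddOn Y fun u => χ (u * u) := fun u hu v hv => by
      have := cm _ (inv_mem (y1 hu)) _ (y1 hv)
      simp only
      rw [show u * v * (u * v) = u * u * ⁅u⁻¹, v⁆ * (v * v) by simp only [commutatorElement_def]; group,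
        χ1 _ (mul_mem (sq u (y1 hu)) this) _ (sq v (y1 hv)), χ1 _ (sq u (y1 hu)) _ this, h _ (inv_mem hu) _ hv, add_zero]
    refine n32 (a3 ▸ (hd.pw_le (fun _ a => y1 a.1 : f.ker ≤ W) ?_).trans (pw2_le_iff.2 fun u hu => χ4 _ (sq u (y1 hu.1)) hu.2))
    rw [← relIndex_mul_relIndex _ _ _ (fun _ a => a.1 : f.ker ≤ Y) y1]
    exact (Nat.mul_le_mul (idx f).1 y2).trans (by simp)
  have a4 : ⁅W, W⁆ = Z 3 := le_antisymm (commutator_le.2 cm) (zle hG ha' hb (by omega) _ fun a =>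
    L W le_rfl (by simp) fun u hu v hv => χ2 _ (a (commutator_mem_commutator hu hv)))
  have a5 : ∀ z ∈ Z 3, z ^ 2 = 1 := fun z hz => (mem_omegaOne_iff_of_comm (isMulCommutative_iff'.2 fun u hu v hv =>
    zc u hu v (w3 hv))).1 ((a4.ge.trans (commutator_le.2 fun u hu v hv => mem_omegaOne (cm u hu v hv) (by
      rw [← commutatorElement_pow_left (zc _ (cm u hu v hv) u hu), pow_two,
        commutatorElement_eq_one_iff_mul_comm.2 (zc _ (sq u hu) v hv)]))) hz) |>.2
  obtain ⟨K, hK⟩ : ∃ K, K = C_(Z 2) := ⟨_, rfl⟩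
  have : K.Characteristic := hK ▸ inferInstance
  have k0 : ∀ y ∈ Z 2, ∀ k ∈ K, y * k = k * y := fun y hy k hk => (hK ▸ hk : k ∈ C_(Z 2)) y hy
  have k1 : W ≤ K := hK ▸ hW ▸ centralizer_le (m (by omega : 2 ≤ 3))
  have k2 : K.index = 2 := by
    have h1 : K.index ≤ 2 := hK ▸ index_centralizer_le hG 2 _ c2
    have h2 : K.index ≠ 1 := fun a => by
      have := Subgroup.card_le_of_le (show Z 2 ≤ Z 1 from fun y hy => by
        rw [Subgroup.upperCentralSeries_one, mem_center_iff]; exact fun g => (k0 y hy g ((index_eq_one.1 a).ge trivial)).symm)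
      omega
    have h3 : K.index ≠ 0 := FiniteIndex.index_ne_zero
    omega
  have k3 : W.relIndex K = 4 := by have := relIndex_mul_index k1; rw [k2, a2] at this; omega
  have k4 : ∀ k ∈ K, k * k ∈ W := fun k hk => hW ▸ fun y hy => by
    have := comm_symm_mem (Subgroup.mem_upperCentralSeries_succ_iff.1 hy k)
    refine (commutatorElement_eq_one_iff_mul_comm.1 ?_).symm
    rw [← pow_two, commutatorElement_pow_left (k0 _ this k hk), a5 _ (m (by omega) this)]
  have sf := QuotientGroup.mk'_surjective W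
  have k5 : (K.map (QuotientGroup.mk' W)).index = 2 := by rw [index_map_eq _ sf (by simpa), k2]
  have k6 : ∀ k ∈ K.map (QuotientGroup.mk' W), k * k = 1 := by
    rintro _ ⟨k, hk, rfl⟩; exact (QuotientGroup.eq_one_iff _).2 (k4 k hk)
  have k7 : ∀ g : G, (g : G ⧸ W) ∈ K.map (QuotientGroup.mk' W) ↔ g ∈ K := fun g =>
    (SetLike.ext_iff.1 (comap_map_eq_self (f := QuotientGroup.mk' W) (by simpa)) g)
  obtain ⟨ι⟩ : Nonempty (G ⧸ W ≃* DihedralGroup 4) := by
    obtain ⟨a, b, h⟩ := isDSQ_of_card_eight (G := G ⧸ W) a2 fun h => by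
      have := Pat.pair hG (A := K) (B := Z 3) c1 (commutator_le.2 fun k hk y hy => by
        rw [Subgroup.upperCentralSeries_one, mem_center_iff]
        intro g
        have h1 := Subgroup.mem_upperCentralSeries_succ_iff.1 hy g
        have h2 : k⁻¹ * (g * k * g⁻¹) ∈ W := QuotientGroup.eq.1 (by simp [h.is_comm.comm (g : G ⧸ W)])
        have h3 := zc _ (Normal.conj_mem inferInstance y hy g) _ h2
        refine mul_inv_eq_iff_eq_mul.1 ?_
        calc _ = k * (k⁻¹ * (g * k * g⁻¹) * (g * y * g⁻¹)) * (k⁻¹ * (g * k * g⁻¹))⁻¹ * k⁻¹ * (g * y * g⁻¹)⁻¹ := by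
              rw [commutatorElement_def]; group
          _ = k * (y * ⁅y⁻¹, g⁆) * k⁻¹ * (g * y * g⁻¹)⁻¹ := by rw [← h3, commutatorElement_def]; group
          _ = k * y * k⁻¹ * ⁅y⁻¹, g⁆ * (g * y * g⁻¹)⁻¹ := by
            rw [mul_assoc (k * y) k⁻¹, ← k0 _ (Subgroup.mem_upperCentralSeries_succ_iff.1 (inv_mem hy) g) _ (inv_mem hk)]; group
          _ = _ := by simp only [commutatorElement_def]; group)
      have h2 := relIndex_le_of_le_left (L := Z 3) (show Z 2 ≤ C_(K) from fun y hy k hk => (k0 y hy k hk).symm) (by omega)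
      rw [← hW] at this
      omega
    rcases h.rel with r | r | r
    · exact h.iso_dihedral r.1 r.2
    · have := pRankLE_iff'.1 (h.pRankLE_one_of_quat r.1 r.2) _ ⟨isMulCommutative_iff'.2 fun u hu v hv =>
        commutatorElement_eq_one_iff_mul_comm.1 (mem_bot.1 (comm_mem_of_sq (fun x hx => mem_bot.2 (k6 x hx)) hu hv)),
          fun u hu => (pow_two u).trans (k6 u hu)⟩
      have h2 := (K.map (QuotientGroup.mk' W)).card_mul_index
      rw [← index_eq_card, k5, a2] at h2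
      omega
    · omega
  obtain ⟨z, g₁, g₂, z1, z2, z3, z4, z5, z6, z7⟩ := d8 ι _ k5 k6
  have e3 : ∀ g, g * e * g⁻¹ ∈ W := fun g => Normal.conj_mem ‹_› e e1 g
  refine ⟨a1, a2, a3, a4, le_antisymm ?_ (le_inf w3 fun y hy w hw => (zc y hy w hw).symm), a5, ⟨ι⟩, fun α hα => ?_⟩
  · by_contra c
    have c4 := zle hG ha' hb (by omega) _ c
    let B : G ⧸ W → ZMod 2 := fun q => χ ⁅q.out * e * q.out⁻¹, e⁆
    have B1 : ∀ g : G, B g = χ ⁅g * e * g⁻¹, e⁆ := fun g => by
      obtain ⟨h, e'⟩ := QuotientGroup.mk_out_eq_mul W g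
      simp only [B, e']
      rw [show g * h * e * (g * h)⁻¹ = g * h * g⁻¹ * (g * e * g⁻¹) * (g * h * g⁻¹)⁻¹ by group]
      exact (b1 e e1).conj (Normal.conj_mem ‹_› _ h.2 g) (e3 g)
    have B2 : ∀ g h : G ⧸ W, χ ⁅g.out * e * g.out⁻¹, h.out * e * h.out⁻¹⁆ = B (h⁻¹ * g) := fun g h => by
      rw [← QuotientGroup.out_eq' g, ← QuotientGroup.out_eq' h, ← QuotientGroup.mk_inv, ← QuotientGroup.mk_mul, B1, ← χ5 _ (cm _ (e3 _) _ e1) h.out,
        QuotientGroup.out_eq', QuotientGroup.out_eq']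
      congr 1; simp only [commutatorElement_def]; group
    have B3 : ∀ k ∈ K.map (QuotientGroup.mk' W), B k = 0 := by
      rintro _ ⟨k, hk, rfl⟩
      rw [QuotientGroup.mk'_apply, B1]
      by_cases h : k ∈ W
      · rw [(b1 e e1).conj h e1, commutatorElement_self, χ1.one]
      by_contra d
      have y1 := cm _ (e3 k) _ e1
      have y2 : k * ⁅k * e * k⁻¹, e⁆ * k⁻¹ = ⁅k * e * k⁻¹, e⁆ := by
        calc _ = ⁅⁅k * k, e⁆ * e, k * e * k⁻¹⁆ := by simp only [commutatorElement_def]; group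
          _ = ⁅e, k * e * k⁻¹⁆ := by
            rw [commutatorElement_mul_left_of_commute (zc _ (cm _ (k4 k hk) _ e1) _ (w3 (cm _ e1 _ (e3 k)))),
              commutatorElement_eq_one_iff_mul_comm.2 (zc _ (cm _ (k4 k hk) _ e1) _ (e3 k)), mul_one]
          _ = _ := by rw [← commutatorElement_inv, inv_eq_iff_mul_eq_one, ← pow_two, a5 _ y1]
      generalize ⁅k * e * k⁻¹, e⁆ = y at *
      refine h (hW ▸ fun u hu => ?_)
      by_cases h' : u ∈ Z 2
      · exact k0 u h' k hk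
      · have := k0 (u * y) ((mul_mem_iff_of_index_two i32 (a := ⟨u, hu⟩) (b := ⟨y, y1⟩)).2 (iff_of_false h' fun a => d (χ2 _ a))) k hk
        rw [mul_assoc, ← mul_inv_eq_iff_eq_mul.1 y2, ← mul_assoc, ← mul_assoc] at this
        exact mul_right_cancel this
    have B4 := z7 B (fun g => by
      have := B2 1 g
      rw [b2 _ (e3 _) _ (e3 _), B2] at this
      simpa using this.symm) B3 (by
        obtain ⟨y, -, y1, y2⟩ := zstep hG ha' hb (i := 3) (by omega) W fun a => by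
          have := Subgroup.card_le_of_le (w4.trans a); omega
        have y3 : y ∈ Z 4 := y2 ▸ mem_sup_right (mem_zpowers y)
        have := hE _ (b1 e e1) (b3 e e1) y (w4 y3)
        rw [commutatorElement_eq_one_iff_mul_comm.2 ((c4 y3).2 e e1).symm, χ1.one] at this
        rw [this]
        exact Finset.sum_congr rfl fun q _ => by
          rw [μ2 _ (Normal.conj_mem' inferInstance y y3 _) fun a => y1 (by
            simpa [mul_assoc] using Normal.conj_mem inferInstance _ a q.out), one_mul])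
    let Φ : G → G ⧸ W → ZMod 2 := fun w q => μ (q.out⁻¹ * w * q.out)
    have Φ1 : AddOn W Φ := fun v hv w hw => funext fun q => by
      rw [Pi.add_apply, ← μ1 _ (Normal.conj_mem' ‹_› v hv _) _ (Normal.conj_mem' ‹_› w hw _)]; simp only [Φ]; congr 1; group
    have f : AddOn W fun w => (Φ w (g₁ * z) + Φ w g₁, Φ w (g₂ * z) + Φ w g₂) := fun v hv w hw => by
      simp only [Φ1 v hv w hw, Pi.add_apply, Prod.mk_add_mk, add_add_add_comm]
    have zz : ∀ g, g * z * z = g := fun g => by rw [mul_assoc, z3, mul_one]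
    have f1 : ∀ w ∈ f.ker, ∀ g ∉ K.map (QuotientGroup.mk' W), Φ w (g * z) = Φ w g := fun w hw g hg => by
      obtain ⟨h1, h2⟩ := Prod.ext_iff.1 hw.2
      rcases z6 g hg with rfl | rfl | rfl | rfl
      exacts [CharTwo.add_eq_zero.1 h1, by rw [zz]; exact (CharTwo.add_eq_zero.1 h1).symm, CharTwo.add_eq_zero.1 h2,
        by rw [zz]; exact (CharTwo.add_eq_zero.1 h2).symm]
    have inv : ∀ F : G ⧸ W → ZMod 2, (∀ g, F (g * z) = F g) → ∑ g, F g = 0 := fun F h =>
      Finset.sum_involution (fun g _ => g * z) (fun g _ => by rw [h, CharTwo.add_self_eq_zero]) (fun g _ _ => by simpa using z2)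
        (fun _ _ => Finset.mem_univ _) fun g _ => zz g
    refine L f.ker (fun _ a => a.1) ((idx f).1.trans (by simp)) fun u hu v hv => ?_
    have E : ∀ g : G ⧸ W, χ ⁅g.out * e * g.out⁻¹, v⁆ = ∑ h, Φ v h * B (g⁻¹ * h) := fun g => by
      rw [b2 _ (e3 _) _ hv.1, hE _ (b1 _ (e3 _)) (b3 _ (e3 _)) v hv.1]
      simp only [B2, Φ]
    have E1 : ∀ g ∈ K.map (QuotientGroup.mk' W), χ ⁅g.out * e * g.out⁻¹, v⁆ = 0 := fun g hg => by
      rw [E]
      refine inv _ fun h => ?_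
      rw [← mul_assoc, B4]
      by_cases a : h ∈ K.map (QuotientGroup.mk' W)
      · rw [B3 _ (mul_mem (inv_mem hg) a), mul_zero, mul_zero]
      · rw [f1 v hv h a]
    rw [hE _ (b1 v hv.1) (b3 v hv.1) u hu.1]
    refine inv _ fun g => ?_
    by_cases a : g ∈ K.map (QuotientGroup.mk' W)
    · rw [E1 g a, E1 _ (mul_mem a z1), mul_zero, mul_zero]
    · rw [show μ ((g * z).out⁻¹ * u * (g * z).out) = _ from f1 u hu g a, E, E]
      simp only [mul_inv_rev, inv_eq_of_mul_eq_one_right z3, mul_assoc z, fun x => z4 (g⁻¹ * x), B4, Φ]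
  have fs : ∀ x : G, x * x ∈ frattini G := fun x => pow_two x ▸ pow_mem_frattini hG x
  have : W.Characteristic := hW ▸ inferInstance
  have := sup_characteristic (frattini G) W
  have t1 : frattini G ⊔ W ≤ K := sup_le (by
    rw [frattini_two hG, closure_le]
    rintro _ ⟨y, rfl⟩
    exact pow_two y ▸ mul_self_mem_of_index_two k2 y) k1
  have t2 : (frattini G).relIndex (frattini G ⊔ W) ≤ 2 := by
    have : W ≤ frattini G ⊔ zpowers e := fun w hw => by
      by_contra c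
      obtain ⟨f, f1, f2, f3⟩ := exists_functional (M := ZMod 2) (A := ⊤) (B := frattini G ⊔ zpowers e) CharTwo.add_self_eq_zero
        (fun y _ => mem_sup_left (fs y)) le_top (mem_top w) c 1
      have := hE f (f1.mono le_top) (fun y hy => f2 y (mem_sup_left (((fr_eq (hG.to_subgroup W)).ge.trans
        (map_subtype_frattini_le_frattini hG W)) (a3 ▸ hy)))) w hw
      simp [f1.conj (mem_top _) (mem_top _), f2 e (mem_sup_right (mem_zpowers e)), f3] at this
    refine (relIndex_le_of_le_right (sup_le le_sup_left this) FiniteIndex.index_ne_zero).trans ?_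
    by_cases a : e ∈ frattini G
    · rw [sup_eq_left.2 (zpowers_le.2 a), relIndex_self]; omega
    · exact (relIndex_sup_zpowers _ (H01.le_normalizer_of_normal ⊤ _ trivial) a (pow_mem_frattini hG e)).le
  have t3 : (frattini G ⊔ W).relIndex K ≤ 2 := by
    have h1 := relIndex_mul_relIndex _ _ _ (le_sup_right : W ≤ frattini G ⊔ W) t1
    have h2 : W.relIndex (frattini G ⊔ W) ≠ 1 := fun a => z2 (by
      rw [z5, ← QuotientGroup.out_eq' g₁, ← QuotientGroup.mk_mul, QuotientGroup.eq_one_iff]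
      exact relIndex_eq_one.1 a (mem_sup_left (fs _)))
    have h3 : W.relIndex (frattini G ⊔ W) ≠ 0 := FiniteIndex.index_ne_zero
    rw [k3] at h1
    by_contra c
    nlinarith [(by omega : 2 ≤ W.relIndex (frattini G ⊔ W))]
  have t4 : ∀ y ∈ K, y⁻¹ * α y ∈ frattini G := fun y hy => aut_step hα fs (aut_two t2 α (aut_two t3 α hy))
  exact aut_eq_one_of_frattini' hG hα.coprime_two_right fun y =>
    aut_step hα fs (t4 _ (aut_two (Y := ⊤) (by rw [relIndex_top_right, k2]) α (mem_top y)))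

end H04.U14
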