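import Mathlib
import Cfsg.Agent.H24.HH1

/-! Linear algebra for elements normalising extraspecial groups: bounds for the dimension of the commutant. -/

set_option autoImplicit false
open Module Polynomial Finset H24

namespace H04.XN

variable {F : Type*} [Field F] {V : Type*} [AddCommGroup V] [Module F V]

theorem sum_le [Module.Finite F V] (t : End F V) {κ : Type*} (T : Finset κ) (μ : κ → F) (hμ : Set.InjOn μ T)
    (S : κ → Submodule F V) (hS : ∀ i ∈ T, S i ≤ t.eigenspace (μ i)) {B : Submodule F V} (hB : ∀ i ∈ T, S i ≤ B) :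
    ∑ i ∈ T, finrank F (S i) ≤ finrank F B := by
  classical
  refine le_trans ?_ (Submodule.finrank_mono (Finset.sup_le hB))
  clear hB
  induction T using Finset.induction_on with
  | empty => simp
  | insert a T ha ih =>
    have h1 : Disjoint (S a) (T.sup S) := (t.eigenspaces_iSupIndep (μ a)).mono (hS a (mem_insert_self _ _))
      (Finset.sup_le fun i hi => (hS i (mem_insert_of_mem hi)).trans (le_iSup₂_of_le (μ i) (fun h => ha
        (hμ (mem_insert_of_mem hi) (mem_insert_self _ _) h ▸ hi)) le_rfl))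
    have h2 := Submodule.finrank_sup_add_finrank_inf_eq (S a) (T.sup S)
    rw [h1.eq_bot, finrank_bot] at h2
    have := ih (hμ.mono (by simp)) fun i hi => hS i (mem_insert_of_mem hi)
    rw [sum_insert ha, sup_insert]; omega

theorem cm_lower [Module.Finite F V] (t : End F V) {q : ℕ} (hq : q.Prime) (ht : t ^ q = 1) :
    ∃ m, finrank F V = finrank F (t.eigenspace 1) + m ∧
      m ^ 2 + (q - 1) * finrank F (t.eigenspace 1) ^ 2 ≤ (q - 1) * finrank F (HH.cm t) := by
  classical
  have e1 : t.eigenspace 1 = LinearMap.ker (t - 1) := by rw [End.eigenspace_def, one_smul]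
  rw [e1]
  by_cases h0 : (q : F) = 0
  · haveI := Fact.mk hq
    haveI : CharP F q := (CharP.charP_iff_prime_eq_zero hq).2 h0
    obtain ⟨k, e, h1, h2, h3, h4⟩ := HH.nilp_data t (s := q) (by
      simpa [ht] using HH.sub_one_pow (F := F) q t 1)
    obtain ⟨q, rfl⟩ : ∃ j, q = j + 1 := ⟨q - 1, by have := hq.pos; omega⟩
    have h5 : ∀ a b, a ≤ q + 1 → min a b = ∑ j ∈ range (q + 1), (if j < a then 1 else 0) * if j < b then 1 else 0 :=
      fun a b h => by
        simp only [ite_zero_mul_ite_zero, mul_one, sum_boole, Nat.cast_id, ← lt_min_iff]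
        rw [show filter (· < min a b) (range (q + 1)) = range (min a b) from by ext; simp; omega, card_range]
    let c : ℕ → ℕ := fun j => ∑ i, if j < e i then 1 else 0
    have h6 : ∑ l, ∑ i, min (e i) (e l) = ∑ j ∈ range (q + 1), c j ^ 2 := by
      simp only [fun i l => h5 (e i) (e l) (h1 i), c, sq, sum_mul_sum]
      rw [sum_comm (s := range (q + 1)), sum_comm]
      exact sum_congr rfl fun _ _ => sum_comm
    have h7 : ∑ i, e i = ∑ j ∈ range (q + 1), c j := by
      rw [sum_comm]
      refine sum_congr rfl fun i _ => ?_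
      simpa only [min_self, ite_zero_mul_ite_zero, and_self, mul_one] using h5 (e i) (e i) (h1 i)
    have h8 : finrank F (LinearMap.ker (t - 1)) = c 0 := by
      have := h3 1
      rw [pow_one] at this
      rw [this]
      exact sum_congr rfl fun i _ => by split_ifs <;> omega
    rw [sum_range_succ'] at h6 h7
    refine ⟨∑ j ∈ range q, c (j + 1), by omega, ?_⟩
    have := sq_sum_le_card_mul_sum_sq (s := range q) (f := fun j => c (j + 1))
    rw [card_range] at this
    rw [h8, Nat.add_sub_cancel]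
    nlinarith [Nat.mul_le_mul_left q (h6 ▸ h4)]
  obtain ⟨M, hM, hM'⟩ := Sim.exists_hasTyp t
  have h1 := (hM'.aeval_eq_zero_iff (X ^ q - 1)).1 (by simp [ht])
  obtain ⟨k, f, hf, hi⟩ := hM'
  have hsq := (X_pow_sub_one_separable_iff.2 h0).squarefree
  have h2 : ∀ i, (f i).Monic ∧ Irreducible (f i) ∧ f i ∣ X ^ q - 1 := fun i => by
    obtain ⟨p, e, a1, a2, a3, a4⟩ := hM _ (Sim.mem_of_map_eq hf i)
    have h := h1 _ (Sim.mem_of_map_eq hf i)
    obtain rfl : e = 1 := by
      by_contra h3
      exact a2.not_isUnit (hsq p ((pow_two p).symm.dvd.trans ((pow_dvd_pow p (by omega)).trans (a4.symm.dvd.trans h))))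
    rw [pow_one] at a4
    exact ⟨a4 ▸ a1, a4 ▸ a2, h⟩
  let T := insert (X - 1) (univ.image f)
  have hT : ∀ g ∈ T, g.Monic ∧ Irreducible g ∧ g ∣ X ^ q - 1 := fun g hg => by
    rcases mem_insert.1 hg with rfl | hg
    · exact ⟨Sim.monic_X_sub_one, Sim.irred_X_sub_one, by simpa using sub_dvd_pow_sub_pow (X : F[X]) 1 q⟩
    · obtain ⟨i, -, rfl⟩ := mem_image.1 hg; exact h2 i
  let c : F[X] → ℕ := fun g => #{i | f i = g}
  have h3 : ∀ φ : F[X] → ℕ, ∑ i, φ (f i) = c (X - 1) * φ (X - 1) + ∑ g ∈ T.erase (X - 1), c g * φ g := fun φ => by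
    rw [add_sum_erase T (fun g => c g * φ g) (mem_insert_self _ _),
      ← sum_fiberwise_of_maps_to (t := T) (g := f) fun i _ => mem_insert_of_mem (mem_image_of_mem f (mem_univ i))]
    refine sum_congr rfl fun g _ => ?_
    rw [sum_congr rfl fun i hi => by rw [(mem_filter.1 hi).2], sum_const, smul_eq_mul]
  have h4 : ∀ g ∈ T, Sim.kd t g = c g * g.natDegree := fun g hg => by
    rw [hi.kd, Sim.kd_mdl f fun i => (h2 i).1.ne_zero, sum_congr rfl (g := fun i => if f i = g then g.natDegree else 0),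
      ← sum_filter, sum_const, smul_eq_mul]
    intro i _
    split_ifs with h
    · rw [Sim.kd1_of_dvd h.dvd, h]
    · exact Sim.kd1_of_coprime (Sim.coprime_of_ne (h2 i).1 (hT g hg).1 (h2 i).2.1 (hT g hg).2.1 h)
  have d1 : (X - 1 : F[X]).natDegree = 1 := by simpa using natDegree_X_sub_C (x := (1 : F))
  have h5 : finrank F (LinearMap.ker (t - 1)) = c (X - 1) := by
    have := h4 _ (mem_insert_self _ _)
    rwa [Sim.kd, d1, mul_one, map_sub, aeval_X, map_one] at this
  have h6 := Sim.finrank_mdl f fun i => (h2 i).1.ne_zero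
  have h7 := HH.sum_kd_le t f (fun i => (h2 i).1) hi
  rw [← hi.finrank, h3, d1] at h6
  rw [h3, h4 _ (mem_insert_self _ _), d1, sum_congr rfl fun g hg => by rw [h4 g (mem_of_mem_erase hg)]] at h7
  have h8 : 1 + ∑ g ∈ T.erase (X - 1), g.natDegree ≤ q := by
    rw [← d1, add_sum_erase T natDegree (mem_insert_self _ _), ← natDegree_prod_of_monic T _ fun g hg => (hT g hg).1]
    refine (natDegree_le_of_dvd (Finset.prod_dvd_of_coprime (fun a ha b hb h => Sim.coprime_of_ne (hT a ha).1 (hT b hb).1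
      (hT a ha).2.1 (hT b hb).2.1 h) fun g hg => (hT g hg).2.2) hsq.ne_zero).trans ?_
    simpa using (natDegree_X_pow_sub_C (n := q) (r := (1 : F))).le
  have h9 := sum_sq_le_sum_mul_sum_of_sq_le_mul (T.erase (X - 1)) (r := fun g => c g * g.natDegree)
    (f := natDegree) (g := fun g => c g * (c g * g.natDegree)) (fun _ _ => Nat.zero_le _) (fun _ _ => Nat.zero_le _)
    fun _ _ => le_of_eq (by ring)
  refine ⟨∑ g ∈ T.erase (X - 1), c g * g.natDegree, by omega, ?_⟩
  rw [h5]
  nlinarith [Nat.mul_le_mul_left (q - 1) h7, Nat.mul_le_mul_right (∑ g ∈ T.erase (X - 1), c g * (c g * g.natDegree))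
    (show ∑ g ∈ T.erase (X - 1), g.natDegree ≤ q - 1 by omega)]

theorem orb {κ : Type*} [Fintype κ] (B : Basis κ F V) (Φ : End F V) (σ : Equiv.Perm κ) (χ : κ → F)
    (h : ∀ v, Φ (B v) = χ v • B (σ v)) {q : ℕ} (hq : q.Prime) (hσ : σ ^ q = 1) :
    q * finrank F (Φ.eigenspace 1) ≤ Fintype.card κ + (q - 1) * Nat.card {v // σ v = v} := by
  classical
  haveI := Module.Finite.of_basis B
  haveI := Fact.mk hq
  by_cases h1 : σ = 1
  · have := (Φ.eigenspace 1).finrank_le
    rw [finrank_eq_card_basis B] at this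
    obtain ⟨q, rfl⟩ : ∃ j, q = j + 1 := ⟨q - 1, by have := hq.pos; omega⟩
    simp only [h1, Equiv.Perm.coe_one, id_eq, Nat.card_eq_fintype_card, Fintype.card_subtype_true, Nat.add_sub_cancel]
    nlinarith
  have h2 : Nat.card (Subgroup.zpowers σ) = q := by rw [Nat.card_zpowers, orderOf_eq_prime hσ h1]
  have h3 := MulAction.sum_card_fixedBy_eq_card_orbits_mul_card_group (Subgroup.zpowers σ) κ
  have h4 : ∀ m ∈ Φ.eigenspace 1, ∀ v, B.repr m v = 0 → B.repr m (σ v) = 0 := fun m hm v hv => by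
    rw [End.mem_eigenspace_iff, one_smul] at hm
    rw [← hm, ← B.sum_repr m]
    simp only [map_sum, map_smul, h, Finsupp.finsetSum_apply, Finsupp.smul_apply, Basis.repr_self, Finsupp.single_apply,
      EmbeddingLike.apply_eq_iff_eq]
    simp [hv]
  let ψ : Φ.eigenspace 1 →ₗ[F] (MulAction.orbitRel.Quotient (Subgroup.zpowers σ) κ → F) :=
    LinearMap.pi fun o => (B.coord o.out).comp (Submodule.subtype _)
  have h5 : Function.Injective ψ := (injective_iff_map_eq_zero ψ).2 fun m hm => Subtype.ext (B.ext_elem fun v => by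
    obtain ⟨⟨_, hk⟩, e⟩ : v ∈ MulAction.orbit (Subgroup.zpowers σ) (Quotient.out (s := MulAction.orbitRel _ κ) ⟦v⟧) :=
      MulAction.orbitRel_apply.1 ((MulAction.orbitRel (Subgroup.zpowers σ) κ).symm (Quotient.mk_out (s := MulAction.orbitRel (Subgroup.zpowers σ) κ) v))
    obtain ⟨k, rfl⟩ := mem_powers_iff_mem_zpowers.2 hk
    have : ∀ k : ℕ, B.repr m.1 ((σ ^ k) (Quotient.out (s := MulAction.orbitRel (Subgroup.zpowers σ) κ) ⟦v⟧)) = 0 :=
      fun k => by
        induction k with
        | zero => exact congrFun hm ⟦v⟧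
        | succ k ih => rw [pow_succ', Equiv.Perm.mul_apply]; exact h4 _ m.2 _ ih
    rw [← e]
    simpa using this k)
  have h6 := LinearMap.finrank_le_finrank_of_injective h5
  rw [finrank_fintype_fun_eq_card] at h6
  rw [← Nat.card_eq_fintype_card (α := Subgroup.zpowers σ), h2, ← add_sum_erase _ _ (mem_univ 1)] at h3
  have h7 := sum_le_card_nsmul (univ.erase (1 : Subgroup.zpowers σ))
    (fun g => Fintype.card (MulAction.fixedBy κ g)) (Nat.card {v // σ v = v}) fun g hg => by
      obtain ⟨j, hj⟩ := mem_zpowers_of_prime_card h2 (g' := ⟨σ, Subgroup.mem_zpowers σ⟩) (ne_of_mem_erase hg)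
      rw [Nat.card_eq_fintype_card]
      refine Fintype.card_le_of_injective (fun v => ⟨v.1, ?_⟩) fun a b h => Subtype.ext (Subtype.mk.inj h)
      have := MulAction.fixedBy_subset_fixedBy_zpow κ g j v.2
      rwa [show g ^ j = _ from hj] at this
  rw [card_erase_of_mem (mem_univ _), card_univ, ← Nat.card_eq_fintype_card (α := Subgroup.zpowers σ), h2,
    smul_eq_mul] at h7
  have h8 := Fintype.card_subtype_le (· ∈ MulAction.fixedBy κ (1 : Subgroup.zpowers σ))
  nlinarith [Nat.mul_le_mul_left q h6]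

end H04.XN
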