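import Cfsg.Agent.H04.XN1
import Cfsg.Agent.H10.AsExt

/-! Eigenspaces of elements normalising an absolutely irreducible group of symplectic type. -/

set_option autoImplicit false
open Module Matrix Finset Cfsg Cfsg.Geo H10.As
open scoped commutatorElement

namespace H04.XN

variable {ι : Type} [Fintype ι] [DecidableEq ι] {F : Type*} [Field F]

theorem alg_eq_top [Finite F] [Nonempty ι] {R : Subgroup (GL ι F)} (h : ActsAbsolutelyIrreducibly (matrixSet R)) :
    alg R = ⊤ := by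
  have h2 : ∀ z, (∀ a ∈ alg R, z * a = a * z) → Sc z := fun z hz => h.2 z (by
    rintro _ ⟨g, hg, rfl⟩; exact hz _ (mem_alg hg))
  obtain ⟨m, hm, φ, hφ⟩ := exists_hom (H := R) (fun W hW => h.1 W (by
    rintro _ ⟨g, hg, rfl⟩ _ ⟨v, hv, rfl⟩; exact hW g hg v hv))
    (nrm_alg fun g hg x hx => mul_mem (mul_mem hg hx) (inv_mem hg)) fun z _ => h2 z
  haveI : Nonempty (Fin m) := ⟨⟨0, hm⟩⟩
  obtain ⟨k, Φ, hΦ⟩ := exists_kron φ
  refine eq_top_iff.2 fun x _ => ?_
  obtain ⟨x, rfl⟩ := Φ.surjective x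
  rw [matrix_eq_sum_single x]
  simp only [map_sum]
  refine sum_mem fun i _ => sum_mem fun j _ => ?_
  rw [← mul_one (x i j), ← single_kronecker_single, ← kl_mul_kr, map_mul, hΦ]
  refine mul_mem (hφ ▸ ⟨_, rfl⟩) ((h2 _ ?_).mem _)
  rw [← hφ]
  rintro _ ⟨a, rfl⟩
  rw [show φ.toRingHom a = _ from (hΦ a).symm, ← map_mul, ← map_mul, kl_mul_kr, kr_mul_kl]

/-- eigenspace -/
abbrev E (x : GL ι F) (c : F) : Submodule F (ι → F) := End.eigenspace (toLin' x.1) c

theorem mem_E {x : GL ι F} {c : F} {v : ι → F} : v ∈ E x c ↔ x.1 *ᵥ v = c • v := End.mem_eigenspace_iff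

theorem le_of_map (a : GL ι F) {S T : Submodule F (ι → F)} (h : ∀ v ∈ S, a.1 *ᵥ v ∈ T) : finrank F S ≤ finrank F T :=
  LinearMap.finrank_le_finrank_of_injective (f := (toLin' a.1).restrict h)
    ((injective_iff_map_eq_zero _).2 fun v hv => Subtype.ext (gl_mulVec_eq_zero.1 (congrArg Subtype.val hv)))

theorem step {a y : GL ι F} {c : Fˣ} (h : y * a = sc ι c * (a * y)) {μ : F} {v : ι → F} (hv : v ∈ E y μ) :
    a.1 *ᵥ v ∈ E y (c * μ) := by
  rw [mem_E] at hv ⊢
  rw [mulVec_mulVec, ← Units.val_mul, h, Units.val_mul, Units.val_mul, sc_val, smul_mul_assoc, one_mul, smul_mulVec,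
    ← mulVec_mulVec, hv, mulVec_smul, smul_smul]

theorem mul_le {a y : GL ι F} {c : Fˣ} (h : y * a = sc ι c * (a * y)) {k : ℕ} (hk : k ≤ orderOf c) (μ : F) :
    k * finrank F (E y μ) ≤ Fintype.card ι := by
  by_cases h0 : μ = 0
  · rw [(Submodule.eq_bot_iff _).2 fun v hv => gl_mulVec_eq_zero.1 ((mem_E.1 hv).trans (by rw [h0, zero_smul]))]
    simp
  have h1 : ∀ i, finrank F (E y μ) ≤ finrank F (E y ((c ^ i : Fˣ) * μ)) := fun i => by
    induction i with
    | zero => rw [pow_zero, Units.val_one, one_mul]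
    | succ i ih => rw [pow_succ', Units.val_mul, mul_assoc]; exact ih.trans (le_of_map a fun v => step h)
  have h2 := sum_le (toLin' y.1) (range k) (fun i => (c ^ i : Fˣ) * μ) (fun i hi j hj e => pow_injOn_Iio_orderOf
    ((mem_range.1 hi).trans_le hk) ((mem_range.1 hj).trans_le hk) (Units.ext (mul_right_cancel₀ h0 e)))
    _ (fun _ _ => le_rfl) (B := ⊤) fun _ _ => le_top
  rw [finrank_top, finrank_fintype_fun_eq_card] at h2
  refine le_trans ?_ h2
  simpa using card_nsmul_le_sum (range k) _ _ fun i _ => h1 i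

theorem two_mul_le (g a : GL ι F) :
    2 * finrank F (E g 1) ≤ Fintype.card ι + finrank F (E (g * a * g⁻¹ * a⁻¹) 1) := by
  have h1 := Submodule.finrank_sup_add_finrank_inf_eq (E g 1) (E (a * g * a⁻¹) 1)
  have h2 := (E g 1 ⊔ E (a * g * a⁻¹) 1).finrank_le
  have h3 : finrank F (E g 1) ≤ finrank F (E (a * g * a⁻¹) 1) := le_of_map a fun v hv => by
    rw [mem_E] at hv ⊢
    rw [← cj_val, cj_mulVec, hv, mulVec_smul]
  have h4 : E g 1 ⊓ E (a * g * a⁻¹) 1 ≤ E (g * a * g⁻¹ * a⁻¹) 1 := fun v hv => by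
    have e1 := mem_E.1 hv.1
    have e2 := mem_E.1 hv.2
    rw [one_smul] at e1 e2
    rw [mem_E, one_smul]
    conv_lhs => rw [← e2, mulVec_mulVec, ← Units.val_mul, show g * a * g⁻¹ * a⁻¹ * (a * g * a⁻¹) = g * (a * a⁻¹) by group]
    rwa [mul_inv_cancel, mul_one]
  have := Submodule.finrank_mono h4
  rw [finrank_fintype_fun_eq_card] at h2
  omega

theorem special {g y a : GL ι F} {c : Fˣ} {q : ℕ} (hq : q.Prime) (h2 : q ≠ 2) (hc : orderOf c = q) (hy : y ^ q = 1)
    (h1 : g * y = y * g) (h3 : y * a = sc ι c⁻¹ * (a * y)) (h4 : g * a = y * a * g) :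
    q * finrank F (E g 1) ≤ 2 * Fintype.card ι := by
  have hp : IsPrimitiveRoot (c : F) q := IsPrimitiveRoot.coe_units_iff.2 (hc ▸ IsPrimitiveRoot.orderOf c)
  have hq0 : (q : F) ≠ 0 := by haveI : NeZero q := ⟨hq.ne_zero⟩; exact hp.neZero'.ne
  let π : ℕ → Matrix ι ι F := fun j => ∑ k ∈ range q, (((c : F)⁻¹ ^ (j + 1)) • y.1) ^ k
  have hπ : ∀ j, y.1 * π j = (c : F) ^ (j + 1) • π j := fun j => by
    have := mul_geom_sum (((c : F)⁻¹ ^ (j + 1)) • y.1) q
    rw [smul_pow, ← Units.val_pow_eq_pow_val, hy, ← pow_mul, mul_comm _ q, pow_mul, hp.inv.pow_eq_one,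
      one_pow, one_smul, Units.val_one, sub_self, sub_mul, one_mul, sub_eq_zero, smul_mul_assoc] at this
    conv_rhs => rw [show π j = _ from this.symm, smul_smul, ← mul_pow, Units.mul_inv', one_pow, one_smul]
  have hs : ∑ j ∈ range q, π j = (q : F) • 1 := by
    rw [sum_comm, sum_eq_single_of_mem 0 (mem_range.2 hq.pos) fun k hk h0 => ?_]
    · simp [Nat.cast_smul_eq_nsmul]
    simp only [smul_pow, ← sum_smul, pow_right_comm _ _ k]
    simp only [pow_succ, ← sum_mul]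
    rw [(hp.inv.pow_of_coprime k ((Nat.coprime_of_lt_prime h0 (mem_range.1 hk) hq).symm)).geom_sum_eq_zero hq.one_lt,
      zero_mul, zero_smul]
  let ψ : E g 1 →ₗ[F] ∀ j : Fin q, ↥(E g 1 ⊓ E y ((c : F) ^ (j.1 + 1))) := LinearMap.pi fun j =>
    (toLin' (π j)).restrict fun v hv => ⟨by
      have : Commute g.1 (π j) := Commute.sum_right _ _ _ fun k _ =>
        ((show Commute g.1 y.1 from congrArg Units.val h1).smul_right _).pow_right k
      rw [SetLike.mem_coe, mem_E, toLin'_apply, mulVec_mulVec, this.eq, ← mulVec_mulVec, mem_E.1 hv, mulVec_smul],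
      by rw [SetLike.mem_coe, mem_E, toLin'_apply, mulVec_mulVec, hπ, smul_mulVec]⟩
  have h5 := LinearMap.finrank_le_finrank_of_injective (f := ψ) ((injective_iff_map_eq_zero _).2 fun v hv => by
    have : (∑ j ∈ range q, π j) *ᵥ v.1 = 0 := by
      rw [sum_mulVec]
      exact sum_eq_zero fun j hj => congrArg Subtype.val (congrFun hv ⟨j, mem_range.1 hj⟩)
    rw [hs, smul_mulVec, one_mulVec] at this
    exact Subtype.ext ((smul_eq_zero.1 this).resolve_left hq0))
  rw [finrank_pi_fintype, Fin.sum_univ_eq_sum_range (fun j => finrank F ↥(E g 1 ⊓ E y ((c : F) ^ (j + 1))))] at h5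
  have h6 : ∀ (j : ℕ) (l : F), finrank F ↥(E g l ⊓ E y ((c : F) ^ j)) ≤
      finrank F ↥(E g (l * (c : F) ^ j.choose 2) ⊓ E y 1) := fun j => by
    induction j with
    | zero => intro l; rw [Nat.choose_zero_succ, pow_zero, mul_one]
    | succ j ih =>
      refine fun l => (le_of_map a fun v hv => ?_).trans ((ih (l * (c : F) ^ j)).trans_eq (by
        rw [Nat.choose_succ_succ, Nat.choose_one_right, pow_add, mul_assoc]))
      have e := step h3 hv.2
      rw [pow_succ', ← mul_assoc, Units.inv_mul, one_mul] at e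
      refine ⟨?_, e⟩
      rw [SetLike.mem_coe, mem_E, mulVec_mulVec, ← Units.val_mul, h4, Units.val_mul, Units.val_mul, ← mulVec_mulVec,
        mem_E.1 hv.1, mulVec_smul, ← mulVec_mulVec, mem_E.1 e, smul_smul]
  have h7 : ∀ T ⊆ range q, (∀ i ∈ T, ∀ j ∈ T, i < j → ¬ q ∣ i + j + 1) →
      ∑ j ∈ T, finrank F ↥(E g 1 ⊓ E y ((c : F) ^ (j + 1))) ≤ finrank F (E y 1) := fun T hT H => by
    refine (sum_le_sum fun j _ => h6 (j + 1) 1).trans (sum_le (toLin' g.1) T _ ?_ _ (fun _ _ => inf_le_left)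
      fun _ _ => inf_le_right)
    have key : ∀ i ∈ T, ∀ j ∈ T, i < j → (c : F) ^ (i + 1).choose 2 ≠ c ^ (j + 1).choose 2 := fun i hi j hj hij e => by
      obtain ⟨k, rfl⟩ := Nat.exists_eq_add_of_lt hij
      have e2 : (c : F) ^ (2 * (i + 1).choose 2) * c ^ ((k + 1) * (i + (i + k + 1) + 1)) =
          c ^ (2 * (i + 1).choose 2) * 1 := by
        rw [← pow_add, mul_one, pow_mul', e, ← pow_mul]
        congr 1
        have a1 := Nat.add_one_mul_choose_eq i 1
        have a2 := Nat.add_one_mul_choose_eq (i + k + 1) 1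
        rw [Nat.choose_one_right] at a1 a2
        nlinarith
      rcases hq.dvd_mul.1 (hp.dvd_of_pow_eq_one _ (mul_left_cancel₀ (pow_ne_zero _ c.ne_zero) e2)) with h | h
      · have := Nat.le_of_dvd (by omega) h
        have := mem_range.1 (hT hj)
        omega
      · exact H i hi _ hj hij h
    intro i hi j hj e
    simp only [one_mul] at e
    rcases lt_trichotomy i j with h | h | h
    · exact (key i hi j hj h e).elim
    · exact h
    · exact (key j hj i hi h e.symm).elim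
  have h8 := mul_le h3 (k := q) (by rw [orderOf_inv, hc]) 1
  have ho := hq.eq_two_or_odd.resolve_left h2
  rw [← sum_filter_add_sum_filter_not _ (fun j => 2 * j < q)] at h5
  have h9 := h7 _ (filter_subset (fun j => 2 * j < q) _) fun i hi j hj hij h => by
    have := Nat.le_of_dvd (by omega) h
    simp only [mem_filter] at hi hj; omega
  have h10 := h7 _ (filter_subset (fun j => ¬ 2 * j < q) _) fun i hi j hj hij ⟨k, h⟩ => by
    simp only [mem_filter, mem_range] at hi hj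
    rcases k with _ | _ | k
    · omega
    · omega
    · nlinarith
  nlinarith

/-- the scalar commutator -/
noncomputable def bt (x y : GL ι F) : Fˣ := Function.invFun (sc ι) ⁅x, y⁆

/-- elements commuting with `g` modulo scalars -/
def Kf (g : GL ι F) : Subgroup (GL ι F) :=
  (Subgroup.centralizer {(g : GL ι F ⧸ scalars ι F)}).comap (QuotientGroup.mk' _)

theorem mem_Kf {g x : GL ι F} : x ∈ Kf g ↔ g * x * g⁻¹ * x⁻¹ ∈ scalars ι F := by
  rw [Kf, Subgroup.mem_comap, Subgroup.mem_centralizer_singleton_iff, ← QuotientGroup.eq_one_iff, eq_comm,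
    ← mul_inv_eq_one]
  simp [mul_assoc]

theorem scalars_le_Kf (g : GL ι F) : scalars ι F ≤ Kf g := fun x hx => mem_Kf.2 (by
  rw [← scalars_comm hx, mul_inv_cancel_right, mul_inv_cancel]; exact one_mem _)

theorem Kf_pow {g x : GL ι F} (h : x ∈ Kf g) (j : ℕ) : x ∈ Kf (g ^ j) :=
  Subgroup.mem_centralizer_singleton_iff.2
    ((show Commute _ _ from Subgroup.mem_centralizer_singleton_iff.1 h).pow_right j)

theorem num {t d m f C u : ℤ} (h1 : m ^ 2 + t * d ^ 2 ≤ t * C) (h2 : (t + 1) * C ≤ (d + m) ^ 2 + t * f)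
    (h3 : u ^ 2 * f ≤ (d + m) ^ 2) (ht : 0 ≤ t) (h4 : 0 ≤ d + m) (h5 : t * (d + m) < u * (t * d - m)) : False := by
  have a1 : (t * d - m) ^ 2 ≤ t ^ 2 * f := by nlinarith [mul_le_mul_of_nonneg_left h2 ht]
  have a2 := pow_lt_pow_left₀ h5 (mul_nonneg ht h4) two_ne_zero
  nlinarith [mul_le_mul_of_nonneg_left a1 (sq_nonneg u), mul_le_mul_of_nonneg_left h3 (sq_nonneg t)]

variable [Nonempty ι] {N : Subgroup (GL ι F)} {r : ℕ} {x y z g : GL ι F}

theorem bt_eq {c : Fˣ} (e : x * y = sc ι c * (y * x)) : bt x y = c := by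
  rw [bt, show ⁅x, y⁆ = sc ι c by rw [commutatorElement_def, e]; group]
  exact Function.leftInverse_invFun sc_injective c

theorem bt_comm (e : x * y = y * x) : bt x y = 1 := bt_eq (by rw [map_one, one_mul, e])

variable (h : Ext N r)
include h

omit [Nonempty ι] in
theorem bt_spec (hx : x ∈ N) (hy : y ∈ N) : x * y = sc ι (bt x y) * (y * x) := by
  rw [bt, Function.invFun_eq (f := sc ι) (h.comm (Subgroup.commutator_mem_commutator hx hy)), commutatorElement_def]
  group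

theorem bt_mul (hx : x ∈ N) (hy : y ∈ N) (hz : z ∈ N) : bt (x * y) z = bt x z * bt y z := bt_eq (by
  rw [mul_assoc, bt_spec h hy hz, ← mul_assoc, ← scalars_comm (sc_mem _), mul_assoc, ← mul_assoc x, bt_spec h hx hz,
    mul_comm (bt x z), map_mul]
  simp only [mul_assoc])

theorem bt_swap (hx : x ∈ N) (hy : y ∈ N) : bt y x = (bt x y)⁻¹ := bt_eq (by rw [bt_spec h hx hy, map_inv]; group)

theorem bt_mul' (hx : x ∈ N) (hy : y ∈ N) (hz : z ∈ N) : bt z (x * y) = bt z x * bt z y := by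
  rw [bt_swap h (mul_mem hx hy) hz, bt_mul h hx hy hz, bt_swap h hx hz, bt_swap h hy hz, mul_inv]

theorem bt_pow (hx : x ∈ N) (hy : y ∈ N) (k : ℕ) : bt (x ^ k) y = bt x y ^ k := by
  induction k with
  | zero => rw [pow_zero, pow_zero]; exact bt_comm (by rw [one_mul, mul_one])
  | succ k ih => rw [pow_succ, bt_mul h (pow_mem hx k) hx hy, ih, pow_succ]

theorem bt_inv (hx : x ∈ N) (hy : y ∈ N) : bt x⁻¹ y = (bt x y)⁻¹ :=
  eq_inv_of_mul_eq_one_left (by
    rw [← bt_mul h (inv_mem hx) hx hy]; exact bt_comm (by rw [inv_mul_cancel, one_mul, mul_one]))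

theorem bt_r (hx : x ∈ N) (hy : y ∈ N) : bt x y ^ r = 1 := by
  rw [← bt_pow h hx hy]; exact bt_comm (scalars_comm (h.pow x hx) y)

theorem bt_conj (hx : x ∈ N) (hy : y ∈ N) (g : GL ι F) : bt (g * x * g⁻¹) (g * y * g⁻¹) = bt x y := bt_eq (by
  rw [conj_mul, conj_mul, bt_spec h hx hy, ← mul_assoc g, ← scalars_comm (sc_mem _)]; group)

omit [Nonempty ι] in
theorem nondeg (hx : x ∈ N) (H : ∀ y ∈ N, bt x y = 1) : x ∈ scalars ι F :=
  mem_scalars.2 (sc_of_alg h.top fun y hy => congrArg Units.val (show x * y = y * x by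
    rw [bt_spec h hx hy, H y hy, map_one, one_mul]))

theorem r_mul_le (hx : x ∈ N) (h0 : x ∉ scalars ι F) (μ : F) : r * finrank F (E x μ) ≤ Fintype.card ι := by
  obtain ⟨y, hy, H⟩ : ∃ y ∈ N, bt x y ≠ 1 := by
    by_contra! H; exact h0 (nondeg h hx H)
  haveI := Fact.mk h.prime
  exact mul_le (bt_spec h hx hy) (orderOf_eq_prime (bt_r h hx hy) H).ge μ

theorem count [Finite F] (hg : g ∈ subgroupNormalizer N) {q : ℕ} (hq : q.Prime) (h1 : g ^ q = 1) :
    ∃ f k, f * r ^ k = Fintype.card ι ^ 2 ∧ (Kf g).relIndex N = r ^ k ∧ Fintype.card ι ^ 2 ≡ f [MOD q] ∧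
      q * finrank F (H24.HH.cm (toLin' g.1)) ≤ Fintype.card ι ^ 2 + (q - 1) * f := by
  classical
  let Z := (scalars ι F).subgroupOf N
  haveI := Fintype.ofFinite (N ⧸ Z)
  let φ : MulAut N := N.normalizerMonoidHom ⟨g, hg⟩
  have hZ : ∀ x ∈ Z, φ x = x := fun x hx => Subtype.ext (by
    change g * x * g⁻¹ = x
    rw [← scalars_comm (show x.1 ∈ _ from hx), mul_inv_cancel_right])
  let σ := QuotientGroup.congr Z Z φ (Subgroup.ext fun x =>
    ⟨fun ⟨y, hy, e⟩ => e ▸ (hZ y hy).symm ▸ hy, fun hx => ⟨x, hx, hZ x hx⟩⟩)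
  have hσ : σ.toEquiv ^ q = 1 := by
    have : ∀ (k : ℕ) (x : N), (σ.toEquiv ^ k) (x : N ⧸ Z) = ((φ ^ k) x : N) := fun k x => by
      induction k with
      | zero => rfl
      | succ k ih => rw [pow_succ', Equiv.Perm.mul_apply, ih, pow_succ']; rfl
    ext v
    obtain ⟨x, rfl⟩ := QuotientGroup.mk_surjective v
    rw [this, ← map_pow, show (⟨g, hg⟩ : Subgroup.normalizer (N : Set (GL ι F))) ^ q = 1 from Subtype.ext h1, map_one]
    rfl
  have hc : Fintype.card (N ⧸ Z) = Fintype.card ι ^ 2 := by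
    rw [← h.index_eq (sup_eq_left.2 h.lt.le), Subgroup.index, Nat.card_eq_fintype_card]
  let B := basisOfLinearIndependentOfCardEqFinrank (h.linInd le_rfl) (by rw [hc, finrank_matrix, finrank_self, sq, mul_one])
  have hB : ∀ v, ∃ c : F, (cj g).toLinearMap (B v) = c • B (σ.toEquiv v) := fun v => by
    obtain ⟨z, hz⟩ := QuotientGroup.mk_out_eq_mul Z (φ v.out)
    obtain ⟨c, hc⟩ := mem_scalars.1 (inv_mem z.2 : (z⁻¹).1.1 ∈ scalars ι F)
    refine ⟨c, ?_⟩
    have e : σ.toEquiv v = (φ v.out : N) := by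
      conv_lhs => rw [← v.out_eq']
      rfl
    simp only [B, coe_basisOfLinearIndependentOfCardEqFinrank, e]
    conv_rhs => rw [← mul_one (Units.val _), ← mul_smul_comm, ← hc, ← Units.val_mul]
    exact congrArg (·.1.1) (mul_inv_eq_iff_eq_mul.2 hz).symm
  choose χ hχ using hB
  have h2 := orb B _ _ χ hχ hq hσ
  have h3 : finrank F (H24.HH.cm (toLin' g.1)) ≤ finrank F (End.eigenspace (cj g).toLinearMap 1) :=
    LinearMap.finrank_le_finrank_of_injective (f := (LinearMap.toMatrix' (R := F)).toLinearMap.restrict fun A hA => by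
      rw [End.mem_eigenspace_iff, one_smul]
      refine cj_eq_iff.2 ?_
      simpa [LinearMap.toMatrix'_mul] using (congrArg LinearMap.toMatrix' (show A * _ = _ * A from hA)).symm)
      fun a b e => Subtype.ext (LinearMap.toMatrix'.injective (congrArg Subtype.val e))
  let K := ((Kf g).subgroupOf N).map (QuotientGroup.mk' Z)
  have h4 : Nat.card {v // σ.toEquiv v = v} = Nat.card K := Nat.card_congr (Equiv.subtypeEquivRight fun v => by
    obtain ⟨x, rfl⟩ := QuotientGroup.mk_surjective v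
    have : σ.toEquiv x = x ↔ x.1 ∈ Kf g := by
      rw [mem_Kf, show σ.toEquiv x = (φ x : N) from rfl, ← mul_inv_eq_one, ← QuotientGroup.mk_inv, ← QuotientGroup.mk_mul,
        QuotientGroup.eq_one_iff]
      rfl
    refine this.trans ⟨fun H => ⟨x, H, rfl⟩, fun ⟨y, hy, e⟩ => ?_⟩
    have := mul_mem (show y.1 ∈ Kf g from hy) (show (y⁻¹ * x).1 ∈ Kf g from
      scalars_le_Kf g (QuotientGroup.eq (s := Z) |>.1 e))
    simpa using this)
  have h5 : K.index = (Kf g).relIndex N := Subgroup.index_map_eq _ (QuotientGroup.mk'_surjective Z) fun x hx =>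
    scalars_le_Kf g ((QuotientGroup.eq_one_iff x).1 hx)
  have h6 := K.card_mul_index
  rw [Nat.card_eq_fintype_card (α := N ⧸ Z), hc] at h6
  obtain ⟨m, hm⟩ := h.exists_pow
  obtain ⟨k, -, hk⟩ := (Nat.dvd_prime_pow h.prime (m := m * 2) (i := K.index)).1 (by
    rw [pow_mul, ← hm]; exact Dvd.intro_left _ h6)
  haveI := Fact.mk hq
  have h7 := Equiv.Perm.card_fixedPoints_modEq (f := ⇑σ.toEquiv) (p := q) (n := 1) (by
    rw [pow_one]; exact (Equiv.Perm.coe_pow _ _).symm.trans (congrArg DFunLike.coe hσ))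
  refine ⟨_, k, hk ▸ h6, h5 ▸ hk, ?_, ?_⟩
  · rw [← hc, ← h4, Nat.card_eq_fintype_card]; convert h7; rfl
  · rw [← hc, ← h4]; exact (Nat.mul_le_mul_left q h3).trans h2

theorem half_two (hr : r = 2) (hg : g ∈ subgroupNormalizer N) {q : ℕ} (hq : Odd q) (h1 : g ^ q ∈ scalars ι F)
    (h0 : ¬ N ≤ Kf g) : ∃ a ∈ N, E (g * a * g⁻¹ * a⁻¹) 1 = ⊥ := by
  have hn : ∀ {a}, a ∈ N → g * a * g⁻¹ ∈ N := fun {a} ha => (Subgroup.mem_normalizer_iff.1 hg a).1 ha
  obtain ⟨a, ha, hc⟩ : ∃ a ∈ N, bt a (g * a * g⁻¹) ≠ 1 := by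
    by_contra! H
    refine h0 fun b hb => ?_
    have : b ∈ Kf (g ^ 2) := mem_Kf.2 (nondeg h (by
      rw [show g ^ 2 * b * (g ^ 2)⁻¹ = g * (g * b * g⁻¹) * g⁻¹ by rw [pow_two]; group]; exact mul_mem (hn (hn hb)) (inv_mem hb))
      fun a ha => by
        have e := H _ (mul_mem ha (hn hb))
        rw [← conj_mul, bt_mul h ha (hn hb) (mul_mem (hn ha) (hn (hn hb))), bt_mul' h (hn ha) (hn (hn hb)) ha,
          bt_mul' h (hn ha) (hn (hn hb)) (hn hb), H a ha, H _ (hn hb), bt_conj h hb ha, one_mul, mul_one,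
          bt_swap h (hn (hn hb)) ha] at e
        rw [show g ^ 2 * b * (g ^ 2)⁻¹ = g * (g * b * g⁻¹) * g⁻¹ by rw [pow_two]; group, bt_mul h (hn (hn hb)) (inv_mem hb) ha,
          bt_inv h hb ha, ← inv_eq_one, mul_inv, inv_inv, e])
    obtain ⟨j, rfl⟩ := hq
    have := Kf_pow this (j + 1)
    rw [← pow_mul, show 2 * (j + 1) = 2 * j + 1 + 1 by ring, pow_succ, Kf, QuotientGroup.mk_mul,
      (QuotientGroup.eq_one_iff _).2 h1, one_mul] at this
    exact this
  refine ⟨a, ha, (Submodule.eq_bot_iff _).2 fun v hv => ?_⟩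
  have e : g * a * g⁻¹ * a⁻¹ * (g * a * g⁻¹ * a⁻¹) = sc ι (bt a (g * a * g⁻¹))⁻¹ := by
    have := scalars_comm (hr ▸ h.pow a ha) g⁻¹
    rw [mul_assoc (g * a * g⁻¹), ← mul_assoc a⁻¹, bt_spec h (inv_mem ha) (hn ha), bt_inv h ha (hn ha), mul_assoc (sc ι _),
      ← mul_assoc (g * a * g⁻¹), ← scalars_comm (sc_mem _), mul_assoc (sc ι _)]
    rw [show g * a * g⁻¹ * (g * a * g⁻¹ * a⁻¹ * a⁻¹) = g * (a ^ 2 * g⁻¹) * (a ^ 2)⁻¹ by rw [pow_two]; group, this]; group
  rw [mem_E, one_smul] at hv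
  have : (sc ι (bt a (g * a * g⁻¹))⁻¹).1 *ᵥ v = v := by rw [← e, Units.val_mul, ← mulVec_mulVec, hv, hv]
  rw [sc_val, smul_mulVec, one_mulVec, ← sub_eq_zero, ← one_smul F v, smul_smul, ← sub_smul, mul_one, smul_eq_zero,
    sub_eq_zero, Units.val_eq_one, inv_eq_one] at this
  exact this.resolve_left hc

omit [Nonempty ι] in
theorem not_le_Kf [Finite F] (hns : g ∉ scalars ι F) (hd : Fintype.card ι < 2 * finrank F (E g 1)) :
    (∀ a ∈ Kf g, g * a = a * g) ∧ ¬ N ≤ Kf g := by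
  have H : ∀ a ∈ Kf g, g * a = a * g := fun a ha => by
    obtain ⟨c, hc⟩ := mem_Kf.1 ha
    have e : g * a = sc ι c * (a * g) := by rw [show sc ι c = _ from hc]; group
    by_contra h0
    refine hd.not_ge (mul_le e ?_ 1)
    have := orderOf_pos c
    have : orderOf c ≠ 1 := fun h1 => h0 (by rw [e, orderOf_eq_one_iff.1 h1, map_one, one_mul])
    omega
  exact ⟨H, fun h0 => hns (mem_scalars.2 (sc_of_alg h.top fun a ha => congrArg Units.val (H a (h0 ha))))⟩

theorem core [Finite F] (hg : g ∈ subgroupNormalizer N) {q : ℕ} (hq : q.Prime) (h1 : g ^ q = 1)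
    (hns : g ∉ scalars ι F) : 2 * r * finrank F (E g 1) ≤ (r + 1) * Fintype.card ι ∧
      (q ≠ 2 → (q = 3 → r ≠ 3) → 2 * finrank F (E g 1) ≤ Fintype.card ι) := by
  by_cases hd : 2 * finrank F (E g 1) ≤ Fintype.card ι
  · exact ⟨by nlinarith, fun _ _ => hd⟩
  obtain ⟨H, h0⟩ := not_le_Kf h hns (not_le.1 hd)
  have hn : ∀ {a}, a ∈ N → g * a * g⁻¹ ∈ N := fun {a} ha => (Subgroup.mem_normalizer_iff.1 hg a).1 ha
  obtain ⟨a, ha, hK⟩ := SetLike.not_le_iff_exists.1 h0
  have hy := mul_mem (hn ha) (inv_mem ha)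
  have hy0 := mt mem_Kf.2 hK
  refine ⟨by nlinarith [two_mul_le g a, r_mul_le h hy hy0 1], fun h2 h3 => (?_ : False).elim⟩
  have pr := h.prime
  by_cases hr : r = 2
  · obtain ⟨b, -, e⟩ := half_two h hr hg (hq.odd_of_ne_two h2) (h1 ▸ one_mem _) h0
    have := two_mul_le g b
    rw [e, finrank_bot] at this
    omega
  have r3 : 3 ≤ r := by have := pr.two_le; omega
  have q3 : 3 ≤ q := by have := hq.two_le; omega
  have q4 : q ≠ 4 := by rintro rfl; norm_num at hq
  have r4 : r ≠ 4 := by rintro rfl; norm_num at pr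
  obtain ⟨f, k, e1, e2, -, e3⟩ := count h hg hq h1
  rcases k with _ | _ | k
  · exact h0 (Subgroup.relIndex_eq_one.1 e2)
  · set y := g * a * g⁻¹ * a⁻¹ with hyd
    have hL : N ⊓ Subgroup.centralizer {y} ≤ Kf g := by
      have hKL : Kf g ⊓ N ≤ N ⊓ Subgroup.centralizer {y} := fun b hb => ⟨hb.2,
        Subgroup.mem_centralizer_singleton_iff.2 (by
          have := bt_conj h ha hb.2 g
          rw [H b hb.1, mul_inv_cancel_right] at this
          rw [bt_spec h hy hb.2, bt_mul h (hn ha) (inv_mem ha) hb.2, bt_inv h ha hb.2, this]; simp)⟩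
      have := Subgroup.relIndex_mul_relIndex _ _ _ hKL inf_le_left
      rw [Subgroup.inf_relIndex_right, e2, zero_add, pow_one] at this
      rcases (Nat.dvd_prime pr).1 (Dvd.intro _ this) with h4 | h4
      · exact (Subgroup.relIndex_eq_one.1 h4).trans inf_le_left
      rw [h4, mul_right_eq_self₀, or_iff_left pr.ne_zero, Subgroup.relIndex_eq_one] at this
      exact (hy0 (nondeg h hy fun b hb => bt_comm (Subgroup.mem_centralizer_singleton_iff.1 (this hb).2).symm)).elim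
    have hgy := H y (hL ⟨hy, Subgroup.mem_centralizer_singleton_iff.2 rfl⟩)
    have hc : bt y a ≠ 1 := fun e => hK (hL ⟨ha, Subgroup.mem_centralizer_singleton_iff.2 (by
      rw [bt_spec h hy ha, e, map_one, one_mul])⟩)
    have hyq : y ^ q = 1 := by
      have : Commute g (a * g⁻¹ * a⁻¹) := mul_left_cancel (a := g) (by simpa [hyd, mul_assoc] using hgy)
      rw [show y = g * (a * g⁻¹ * a⁻¹) by rw [hyd]; group, this.mul_pow, conj_pow, inv_pow, h1]; simp
    haveI := Fact.mk hq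
    have ho : orderOf (bt y a) = q := orderOf_eq_prime (by
      rw [← bt_pow h hy ha, hyq]; exact bt_comm (by rw [one_mul, mul_one])) hc
    have := special hq h2 (c := (bt y a)⁻¹) (by rw [orderOf_inv, ho]) hyq hgy (by rw [inv_inv]; exact bt_spec h hy ha)
      (by rw [hyd]; group)
    have h5 : q ≠ 3 := fun e => h3 e ((Nat.prime_dvd_prime_iff_eq Nat.prime_three pr).1
      (e ▸ ho ▸ orderOf_dvd_of_pow_eq_one (bt_r h hy ha))).symm
    nlinarith [Nat.mul_le_mul_right (finrank F (E g 1)) (show 5 ≤ q by omega)]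
  · obtain ⟨m, e4, e5⟩ := cm_lower (toLin' g.1) hq (by rw [← toLin'_pow, ← Units.val_pow_eq_pow_val, h1]; exact toLin'_one)
    rw [finrank_fintype_fun_eq_card] at e4
    obtain ⟨t, rfl⟩ : ∃ t, q = t + 1 := ⟨q - 1, by omega⟩
    rw [Nat.add_sub_cancel] at e3 e5
    rw [e4] at e1 e3 hd
    have e6 : r ^ 2 * f ≤ (finrank F (E g 1) + m) ^ 2 := by
      rw [← e1, mul_comm]; exact Nat.mul_le_mul_left _ (Nat.pow_le_pow_right pr.pos (by omega))
    generalize finrank F (E g 1) = d at *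
    have hm : m + 1 ≤ d := by omega
    zify at e3 e5 e6 hm
    refine num e5 e3 e6 (by positivity) (by positivity) ?_
    have r0 : (0 : ℤ) ≤ m := by positivity
    by_cases h4 : t = 2
    · have : (4 : ℤ) ≤ r := by have := h3 (by omega); omega
      subst h4; push_cast; nlinarith
    · have a1 : (4 : ℤ) ≤ t := by omega
      have a2 : (3 : ℤ) ≤ r := by omega
      have a3 : (0 : ℤ) ≤ t * d - m := by nlinarith
      nlinarith

omit h in
theorem ext_of [Finite F] {R : Subgroup (GL ι F)} (hr : r.Prime) (hirr : ActsAbsolutelyIrreducibly (matrixSet R))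
    (hn : ¬ IsMulCommutative R) (h1 : commutator R ≤ Subgroup.center R) (h3 : ∀ x ∈ commutator R, x ^ r = 1) :
    Ext (R ⊔ scalars ι F) r := by
  have hZ : ∀ x ∈ Subgroup.center R, x.1 ∈ scalars ι F := fun x hx => mem_scalars.2 (hirr.2 _ (by
    rintro _ ⟨y, hy, rfl⟩; exact congrArg (·.1.1) (Subgroup.mem_center_iff.1 hx ⟨y, hy⟩).symm))
  have h2 : ∀ x : R, x ^ r ∈ Subgroup.center R := fun x => Subgroup.mem_center_iff.2 fun y => by
    have hc := Subgroup.commutator_mem_commutator (Subgroup.mem_top y) (Subgroup.mem_top x)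
    rw [← mul_inv_eq_iff_eq_mul, ← conj_pow, show y * x * y⁻¹ = ⁅y, x⁆ * x by rw [commutatorElement_def]; group,
      Commute.mul_pow (Subgroup.mem_center_iff.1 (h1 hc) x).symm, h3 _ hc, one_mul]
  refine ⟨lt_of_le_of_ne le_sup_right fun e => hn ⟨⟨fun a b => Subtype.ext (scalars_comm (e.ge (Subgroup.mem_sup_left a.2)) _)⟩⟩,
    by rw [alg_sup_scalars, alg_eq_top hirr], hr, Subgroup.commutator_le.2 fun x hx y hy => ?_, fun x hx => ?_⟩
  · obtain ⟨a, ha, z, hz, rfl⟩ := Subgroup.mem_sup_of_normal_right.1 hx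
    obtain ⟨b, hb, w, hw, rfl⟩ := Subgroup.mem_sup_of_normal_right.1 hy
    have := hZ _ (h1 (Subgroup.commutator_mem_commutator (Subgroup.mem_top ⟨a, ha⟩) (Subgroup.mem_top ⟨b, hb⟩)))
    rw [← QuotientGroup.eq_one_iff] at this hz hw ⊢
    simpa [commutatorElement_def, hz, hw] using this
  · obtain ⟨a, ha, z, hz, rfl⟩ := Subgroup.mem_sup_of_normal_right.1 hx
    rw [Commute.mul_pow (scalars_comm hz a).symm]
    exact mul_mem (hZ _ (h2 ⟨a, ha⟩)) (pow_mem hz r)

theorem core' [Finite F] (hg : g ∈ subgroupNormalizer N) {q : ℕ} (hq : q.Prime) (h1 : g ^ q = 1)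
    (hns : g ∉ scalars ι F) (c : F) : 2 * r * finrank F (E g c) ≤ (r + 1) * Fintype.card ι ∧
      (q ≠ 2 → (q = 3 → r ≠ 3) → 2 * finrank F (E g c) ≤ Fintype.card ι) := by
  by_cases h0 : E g c = ⊥
  · rw [h0, finrank_bot]; simp
  obtain ⟨v, hv, hv0⟩ := (Submodule.ne_bot_iff _).1 h0
  have h2 : ∀ k : ℕ, (g ^ k).1 *ᵥ v = c ^ k • v := fun k => by
    induction k with
    | zero => simp
    | succ k ih => rw [pow_succ, Units.val_mul, ← mulVec_mulVec, mem_E.1 hv, mulVec_smul, ih, smul_smul, pow_succ']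
  have h3 : c ^ q = 1 := by
    have := h2 q
    rw [h1, Units.val_one, one_mulVec] at this
    exact smul_left_injective F hv0 (this.symm.trans (one_smul F v).symm)
  have hc : c ≠ 0 := by rintro rfl; simp [hq.ne_zero] at h3
  have e : E g c = E (sc ι (Units.mk0 c hc)⁻¹ * g) 1 := by
    ext w
    rw [mem_E, mem_E, Units.val_mul, sc_val, smul_mul_assoc, one_mul, smul_mulVec, one_smul, Units.val_inv_eq_inv_val,
      inv_smul_eq_iff₀ (Units.ne_zero _), Units.val_mk0]
  rw [e]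
  refine core h (mul_mem (Subgroup.le_normalizer (h.lt.le (sc_mem _))) hg) hq ?_ fun H =>
    hns ((mul_mem_cancel_left (sc_mem _)).1 H)
  rw [Commute.mul_pow (scalars_comm (sc_mem _) g), h1, mul_one, ← map_pow, inv_pow,
    show Units.mk0 c hc ^ q = 1 from Units.ext h3, inv_one, map_one]

end H04.XN
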